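import Cfsg.Agent.H6.Cls

/-!
Conjugacy in the special linear group versus the general linear group.
-/

set_option autoImplicit false

namespace Cfsg.Agent.H6

open Polynomial Module Matrix FTPG

variable {F V W : Type*} [Field F] [AddCommGroup V] [Module F V] [AddCommGroup W] [Module F W]

theorem kd_prod [FiniteDimensional F V] [FiniteDimensional F W] (φ : V →ₗ[F] V) (ψ : W →ₗ[F] W)
    (f : F[X]) : kd (φ.prodMap ψ) f = kd φ f + kd ψ f := by
  have h1 : ∀ v, (aeval (φ.prodMap ψ) f v).1 = aeval φ f v.1 := fun v =>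
    aeval_semiconj (φ := φ.prodMap ψ) (ψ := φ) (LinearMap.fst F V W) (fun _ => rfl) f v
  have h2 : ∀ v, (aeval (φ.prodMap ψ) f v).2 = aeval ψ f v.2 := fun v =>
    aeval_semiconj (φ := φ.prodMap ψ) (ψ := ψ) (LinearMap.snd F V W) (fun _ => rfl) f v
  simp only [kd]
  rw [← Module.finrank_prod]
  refine LinearEquiv.finrank_eq
    { toFun := fun v => (⟨v.1.1, by rw [LinearMap.mem_ker, ← h1, LinearMap.mem_ker.1 v.2]; rfl⟩,
        ⟨v.1.2, by rw [LinearMap.mem_ker, ← h2, LinearMap.mem_ker.1 v.2]; rfl⟩)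
      invFun := fun v => ⟨(v.1.1, v.2.1), Prod.ext ((h1 _).trans v.1.2) ((h2 _).trans v.2.2)⟩
      map_add' := fun _ _ => rfl
      map_smul' := fun _ _ => rfl
      left_inv := fun _ => rfl
      right_inv := fun _ => rfl }

theorem exists_comm_det_end [Finite F] [FiniteDimensional F V] [Nontrivial V] {φ : V →ₗ[F] V}
    {g : F[X]} (hg : aeval φ g = 0) (hs : Squarefree g) (d : F) :
    ∃ z : V →ₗ[F] V, z ∘ₗ φ = φ ∘ₗ z ∧ LinearMap.det z = d := by
  obtain ⟨t, p, e, h, h'⟩ := exists_decomp φ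
  have hfin : ∀ k, FiniteDimensional F (AdjoinRoot (p k ^ e k)) := fun k =>
    (AdjoinRoot.powerBasis (pow_ne_zero _ (h k).1.ne_zero)).finite
  obtain _ | t := t
  · have := h' 0
    rw [kd_zero, Finset.univ_eq_empty, Finset.sum_empty] at this
    exact absurd this finrank_pos.ne'
  let ψ := (cyc (p 0 ^ e 0)).prodMap (LinearMap.piMap fun k : Fin t => cyc (p k.succ ^ e k.succ))
  have h2 : ∀ f, kd φ f = kd ψ f := fun f => by rw [h', kd_prod, kd_pi, Fin.sum_univ_succ]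
  obtain ⟨Φ, hΦ⟩ := exists_equiv_of_kd (φ := φ) (ψ := ψ)
    ((kd_zero φ).symm.trans ((h2 0).trans (kd_zero ψ))) fun _ _ _ => h2 _
  have h3 : p 0 ^ e 0 ∣ g := by
    have h4 := aeval_semiconj Φ.toLinearMap hΦ g (Φ.symm (1, 0))
    have h5 := aeval_semiconj (φ := ψ) (ψ := cyc (p 0 ^ e 0)) (LinearMap.fst F _ _)
      (fun _ => rfl) g (1, 0)
    rw [hg, LinearMap.zero_apply, map_zero, LinearEquiv.coe_coe, Φ.apply_symm_apply] at h4
    rw [← h4, map_zero, aeval_cyc, LinearMap.fst_apply, mul_one, eq_comm] at h5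
    exact AdjoinRoot.mk_eq_zero.1 h5
  have h6 : e 0 = 1 := by
    by_contra h7
    have := (h 0).2.2
    exact (h 0).1.not_isUnit (hs _ (by
      rw [← sq]; exact (pow_dvd_pow _ (by omega)).trans h3))
  have : Fact (Irreducible (p 0 ^ e 0)) := ⟨by rw [h6, pow_one]; exact (h 0).1⟩
  have : Finite (AdjoinRoot (p 0 ^ e 0)) := Module.finite_of_finite F
  obtain ⟨a, ha⟩ := FiniteField.norm_surjective F (AdjoinRoot (p 0 ^ e 0)) d
  let z := (LinearMap.mulLeft F a).prodMap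
    (LinearMap.id (R := F) (M := ∀ k : Fin t, AdjoinRoot (p k.succ ^ e k.succ)))
  refine ⟨Φ.symm.toLinearMap ∘ₗ z ∘ₗ Φ.toLinearMap, LinearMap.ext fun v => Φ.injective ?_, ?_⟩
  · simp only [LinearMap.comp_apply, LinearEquiv.coe_coe, hΦ, Φ.apply_symm_apply]
    exact Prod.ext (mul_left_comm a (AdjoinRoot.root _) (Φ v).1) rfl
  · have := LinearMap.det_conj z Φ.symm
    rw [LinearEquiv.symm_symm] at this
    rw [this, LinearMap.det_prodMap, LinearMap.det_id, mul_one, ← ha]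
    rfl

variable {ι : Type*} [Fintype ι] [DecidableEq ι]

theorem exists_comm_det [Finite F] [Nonempty ι] {A : Matrix ι ι F}
    {g : F[X]} (hg : aeval A g = 0) (hs : Squarefree g) (d : F) :
    ∃ z : Matrix ι ι F, z * A = A * z ∧ z.det = d := by
  have := aeval_toLin'_eq_zero hg
  obtain ⟨z, h1, h2⟩ := exists_comm_det_end this hs d
  refine ⟨LinearMap.toMatrix' z, ?_, by rw [LinearMap.det_toMatrix', h2]⟩
  have := congrArg LinearMap.toMatrix' h1
  rwa [LinearMap.toMatrix'_comp, LinearMap.toMatrix'_comp, LinearMap.toMatrix'_toLin'] at this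

theorem squarefree_X_pow_sub_one {m : ℕ} (hm : (m : F) ≠ 0) : Squarefree (X ^ m - 1 : F[X]) := by
  have := (separable_X_pow_sub_C (1 : F) hm one_ne_zero).squarefree
  rwa [C_1] at this

theorem cast_ne_zero_of_coprime {p m : ℕ} [Fact p.Prime] [CharP F p] (h : m.Coprime p) :
    (m : F) ≠ 0 := fun h0 =>
  (Nat.Prime.coprime_iff_not_dvd Fact.out).1 h.symm ((CharP.cast_eq_zero_iff F p m).1 h0)

theorem aeval_X_pow_sub_one {A : Matrix ι ι F} {m : ℕ} :
    aeval A (X ^ m - 1 : F[X]) = 0 ↔ A ^ m = 1 := by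
  rw [map_sub, map_pow, aeval_X, map_one, sub_eq_zero]

theorem sl_hr (g : GL ι F) :
    GeneralLinearGroup.det g = 1 ↔ g ∈ (SpecialLinearGroup.toGL : SpecialLinearGroup ι F →* _).range :=
  ⟨fun h => ⟨⟨g.1, congrArg Units.val h⟩, Units.ext rfl⟩, by
    rintro ⟨s, rfl⟩; exact Units.ext s.2⟩

theorem det_tv' (a f : ι → F) : (tv a f).det = 1 + f ⬝ᵥ a := by
  rw [tv, vecMulVec_eq Unit, det_one_add_replicateCol_mul_replicateRow]

theorem gl_det_surj [Nonempty ι] :
    Function.Surjective (GeneralLinearGroup.det : GL ι F →* Fˣ) := fun d => by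
  obtain ⟨i⟩ := ‹Nonempty ι›
  have : (tv (Pi.single i 1) (Pi.single i (d.1 - 1))).det = d.1 := by simp [det_tv']
  exact ⟨GeneralLinearGroup.mkOfDetNeZero _ (this.trans_ne d.ne_zero), Units.ext this⟩

theorem isConj_sl_of {s t : SpecialLinearGroup ι F} (h : IsConj s.1 t.1)
    (hs : ∀ d : F, d ≠ 0 → ∃ z : Matrix ι ι F, z * s.1 = s.1 * z ∧ z.det = d) : IsConj s t := by
  refine isConj_of_split SpecialLinearGroup.toGL SpecialLinearGroup.toGL_injective
    GeneralLinearGroup.det sl_hr (isConj_units_iff.2 h) fun g => ?_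
  obtain ⟨z, h1, h2⟩ := hs (GeneralLinearGroup.det g).1 (Units.ne_zero _)
  exact ⟨GeneralLinearGroup.mkOfDetNeZero z (h2.trans_ne (Units.ne_zero _)), Units.ext h1, Units.ext h2⟩

theorem tv_comm {a f b g : ι → F} (h1 : f ⬝ᵥ b = 0) (h2 : g ⬝ᵥ a = 0) :
    tv b g * tv a f = tv a f * tv b g := ext_mulVec fun v => by
  simp only [← mulVec_mulVec, tv_mulVec, dotProduct_add, dotProduct_smul, h1, h2]
  module

theorem isConj_sl_transvection [Finite F] (h3 : 3 ≤ Fintype.card ι) {s t : SpecialLinearGroup ι F}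
    (hs : (s.1 - 1).rank = 1) (hs2 : (s.1 - 1) * (s.1 - 1) = 0) (ht : (t.1 - 1).rank = 1)
    (ht2 : (t.1 - 1) * (t.1 - 1) = 0) : IsConj s t := by
  refine isConj_sl_of (isConj_of_transvection hs hs2 ht ht2) fun d hd => ?_
  obtain ⟨a, f, ha, hf, hfa, e⟩ := exists_tv_of_rank hs hs2
  obtain ⟨v, hv⟩ := exists_dot_one ha
  obtain ⟨b, hb, h1, h2⟩ := exists_perp2 h3 f v
  obtain ⟨g, h4, h5⟩ := exists_dot_of_ind2 (x := b) (y := a) (ind2_of_not_par hb ha fun h => by
    have := h.dot_eq_zero h2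
    rw [dotProduct_comm, hv] at this
    exact one_ne_zero this)
  refine ⟨tv b ((d - 1) • g), ?_, ?_⟩
  · rw [e]
    exact tv_comm h1 (by rw [smul_dotProduct, dotProduct_comm, h5, smul_zero])
  · rw [det_tv', smul_dotProduct, dotProduct_comm, h4]; simp

end Cfsg.Agent.H6
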