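import Cfsg.Agent.H6.JE
import Cfsg.Agent.H6.SLc

/-!
Unipotent classes and partitions.
-/

set_option autoImplicit false

namespace Cfsg.Agent.H6

open Polynomial Module Matrix

theorem multiset_ext_of_sum_sub {μ ν : Multiset ℕ} (hμ : 0 ∉ μ) (hν : 0 ∉ ν)
    (h : ∀ m, (μ.map (· - m)).sum = (ν.map (· - m)).sum) : μ = ν := by
  have h1 : ∀ (μ : Multiset ℕ) m, (μ.map (· - m)).sum + (μ.map (· - (m + 2))).sum =
      2 * (μ.map (· - (m + 1))).sum + μ.count (m + 1) := fun μ m => by
    induction μ using Multiset.induction_on with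
    | empty => simp
    | cons a s ih =>
      simp only [Multiset.map_cons, Multiset.sum_cons, Multiset.count_cons]
      split_ifs <;> omega
  ext a
  cases a with
  | zero => rw [Multiset.count_eq_zero.2 hμ, Multiset.count_eq_zero.2 hν]
  | succ a =>
    have h2 := h1 μ a
    have h3 := h1 ν a
    rw [h, h, h] at h2
    omega

theorem exists_fin_of_multiset (μ : Multiset ℕ) :
    ∃ (t : ℕ) (d : Fin t → ℕ), Finset.univ.val.map d = μ := by
  induction μ using Quotient.inductionOn with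
  | h l => exact ⟨l.length, l.get, by rw [Fin.univ_val_map, List.ofFn_get]; rfl⟩

theorem sum_map_univ {T : Type*} [Fintype T] (d : T → ℕ) (f : ℕ → ℕ) :
    ((Finset.univ.val.map d).map f).sum = ∑ k, f (d k) := by
  rw [Multiset.map_map]; rfl

theorem sum_sub_eq_zero_iff (μ : Multiset ℕ) (m : ℕ) :
    (μ.map (· - m)).sum = 0 ↔ ∀ a ∈ μ, a ≤ m := by
  simp [Multiset.sum_eq_zero_iff, Nat.sub_eq_zero_iff_le]

variable {F : Type*} [Field F] {ι κ T : Type*} [Fintype ι] [DecidableEq ι] [Fintype κ]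
  [DecidableEq κ] [Fintype T] [DecidableEq T]

theorem exists_partition [Finite F] {N : Matrix ι ι F} {k n : ℕ} (hn : Fintype.card ι = n)
    (h : N ^ k = 0) : ∃ μ : Nat.Partition n, ∀ m, (N ^ m).rank = (μ.parts.map (· - m)).sum := by
  obtain ⟨t, d, h1, h2⟩ := exists_type h
  refine ⟨⟨Finset.univ.val.map d, fun hi => ?_, ?_⟩, fun m => by rw [h2, sum_map_univ]⟩
  · obtain ⟨k, -, rfl⟩ := Multiset.mem_map.1 hi
    exact h1 k
  · have := h2 0
    rw [pow_zero, rank_one, hn] at this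
    exact this.symm

theorem reindex_pow' (σ : κ ≃ ι) (A : Matrix κ κ F) (m : ℕ) :
    reindex σ σ A ^ m = reindex σ σ (A ^ m) :=
  (map_pow (reindexAlgEquiv F F σ) A m).symm

theorem exists_nil_of_type (d : T → ℕ) (h : ∑ k, d k = Fintype.card ι) :
    ∃ N : Matrix ι ι F, ∀ m, (N ^ m).rank = ∑ k, (d k - m) := by
  let σ : ((k : T) × Fin (d k)) ≃ ι := Fintype.equivOfCardEq (by simp [h])
  exact ⟨reindex σ σ (stdN F d), fun m => by rw [reindex_pow', rank_reindex, rank_stdN_pow]⟩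

theorem exists_nil_of_multiset (μ : Multiset ℕ) (h : μ.sum = Fintype.card ι) :
    ∃ N : Matrix ι ι F, ∀ m, (N ^ m).rank = (μ.map (· - m)).sum := by
  obtain ⟨t, d, rfl⟩ := exists_fin_of_multiset μ
  simp only [sum_map_univ]
  exact exists_nil_of_type d h

theorem rank_jordan_sub_one_pow {t : ℕ} (d : Fin t → ℕ) (σ : ((k : Fin t) × Fin (d k)) ≃ ι)
    {u : Matrix ι ι F} (h : IsConj (reindex σ σ (jordanTypeMatrix d F)) u) (m : ℕ) :
    ((u - 1) ^ m).rank = ∑ k, (d k - m) := by
  rw [← IsConj.rank_sub_one_pow h, ← rank_stdN_pow (F := F), ← rank_reindex σ σ, ← reindex_pow']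
  congr 2
  have := map_sub (reindexAlgEquiv F F σ) (jordanTypeMatrix d F) 1
  rw [map_one] at this
  exact this.symm

theorem isConj_jordan [Finite F] {t : ℕ} (d : Fin t → ℕ) (σ : ((k : Fin t) × Fin (d k)) ≃ ι)
    {u : Matrix ι ι F} (h : ∀ m, ((u - 1) ^ m).rank = ∑ k, (d k - m)) :
    IsConj (reindex σ σ (jordanTypeMatrix d F)) u := by
  have hm : ∀ k, d k ≤ Finset.univ.sup d := fun k => Finset.le_sup (Finset.mem_univ k)
  have := rank_jordan_sub_one_pow d σ (IsConj.refl (reindex σ σ (jordanTypeMatrix d F)))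
  exact isConj_of_unip_one (pow_eq_zero_of_rank this hm) (pow_eq_zero_of_rank h hm)
    fun m => by rw [this, h]

theorem sub_one_pow_char (p : ℕ) [Fact p.Prime] [CharP F p] (A : Matrix ι ι F) (k : ℕ) :
    (A - 1) ^ p ^ k = A ^ p ^ k - 1 := by
  have := congrArg (aeval A) (sub_pow_char_pow (X : F[X]) 1 (p := p) (n := k))
  simpa using this

theorem card_partition_sub_one {n : ℕ} (P : Nat.Partition n → Prop) [DecidablePred P]
    (hP : ∀ μ : Nat.Partition n, (∀ a ∈ μ.parts, a ≤ 1) → P μ) :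
    Nat.card {μ : Nat.Partition n // P μ ∧ ¬ ∀ a ∈ μ.parts, a ≤ 1} =
      (Finset.univ.filter P).card - 1 := by
  classical
  let μ₀ : Nat.Partition n := ⟨Multiset.replicate n 1, fun h => by
    rw [Multiset.eq_of_mem_replicate h]; exact one_pos, by simp⟩
  have h0 : ∀ μ : Nat.Partition n, (∀ a ∈ μ.parts, a ≤ 1) ↔ μ = μ₀ := fun μ => by
    constructor
    · intro h
      have h1 : μ.parts = Multiset.replicate μ.parts.card 1 :=
        Multiset.eq_replicate_card.2 fun b hb => le_antisymm (h b hb) (μ.parts_pos hb)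
      have h2 := μ.parts_sum
      rw [h1, Multiset.sum_replicate, smul_eq_mul, mul_one] at h2
      exact Nat.Partition.ext (h1.trans (by rw [h2]))
    · rintro rfl a ha
      exact (Multiset.eq_of_mem_replicate ha).le
  rw [← Finset.card_erase_of_mem (a := μ₀) (by simpa using hP _ ((h0 _).2 rfl)),
    Nat.card_eq_fintype_card, Fintype.card_subtype]
  congr 1
  ext μ
  simp only [h0, Finset.mem_filter, Finset.mem_univ, true_and, Finset.mem_erase, and_comm]

theorem orderOf_eq_char_iff {G : Type*} [Group G] (ρ : G →* Matrix ι ι F)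
    (inj : Function.Injective ρ) (p : ℕ) [Fact p.Prime] [CharP F p] (g : G) :
    orderOf g = p ↔ (ρ g - 1) ^ p = 0 ∧ ρ g - 1 ≠ 0 := by
  have := sub_one_pow_char p (ρ g) 1
  rw [pow_one] at this
  rw [orderOf_eq_prime_iff, this, sub_eq_zero, sub_ne_zero, ← map_pow, ← map_one ρ, inj.eq_iff,
    inj.ne_iff]

theorem card_unip_classes [Finite F] {G : Type*} [Group G] (ρ : G →* Matrix ι ι F)
    (inj : Function.Injective ρ) (hconj : ∀ a b, IsConj (ρ a) (ρ b) → IsConj a b)
    (hex : ∀ A : Matrix ι ι F, IsNilpotent (A - 1) → ∃ g, IsConj A (ρ g))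
    (p : ℕ) [Fact p.Prime] [CharP F p] {n : ℕ} (hn : Fintype.card ι = n) :
    Nat.card {C : ConjClasses G // ∃ g, ConjClasses.mk g = C ∧ orderOf g = p} =
      (Finset.univ.filter (fun μ : Nat.Partition n => ∀ a ∈ μ.parts, a ≤ p)).card - 1 := by
  have h1 : ∀ (g : G) (μ : Nat.Partition n),
      (∀ m, ((ρ g - 1) ^ m).rank = (μ.parts.map (· - m)).sum) →
      (orderOf g = p ↔ (∀ a ∈ μ.parts, a ≤ p) ∧ ¬ ∀ a ∈ μ.parts, a ≤ 1) := fun g μ h => by
    rw [orderOf_eq_char_iff ρ inj, ← sum_sub_eq_zero_iff, ← sum_sub_eq_zero_iff, ← h, ← h,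
      rank_eq_zero_iff, rank_eq_zero_iff, pow_one]
  rw [← card_partition_sub_one _ fun μ h a ha => (h a ha).trans (Nat.Prime.one_le Fact.out)]
  refine card_classes _ (fun g μ => ∀ m, ((ρ g - 1) ^ m).rank = (μ.1.parts.map (· - m)).sum)
    (fun g hg => ?_) (fun μ => ?_) fun g g' μ μ' hg hg' h h' => ⟨fun hc => ?_, fun hc => ?_⟩
  · obtain ⟨μ, hμ⟩ := exists_partition hn ((orderOf_eq_char_iff ρ inj p g).1 hg).1
    exact ⟨⟨μ, (h1 g μ hμ).1 hg⟩, hμ⟩
  · obtain ⟨N, hN⟩ := exists_nil_of_multiset (F := F) (ι := ι) μ.1.parts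
      (μ.1.parts_sum.trans hn.symm)
    obtain ⟨g, hg⟩ := hex (N + 1) ⟨p, by
      rw [add_sub_cancel_right, ← rank_eq_zero_iff, hN, sum_sub_eq_zero_iff]; exact μ.2.1⟩
    have : ∀ m, ((ρ g - 1) ^ m).rank = (μ.1.parts.map (· - m)).sum := fun m => by
      rw [← IsConj.rank_sub_one_pow hg, add_sub_cancel_right, hN]
    exact ⟨g, (h1 g μ this).2 μ.2, this⟩
  · refine Subtype.ext (Nat.Partition.ext (multiset_ext_of_sum_sub
      (fun h => (μ.1.parts_pos h).false) (fun h => (μ'.1.parts_pos h).false) fun m => ?_))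
    rw [← h, ← h', IsConj.rank_sub_one_pow (ρ.map_isConj hc)]
  · subst hc
    exact hconj _ _ (isConj_of_unip_one ((orderOf_eq_char_iff ρ inj p g).1 hg).1
      ((orderOf_eq_char_iff ρ inj p g').1 hg').1 fun m => by rw [h, h'])

section regular

theorem rank_pow_of_regular [Finite F] {N : Matrix ι ι F} {k : ℕ} (h : N ^ k = 0)
    (hr : N.rank = Fintype.card ι - 1) (m : ℕ) : (N ^ m).rank = Fintype.card ι - m := by
  obtain ⟨t, d, h1, h2⟩ := exists_type h
  have h3 := h2 0
  have h4 := h2 1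
  rw [pow_zero, rank_one] at h3
  rw [pow_one, hr] at h4
  have h5 : ∑ k, d k = ∑ k, (d k - 1) + t := by
    have : t = ∑ _k : Fin t, 1 := by simp
    rw [congrArg (∑ k, (d k - 1) + ·) this, ← Finset.sum_add_distrib]
    exact Finset.sum_congr rfl fun k _ => by have := h1 k; omega
  simp only [Nat.sub_zero] at h3
  rw [h2, h3]
  match t, d, h3, h4, h5 with
  | 0, d, _, _, _ => simp
  | 1, d, _, _, _ => simp
  | t + 2, d, h3, h4, h5 => omega

theorem exists_jf_regular [Finite F] [Nonempty ι] {N : Matrix ι ι F} {k : ℕ} (h : N ^ k = 0)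
    (hr : N.rank = Fintype.card ι - 1) : ∃ e c, JF N (fun _ : Unit => Fintype.card ι) e c :=
  exists_jf (fun _ => Fintype.card_pos) fun m => by simp [rank_pow_of_regular h hr]

theorem eq_ker_of_regular [Finite F] {N : Matrix ι ι F} {k : ℕ} (h : N ^ k = 0)
    (hr : N.rank = Fintype.card ι - 1) (W : Submodule F (ι → F)) (hW : ∀ v ∈ W, N *ᵥ v ∈ W) :
    W = LinearMap.ker (N ^ finrank F W).mulVecLin := by
  refine Submodule.eq_of_le_of_finrank_le (fun v hv => ?_) ?_
  · let φ : Module.End F W := (Matrix.toLin' N).restrict hW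
    have h1 : ∀ m (w : W), ((φ ^ m) w : ι → F) = N ^ m *ᵥ w := fun m w => by
      induction m with
      | zero => simp
      | succ m ih => rw [pow_succ', pow_succ', ← mulVec_mulVec, ← ih]; rfl
    have := Module.End.ker_pow_le_ker_pow_finrank φ k (x := ⟨v, hv⟩) (Subtype.ext (by
      rw [h1, h, zero_mulVec]; rfl))
    exact (h1 _ ⟨v, hv⟩).symm.trans (congrArg Subtype.val this)
  · have h1 := LinearMap.finrank_range_add_finrank_ker (N ^ finrank F W).mulVecLin
    have h2 := rank_pow_of_regular h hr (finrank F W)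
    rw [Matrix.rank] at h2
    rw [h2, finrank_fintype_fun_eq_card] at h1
    omega

theorem det_smul_add_nil {M : Matrix ι ι F} (h : IsNilpotent M) (c : F) :
    (c • 1 + M).det = c ^ Fintype.card ι := by
  have h1 := (isNilpotent_charpoly_sub_pow_of_isNilpotent h.neg).eq_zero
  have h2 := eval_charpoly (-M) c
  rw [sub_eq_zero.1 h1, eval_pow, eval_X, sub_neg_eq_add, scalar_apply, ← smul_one_eq_diagonal]
    at h2
  exact h2.symm

theorem exists_nil_of_comm_regular [Finite F] [Nonempty ι] {N g : Matrix ι ι F} {k : ℕ}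
    (h : N ^ k = 0) (hr : N.rank = Fintype.card ι - 1) (hg : g * N = N * g) :
    ∃ c : F, IsNilpotent (g - c • 1) := by
  obtain ⟨e, c, J⟩ := exists_jf_regular h hr
  refine ⟨jπ e c g () (), J.nil_of_jπ (by simp [sub_mul, mul_sub, hg]) ?_⟩
  ext ⟨⟩ ⟨⟩
  simp [jπ_apply, sub_mulVec, smul_mulVec, J.dual]

theorem comm_sub_one {g u : Matrix ι ι F} : g * (u - 1) = (u - 1) * g ↔ g * u = u * g := by
  simp [mul_sub, sub_mul]

theorem card_centralizer_GL (u : GL ι F) : Nat.card (Subgroup.centralizer ({u} : Set (GL ι F))) =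
    Nat.card {g : GL ι F // g.1 * (u.1 - 1) = (u.1 - 1) * g.1} :=
  Nat.card_congr (Equiv.subtypeEquivRight fun g => by
    rw [Subgroup.mem_centralizer_singleton_iff, comm_sub_one, Units.ext_iff]; rfl)

end regular

end Cfsg.Agent.H6
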