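import Cfsg.Agent.H6.H90
import Cfsg.Agent.H6.Forms
import Cfsg.Agent.H6.Unip

/-!
Adjoints with respect to non-degenerate sesquilinear forms, and Wall's comparison of
conjugacy in classical groups with conjugacy in the general linear group.
-/

set_option autoImplicit false

namespace Cfsg.Agent.H6

open Matrix

variable {ι : Type*} [Fintype ι] [DecidableEq ι] {F : Type*} [Field F]

/-- the adjoint of `X` with respect to the form with Gram matrix `G` -/
noncomputable def adj (σ : F →+* F) (G X : Matrix ι ι F) : Matrix ι ι F := (G⁻¹ * Xᵀ * G).map σ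

/-- `G` is `ε`-hermitian -/
def EH (σ : F →+* F) (ε : F) (G : Matrix ι ι F) : Prop := ∀ u v, sf σ G v u = ε * σ (sf σ G u v)

variable {σ : F →+* F} {G : Matrix ι ι F} {ε : F}

omit [Fintype ι] [DecidableEq ι] in
theorem map_map_inv (hσ : ∀ x, σ (σ x) = x) (X : Matrix ι ι F) : (X.map σ).map σ = X := by
  ext; simp [hσ]

omit [DecidableEq ι] in
theorem sf_mulVec_left (X : Matrix ι ι F) (u v : ι → F) :
    sf σ G (X *ᵥ u) v = sf σ (Xᵀ * G) u v := by
  rw [sf, sf, ← mulVec_mulVec, dotProduct_mulVec u, vecMul_transpose]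

omit [DecidableEq ι] in
theorem sf_mulVec_right (X : Matrix ι ι F) (u v : ι → F) :
    sf σ G u (X *ᵥ v) = sf σ (G * X.map σ) u v := by
  rw [sf, sf, ← mulVec_mulVec]
  congr 2
  ext i
  exact RingHom.map_mulVec σ X v i

theorem eh_iff : EH σ ε G ↔ G = ε • (G.map σ)ᵀ ∧ EH σ ε G :=
  ⟨fun h => ⟨Matrix.ext fun i j => by
    have := h (Pi.single j 1) (Pi.single i 1)
    rwa [sf_single, sf_single] at this, h⟩, fun h => h.2⟩

omit [DecidableEq ι] in
theorem eh_of (hσ : ∀ x, σ (σ x) = x) (h : G = ε • (G.map σ)ᵀ) : EH σ ε G := fun u v => by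
  conv_lhs => rw [h]
  simp only [sf, dotProduct, mulVec, map_sum, map_mul, Finset.mul_sum, Matrix.smul_apply,
    transpose_apply, map_apply, smul_eq_mul, Function.comp_apply, hσ]
  rw [Finset.sum_comm]
  refine Finset.sum_congr rfl fun i _ => Finset.sum_congr rfl fun j _ => by ring

omit [DecidableEq ι] in
theorem EH.congr (h : EH σ ε G) {κ : Type*} [Fintype κ] (P : Matrix ι κ F) :
    EH σ ε (Pᵀ * G * P.map σ) := fun u v => by
  rw [← sf_mulVec, ← sf_mulVec, h]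

omit [DecidableEq ι] in
theorem IsAlt.eh (h : IsAlt G) : EH (RingHom.id F) (-1) G := fun u v => by
  rw [neg_mul, one_mul]
  exact h.swap v u

omit [DecidableEq ι] in
theorem eh_of_symm (h : Gᵀ = G) : EH (RingHom.id F) 1 G := eh_of (fun _ => rfl) (by simpa using h.symm)

theorem eh_one (hσ : ∀ x, σ (σ x) = x) : EH σ 1 (1 : Matrix ι ι F) := eh_of hσ (by simp)

theorem det_ne_zero_of_isom {κ : Type*} [Fintype κ] [DecidableEq κ] {G' : Matrix ι ι F}
    (hG : G'.det ≠ 0) {A : Matrix ι ι F} (h : Aᵀ * G * A.map σ = G') : A.det ≠ 0 := fun h0 => by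
  rw [← h, det_mul, det_mul, det_transpose, h0, zero_mul, zero_mul] at hG
  exact hG rfl

theorem det_gram_ne_zero (hG : G.det ≠ 0) {A : Matrix ι ι F} (h : A.det ≠ 0) :
    (Aᵀ * G * A.map σ).det ≠ 0 := by
  rw [det_mul, det_mul, det_transpose, ← RingHom.mapMatrix_apply, ← RingHom.map_det]
  exact mul_ne_zero (mul_ne_zero h hG) ((_root_.map_ne_zero σ).2 h)

omit [DecidableEq ι] in
theorem gram_mul {κ κ' : Type*} [Fintype κ] [Fintype κ'] (A : Matrix ι κ F) (B : Matrix κ κ' F) :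
    (A * B)ᵀ * G * (A * B).map σ = Bᵀ * (Aᵀ * G * A.map σ) * B.map σ := by
  rw [transpose_mul, Matrix.map_mul]
  simp only [Matrix.mul_assoc]

section adj

variable (hσ : ∀ x, σ (σ x) = x) (hG : G.det ≠ 0)

include hσ hG

theorem mul_adj (X : Matrix ι ι F) : G * (adj σ G X).map σ = Xᵀ * G := by
  rw [adj, map_map_inv hσ, ← Matrix.mul_assoc, ← Matrix.mul_assoc,
    mul_nonsing_inv _ (Ne.isUnit hG), Matrix.one_mul]

theorem sf_adj (X : Matrix ι ι F) (u v : ι → F) :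
    sf σ G (X *ᵥ u) v = sf σ G u (adj σ G X *ᵥ v) := by
  rw [sf_mulVec_left, sf_mulVec_right, mul_adj hσ hG]

omit hσ in
theorem eq_of_sf_right {X Y : Matrix ι ι F}
    (h : ∀ u v, sf σ G u (X *ᵥ v) = sf σ G u (Y *ᵥ v)) : X = Y :=
  ext_mulVec fun v => sub_eq_zero.1 (sf_nondeg_right (σ := σ) hG fun u => by
    rw [sf_sub_right, h, sub_self])

theorem adj_eq_of_sf {X Y : Matrix ι ι F}
    (h : ∀ u v, sf σ G (X *ᵥ u) v = sf σ G u (Y *ᵥ v)) : adj σ G X = Y :=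
  eq_of_sf_right hG fun u v => by rw [← sf_adj hσ hG, h]

theorem anti_adj : Anti (adj σ G) where
  add X Y := adj_eq_of_sf hσ hG fun u v => by
    rw [add_mulVec, add_mulVec, sf_add_left, sf_add_right, sf_adj hσ hG, sf_adj hσ hG]
  mul X Y := adj_eq_of_sf hσ hG fun u v => by
    rw [← mulVec_mulVec, ← mulVec_mulVec, sf_adj hσ hG, sf_adj hσ hG]
  one := adj_eq_of_sf hσ hG fun u v => by simp

theorem adj_smul (c : F) (X : Matrix ι ι F) : adj σ G (c • X) = σ c • adj σ G X :=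
  adj_eq_of_sf hσ hG fun u v => by
    rw [smul_mulVec, smul_mulVec, sf_smul_left, sf_smul_right, hσ, sf_adj hσ hG]

theorem adj_smul_one (c : F) : adj σ G (c • 1) = σ c • 1 := by
  rw [adj_smul hσ hG, (anti_adj hσ hG).one]

theorem gram_eq_adj (Y : Matrix ι ι F) : Yᵀ * G * Y.map σ = G * (adj σ G Y * Y).map σ := by
  rw [← mul_adj hσ hG, Matrix.map_mul, Matrix.mul_assoc]

theorem mul_map_inj {X Y : Matrix ι ι F} (h : G * X.map σ = G * Y.map σ) : X = Y :=
  eq_of_sf_right (σ := σ) hG fun u v => by rw [sf_mulVec_right, sf_mulVec_right, h]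

theorem isom_iff_adj {Y : Matrix ι ι F} : Yᵀ * G * Y.map σ = G ↔ adj σ G Y * Y = 1 := by
  rw [gram_eq_adj hσ hG]
  exact ⟨fun h => mul_map_inj hσ hG (by simpa using h), fun h => by simp [h]⟩

theorem adj_adj (h : EH σ ε G) (X : Matrix ι ι F) : adj σ G (adj σ G X) = X :=
  adj_eq_of_sf hσ hG fun u v => by rw [h, ← sf_adj hσ hG, ← h]

theorem adj_adj_of_isom {A : Matrix ι ι F} (h : adj σ G A * A = 1) : adj σ G (adj σ G A) = A := by
  have h1 := mul_eq_one_comm.1 h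
  have h2 := congrArg (adj σ G) h1
  rw [(anti_adj hσ hG).mul, (anti_adj hσ hG).one] at h2
  rw [← mul_one (adj σ G (adj σ G A)), ← h, ← mul_assoc, h2, one_mul]

omit hσ hG in
theorem comm_inv {A B X : Matrix ι ι F} (h : B * A = 1) (hX : X * A = A * X) : X * B = B * X := by
  have h1 := mul_eq_one_comm.1 h
  calc X * B = B * A * X * B := by rw [h, one_mul]
    _ = B * X * (A * B) := by rw [mul_assoc B, ← hX]; simp only [mul_assoc]
    _ = _ := by rw [h1, mul_one]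

theorem adj_comm (h : EH σ ε G) {A X : Matrix ι ι F} (hA : adj σ G A * A = 1) (hX : X * A = A * X) :
    adj σ G X * A = A * adj σ G X := by
  have := congrArg (adj σ G) (comm_inv hA hX)
  rw [(anti_adj hσ hG).mul, (anti_adj hσ hG).mul, adj_adj hσ hG h] at this
  exact this.symm

theorem exists_ratio {G' A : Matrix ι ι F} (hA : Aᵀ * G * A.map σ = G)
    (hA' : Aᵀ * G' * A.map σ = G') : ∃ X, G' = G * X.map σ ∧ X * A = A * X := by
  have h1 : G' = G * ((G⁻¹ * G').map σ).map σ := by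
    rw [map_map_inv hσ, mul_nonsing_inv_cancel_left _ _ (Ne.isUnit hG)]
  refine ⟨_, h1, mul_map_inj hσ hG ?_⟩
  generalize (G⁻¹ * G').map σ = X at *
  have h2 : IsUnit Aᵀ := (isUnit_iff_isUnit_det _).2 (by
    rw [det_transpose]; exact (det_ne_zero_of_isom (κ := ι) hG hA).isUnit)
  refine h2.mul_left_cancel ?_
  rw [Matrix.map_mul, Matrix.map_mul, ← mul_assoc G, ← h1, ← mul_assoc, hA', ← mul_assoc G,
    ← mul_assoc, ← mul_assoc, hA, ← h1]

theorem exists_k {A : Matrix ι ι F} (hA : adj σ G A * A = 1)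
    (hk : (∃ c, σ c ≠ c) ∨ IsUnit (A * A - 1)) (s : Set (Matrix ι ι F)) (h1 : A ∈ s)
    (h2 : ∀ c : F, c • (1 : Matrix ι ι F) ∈ s) : ∃ k ∈ Subring.closure s, IsUnit (k - adj σ G k) := by
  rcases hk with ⟨c, hc⟩ | hk
  · refine ⟨c • 1, Subring.subset_closure (h2 c), ?_⟩
    rw [adj_smul_one hσ hG, ← sub_smul, ← Algebra.algebraMap_eq_smul_one]
    exact (sub_ne_zero.2 hc.symm).isUnit.map _
  · refine ⟨A, Subring.subset_closure h1, ?_⟩
    have : A - adj σ G A = adj σ G A * (A * A - 1) := by rw [mul_sub, ← mul_assoc, hA]; simp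
    rw [this]
    exact (IsUnit.of_mul_eq_one _ hA).mul hk

omit hσ hG in
theorem comm_of_mem_closure {s : Set (Matrix ι ι F)} {A y : Matrix ι ι F}
    (h : ∀ a ∈ s, a * A = A * a) (hy : y ∈ Subring.closure s) : y * A = A * y :=
  mem_cE.1 (Subring.closure_le.2 (fun a ha => mem_cE.2 (h a ha)) hy)

theorem wall_cong [Finite F] {G' A : Matrix ι ι F} (hG' : G'.det ≠ 0) (h : EH σ ε G)
    (h' : EH σ ε G') (hA : Aᵀ * G * A.map σ = G) (hA' : Aᵀ * G' * A.map σ = G')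
    (hk : (∃ c, σ c ≠ c) ∨ IsUnit (A * A - 1)) : ∃ Y, Y * A = A * Y ∧ Yᵀ * G * Y.map σ = G' := by
  obtain ⟨X, rfl, hX⟩ := exists_ratio hσ hG hA hA'
  have h1 := (isom_iff_adj hσ hG).1 hA
  have h2 : adj σ G X = X := adj_eq_of_sf hσ hG fun u v => by
    rw [h, sf_mulVec_right, ← h', sf_mulVec_right]
  have h3 : IsUnit X := (isUnit_iff_isUnit_det _).2 (Ne.isUnit fun h0 => hG' (by
    rw [det_mul, ← RingHom.mapMatrix_apply, ← RingHom.map_det, h0, map_zero, mul_zero]))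
  have h4 := comm_inv h1 hX
  have h5 := comm_inv h1 (X := A) rfl
  let s : Set (Matrix ι ι F) := {X, A, adj σ G A} ∪ Set.range fun c : F => c • (1 : Matrix ι ι F)
  obtain ⟨k, hk1, hk2⟩ := exists_k hσ hG h1 hk s (by simp [s]) fun c => Or.inr ⟨c, rfl⟩
  obtain ⟨Y, h6, h7⟩ := (anti_adj hσ hG).norm_surj (s := s) (by
      rintro a ((rfl | rfl | rfl) | ⟨c, rfl⟩) b ((rfl | rfl | rfl) | ⟨d, rfl⟩) <;>
        simp [hX, h4, h5, smul_smul, mul_comm]) (by
      rintro a ((rfl | rfl | rfl) | ⟨c, rfl⟩) <;>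
        simp [s, h2, adj_adj hσ hG h, adj_smul_one hσ hG])
    (fun a _ => adj_adj hσ hG h a) hk1 (Subring.subset_closure (by simp [s])) hk2 h3 h2
  refine ⟨Y, comm_of_mem_closure ?_ h6, by rw [gram_eq_adj hσ hG, h7]⟩
  rintro a ((rfl | rfl | rfl) | ⟨c, rfl⟩) <;> simp [hX, h5]

theorem wall_exists [Finite F] {A : Matrix ι ι F} (hε : ε * σ ε = 1) (hA : Aᵀ * G * A.map σ = G)
    (hk : (∃ c, σ c ≠ c) ∨ IsUnit (A * A - 1)) :
    ∃ G' : Matrix ι ι F, G'.det ≠ 0 ∧ EH σ ε G' ∧ Aᵀ * G' * A.map σ = G' := by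
  have h0 : ∀ u v, sf σ (ε • (G.map σ)ᵀ) u v = ε * σ (sf σ G v u) := fun u v => by
    simp only [sf, dotProduct, mulVec, map_sum, map_mul, Finset.mul_sum, Matrix.smul_apply,
      transpose_apply, map_apply, smul_eq_mul, Function.comp_apply, hσ]
    rw [Finset.sum_comm]
    refine Finset.sum_congr rfl fun i _ => Finset.sum_congr rfl fun j _ => by ring
  obtain ⟨X, e, hX⟩ := exists_ratio hσ hG hA (G' := ε • (G.map σ)ᵀ) (sf_ext (σ := σ) fun u v => by
    rw [← sf_mulVec, h0, h0, sf_mulVec, hA])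
  simp only [e, ← sf_mulVec_right] at h0
  have h1 := (isom_iff_adj hσ hG).1 hA
  have h2 := (isom_iff_adj hσ hG (Y := X)).1 (sf_ext (σ := σ) fun u v => by
    rw [← sf_mulVec, h0, h0, map_mul, hσ, ← mul_assoc, hε, one_mul])
  have h4 := comm_inv h1 hX
  have h5 := comm_inv h1 (X := A) rfl
  have h6 := comm_inv h2 hX.symm
  have h7 := comm_inv h2 (X := X) rfl
  have h8 := comm_inv h2 h4.symm
  let s : Set (Matrix ι ι F) := {X, adj σ G X, A, adj σ G A} ∪
    Set.range fun c : F => c • (1 : Matrix ι ι F)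
  obtain ⟨k, hk1, hk2⟩ := exists_k hσ hG h1 hk s (by simp [s]) fun c => Or.inr ⟨c, rfl⟩
  have hd : ∀ a ∈ s, adj σ G a ∈ s := by
    rintro a ((rfl | rfl | rfl | rfl) | ⟨c, rfl⟩) <;>
      simp [s, adj_adj_of_isom hσ hG h1, adj_adj_of_isom hσ hG h2, adj_smul_one hσ hG]
  have hdd : ∀ a ∈ s, adj σ G (adj σ G a) = a := by
    rintro a ((rfl | rfl | rfl | rfl) | ⟨c, rfl⟩) <;>
      simp [s, adj_adj_of_isom hσ hG h1, adj_adj_of_isom hσ hG h2, adj_smul_one hσ hG, hσ]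
  obtain ⟨Y, h9, h10, h11⟩ := (anti_adj hσ hG).h90 (s := s) (x := X) (by
      rintro a ((rfl | rfl | rfl | rfl) | ⟨c, rfl⟩) b ((rfl | rfl | rfl | rfl) | ⟨d, rfl⟩) <;>
        simp [hX, h4, h5, h6, h7, h8, smul_smul, mul_comm]) hd hdd hk1
    (Subring.subset_closure (by simp [s])) hk2 (mul_eq_one_comm.1 h2)
  have h12 : Y * A = A * Y := comm_of_mem_closure (by
    rintro a ((rfl | rfl | rfl | rfl) | ⟨c, rfl⟩) <;> simp [hX, h5, h6]) h9
  have h13 : adj σ G Y * X = X * adj σ G Y := comm_of_mem_closure (by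
    rintro a ((rfl | rfl | rfl | rfl) | ⟨c, rfl⟩) <;> simp [hX, h4, h7])
    ((anti_adj hσ hG).closure hd hdd h9).1
  refine ⟨G * Y.map σ, ?_, fun u v => ?_, ?_⟩
  · rw [det_mul, ← RingHom.mapMatrix_apply, ← RingHom.map_det]
    exact mul_ne_zero hG ((_root_.map_ne_zero σ).2 ((isUnit_iff_isUnit_det _).1 h10).ne_zero)
  · rw [← sf_mulVec_right, ← sf_mulVec_right, ← h0, sf_adj hσ hG, mulVec_mulVec, h13, ← h11]
  · rw [mul_assoc, mul_assoc, ← Matrix.map_mul, h12, Matrix.map_mul, ← mul_assoc, ← mul_assoc, hA]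

omit hσ in
theorem isom_conj_of_cong {A B Y : Matrix ι ι F} {g : GL ι F} (hg : g.1 * A = B * g.1)
    (hY : Y * A = A * Y) (h : Yᵀ * G * Y.map σ = g.1ᵀ * G * g.1.map σ) :
    ∃ h : GL ι F, h.1ᵀ * G * h.1.map σ = G ∧ h.1 * A = B * h.1 := by
  obtain ⟨y, rfl⟩ := (isUnit_iff_isUnit_det Y).2 (det_ne_zero_of_isom (κ := ι)
    (det_gram_ne_zero hG (GeneralLinearGroup.det_ne_zero g)) h).isUnit
  refine ⟨g * y⁻¹, ?_, ?_⟩
  · rw [Units.val_mul, gram_mul, ← h, ← gram_mul, y.mul_inv]; simp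
  · rw [Units.val_mul, mul_assoc, comm_inv y.inv_mul hY.symm |>.symm, ← mul_assoc, hg, mul_assoc]

omit hσ hG in
theorem isom_of_conj {A B : Matrix ι ι F} {g : GL ι F} (hg : g.1 * A = B * g.1)
    (hB : Bᵀ * G * B.map σ = G) :
    Aᵀ * (g.1ᵀ * G * g.1.map σ) * A.map σ = g.1ᵀ * G * g.1.map σ := by
  rw [← gram_mul, hg, gram_mul, hB]

theorem wall_conj [Finite F] (h : EH σ ε G) {A B : Matrix ι ι F} (hA : Aᵀ * G * A.map σ = G)
    (hB : Bᵀ * G * B.map σ = G) (hk : (∃ c, σ c ≠ c) ∨ IsUnit (A * A - 1)) (hc : IsConj A B) :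
    ∃ h : GL ι F, h.1ᵀ * G * h.1.map σ = G ∧ h.1 * A = B * h.1 := by
  obtain ⟨g, hg⟩ := hc
  obtain ⟨Y, h1, h2⟩ := wall_cong hσ hG (det_gram_ne_zero hG (GeneralLinearGroup.det_ne_zero g)) h
    (h.congr g.1) hA (isom_of_conj hg.eq hB) hk
  exact isom_conj_of_cong hG hg.eq h1 h2

section unip

variable {u : Matrix ι ι F} (hu : adj σ G u * u = 1)

include hu

theorem adj_sub_one : adj σ G (u - 1) = -adj σ G u * (u - 1) := by
  rw [(anti_adj hσ hG).sub, (anti_adj hσ hG).one, mul_sub, neg_mul, hu]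
  simp [sub_eq_add_neg, add_comm]

theorem adj_sub_one_pow (k : ℕ) : adj σ G ((u - 1) ^ k) = (-adj σ G u) ^ k * (u - 1) ^ k := by
  rw [(anti_adj hσ hG).pow, adj_sub_one hσ hG hu, Commute.mul_pow]
  exact (Commute.sub_right (comm_inv hu (X := u) rfl).symm (Commute.one_right _)).neg_left

theorem sf_pow_eq_zero {k : ℕ} {w : ι → F} (hw : (u - 1) ^ k *ᵥ w = 0) (v : ι → F) :
    sf σ G ((u - 1) ^ k *ᵥ v) w = 0 := by
  rw [sf_adj hσ hG, adj_sub_one_pow hσ hG hu, ← mulVec_mulVec, hw, mulVec_zero, sf_zero_right]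

theorem sf_pow_swap {k : ℕ} {w : ι → F} (hw : (u - 1) ^ (k + 1) *ᵥ w = 0) (v : ι → F) :
    sf σ G ((u - 1) ^ k *ᵥ v) w = (-1) ^ k * sf σ G v ((u - 1) ^ k *ᵥ w) := by
  rw [sf_adj hσ hG, adj_sub_one_pow hσ hG hu, ← mulVec_mulVec]
  rw [pow_succ', ← mulVec_mulVec] at hw
  generalize (u - 1) ^ k *ᵥ w = x at *
  have h1 : adj σ G u *ᵥ x = x := by
    rw [sub_mulVec, one_mulVec, sub_eq_zero] at hw
    conv_lhs => rw [← hw, mulVec_mulVec, hu, one_mulVec]
  have h2 : (-adj σ G u) ^ k *ᵥ x = (-1 : F) ^ k • x := by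
    induction k with
    | zero => simp
    | succ k ih => rw [pow_succ', ← mulVec_mulVec, ih, mulVec_smul, neg_mulVec, h1, pow_succ]; simp
  rw [h2, sf_smul_right]
  simp

end unip

end adj

end Cfsg.Agent.H6
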