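import Cfsg.Agent.H6.Nf4

/-!
Weighted counting: bounds for sums over sets of codes.
-/

set_option autoImplicit false

namespace Cfsg.Agent.H6N

open Polynomial Finset
open scoped Classical

/-- all finite partial sums are bounded -/
def Bd {α : Type*} (S : Set α) (w : α → ℝ) (C : ℝ) : Prop :=
  ∀ t : Finset α, ↑t ⊆ S → ∑ a ∈ t, w a ≤ C

section

variable {α β : Type*} {S : Set α} {T : Set β} {w : α → ℝ} {v : β → ℝ} {C C' : ℝ}

theorem Bd.nonneg (h : Bd S w C) : 0 ≤ C := by simpa using h ∅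

theorem Bd.map (h : Bd T v C) (f : α → β) (inj : Set.InjOn f S) (m : ∀ a ∈ S, f a ∈ T)
    (le : ∀ a ∈ S, w a ≤ v (f a)) : Bd S w C := fun t ht =>
  (sum_le_sum fun a ha => le a (ht ha)).trans ((sum_image (inj.mono ht)).symm.trans_le
    (h _ fun b hb => by
      obtain ⟨a, ha, rfl⟩ := mem_image.1 hb
      exact m a (ht ha)))

theorem Bd.mono {S' : Set α} {w' : α → ℝ} (h : Bd S' w' C) (m : S ⊆ S') (le : ∀ a ∈ S, w a ≤ w' a)
    (hC : C ≤ C') : Bd S w C' := fun t ht => (h.map id (Set.injOn_id _) m le t ht).trans hC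

theorem Bd.fib (h : Bd T v C) (f : α → β) (m : ∀ a ∈ S, f a ∈ T)
    (hf : ∀ b ∈ T, Bd {a | a ∈ S ∧ f a = b} w (v b)) : Bd S w C := fun t ht => by
  have h1 : ↑(t.image f) ⊆ T := fun b hb => by
    obtain ⟨a, ha, rfl⟩ := mem_image.1 hb
    exact m a (ht ha)
  rw [← sum_fiberwise_of_maps_to (fun a ha => mem_image_of_mem f ha)]
  exact (sum_le_sum fun b hb => hf b (h1 hb) _ fun a ha =>
    ⟨ht (mem_filter.1 ha).1, (mem_filter.1 ha).2⟩).trans (h _ h1)

theorem Bd.smul (h : Bd S w C) {c : ℝ} (hc : 0 ≤ c) : Bd S (fun a => c * w a) (c * C) := fun t ht => by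
  rw [← mul_sum]; exact mul_le_mul_of_nonneg_left (h t ht) hc

theorem Bd.add {w' : α → ℝ} (h : Bd S w C) (h' : Bd S w' C') : Bd S (fun a => w a + w' a) (C + C') :=
  fun t ht => by rw [sum_add_distrib]; exact add_le_add (h t ht) (h' t ht)

theorem Bd.prod (h : Bd S w C) (h' : Bd T v C') (hw : ∀ a, 0 ≤ w a) :
    Bd (S ×ˢ T) (fun p => w p.1 * v p.2) (C' * C) :=
  (h.smul h'.nonneg).fib Prod.fst (fun _ ha => ha.1) fun a _ => by
    rw [mul_comm]
    exact (h'.smul (hw a)).map Prod.snd (fun p hp q hq e => Prod.ext (hp.2.trans hq.2.symm) e)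
      (fun p hp => hp.1.2) fun p hp => by rw [hp.2]

theorem Bd.ite (h : Bd S w C) (t₀ : Finset α) (h₀ : ↑t₀ ⊆ S) (P : α → Prop) (hP : ∀ a ∈ t₀, ¬ P a) :
    Bd S (fun a => if P a then w a else 0) (C - ∑ a ∈ t₀, w a) := fun t ht => by
  rw [← sum_filter, le_sub_iff_add_le, ← sum_union (disjoint_left.2 fun a ha hb =>
    hP a hb (mem_filter.1 ha).2)]
  exact h _ (by rw [coe_union]; exact Set.union_subset (fun a ha => ht (mem_filter.1 ha).1) h₀)

theorem Bd.of_finset (t : Finset α) (h : S ⊆ t) (hw : ∀ a, 0 ≤ w a) (hC : ∑ a ∈ t, w a ≤ C) :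
    Bd S w C := fun _ hs => (sum_le_sum_of_subset_of_nonneg (coe_subset.1 (hs.trans h))
      fun a _ _ => hw a).trans hC

theorem Bd.card_le [Finite α] (h : Bd Set.univ (fun _ : α => 1) C) : (Nat.card α : ℝ) ≤ C := by
  have := Fintype.ofFinite α
  simpa using h univ (by simp)

theorem bd_card [Fintype β] (f : α → β) (inj : Set.InjOn f S) :
    Bd S (fun _ => 1) (Fintype.card β) :=
  Bd.map (T := Set.univ) (v := fun _ => 1) (.of_finset univ (by simp) (by simp) (by simp)) f inj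
    (by simp) (by simp)

theorem bd_geom {r : ℝ} (h0 : 0 ≤ r) (h1 : r < 1) : Bd Set.univ (fun e : ℕ => r ^ e) (1 - r)⁻¹ :=
  fun t _ => ((summable_geometric_of_lt_one h0 h1).sum_le_tsum t fun _ _ => pow_nonneg h0 _).trans_eq
    (tsum_geometric_of_lt_one h0 h1)

/-- the run of an automaton -/
def run {σ : Type*} (δ : ℕ → σ → α → σ) (s : σ) (w : ℕ → α) : ℕ → σ
  | 0 => s
  | k + 1 => δ k (run δ s w k) (w k)

theorem run_congr {σ : Type*} {δ : ℕ → σ → α → σ} {s : σ} {w w' : ℕ → α} {k : ℕ}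
    (h : ∀ i < k, w i = w' i) : run δ s w k = run δ s w' k := by
  induction k with
  | zero => rfl
  | succ k ih => rw [run, run, ih fun i hi => h i (by omega), h k (by omega)]

theorem Bd.chain {σ : Type*} (d : α) (S : ℕ → σ → Set α) (ω : ℕ → σ → α → ℝ) (δ : ℕ → σ → α → σ)
    (φ : ℕ → σ → ℝ) (hω : ∀ k s a, 0 ≤ ω k s a)
    (h : ∀ k s, Bd (S k s) (fun a => ω k s a * φ (k + 1) (δ k s a)) (φ k s)) (s : σ) (L : ℕ) :
    Bd {w : ℕ → α | (∀ k < L, w k ∈ S k (run δ s w k)) ∧ ∀ k, L ≤ k → w k = d}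
      (fun w => (∏ k ∈ range L, ω k (run δ s w k) (w k)) * φ L (run δ s w L)) (φ 0 s) := by
  induction L with
  | zero =>
    intro t ht
    have : t ⊆ {fun _ => d} := fun w hw => mem_singleton.2 (funext fun k => (ht hw).2 k k.zero_le)
    simpa [run] using (mul_le_mul_of_nonneg_right (Nat.cast_le.2 (card_le_card this))
      (h 0 s).nonneg : _ ≤ _)
  | succ L ih =>
    have e : ∀ (w : ℕ → α) k, k ≤ L → run δ s (Function.update w L d) k = run δ s w k :=
      fun w k hk => run_congr fun i hi => Function.update_of_ne (by omega) ..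
    refine ih.fib (fun w => Function.update w L d) (fun w hw => ⟨fun k hk => ?_, fun k hk => ?_⟩)
      fun u _ => ?_
    · rw [e w k hk.le, Function.update_of_ne hk.ne]; exact hw.1 k (by omega)
    · rcases hk.eq_or_lt with rfl | hk
      exacts [Function.update_self .., (Function.update_of_ne hk.ne' ..).trans (hw.2 k hk)]
    refine ((h L (run δ s u L)).smul (prod_nonneg fun k _ => hω _ _ _)).map (· L)
      (fun a ha b hb e => ?_) ?_ ?_
    · rw [← Function.update_eq_self L a, ← Function.update_idem (v := d), ha.2, ← hb.2,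
        Function.update_idem, show a L = b L from e, Function.update_eq_self]
    · rintro a ⟨ha, rfl⟩
      rw [e a L le_rfl]; exact ha.1 L (by omega)
    · rintro a ⟨ha, rfl⟩
      rw [prod_range_succ, mul_assoc, e a L le_rfl, run]
      exact (congrArg (· * _) (prod_congr rfl fun k hk => by
        rw [e a k (mem_range.1 hk).le, Function.update_of_ne (mem_range.1 hk).ne])).le

theorem Bd.chain' {σ : Type*} {x : ℝ} (hx : 0 ≤ x) (d : α) (S : ℕ → σ → Set α) (z : ℕ → σ → α → ℕ)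
    (δ : ℕ → σ → α → σ) (φ : ℕ → σ → ℝ)
    (h : ∀ k s, Bd (S k s) (fun a => x ^ z k s a * φ (k + 1) (δ k s a)) (φ k s)) (s : σ) (L : ℕ) :
    Bd {w : ℕ → α | ((∀ k < L, w k ∈ S k (run δ s w k)) ∧ ∀ k, L ≤ k → w k = d) ∧
      1 ≤ φ L (run δ s w L)} (fun w => x ^ ∑ k ∈ range L, z k (run δ s w k) (w k)) (φ 0 s) :=
  (Bd.chain d S (fun k s a => x ^ z k s a) δ φ (fun _ _ _ => pow_nonneg hx _) h s L).mono
    (fun _ h => h.1) (fun w hw => by
      rw [prod_pow_eq_pow_sum]; exact le_mul_of_one_le_right (pow_nonneg hx _) hw.2) le_rfl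

end

variable {F : Type*} [Field F] {p p' : F[X]}

theorem Pal.ext {e : ℕ} (h : Pal p) (h' : Pal p') (d : p.natDegree = 2 * e) (d' : p'.natDegree = 2 * e)
    (c : ∀ i, 1 ≤ i → i ≤ e → p.coeff i = p'.coeff i) : p = p' := by
  have c' : ∀ i ≤ e, p.coeff i = p'.coeff i := fun i hi => by
    rcases i.eq_zero_or_pos with rfl | h0
    · rw [h.coeff (zero_add _), h'.coeff (zero_add _), h.monic.coeff_natDegree,
        h'.monic.coeff_natDegree]
    · exact c i h0 hi
  ext i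
  by_cases h1 : i ≤ e
  · exact c' i h1
  by_cases h2 : i ≤ 2 * e
  · rw [h.coeff (j := 2 * e - i) (by omega), h'.coeff (j := 2 * e - i) (by omega), c' _ (by omega)]
  · rw [coeff_eq_zero_of_natDegree_lt (by omega), coeff_eq_zero_of_natDegree_lt (by omega)]

variable [Fintype F]

local notation "q" => (Fintype.card F : ℝ)

theorem two_le_q : 2 ≤ q := by exact_mod_cast Fintype.one_lt_card

theorem bd_pal (e : ℕ) : Bd {p : F[X] | Pal p ∧ p.natDegree = 2 * e} (fun _ => 1) (q ^ e) := by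
  simpa using bd_card (S := {p : F[X] | Pal p ∧ p.natDegree = 2 * e})
    (fun p (i : Fin e) => p.coeff (i + 1)) fun p hp p' hp' h => hp.1.ext hp'.1 hp.2 hp'.2 fun i h1 h2 => by
      simpa [Nat.sub_add_cancel h1] using congrFun h ⟨i - 1, by omega⟩

/-- the higher polynomial slots -/
def PolW (F : Type*) [Field F] (L : ℕ) : Set (ℕ → F[X]) := {H | (∀ i, Pal (H i)) ∧ ∀ i, L ≤ i → H i = 1}

def sP (L : ℕ) (H : ℕ → F[X]) : ℕ := ∑ i ∈ range L, (i + 2) * ((H i).natDegree / 2)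

theorem bd_pol {x : ℝ} (hx : q⁻¹ ≤ x) (ψ : ℕ → ℝ) (h1 : ∀ k, 1 ≤ ψ k)
    (h : ∀ k, ψ (k + 1) ≤ (1 - x ^ (k + 1)) * ψ k) (L : ℕ) :
    Bd (PolW F L) (fun H => q⁻¹ ^ sP L H) (ψ 0) := by
  have q2 := two_le_q (F := F)
  have q0 : 0 ≤ q⁻¹ := by positivity
  refine (Bd.chain' q0 1 (fun _ _ => {p : F[X] | Pal p}) (fun k (_ : Unit) p => (k + 2) *
    (p.natDegree / 2)) (fun _ _ _ => ()) (fun k _ => ψ k) (fun k _ => ?_) () L).mono
    (fun H hH => ⟨⟨fun k _ => hH.1 k, hH.2⟩, h1 _⟩) (fun _ _ => le_rfl) le_rfl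
  have h2 : q⁻¹ ^ (k + 1) < 1 := pow_lt_one₀ q0 (inv_lt_one_of_one_lt₀ (by linarith)) (by omega)
  have h3 := h1 (k + 1)
  refine (((bd_geom (pow_nonneg q0 _) h2).smul (c := ψ (k + 1)) (by linarith)).fib
    (fun p => p.natDegree / 2) (by simp) fun e _ => ?_).mono le_rfl (fun _ _ => le_rfl) ?_
  · refine ((bd_pal (F := F) e).smul (c := q⁻¹ ^ ((k + 2) * e) * ψ (k + 1)) (by positivity)).mono
      (fun p hp => ⟨hp.1, by have := Nat.even_iff.1 hp.1.even; rw [← hp.2]; omega⟩)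
      (fun p hp => by rw [hp.2, mul_one]) (le_of_eq ?_)
    rw [show (k + 2) * e = (k + 1) * e + e by ring, pow_add _ _ e, pow_mul, inv_pow _ e]
    field_simp
  · rw [← div_eq_mul_inv, div_le_iff₀ (by linarith), mul_comm]
    exact (h k).trans (mul_le_mul_of_nonneg_right (sub_le_sub_left (pow_le_pow_left₀ q0 hx _) _)
      (by linarith [h1 k]))

theorem sum_split (L : ℕ) (H : ℕ → F[X]) (h : ∀ i, Pal (H i)) :
    ∑ i ∈ range (L + 2), i * (H i).natDegree = (H 1).natDegree + 2 * sP L fun i => H (i + 2) := by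
  rw [sum_range_succ', sum_range_succ', sP, mul_sum, zero_mul, add_zero, zero_add, one_mul, add_comm]
  refine congrArg _ (sum_congr rfl fun i _ => ?_)
  rw [mul_left_comm, Nat.two_mul_div_two_of_even (h _).even]

theorem card_le_code {ι A : Type*} [Finite ι] {T : Set A} {sA : A → ℕ} {n L : ℕ} {K : ℝ} (N : ℕ → ℝ)
    (P : F[X] → Prop) (hN : ∀ e, Bd {p | P p ∧ p.natDegree = 2 * e} (fun _ => 1) (N e))
    (hK : Bd {b | b ∈ T ×ˢ PolW F L ∧ sA b.1 + sP L b.2 ≤ n} (fun b => N (n - (sA b.1 + sP L b.2))) K)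
    (a : ι → A) (H : ι → ℕ → F[X]) (mem : ∀ c, a c ∈ T) (pal : ∀ c i, Pal (H c i))
    (big : ∀ c i, L + 2 ≤ i → H c i = 1) (hP : ∀ c, P (H c 1))
    (sz : ∀ c, 2 * sA (a c) + ∑ i ∈ range (L + 2), i * (H c i).natDegree = 2 * n)
    (inj : ∀ c c', a c = a c' → (∀ i, H c (i + 1) = H c' (i + 1)) → c = c') :
    (Nat.card ι : ℝ) ≤ K := by
  simp only [sum_split L _ (pal _)] at sz
  refine Bd.card_le (hK.fib (fun c => (a c, fun i => H c (i + 2))) (fun c _ =>
    ⟨⟨mem c, fun i => pal c _, fun i hi => big c _ (by omega)⟩, by have := sz c; dsimp only; omega⟩)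
    fun b _ => (hN _).map (fun c => H c 1) (fun c hc c' hc' e => ?_) ?_ fun _ _ => le_rfl)
  · have := hc.2.trans hc'.2.symm
    exact inj c c' (congrArg Prod.fst this) fun i => by
      cases i
      exacts [e, congrFun (congrArg Prod.snd this) _]
  · rintro c ⟨-, rfl⟩
    exact ⟨hP c, by have := sz c; dsimp only; omega⟩

theorem bd_comb {A : Type*} {T : Set A} {sA : A → ℕ} {L : ℕ} {x C C₁ : ℝ} (hx : q⁻¹ ≤ x)
    (hT : Bd T (fun a => x ^ sA a) C) (hP : Bd (PolW F L) (fun H => q⁻¹ ^ sP L H) C₁) (n : ℕ) :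
    Bd {b | b ∈ T ×ˢ PolW F L ∧ sA b.1 + sP L b.2 ≤ n} (fun b => q ^ (n - (sA b.1 + sP L b.2)))
      (q ^ n * (C₁ * C)) := by
  have q2 := two_le_q (F := F)
  have q0 : 0 ≤ q⁻¹ := by positivity
  refine ((hT.prod hP fun a => pow_nonneg (q0.trans hx) _).smul (by positivity)).mono
    (fun _ h => h.1) (fun b hb => ?_) le_rfl
  rw [pow_sub₀ _ (by linarith) hb.2, ← inv_pow, pow_add]
  gcongr

omit [Fintype F] in
theorem pow_mul_cancel {c : F} {a b : ℕ} (h : p.eval c ≠ 0) (h' : p'.eval c ≠ 0)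
    (e : (X - C c) ^ a * p = (X - C c) ^ b * p') : a = b ∧ p = p' := by
  have : ∀ {p : F[X]} (a : ℕ), p.eval c ≠ 0 → rootMultiplicity c ((X - C c) ^ a * p) = a :=
    fun a h => by
      rw [mul_comm, rootMultiplicity_mul_X_sub_C_pow (by rintro rfl; simp at h),
        rootMultiplicity_eq_zero h, zero_add]
  obtain rfl : a = b := by rw [← this a h, e, this b h']
  exact ⟨rfl, mul_left_cancel₀ (pow_ne_zero _ (X_sub_C_ne_zero c)) e⟩

end Cfsg.Agent.H6N
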