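import Cfsg.Agent.H6.RCF
import Cfsg.Agent.H6.Tv

/-!
Tools for conjugacy classes in general linear groups over finite fields.
-/

set_option autoImplicit false

namespace Cfsg.Agent.H6

open Polynomial Module Matrix

variable {F V : Type*} [Field F] [AddCommGroup V] [Module F V]

theorem kd_eq_of_dvd {φ : V →ₗ[F] V} {f g d a b : F[X]} (hg : aeval φ g = 0) (h1 : d ∣ f)
    (h2 : d = a * f + b * g) : kd φ f = kd φ d := by
  obtain ⟨c, rfl⟩ := h1
  have : LinearMap.ker (aeval φ (d * c)) = LinearMap.ker (aeval φ d) := by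
    ext v
    rw [LinearMap.mem_ker, LinearMap.mem_ker]
    refine ⟨fun h => ?_, fun h => ?_⟩
    · rw [h2, map_add, map_mul _ a, map_mul _ b, hg, mul_zero, add_zero, Module.End.mul_apply, h,
        map_zero]
    · rw [mul_comm, map_mul, Module.End.mul_apply, h, map_zero]
  rw [kd, kd, this]

theorem kd_assoc (φ : V →ₗ[F] V) {f g : F[X]} (h : Associated f g) : kd φ f = kd φ g := by
  obtain ⟨u, rfl⟩ := h
  exact (kd_eq_of_dvd (g := 0) (a := (u⁻¹ : F[X]ˣ)) (b := 0) (map_zero _) (dvd_mul_right _ _) (by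
    rw [mul_zero, add_zero, mul_comm, Units.mul_inv_cancel_right])).symm

theorem kd_one (φ : V →ₗ[F] V) : kd φ 1 = 0 := by
  rw [kd, map_one, Module.End.one_eq_id, LinearMap.ker_id, finrank_bot]

theorem kd_pow_of_squarefree {φ : V →ₗ[F] V} {g p : F[X]} (hg : aeval φ g = 0) (hs : Squarefree g)
    (hp : Irreducible p) (h : p ∣ g) {e : ℕ} (he : e ≠ 0) : kd φ (p ^ e) = kd φ p := by
  obtain ⟨c, rfl⟩ := h
  obtain ⟨e, rfl⟩ := Nat.exists_eq_succ_of_ne_zero he
  have : IsCoprime (p ^ e) c := IsCoprime.pow_left (hp.coprime_iff_not_dvd.2 fun h =>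
    hp.not_isUnit (hs p (mul_dvd_mul_left p h)))
  obtain ⟨a, b, hab⟩ := this
  exact kd_eq_of_dvd (a := a) (b := b) hg (dvd_pow_self p he) (by
    rw [Nat.succ_eq_add_one]
    linear_combination (-p) * hab)

section matrix

variable {ι κ : Type*} [Fintype ι] [DecidableEq ι] [Fintype κ] [DecidableEq κ]

theorem aeval_toLin'_eq_zero {A : Matrix ι ι F} {g : F[X]} (h : aeval A g = 0) :
    aeval (Matrix.toLin' A) g = 0 := by
  rw [aeval_toLin', h, map_zero]

theorem mkd_eq_zero_of_coprime {A : Matrix ι ι F} {f g : F[X]} (hg : aeval A g = 0)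
    (h : IsCoprime f g) : mkd A f = 0 := by
  have := aeval_toLin'_eq_zero hg
  exact kd_eq_zero_of_coprime this h

theorem mkd_pow_of_squarefree {A : Matrix ι ι F} {g p : F[X]} (hg : aeval A g = 0)
    (hs : Squarefree g) (hp : Irreducible p) (h : p ∣ g) {e : ℕ} (he : e ≠ 0) :
    mkd A (p ^ e) = mkd A p := by
  have := aeval_toLin'_eq_zero hg
  exact kd_pow_of_squarefree this hs hp h he

theorem isConj_of_mkd_dvd [Finite F] {A B : Matrix ι ι F} {g : F[X]} (hA : aeval A g = 0)
    (hB : aeval B g = 0)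
    (h : ∀ (p : F[X]) (e : ℕ), Irreducible p → p.Monic → p ∣ g → mkd A (p ^ e) = mkd B (p ^ e)) :
    IsConj A B := by
  classical
  refine isConj_of_mkd fun p e hp => ?_
  by_cases hd : p ∣ g
  · have ha := (normalize_associated p).pow_pow (n := e)
    rw [mkd, mkd, ← kd_assoc _ ha, ← kd_assoc _ ha]
    exact h _ e ((normalize_associated p).symm.irreducible hp) (monic_normalize hp.ne_zero)
      (normalize_dvd_iff.2 hd)
  · have := (hp.coprime_iff_not_dvd.2 hd).pow_left (m := e)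
    exact (mkd_eq_zero_of_coprime hA this).trans (mkd_eq_zero_of_coprime hB this).symm

theorem isConj_of_squarefree [Finite F] {A B : Matrix ι ι F} {g : F[X]} (hA : aeval A g = 0)
    (hB : aeval B g = 0) (hs : Squarefree g)
    (h : ∀ p : F[X], Irreducible p → p.Monic → p ∣ g → mkd A p = mkd B p) : IsConj A B :=
  isConj_of_mkd_dvd hA hB fun p e hp hm hd => by
    rcases eq_or_ne e 0 with rfl | he
    · rw [pow_zero]
      exact (kd_one _).trans (kd_one _).symm
    · exact (mkd_pow_of_squarefree hA hs hp hd he).trans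
        ((h p hp hm hd).trans (mkd_pow_of_squarefree hB hs hp hd he).symm)

theorem isConj_of_irreducible [Finite F] {A B : Matrix ι ι F} {g : F[X]} (hA : aeval A g = 0)
    (hB : aeval B g = 0) (hg : Irreducible g) : IsConj A B :=
  isConj_of_squarefree hA hB hg.squarefree fun p hp _ hd => by
    have := hp.associated_of_dvd hg hd
    rw [mkd, mkd, kd_assoc _ this, kd_assoc _ this]
    exact ((mkd_eq_card_iff A g).2 hA).trans ((mkd_eq_card_iff B g).2 hB).symm

theorem aeval_X_sub_C' (A : Matrix ι ι F) (c : F) : aeval A (X - C c) = A - c • 1 := by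
  rw [map_sub, aeval_X, aeval_C, Algebra.algebraMap_eq_smul_one]

theorem isConj_of_unip [Finite F] {A B : Matrix ι ι F} {c : F} {k l : ℕ}
    (hA : (A - c • 1) ^ k = 0) (hB : (B - c • 1) ^ l = 0)
    (h : ∀ j, ((A - c • 1) ^ j).rank = ((B - c • 1) ^ j).rank) : IsConj A B := by
  refine isConj_of_mkd_dvd (g := (X - C c) ^ (k + l)) ?_ ?_ fun p e hp hm hd => ?_
  · rw [map_pow, aeval_X_sub_C', pow_add, hA, zero_mul]
  · rw [map_pow, aeval_X_sub_C', pow_add, hB, mul_zero]
  · have : p = X - C c := eq_of_monic_of_associated hm (monic_X_sub_C c)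
      (hp.associated_of_dvd (irreducible_X_sub_C c) (hp.prime.dvd_of_dvd_pow hd))
    subst this
    have h1 := mkd_add_rank A ((X - C c) ^ e)
    have h2 := mkd_add_rank B ((X - C c) ^ e)
    rw [map_pow, aeval_X_sub_C'] at h1 h2
    rw [h] at h1
    omega

theorem isConj_of_unip_one [Finite F] {A B : Matrix ι ι F} {k l : ℕ}
    (hA : (A - 1) ^ k = 0) (hB : (B - 1) ^ l = 0)
    (h : ∀ j, ((A - 1) ^ j).rank = ((B - 1) ^ j).rank) : IsConj A B :=
  isConj_of_unip (c := 1) (k := k) (l := l) (by simpa) (by simpa) (by simpa)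

theorem isConj_of_nil [Finite F] {A B : Matrix ι ι F} {k l : ℕ}
    (hA : A ^ k = 0) (hB : B ^ l = 0) (h : ∀ j, (A ^ j).rank = (B ^ j).rank) : IsConj A B :=
  isConj_of_unip (c := 0) (k := k) (l := l) (by simpa) (by simpa) (by simpa)

theorem IsConj.rank_aeval {A B : Matrix ι ι F} (h : IsConj A B) (f : F[X]) :
    (aeval A f).rank = (aeval B f).rank := by
  have h1 := mkd_add_rank A f
  have h2 := mkd_add_rank B f
  rw [IsConj.mkd_eq h] at h1
  omega

theorem IsConj.rank_sub_pow {A B : Matrix ι ι F} (h : IsConj A B) (c : F) (j : ℕ) :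
    ((A - c • 1) ^ j).rank = ((B - c • 1) ^ j).rank := by
  have := IsConj.rank_aeval h ((X - C c) ^ j)
  rwa [map_pow, map_pow, aeval_X_sub_C', aeval_X_sub_C'] at this

theorem IsConj.rank_sub_one_pow {A B : Matrix ι ι F} (h : IsConj A B) (j : ℕ) :
    ((A - 1) ^ j).rank = ((B - 1) ^ j).rank := by
  simpa using IsConj.rank_sub_pow h 1 j

theorem rank_eq_zero_iff {A : Matrix ι ι F} : A.rank = 0 ↔ A = 0 := by
  have h1 := mkd_add_rank A X
  have h2 := mkd_eq_card_iff A X
  rw [aeval_X] at h1 h2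
  rw [← h2]
  omega

theorem IsConj.aeval_eq_zero {A B : Matrix ι ι F} (h : IsConj A B) {f : F[X]}
    (hf : aeval A f = 0) : aeval B f = 0 := by
  rw [← rank_eq_zero_iff, ← IsConj.rank_aeval h, hf, rank_zero]

theorem rank_map {L : Type*} [Field L] (f : F →+* L) (A : Matrix ι ι F) :
    (A.map f).rank = A.rank := by
  classical
  obtain ⟨l, l', D, rfl⟩ := Matrix.Pivot.exists_list_transvec_mul_diagonal_mul_list_transvec A
  have h1 : ∀ l : List (TransvectionStruct ι F), (l.map TransvectionStruct.toMatrix).prod.det ≠ 0 :=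
    fun l => by rw [TransvectionStruct.det_toMatrix_prod]; exact one_ne_zero
  have h2 : ∀ l : List (TransvectionStruct ι F),
      ((l.map TransvectionStruct.toMatrix).prod.map f).det ≠ 0 := fun l => by
    rw [← RingHom.mapMatrix_apply, ← RingHom.map_det, _root_.map_ne_zero]
    exact h1 l
  rw [Matrix.map_mul, Matrix.map_mul, rank_mul_eq_left_of_det_ne_zero _ _ (h1 _),
    rank_mul_eq_left_of_det_ne_zero _ _ (h2 _), rank_mul_eq_right_of_det_ne_zero _ _ (h1 _),
    rank_mul_eq_right_of_det_ne_zero _ _ (h2 _), diagonal_map (map_zero f), rank_diagonal,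
    rank_diagonal]
  simp

theorem map_aeval_mat {L : Type*} [Field L] (f : F →+* L) (A : Matrix ι ι F) (g : F[X]) :
    (aeval A g).map f = aeval (A.map f) (g.map f) := by
  induction g using Polynomial.induction_on with
  | C a =>
    rw [map_C, aeval_C, aeval_C, algebraMap_eq_diagonal, algebraMap_eq_diagonal,
      diagonal_map (map_zero f)]
    rfl
  | add p q hp hq => rw [map_add, Matrix.map_add _ (map_add f), hp, hq, Polynomial.map_add, map_add]
  | monomial n a ih =>
    rw [pow_succ, ← mul_assoc, map_mul, Matrix.map_mul, ih, aeval_X, Polynomial.map_mul (q := X) f,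
      map_mul, map_X, aeval_X]

theorem isConj_of_map [Finite F] {L : Type*} [Field L] (f : F →+* L) {A B : Matrix ι ι F}
    (h : IsConj (A.map f) (B.map f)) : IsConj A B :=
  isConj_of_rank fun g => by
    rw [← rank_map f, ← rank_map f (aeval B g), map_aeval_mat, map_aeval_mat, IsConj.rank_aeval h]

theorem natDegree_dvd_card [Finite F] {A : Matrix ι ι F} {g : F[X]} (hA : aeval A g = 0)
    (hg : Irreducible g) : g.natDegree ∣ Fintype.card ι := by
  obtain ⟨t, p, e, h, h'⟩ := exists_decomp (Matrix.toLin' A)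
  have h1 := (mkd_eq_card_iff A g).2 hA
  rw [← h1, mkd, h']
  refine Finset.dvd_sum fun k _ => ?_
  by_cases hd : p k ∣ g
  · have := (h k).1.associated_of_dvd hg hd
    rw [← kd_assoc _ this, ← natDegree_eq_of_degree_eq (degree_eq_degree_of_associated this)]
    have h2 := kd_cyc_pow (h k).1.ne_zero (e k) 1
    rw [pow_one] at h2
    rw [h2]
    exact dvd_mul_left _ _
  · rw [kd_cyc_coprime (pow_ne_zero _ (h k).1.ne_zero)
      (((h k).1.coprime_iff_not_dvd.2 hd).pow_left)]
    exact dvd_zero _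

theorem exists_aeval_eq_zero {g : F[X]} (hg : g ≠ 0) (h : g.natDegree ∣ Fintype.card ι) :
    ∃ A : Matrix ι ι F, aeval A g = 0 := by
  obtain ⟨m, hm⟩ := h
  obtain ⟨A, hA⟩ := exists_matrix_of_family (ι := ι) (fun _ : Fin m => g) (fun _ => hg) (by
    simp [hm, mul_comm])
  refine ⟨A, (mkd_eq_card_iff A g).1 ?_⟩
  rw [hA, kd_cyc_dvd hg dvd_rfl]
  simp [hm, mul_comm]

theorem exists_vecMulVec_of_rank {M : Matrix ι ι F} (h : M.rank = 1) :
    ∃ a f : ι → F, a ≠ 0 ∧ f ≠ 0 ∧ M = vecMulVec a f := by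
  obtain ⟨⟨a, ha⟩, ha0, h'⟩ := finrank_eq_one_iff'.1 h
  choose f hf using fun j => h' ⟨M *ᵥ Pi.single j 1, ⟨_, rfl⟩⟩
  have e : M = vecMulVec a f := by
    ext i j
    have := congrFun (congrArg Subtype.val (hf j)) i
    simp only [SetLike.mk_smul_mk, Pi.smul_apply, smul_eq_mul, mulVec_single, MulOpposite.op_one,
      one_smul, col_apply] at this
    rw [vecMulVec_apply, ← this, mul_comm]
  refine ⟨a, f, fun h0 => ha0 (Subtype.ext h0), fun h0 => ?_, e⟩
  rw [e, h0, vecMulVec_zero, rank_zero] at h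
  exact zero_ne_one h

theorem exists_tv_of_rank {t : Matrix ι ι F} (h : (t - 1).rank = 1) (h2 : (t - 1) * (t - 1) = 0) :
    ∃ a f : ι → F, a ≠ 0 ∧ f ≠ 0 ∧ f ⬝ᵥ a = 0 ∧ t = tv a f := by
  obtain ⟨a, f, ha, hf, e⟩ := exists_vecMulVec_of_rank h
  refine ⟨a, f, ha, hf, ?_, by rw [tv, ← e, add_sub_cancel]⟩
  obtain ⟨v, hv⟩ := exists_dot_one hf
  have := congrArg (· *ᵥ v) h2
  simp only [e, ← mulVec_mulVec, vecMulVec_mulVec', hv, one_smul, zero_mulVec] at this
  exact (smul_eq_zero.1 this).resolve_right ha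

theorem isConj_of_transvection [Finite F] {s t : Matrix ι ι F} (hs : (s - 1).rank = 1)
    (hs2 : (s - 1) * (s - 1) = 0) (ht : (t - 1).rank = 1) (ht2 : (t - 1) * (t - 1) = 0) :
    IsConj s t :=
  isConj_of_unip_one (k := 2) (l := 2) (by rw [sq, hs2]) (by rw [sq, ht2]) fun j => by
    match j with
    | 0 => simp
    | 1 => simp [hs, ht]
    | j + 2 => rw [pow_add, pow_add, sq, sq, hs2, ht2, mul_zero, mul_zero]

end matrix

section split

variable {H G B : Type*} [Group H] [Group G] [CommGroup B] (j : H →* G)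
  (inj : Function.Injective j) (δ : G →* B) (hr : ∀ g, δ g = 1 ↔ g ∈ j.range)

include inj hr

theorem isConj_iff_of_split {x : G} {u u' : H} {g g' : G} (h : g * x * g⁻¹ = j u)
    (h' : g' * x * g'⁻¹ = j u') :
    IsConj u u' ↔ (δ g)⁻¹ * δ g' ∈ (Subgroup.centralizer {x}).map δ := by
  rw [isConj_iff]
  constructor
  · rintro ⟨c, hc⟩
    have hc' := congrArg j hc
    rw [map_mul, map_mul, map_inv, ← h, ← h'] at hc'
    refine ⟨g⁻¹ * (j c)⁻¹ * g', Subgroup.mem_centralizer_singleton_iff.2 ?_, ?_⟩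
    · calc _ = g⁻¹ * (j c)⁻¹ * (g' * x * g'⁻¹) * g' := by group
        _ = _ := by rw [← hc']; group
    · rw [map_mul, map_mul, map_inv, map_inv, (hr _).2 ⟨c, rfl⟩, inv_one, mul_one]
  · rintro ⟨c, hc, e⟩
    have hc' := Subgroup.mem_centralizer_singleton_iff.1 hc
    obtain ⟨y, hy⟩ := (hr (g' * c⁻¹ * g⁻¹)).1 (by
      rw [map_mul, map_mul, map_inv, map_inv, e, _root_.mul_inv_rev, inv_inv,
        mul_inv_cancel_left, mul_inv_cancel])
    refine ⟨y, inj ?_⟩
    rw [map_mul, map_mul, map_inv, hy, ← h, ← h']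
    calc _ = g' * c⁻¹ * (x * c) * g'⁻¹ := by group
      _ = _ := by rw [← hc']; group

theorem isConj_of_split {s t : H} (h : IsConj (j s) (j t))
    (hs : ∀ g : G, ∃ c, c * j s = j s * c ∧ δ c = δ g) : IsConj s t := by
  obtain ⟨g, hg⟩ := isConj_iff.1 h
  refine (isConj_iff_of_split j inj δ hr (x := j s) (g := 1) (by simp) hg).2 ?_
  obtain ⟨c, hc, e⟩ := hs g
  exact ⟨c, Subgroup.mem_centralizer_singleton_iff.2 hc, by simp [e]⟩

theorem card_split (hδ : Function.Surjective δ) (P : H → Prop) (x : H)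
    (hP : ∀ u, P u ↔ IsConj (j x) (j u)) :
    Nat.card {C : ConjClasses H // ∃ u, ConjClasses.mk u = C ∧ P u} =
      ((Subgroup.centralizer {j x}).map δ).index := by
  refine card_classes P (fun u t => ∃ g, g * j x * g⁻¹ = j u ∧ QuotientGroup.mk (δ g) = t)
    (fun u hu => ?_) (fun t => ?_) ?_
  · obtain ⟨g, hg⟩ := isConj_iff.1 ((hP u).1 hu)
    exact ⟨_, g, hg, rfl⟩
  · obtain ⟨b, rfl⟩ := QuotientGroup.mk_surjective t
    obtain ⟨g, rfl⟩ := hδ b
    obtain ⟨u, hu⟩ := (hr (g * j x * g⁻¹)).1 (by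
      rw [map_mul, map_mul, map_inv, (hr _).2 ⟨x, rfl⟩, mul_one, mul_inv_cancel])
    exact ⟨u, (hP u).2 (isConj_iff.2 ⟨g, hu.symm⟩), g, hu.symm, rfl⟩
  · rintro u u' _ _ - - ⟨g, h, rfl⟩ ⟨g', h', rfl⟩
    rw [isConj_iff_of_split j inj δ hr h h', QuotientGroup.eq]

end split

end Cfsg.Agent.H6
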