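import Cfsg.Agent.H6.OdU

/-!
Codes of conjugacy classes of symplectic and orthogonal groups in characteristic two.
-/

set_option autoImplicit false

namespace Cfsg.Agent.H6N

open QuadraticMap Module H7 Polynomial Finset
open scoped Classical

variable {D D' : Multiset Blk} {m m' : ℕ} {o : Bool}

def tt (D : Multiset Blk) (p : Bool) (i : ℕ) : ℕ := D.count (p, i, false) + D.count (p, i, true)

def Sx (o : Bool) (D : Multiset Blk) : Prop := o ∧ tt D false 2 = 0 ∧ tt D false 4 ≠ 0

noncomputable def wE (o : Bool) (D : Multiset Blk) (j : ℕ) : ℕ × Bool :=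
  (tt D false (2 * j + 2), decide (j ≠ 0 ∧ if Sx o D ∧ j = 1 then D.count (true, 1, true) ≠ 0 else
    D.count (false, 2 * j + 2, true) + D.count (true, 2 * j + 1, true) ≠ 0))

noncomputable def aE (o : Bool) (D : Multiset Blk) (i : ℕ) : ℕ := D.count (true, i, false) +
  if (if i = 1 then Sx o D else tt D false (i + 1) = 0) then 0 else D.count (true, i, true)

theorem NFe.ev (h : NFe m D) (j : ℕ) : D.count (true, 2 * j, true) = 0 ∧
    D.count (false, 2 * j + 1, false) = 0 ∧ D.count (false, 2 * j + 1, true) = 0 := by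
  refine ⟨?_, ?_, ?_⟩ <;> refine Multiset.count_eq_zero.2 fun a => ?_ <;> have := h.par _ a <;>
    simp [Nat.even_iff, Nat.odd_iff, Nat.add_mod] at this

theorem NFe.zero (h : NFe m D) (p s : Bool) : D.count (p, 0, s) = 0 :=
  Multiset.count_eq_zero.2 fun a => by simpa using h.le _ a

theorem NFe.lk (h : NFe m D) (k : ℕ) : (D.count (false, k + 1, true) ≠ 0 → tt D true k = 0) ∧
    (D.count (false, k + 2, true) + D.count (true, k + 1, true) ≠ 0 → tt D false k = 0) := by
  simp only [tt, Ne, Nat.add_eq_zero_iff, Multiset.count_eq_zero, not_and_or, not_not]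
  exact ⟨fun a => ⟨h.lk1 _ _ a, h.lk1 _ _ a⟩, fun a => a.elim (fun a => ⟨h.lk2 _ _ a, h.lk2 _ _ a⟩)
    fun a => ⟨h.lk3 _ _ a, h.lk3 _ _ a⟩⟩

theorem NFe.sz (h : NFe m D) {L : ℕ} (hL : (D.map Blk.sz).sum < 2 * L + 5) :
    (D.map Blk.sz).sum = ∑ i ∈ range (2 * L + 5), i * (2 * aE o D i) +
      2 * ∑ j ∈ range (L + 2), zE o j (wE o D j) := by
  have h1 : ∀ j, 2 * aE o D (2 * j + 1 + 1) = 2 * (D.count (true, 2 * j + 1 + 1, false) +
      D.count (true, 2 * j + 1 + 1, true)) ∧ D.count (false, 2 * j + 1, false) = 0 ∧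
      D.count (false, 2 * j + 1, true) = 0 := fun j => by
    have := (h.ev (j + 1)).1
    rw [mul_add_one] at this
    simp [aE, this, h.ev]
  have h2 : ∀ j, j ≠ 0 → ¬ (Sx o D ∧ j = 1) →
      (2 * j + 1) * (2 * (D.count (true, 2 * j + 1, false) + D.count (true, 2 * j + 1, true))) +
      (2 * j + 1 + 1) * tt D false (2 * j + 2) = (2 * j + 1) * (2 * aE o D (2 * j + 1)) +
      2 * zE o j (wE o D j) := fun j hj hs => by
    have a1 := h.cnt true (2 * j + 1)
    have a2 := (h.lk 2).2
    simp only [aE, zE, wE, hs, hj, if_neg (show 2 * j + 1 ≠ 1 by omega), if_false]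
    by_cases e : tt D false (2 * j + 2) = 0
    · have : D.count (false, 2 * j + 2, true) = 0 := by unfold tt at e; omega
      rcases Nat.le_one_iff_eq_zero_or_eq_one.1 a1 with a | a <;> simp [e, a, this, hj] <;> ring
    by_cases e' : o ∧ j = 1
    · obtain ⟨rfl, rfl⟩ := e'
      have : ¬ (D.count (false, 4, true) + D.count (true, 3, true) ≠ 0) := fun a =>
        hs ⟨⟨rfl, a2 a, e⟩, rfl⟩
      simp only [e, this]; simp; ring
    · simp only [e, e']; simp; ring
  rw [sz_sum (lt_of_sz hL), show 2 * L + 5 = 2 * (L + 2) + 1 by ring, sum_range_succ', sum_range_succ',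
    sum_two_mul, sum_two_mul, mul_sum, zero_mul, zero_mul, add_zero, add_zero, ← sum_add_distrib]
  simp only [h1, add_zero, mul_add (2 * _ + 1 + 1)]
  rw [sum_range_succ', sum_range_succ', sum_range_succ', sum_range_succ', add_assoc,
    add_assoc (Finset.sum _ _)]
  refine congrArg₂ _ (sum_congr rfl fun j _ => ?_) ?_
  · have := h2 (j + 1 + 1) (by omega) (by omega)
    unfold tt at this
    linarith
  have a1 := h.cnt true 1
  by_cases hs : Sx o D
  · obtain ⟨rfl, a2, a3⟩ := id hs
    rcases Nat.le_one_iff_eq_zero_or_eq_one.1 a1 with a | a <;>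
      simp only [aE, zE, wE, hs, a, a2, a3, mul_zero, mul_one, zero_add, Nat.reduceAdd] <;>
      simp [tt, -Multiset.count_eq_zero, -Nat.add_eq_zero_iff] at a2 a3 ⊢ <;> omega
  · have := h2 1 one_ne_zero (by simp [hs])
    simp only [aE, zE, wE, hs, tt] at this ⊢
    simp at this ⊢
    omega

theorem NFe.recover (h : NFe m D) (h' : NFe m' D') (hw : wE o D = wE o D') (hA : aE o D = aE o D') :
    D = D' ∨ ∃ p k s, (k = (if p then 1 else 2) ∨ o ∧ k = if p then 3 else 4) ∧ (p, k, s) ∈ D ∧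
      (p, k, !s) ∈ D' ∧ D.erase (p, k, s) = D'.erase (p, k, !s) := by
  have t1 : ∀ j, tt D false (2 * j + 2) = tt D' false (2 * j + 2) := fun j =>
    congrArg Prod.fst (congrFun hw j)
  have t2 : Sx o D ↔ Sx o D' := by simp only [Sx, t1 0, t1 1]
  let j₀ := if Sx o D' then 1 else 0
  have t3 : ∀ j, tt D true (2 * j + 1) = tt D' true (2 * j + 1) ∧ (j ≠ j₀ ∨ tt D true (2 * j + 1) = 0 →
      D.count (true, 2 * j + 1, true) = D'.count (true, 2 * j + 1, true)) ∧
      (j ≠ j₀ ∨ tt D true (2 * j + 1) ≠ 0 →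
      D.count (false, 2 * j + 2, true) = D'.count (false, 2 * j + 2, true)) := fun j => by
    have a1 := congrArg Prod.snd (congrFun hw j)
    have a0 := congrArg Prod.snd (congrFun hw 1)
    have a2 := congrFun hA (2 * j + 1)
    have b := And.intro (t1 j) <| And.intro (h.cnt true (2 * j + 1)) <| And.intro
      (h'.cnt true (2 * j + 1)) <| And.intro (h.cnt false (2 * j + 2)) <| And.intro
      (h'.cnt false (2 * j + 2)) <| And.intro (h.lk (2 * j + 1)).1 (h'.lk (2 * j + 1)).1
    simp only [wE, aE, t2, decide_eq_decide, t1, show 2 * j + 1 = 1 ↔ j = 0 by omega] at a0 a1 a2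
    rw [show 2 * j + 1 + 1 = 2 * j + 2 from rfl] at b
    rcases eq_or_ne j 0 with rfl | hj <;> by_cases hs : Sx o D'
    · have := hs.2
      simp only [j₀, hs, tt, if_true, and_true, mul_zero, zero_add] at this a0 a2 b ⊢; omega
    · simp only [j₀, hs, tt, if_true, if_false] at a2 b ⊢; omega
    · by_cases h1 : j = 1
      · have := hs.2
        subst h1
        simp only [j₀, hs, tt, hj, if_true, if_false, mul_one, Nat.reduceAdd] at this a2 b ⊢
        split_ifs at a2 <;> omega
      simp only [j₀, hs, h1, hj, tt, if_true, if_false, and_false] at a1 a2 b ⊢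
      split_ifs at a2 <;> omega
    · simp only [j₀, hs, hj, tt, if_false, false_and] at a1 a2 b ⊢
      split_ifs at a2 <;> omega
  have t4 : ∀ j, tt D true (2 * j) = tt D' true (2 * j) := fun j => by
    simpa [aE, tt, h.ev, h'.ev] using congrFun hA (2 * j)
  let p := decide (tt D true (2 * j₀ + 1) ≠ 0)
  refine (near (p₀ := p) (k₀ := if p then 2 * j₀ + 1 else 2 * j₀ + 2) (fun p k => ?_) (h.cnt _ _)
    (h'.cnt _ _) fun p' k e => ?_).imp_right fun ⟨s, a⟩ => ⟨p, _, s, ?_, a⟩
  · obtain ⟨j, rfl | rfl⟩ := Nat.even_or_odd' k <;> cases p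
    · cases j
      exacts [by simp [h.zero, h'.zero], t1 _]
    exacts [t4 j, by simp [h.ev, h'.ev], (t3 j).1]
  · obtain ⟨j, rfl | rfl⟩ := Nat.even_or_odd' k <;> cases p'
    · cases j with
      | zero => simp [h.zero, h'.zero]
      | succ j => exact (t3 j).2.2 (by by_contra! a; simp [p, ← a.1, a.2, mul_add] at e)
    · simp [h.ev, h'.ev]
    · simp [h.ev, h'.ev]
    · exact (t3 j).2.1 (by by_contra! a; simp [p, ← a.1, a.2] at e)
  · by_cases hs : Sx o D'
    · exact .inr ⟨hs.1, by simp [j₀, hs]⟩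
    · exact .inl (by simp [j₀, hs])

variable {F : Type*} [Field F] [Fintype F]

local notation "q" => (Fintype.card F : ℝ)

theorem even_count {ι : Type*} [Finite ι] {n : ℕ} (o : Bool) (D : ι → Multiset Blk) (h : ι → ℕ → F[X])
    (nf : ∀ c, (∃ m, NFe m (D c)) ∧ PD (2 * n + 5) (h c) ∧
      2 * n = ((D c).map Blk.sz).sum + ∑ i ∈ range (2 * n + 5), i * (h c i).natDegree)
    (inj : ∀ c c', wE o (D c) = wE o (D c') → aE o (D c) = aE o (D c') → h c = h c' → c = c') :
    (Nat.card ι : ℝ) ≤ q ^ n * (3.46422 * if o then 4.2 else 4.386875) := by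
  have bg : ∀ c i, 2 * n + 3 ≤ i → ∀ p s, (D c).count (p, i, s) = 0 := fun c i hi p s =>
    count_big (by have := (nf c).2.2; omega) hi p s
  refine card_le_code (L := 2 * n + 3) (n := n) (sA := fun w => ∑ j ∈ range (n + 2), zE o j (w j))
    (q ^ ·) Pal bd_pal (bd_comb (inv_anti₀ two_pos two_le_q)
    (bd_even o (n + 2)) (bd_pol2 _) n) (fun c => wE o (D c)) (fun c i => hO (aE o (D c) i) 0 (h c i))
    (fun c => ?_) (fun c i => ((nf c).2.1.pal i).hO _ _)
    (fun c i hi => by simp [hO, aE, bg c i (by omega), (nf c).2.1.big i hi])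
    (fun c => ((nf c).2.1.pal 1).hO _ _) (fun c => ?_) fun c c' e1 e2 => ?_
  · obtain ⟨⟨_, a⟩, -⟩ := nf c
    refine ⟨fun j => a.two _, by simp [wE], fun j hj => decide_eq_false fun e => hj ?_, fun j hj => by
      simp [wE, tt, bg c (2 * j + 1) (by omega), bg c (2 * j + 2) (by omega), show j ≠ 1 by omega]⟩
    by_cases hs : Sx o (D c) ∧ j + 1 = 1
    · rw [show j = 0 by omega]; exact hs.1.2.1
    · exact (a.lk _).2 (by simpa only [hs, if_false, mul_add_one] using e.2)
  · obtain ⟨⟨_, a1⟩, a3, a4⟩ := nf c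
    rw [a1.sz (o := o) (L := n) (by omega)] at a4
    refine Eq.trans ?_ a4.symm
    simp only [(a3.pal _).natDegree_hO, mul_add _ (2 * _), sum_add_distrib, mul_zero, add_zero, mul_add _ _ (natDegree _),
      show 2 * n + 3 + 2 = 2 * n + 5 from rfl]
    ring
  have e3 : ∀ i, aE o (D c) i = aE o (D c') i ∧ h c i = h c' i := fun i => by
    cases i with
    | zero =>
      obtain ⟨⟨_, a⟩, -⟩ := nf c
      obtain ⟨⟨_, a'⟩, -⟩ := nf c'
      simp [aE, a.zero, a'.zero, (nf _).2.1.zero]
    | succ i =>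
      obtain ⟨a1, a2⟩ := pow_mul_cancel (by simp [(nf c).2.1.one]) (by simp [(nf c').2.1.one]) (e2 i)
      exact ⟨by omega, by simpa using a2⟩
  exact inj c c' e1 (funext fun i => (e3 i).1) (funext fun i => (e3 i).2)

end Cfsg.Agent.H6N
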