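import Cfsg.Agent.H6.Ev

/-!
Upper bounds for class numbers of symplectic and orthogonal groups in characteristic two.
-/

set_option autoImplicit false

namespace Cfsg.Agent.H6N

open QuadraticMap Module H7 Polynomial Finset Matrix
open H6 hiding perp mem_perp finrank_perp
open scoped Classical

variable {F V : Type*} [Field F] [AddCommGroup V] [Module F V] [FiniteDimensional F V]
  {Q : QuadraticForm F V} {α : F}

theorem ts_le {E T : Submodule F V} (hT : TS Q T) (hE : ∀ v ∈ T, v ∈ perp Q E → v ∈ E) :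
    finrank F T ≤ finrank F E := by
  let φ : T →ₗ[F] Dual F E := E.subtype.dualMap ∘ₗ polarBilin Q ∘ₗ T.subtype
  have h1 := φ.finrank_range_add_finrank_ker
  have h2 := Subspace.finrank_add_finrank_dualAnnihilator_eq (T.comap E.subtype)
  have h3 : LinearMap.range φ ≤ (T.comap E.subtype).dualAnnihilator := by
    rintro _ ⟨v, rfl⟩
    exact (Submodule.mem_dualAnnihilator _).2 fun w hw => hT.polar_eq v.2 hw
  have h4 := LinearMap.finrank_le_finrank_of_injective (f := LinearMap.codRestrict (T.comap E.subtype)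
    (LinearMap.codRestrict E (T.subtype ∘ₗ (LinearMap.ker φ).subtype) fun v => hE _ v.1.2
      (mem_perp.2 fun u hu => (B_comm ..).trans (LinearMap.congr_fun v.2 ⟨u, hu⟩))) fun v => v.1.2)
    fun a b e => Subtype.ext (Subtype.ext (congrArg (·.1.1) e))
  have := Submodule.finrank_mono h3
  omega

theorem not_mv_of {d : ℕ} {U U' : Submodule F V} {σ : OG Q} (hσ : ∀ v ∈ U, σ.1 v ∈ U')
    (e : Fin (d + 1) → V) (e' : Fin d → V) (he : ∀ c : Fin (d + 1) → F, ∑ i, c i • e i = 0 → c = 0)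
    (h1 : ∀ i, e i ∈ U ∧ Q (e i) = 0 ∧ ∀ j, polar Q (e i) (e j) = 0)
    (h2 : ∀ v ∈ U', Q v = 0 → (∀ i, polar Q (e' i) v = 0) → ∃ c : Fin d → F, ∑ i, c i • e' i = v) :
    False := by
  have h3 : TS Q ((Submodule.span F (Set.range e)).map σ.1.toLinearMap) := (ts_span
    (by simpa using fun i => (h1 i).2.1) (by simpa using fun i => (h1 i).2.2)).map σ
  have h4 := ts_le (E := Submodule.span F (Set.range e')) h3 fun v hv h =>
    (Submodule.mem_span_range_iff_exists_fun _).2 (h2 v (by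
      obtain ⟨u, hu, rfl⟩ := hv
      exact hσ u (Submodule.span_le.2 (Set.range_subset_iff.2 fun i => (h1 i).1) hu)) (h3 v hv)
      fun i => mem_perp.1 h _ (Submodule.subset_span ⟨i, rfl⟩))
  have h5 := finrank_range_le_card (R := F) e'
  rw [LinearEquiv.finrank_map_eq, finrank_span_eq_card
    (Fintype.linearIndependent_iff.2 fun c hc => congrFun (he c hc))] at h4
  simp [Set.finrank] at h4 h5
  omega

omit [FiniteDimensional F V] in
theorem IsBlk.tab {n : Module.End F V} {p s : Bool} {m : ℕ} {U : Submodule F V} {x y : V}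
    (two : (2 : F) = 0) (u : UI Q n) (B : IsBlk Q n α (p, m, s) U x y) : ∃ X Y : ℕ → V, (∀ j, X j ∈ U) ∧
    (∀ v ∈ U, ∃ a c : Fin m → F, ∑ j, a j • X j + ∑ j, c j • Y j = v) ∧
    (∀ j, Q (X j) = Blk.qx α (p, m, s) j) ∧ (∀ j, Q (Y j) = Blk.qy α (p, m, s) j) ∧
    (∀ i j, m ≤ i + j → polar Q (X i) (X j) = 0 ∧ polar Q (Y i) (Y j) = 0) ∧
    (∀ i j, m ≤ i + j + 1 → polar Q (X i) (Y j) = (if p ∧ i + j + 1 = m then 1 else 0) ∧
      polar Q (Y j) (X i) = if p ∧ i + j + 1 = m then 1 else 0) ∧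
    (∀ i j, i + j + 1 = m → polar Q (X i) (X j) = polar Q (X 0) (X (i + j)) ∧
      polar Q (Y i) (Y j) = polar Q (Y 0) (Y (i + j))) ∧
    (∀ j, polar Q (X j) (X (j + 1)) = Blk.qx α (p, m, s) (j + 1) ∧
      polar Q (X (j + 1)) (X j) = Blk.qx α (p, m, s) (j + 1)) ∧ (p = false → ∀ j, Y j = 0) := by
  have neg : (-1 : F) = 1 := by linear_combination -two
  refine ⟨fun j => (n ^ j) x, fun j => (n ^ j) y, pw_mem B.inv B.x_mem, fun v hv => B.coord hv, B.qx,
    B.qy, fun i j h => ⟨u.t0' B.kx h x, u.t0' B.ky h y⟩, fun i j h => ?_, fun i j h => ?_, fun j => ?_,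
    fun h j => by simp [B.y0 h]⟩
  · rw [B_comm Q ((n ^ j) y), and_self]
    rcases h.eq_or_lt with rfl | h
    · rw [u.t1' B.ky rfl, ← B.bxy, u.t1 _ B.ky, neg, one_pow, one_pow]
    · rw [u.t0' B.ky (by simp; omega), if_neg (by omega)]
  · subst h
    rw [u.t1' B.kx rfl, u.t1' B.ky rfl, neg, one_pow, one_mul, one_mul]; exact ⟨rfl, rfl⟩
  · rw [B_comm Q ((n ^ j) x), and_self, ← B.qx, u.q_succ, ← neg_one_mul, neg, one_mul]

theorem not_mv_even (two : (2 : F) = 0) (hα : ∀ t, t ^ 2 + t + α ≠ 0) (p : Bool) (k : ℕ)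
    (h : k = (if p then 1 else 2) ∨ k = if p then 3 else 4) : ¬ Mv Q α (p, k, false) (p, k, true) := by
  rintro ⟨n, n', U, x, y, U', x', y', σ, u, u', B, B', hσ⟩
  have an := aniso_of_no_root hα
  obtain ⟨X, Y, a1, -, a2, -, a3, a4, a5, a6, -⟩ := B.tab two u
  obtain ⟨X', Y', -, b1, b2, b3, b4, b5, b6, b7, b8⟩ := B'.tab two u'
  have key : ∀ {d} (e : Fin d → V) (c : Fin d → F), ∑ i, c i • e i = 0 → ∀ w,
      ∑ i, c i * polar Q (e i) w = 0 := fun e c h w => by
    simpa [B_sum_left] using congrArg (polar Q · w) h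
  cases p <;> simp only [Bool.false_eq_true, if_true, if_false] at h <;> rcases h with rfl | rfl
  · refine not_mv_of hσ ![X 0] ![] (fun c hc => ?_) (by simp [two, a1, a2, Blk.qx]) fun v hv h _ => ?_
    · ext i; fin_cases i; simpa [a6, Blk.qx] using key _ c hc (X 1)
    obtain ⟨a, c, rfl⟩ := b1 v hv
    simp [Q_add, Q_smul, b2, b7, b8, Blk.qx] at h
    simp [b8, an (a 1) (a 0) (by linear_combination h)]
  · have c1 : polar Q (X 3) (X 0) = 1 := by simpa [a6, Blk.qx] using (a5 3 0 rfl).1.trans (a5 1 2 rfl).1.symm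
    have c2 : polar Q (X' 3) (X' 0) = 1 := by
      simpa [b7, Blk.qx] using (b6 3 0 rfl).1.trans (b6 1 2 rfl).1.symm
    refine not_mv_of hσ ![X 1, X 3] ![X' 3] (fun c hc => ?_) (by
      simp [Fin.forall_fin_two, two, a1, a2, a3, Blk.qx]) fun v hv h h' => ?_
    · have h1 := key _ c hc (X 0)
      have h2 := key _ c hc (X 2)
      simp [c1, a6 0, a6 1, a3, Blk.qx] at h1 h2
      ext i; fin_cases i <;> simp [h1, h2]
    obtain ⟨a, c, rfl⟩ := b1 v hv
    simp [Fin.sum_univ_succ, b8, c2, b4] at h'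
    simp [Fin.sum_univ_succ, Q_add, Q_smul, h', b2, b7 1, b4, b8, Blk.qx] at h
    exact ⟨![a 3], by simp [Fin.sum_univ_succ, b8, h', an (a 2) (a 1) (by linear_combination h)]⟩
  · refine not_mv_of hσ ![X 0] ![] (fun c hc => ?_) (by simp [two, a1, a2, Blk.qx]) fun v hv h _ => ?_
    · ext i; fin_cases i; simpa [a4] using key _ c hc (Y 0)
    obtain ⟨a, c, rfl⟩ := b1 v hv
    simp [Q_add, Q_smul, b2, b3, b5, Blk.qx, Blk.qy] at h
    simp [an (a 0) (c 0) (by linear_combination h)]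
  · have c1 := (a5 2 0 rfl).1.trans (a5 1 1 rfl).1.symm
    rw [B_self, two, zero_mul] at c1
    have c2 := (b6 2 0 rfl).1.trans (b6 1 1 rfl).1.symm
    rw [B_self, two, zero_mul] at c2
    have c3 := (b6 2 0 rfl).2.trans (b6 1 1 rfl).2.symm
    rw [B_self, two, zero_mul] at c3
    refine not_mv_of hσ ![X 0, X 1, X 2] ![X' 2, Y' 2] (fun c hc => ?_) (by
      simp [Fin.forall_fin_succ, two, a1, a2, a3, a6 0, c1, B_comm Q (X 0) (X 2), Blk.qx])
      fun v hv h h' => ?_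
    · have h1 := key _ c hc (Y 2)
      simp [Fin.sum_univ_succ, a4] at h1
      have h2 := key _ c hc (Y 1)
      simp [Fin.sum_univ_succ, a4, h1] at h2
      have h3 := key _ c hc (Y 0)
      simp [Fin.sum_univ_succ, a4, h1, h2] at h3
      ext i; fin_cases i <;> simp [h1, h2, h3]
    obtain ⟨a, c, rfl⟩ := b1 v hv
    simp [Fin.forall_fin_two, Fin.sum_univ_succ, c2, c3, b4, b5] at h'
    simp [Fin.sum_univ_succ, Q_add, Q_smul, h', b2, b3, b4, b5, Blk.qx, Blk.qy] at h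
    exact ⟨![a 2, c 2], by simp [Fin.sum_univ_succ, h', an (a 1) (c 1) (by linear_combination h)]⟩

variable [Fintype F] {n : ℕ}

local notation "q" => (Fintype.card F : ℝ)

theorem exists_noroot : ∃ α : F, ∀ t, t ^ 2 + t + α ≠ 0 := by
  by_contra! h
  exact (neg_ne_zero.2 (one_ne_zero (α := F))).symm (Finite.injective_iff_surjective.2
    (fun ζ => (h (-ζ)).imp fun t ht => show t ^ 2 + t = ζ by linear_combination ht)
    (show (0 : F) ^ 2 + 0 = (-1) ^ 2 + -1 by ring))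

theorem even_data (two : (2 : F) = 0) (hα : ∀ t, t ^ 2 + t + α ≠ 0) (hQ : ND Q) {g : Module.End F V}
    (hg : ∀ v, Q (g v) = Q v) (hV : finrank F V = 2 * n) :
    ∃ D h, Full Q g α (2 * n + 5) ⊤ D 0 h ∧ (∃ m, NFe m D) ∧ PD (2 * n + 5) h ∧
      2 * n = (D.map Blk.sz).sum + ∑ i ∈ range (2 * n + 5), i * (h i).natDegree := by
  obtain ⟨D₁, D₂, h, a1, a2, -, a3, a4⟩ := exists_full (α := α) hQ hg (fun D => ∃ m, NFe m D)
    (fun c hc W m hW hm => let ⟨D, h1, h2⟩ := nf_even (uI_of hg hc) two hα hW hm; ⟨D, h1, m, h2⟩)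
    (fun D ⟨_, h⟩ b hb => (h.le b hb).1) (show _ < 2 * n + 5 by omega)
  obtain rfl := a3 two
  exact ⟨D₁, h, a1, a2, by simpa [hV] using a4⟩

theorem upper_two (two : (2 : F) = 0) (hQ : ND Q) (hV : finrank F V = 2 * n) :
    (Nat.card (ConjClasses (OG Q)) : ℝ) ≤ 15 * q ^ n := by
  obtain ⟨α, hα⟩ := exists_noroot (F := F)
  choose D h a1 a2 using fun c : ConjClasses (OG Q) => even_data two hα hQ
    (g := (Quotient.out c : OG Q).1.toLinearMap) (OG.map_Q _) hV
  refine (even_count true D h a2 fun c c' e1 e2 e3 => ?_).trans (by rw [mul_comm]; gcongr; norm_num)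
  obtain ⟨⟨_, b1⟩, -⟩ := a2 c
  obtain ⟨⟨_, b2⟩, -⟩ := a2 c'
  have c1 := a1 c
  rw [e3] at c1
  rw [(b1.recover b2 e1 e2).resolve_right fun ⟨p, k, s, h0, h1, h2, h3⟩ =>
    not_mv_even (Q := Q) two hα p k (h0.imp_right And.right) (by
      cases s
      exacts [c1.mv₁ hQ (OG.map_Q _) (OG.map_Q _) (a1 c') h1 h2 h3,
        (a1 c').mv₁ hQ (OG.map_Q _) (OG.map_Q _) c1 h2 h1 h3.symm])] at c1
  exact cc_eq ((c1.lnk' (OG.map_Q _) (OG.map_Q _) (a1 c')).isConj hQ)

theorem upper_sp (two : (2 : F) = 0) :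
    (Nat.card (ConjClasses (symplecticGroup (Fin n) F)) : ℝ) ≤ 15.2 * q ^ n := by
  obtain ⟨α, hα⟩ := exists_noroot (F := F)
  have := CharTwo.of_one_ne_zero_of_two_eq_zero one_ne_zero two
  obtain ⟨Q₀, h₀⟩ := exists_pG_eq_of_alt (isAlt_J (F := F) (κ := Fin n))
  choose Q q1 q2 using fun c : ConjClasses (symplecticGroup (Fin n) F) =>
    dye (Q := Q₀) (A := (Quotient.out c : symplecticGroup (Fin n) F).1)
      (h₀ ▸ SymplecticGroup.mem_iff'.1 (Quotient.out c : symplecticGroup (Fin n) F).2)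
  have nd : ∀ c, ND (Q c) := fun c => det_pG.1 (by rw [q1, h₀]; exact det_J_ne_zero)
  choose D h a1 a2 using fun c => even_data (n := n) two hα (nd c)
    (g := (Quotient.out c : symplecticGroup (Fin n) F).1.mulVecLin) (q2 c) (by simp [two_mul])
  refine (even_count false D h a2 fun c c' e1 e2 e3 => ?_).trans (by rw [mul_comm]; gcongr; norm_num)
  obtain ⟨⟨_, b1⟩, -⟩ := a2 c
  obtain ⟨⟨_, b2⟩, -⟩ := a2 c'
  have c1 := a1 c
  rw [e3] at c1
  have rf : ∀ D : Multiset Blk, Multiset.Rel (Blk.Eqv False α) D D := fun D =>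
    Multiset.rel_refl_of_refl_on fun _ _ => ⟨rfl, rfl, fun _ _ => ⟨rfl, rfl⟩⟩
  obtain ⟨e, h1, h2, -⟩ := (c1.lnk (o := False) (q2 c) (q2 c') (a1 c') (by
    rcases b1.recover b2 e1 e2 with e | ⟨p, k, s, h0, h1, h2, h3⟩
    · exact e ▸ rf _
    rw [← Multiset.cons_erase h1, ← Multiset.cons_erase h2, h3]
    refine .cons ⟨rfl, rfl, fun j hj => ?_⟩ (rf _)
    obtain rfl := h0.resolve_right (by simp)
    have := hj.resolve_left id
    cases p <;> simp [Blk.qx, Blk.qy, this]) (rf _) (.inr two)).equiv (nd c) (nd c')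
  have h3 : ∀ v, LinearMap.toMatrix' e.toLinearMap *ᵥ v = e v := LinearMap.toMatrix'_mulVec _
  refine cc_eq (isConj_iff.2 ⟨⟨LinearMap.toMatrix' e.toLinearMap, SymplecticGroup.mem_iff'.2
    (sf_ext (σ := RingHom.id F) fun u v => ?_)⟩, mul_inv_eq_iff_eq_mul.2 (Subtype.ext
      (matrix_ext_mulVec fun v => ?_))⟩)
  · have := h2 u v
    rw [← bf_pG, ← bf_pG, q1, q1, h₀, ← h3, ← h3] at this
    exact (sf_mulVec ..).symm.trans this
  · simp only [Submonoid.coe_mul, ← mulVec_mulVec, h3]; exact h1 v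

end Cfsg.Agent.H6N
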