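import Cfsg.Agent.H6.Adj
import Cfsg.Agent.H6.BalGr

/-!
Conjugacy classes in unitary groups.
-/

set_option autoImplicit false

namespace Cfsg.Agent.H6

open Matrix FTPG Polynomial

variable {F : Type*} [Field F] {n q : ℕ} {τ : F ≃+* F}

theorem mem_GU_gram (hτ : ∀ x, τ x = x ^ q) (g : GL (Fin n) F) :
    g ∈ GU n F q ↔ g.1ᵀ * 1 * g.1.map (τ : F →+* F) = 1 := by
  rw [mem_GU_iff hτ, Matrix.mul_one]; rfl

variable [Finite F] (hσ : orderOf τ = 2) (hτ : ∀ x, τ x = x ^ q)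

include hσ hτ

theorem gu_conj {A B : GU n F q} (h : IsConj A.1.1 B.1.1) : IsConj A B := by
  obtain ⟨g, h1, h2⟩ := wall_conj (σ := (τ : F →+* F)) (sq_of_orderOf_two hσ) (by simp)
    (eh_one (sq_of_orderOf_two hσ)) ((mem_GU_gram hτ _).1 A.2) ((mem_GU_gram hτ _).1 B.2)
    (Or.inl (exists_ne_of_orderOf_two hσ)) h
  exact isConj_iff.2 ⟨⟨g, (mem_GU_gram hτ _).2 h1⟩,
    Subtype.ext (mul_inv_eq_iff_eq_mul.2 (Units.ext h2))⟩

theorem gu_exists_of_form {A G : Matrix (Fin n) (Fin n) F} (hG : G.det ≠ 0)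
    (h : Aᵀ * G * A.map (τ : F →+* F) = G) : ∃ B : GU n F q, IsConj A B.1.1 := by
  obtain ⟨G', h1, h2, h3⟩ := wall_exists (σ := (τ : F →+* F)) (ε := 1) (sq_of_orderOf_two hσ) hG
    (by simp) h (Or.inl (exists_ne_of_orderOf_two hσ))
  obtain ⟨g, hg⟩ := exists_herm_basis hσ (A := G') (by simpa using (eh_iff.1 h2).1.symm) h1
  obtain ⟨a, rfl⟩ := (isUnit_iff_isUnit_det A).2 (det_ne_zero_of_isom (κ := Fin n) hG h).isUnit
  refine ⟨⟨g⁻¹ * a * g, (mem_GU_gram hτ _).2 ?_⟩, isConj_units_iff.1 (isConj_iff.2 ⟨g⁻¹, by simp⟩)⟩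
  have := isom_of_conj (G := G') (σ := (τ : F →+* F)) (g := g) (A := (g⁻¹ * a * g).1) (B := a.1)
    (by simp [← mul_assoc]) h3
  erw [hg] at this
  exact this

theorem gu_exists {A : Matrix (Fin n) (Fin n) F} (hA : A.det ≠ 0)
    (h : IsConj A ((A.map τ)ᵀ)⁻¹) : ∃ B : GU n F q, IsConj A B.1.1 := by
  obtain ⟨c, hc⟩ := h
  have h1 : (A.map τ)ᵀ.det ≠ 0 := by
    rw [det_transpose]
    exact (RingHom.map_det (τ : F →+* F) A).symm.trans_ne ((_root_.map_ne_zero _).2 hA)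
  have h2 : (A.map τ)ᵀ * c.1 * A = c.1 := by
    rw [mul_assoc, hc.eq, mul_nonsing_inv_cancel_left _ _ h1.isUnit]
  refine gu_exists_of_form hσ hτ (G := c.1.map (τ : F →+* F))
    ((RingHom.map_det (τ : F →+* F) _).symm.trans_ne ((_root_.map_ne_zero _).2
      (GeneralLinearGroup.det_ne_zero c))) ?_
  conv_rhs => rw [← h2, Matrix.map_mul, Matrix.map_mul, transpose_map]
  erw [map_map_inv (σ := (τ : F →+* F)) (sq_of_orderOf_two hσ)]

omit hσ in
theorem gu_inv_eq (B : GU n F q) : ((B.1.1.map τ)ᵀ)⁻¹ = B.1.1 := by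
  have := congrArg transpose ((mem_GU_iff hτ _).1 B.2)
  rw [transpose_mul, transpose_transpose, transpose_one] at this
  exact inv_eq_right_inv this

omit hσ hτ [Finite F] in
theorem IsConj.inv_map_transpose {ι : Type*} [Fintype ι] [DecidableEq ι] {A B : Matrix ι ι F}
    (h : IsConj A B) : IsConj ((A.map τ)ᵀ)⁻¹ ((B.map τ)ᵀ)⁻¹ := by
  obtain ⟨c, hc⟩ := h
  have h1 := congrArg (fun M => ((M.map (τ : F →+* F))ᵀ)⁻¹) hc.eq
  simp only [Matrix.map_mul, transpose_mul, Matrix.mul_inv_rev] at h1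
  have h2 : IsUnit ((c.1.map (τ : F →+* F))ᵀ) := by
    rw [isUnit_transpose]
    exact c.isUnit.map (RingHom.mapMatrix (τ : F →+* F))
  obtain ⟨d, hd⟩ := h2
  rw [← hd, ← coe_units_inv] at h1
  exact ⟨d⁻¹, h1⟩

omit hσ hτ in
theorem rank_inv_sub_one_pow {ι : Type*} [Fintype ι] [DecidableEq ι] {A : Matrix ι ι F}
    (hA : A.det ≠ 0) (m : ℕ) : ((A⁻¹ - 1) ^ m).rank = ((A - 1) ^ m).rank := by
  have h1 : A⁻¹ - 1 = -A⁻¹ * (A - 1) := by
    rw [mul_sub, neg_mul, nonsing_inv_mul _ hA.isUnit]; simp [sub_eq_add_neg, add_comm]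
  rw [h1, Commute.mul_pow, rank_mul_eq_right_of_det_ne_zero]
  · rw [det_pow, det_neg]
    simp [hA]
  · refine (Commute.sub_right ?_ (Commute.one_right _)).neg_left
    rw [Commute, SemiconjBy, nonsing_inv_mul _ hA.isUnit, mul_nonsing_inv _ hA.isUnit]

theorem gu_exists_unip {A : Matrix (Fin n) (Fin n) F} (hA : IsNilpotent (A - 1)) :
    ∃ B : GU n F q, IsConj A B.1.1 := by
  have h0 := hA.isUnit_add_one
  rw [sub_add_cancel, isUnit_iff_isUnit_det] at h0
  have h1 : ∀ m, ((((A.map τ)ᵀ)⁻¹ - 1) ^ m).rank = ((A - 1) ^ m).rank := fun m => by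
    rw [rank_inv_sub_one_pow (by
      rw [det_transpose]
      exact (RingHom.map_det (τ : F →+* F) A).symm.trans_ne ((_root_.map_ne_zero _).2 h0.ne_zero)),
      ← rank_map (τ : F →+* F) ((A - 1) ^ m), ← rank_transpose (Matrix.map _ _),
      ← RingHom.mapMatrix_apply, map_pow, map_sub, map_one, transpose_pow, transpose_sub,
      transpose_one]
    rfl
  obtain ⟨k, hk⟩ := hA
  exact gu_exists hσ hτ h0.ne_zero (isConj_of_unip_one hk (l := k)
    (by rw [← rank_eq_zero_iff, h1, hk, rank_zero]) fun m => (h1 m).symm)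

omit hσ [Finite F] in
theorem su_hr (g : GU n F q) : guDet n hτ g = 1 ↔ g ∈ (suG F n q).range := by
  constructor
  · intro h
    obtain ⟨s, hs⟩ := (mem_suJ_range g.1).2 ⟨congrArg (fun x : normOne F q => x.1.1) h, g.2⟩
    exact ⟨s, Subtype.ext hs⟩
  · rintro ⟨s, rfl⟩
    exact Subtype.ext (Units.ext s.1.2)

omit hσ hτ [Finite F] in
theorem suG_inj : Function.Injective (suG F n q) := fun _ _ h => suJ_inj (congrArg Subtype.val h)

omit [Finite F] in
theorem norm_eq_one_of_nil [NeZero n] (g : GU n F q) {c : F} (h : IsNilpotent (g.1.1 - c • 1)) :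
    c * τ c = 1 := by
  have h2 := sq_of_orderOf_two hσ
  have h1 := (isom_iff_adj (σ := (τ : F →+* F)) h2 (by simp)).1 ((mem_GU_gram hτ _).1 g.2)
  have ha := anti_adj (σ := (τ : F →+* F)) (G := (1 : Matrix (Fin n) (Fin n) F)) h2 (by simp)
  have h3 : IsNilpotent (adj (τ : F →+* F) 1 g.1.1 - τ c • 1) := by
    obtain ⟨k, hk⟩ := h
    refine ⟨k, ?_⟩
    have := congrArg (adj (τ : F →+* F) 1) hk
    rwa [ha.pow, ha.sub, ha.zero, adj_smul_one h2 (by simp)] at this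
  have h4 := comm_inv h1 (X := g.1.1) rfl
  generalize adj (τ : F →+* F) 1 g.1.1 = a at *
  generalize g.1.1 = b at *
  have h5 : IsNilpotent ((a - τ c • 1) * b + τ c • (b - c • 1)) := by
    refine Commute.isNilpotent_add ?_ (Commute.isNilpotent_mul_right ?_ h3) (h.smul _)
    · simp only [Commute, SemiconjBy, mul_sub, sub_mul, h1, smul_mul_assoc, mul_smul_comm, one_mul,
        mul_one]
      module
    · simp [Commute, SemiconjBy, mul_sub, sub_mul, h1, h4]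
  have h6 : (a - τ c • 1) * b + τ c • (b - c • 1) = (1 - c * τ c) • 1 := by
    simp [sub_mul, h1, smul_sub, sub_smul, smul_smul, mul_comm]
  obtain ⟨k, hk⟩ := h5
  rw [h6, _root_.smul_pow, one_pow, smul_eq_zero] at hk
  exact (sub_eq_zero.1 (eq_zero_of_pow_eq_zero (hk.resolve_right one_ne_zero))).symm

end Cfsg.Agent.H6
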