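import Cfsg.Agent.H6.Gr
import Cfsg.Agent.H6.Cyc
import Cfsg.Agent.S2687

/-!
Involutory graph automorphisms of unitary groups.
-/

set_option autoImplicit false

namespace Cfsg.Agent.H6

open Matrix Module

attribute [-instance] CStarMatrix.instHMulOfFintypeOfMulOfAddCommMonoid

variable {F F₀ : Type*} [Field F] [Field F₀] {n q : ℕ} {τ : F ≃+* F} {e : F₀ →+* F}

local notation "κ" => Fin n
local notation "sc" => GeneralLinearGroup.scalar (Fin n)
local notation "mp" => GeneralLinearGroup.map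

theorem gram_two (he : ∀ x, τ x = x ↔ ∃ y, e y = x) {h h' : GL κ F} {B : Matrix κ κ F₀} {d : F}
    (hB : B.map e = d • (h.1ᵀ * h.1.map τ)) (y : GL κ F₀) : (y.1ᵀ * B * y.1).map e =
      d • (h'.1ᵀ * ((h * mp e y * h'⁻¹).1ᵀ * (h * mp e y * h'⁻¹).1.map τ) * h'.1.map τ) := by
  have e1 : (y.1.map e).map τ = y.1.map e := congrArg Units.val (glField_map he y)
  have e2 : (h * mp e y * h'⁻¹).1 * h'.1 = h.1 * y.1.map e := by
    rw [← Units.val_mul, inv_mul_cancel_right]; rfl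
  generalize (h * mp e y * h'⁻¹).1 = Z at *
  have : h'.1ᵀ * (Zᵀ * Z.map τ) * h'.1.map τ = (Z * h'.1)ᵀ * (Z * h'.1).map τ := by
    simp only [transpose_mul, Matrix.map_mul, mul_assoc]
  rw [this, e2, Matrix.map_mul, Matrix.map_mul, hB, transpose_mul, Matrix.map_mul, e1,
    transpose_map]
  simp only [mul_smul_comm, smul_mul_assoc, mul_assoc]

theorem center_aux {G : Type*} [Group G] {u g h H u' g' h' H' y Y : G}
    (hu : u ∈ Subgroup.center G) (hu' : u' ∈ Subgroup.center G) (e : h = u * g * H)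
    (e' : h' = u' * g' * H') : g⁻¹ * (y * g' * Y⁻¹) ∈ Subgroup.center G ↔
      h⁻¹ * y * h' * (H⁻¹ * Y * H')⁻¹ ∈ Subgroup.center G := by
  simp only [← QuotientGroup.eq_one_iff, e, e', QuotientGroup.mk_mul, QuotientGroup.mk_inv,
    (QuotientGroup.eq_one_iff _).2 hu, (QuotientGroup.eq_one_iff _).2 hu', one_mul]
  rw [← conj_eq_one_iff (a := (H : G ⧸ Subgroup.center G)⁻¹)]
  group

variable (τ e n q) in
def relU (γ : MulAut (PSU n F q)) (h : GL κ F) (B : Matrix κ κ F₀) : Prop :=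
  ∃ (g : GU n F q) (u : Fˣ) (d : F), γ = suD F n q g * suΦ F n q τ ∧
    h = sc u * g * glField κ F τ h ∧ d ≠ 0 ∧ B.map e = d • (h.1ᵀ * h.1.map τ) ∧ (Bᵀ = B ∨ Bᵀ = -B)

theorem grU [Fintype F] (hF : Fintype.card F = q ^ 2) (hσ : orderOf τ = 2) (hτ : ∀ x, τ x = x ^ q)
    (he : ∀ x, τ x = x ↔ ∃ y, e y = x) (hn : 3 ≤ n) : GrD (suD F n q) (GU n F q).subtype e
    (fun γ => IsGraphAutClassPSU γ ∧ orderOf γ = 2) (relU n q τ e)
    fun v c => v * τ v * e c = 1 := by
  have h2 : 2 ≤ n := by omega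
  have : NeZero n := ⟨by omega⟩
  have hτ2 : τ ^ 2 = 1 := hσ ▸ pow_orderOf_eq_one τ
  have hsq : ∀ g σ, (suD F n q g * suΦ F n q σ) ^ 2 =
      suD F n q (g * guField F n q σ g) * suΦ F n q (σ ^ 2) := fun g σ => by
    rw [map_mul, ← suΦ_conj, map_pow, sq, sq]; group
  have hdet : ∀ {h : GL κ F} {B : Matrix κ κ F₀} {d : F}, d ≠ 0 →
      B.map e = d • (h.1ᵀ * h.1.map τ) → B.det ≠ 0 := fun {h B d} hd hB h0 => by
    have := congrArg det hB
    rw [← RingHom.mapMatrix_apply, ← RingHom.map_det, h0, map_zero, det_smul] at this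
    exact mul_ne_zero (pow_ne_zero _ hd)
      (GeneralLinearGroup.det_ne_zero (glT h * glField κ F τ h)) this.symm
  have hsm : ∀ (v : Fˣ) (Z : GL κ F), (sc v * Z).1ᵀ * (sc v * Z).1.map τ =
      (v * τ v) • (Z.1ᵀ * Z.1.map τ) := fun v Z => by
    rw [coe_scalar_mul, transpose_smul, Matrix.map_smul' _ _ _ (map_mul τ), smul_mul_smul_comm]
  have hc := fun v => Subgroup.mem_center_iff.1 (scalar_mem_center (ι := κ) (F := F) v)
  refine ⟨suD_eq_one_iff hσ hτ h2, ?_, fun B h3 h4 => ?_, ?_, ?_, ?_, ?_⟩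
  · rintro _ ⟨⟨-, _, _, σ, h3, h4, h5, rfl⟩, hx⟩
    obtain ⟨g, rfl⟩ := (isInnerDiagonalAutPSU_iff _).1 h4
    obtain rfl := (isFieldAutPSUOf_iff _ _).1 h5
    have h6 := pow_orderOf_eq_one (suD F n q g * suΦ F n q σ)
    rw [hx, hsq] at h6
    have h7 : σ ^ 2 = 1 := eq_one_of_suΦ_mem hσ hτ hn
      ⟨_, by rw [map_inv, eq_inv_of_mul_eq_one_right h6]⟩
    obtain rfl : τ = σ := RingEquiv.ext fun x => (hτ x).trans (eq_pow_of_orderOf_two hF
      (orderOf_eq_prime h7 (by rintro rfl; simp at h3)) x).symm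
    rw [h7, map_one, mul_one, suD_eq_one_iff hσ hτ h2] at h6
    obtain ⟨u, h, hu⟩ := lang_gl_field hσ (g := g.1) (by simpa [tnrm, List.range_succ] using h6)
    rw [eq_mul_inv_iff_mul_eq, eq_comm] at hu
    obtain ⟨B, d, hd, hB, hs⟩ := S2687.exists_form hσ hτ he g.2 hu
    exact ⟨h, B, g, u, d, rfl, hu, hd, hB, hs⟩
  · obtain ⟨d, μ, hd0, hd, hμ, hB⟩ : ∃ d μ : F, d ≠ 0 ∧ τ d = μ * d ∧ μ * μ = 1 ∧
        (B.map e)ᵀ = μ • B.map e := by
      rw [← transpose_map]
      rcases h4 with h | h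
      · exact ⟨1, 1, one_ne_zero, by simp, by simp, by simp [h]⟩
      · obtain ⟨k, h3, h4⟩ := exists_trace_zero hσ
        exact ⟨k, -1, h3, by linear_combination h4, by simp,
          by simp [h, Matrix.map_neg _ (map_neg e)]⟩
    have h5 : (B.map e).map τ = B.map e := ext fun _ _ => (he _).2 ⟨_, rfl⟩
    have h6 : (d • B.map e).map τ = (d • B.map e)ᵀ := by
      rw [Matrix.map_smul' _ _ _ (map_mul τ), h5, transpose_smul, hB, smul_smul, hd, mul_comm]
    obtain ⟨k, hk⟩ := exists_herm_basis hσ (A := d • B.map e)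
      ((congrArg transpose h6).trans (transpose_transpose _)) (by
        rw [det_smul, ← RingHom.mapMatrix_apply, ← RingHom.map_det]
        exact mul_ne_zero (pow_ne_zero _ hd0) ((_root_.map_ne_zero e).2 h3))
    have h7 : d • B.map e = k⁻¹.1ᵀ * k⁻¹.1.map τ := by
      rw [← mul_one k⁻¹.1ᵀ, ← hk]
      change _ = (glT k⁻¹).1 * ((glT k).1 * _ * (glField κ F τ k).1) * (glField κ F τ k⁻¹).1
      rw [map_inv, mul_assoc, Units.mul_inv_cancel_right, ← mul_assoc, ← Units.val_mul,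
        ← glT_mul, mul_inv_cancel]
      simp
    have h8 : ∀ y : GL κ F, glField κ F τ (glField κ F τ y) = y := fun y => by
      rw [← MulAut.mul_apply, ← map_mul, ← sq, hτ2, map_one, MulAut.one_apply]
    obtain ⟨v, hv⟩ := exists_GU_of_gram hσ hτ (g := k⁻¹ * glField κ F τ k) (c := μ) (by
      change _ * (glField κ F τ _).1 = _
      rw [map_mul, h8, Units.val_mul, Units.val_mul, transpose_mul, mul_assoc, ← mul_assoc k⁻¹.1ᵀ,
        coe_glField τ k⁻¹, ← h7, ← mul_assoc]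
      refine transpose_injective ?_
      rw [transpose_mul,
        transpose_mul, transpose_transpose, transpose_smul, hB, smul_comm, smul_mul_assoc,
        mul_smul_comm, ← mul_assoc, coe_glField, hk, transpose_smul, transpose_one])
    refine ⟨_, k⁻¹, ⟨⟨hn, _, _, τ, by simp [hσ], (isInnerDiagonalAutPSU_iff _).2 ⟨⟨_, hv⟩, rfl⟩,
      (isFieldAutPSUOf_iff _ _).2 rfl, rfl⟩, orderOf_eq_prime ?_ fun h => ?_⟩, ⟨_, hv⟩, v⁻¹, d⁻¹,
      rfl, by simp [mul_assoc], inv_ne_zero hd0, by rw [← h7, inv_smul_smul₀ hd0], h4⟩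
    · rw [hsq, hτ2, map_one, mul_one, suD_eq_one_iff hσ hτ h2, Subgroup.coe_mul, coe_guField,
        map_mul, map_mul, h8, glField_scalar, map_inv, ← mul_assoc, hc]
      simpa [mul_assoc] using mul_mem (scalar_mem_center _) (scalar_mem_center _)
    · have := eq_one_of_suΦ_mem hσ hτ hn ⟨_, by rw [map_inv, eq_inv_of_mul_eq_one_right h]⟩
      simp [this] at hσ
  · rintro _ _ _ ⟨-, -, d, -, -, hd, hB, h⟩
    exact ⟨hdet hd hB, h⟩
  · rintro _ h B _ h' B' ⟨g, u, d, rfl, hu, hd, hB, -⟩ ⟨g', u', d', rfl, hu', hd', hB', -⟩ y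
    have h1 : suD F n q y * (suD F n q g' * suΦ F n q τ) * (suD F n q y)⁻¹ =
        suD F n q (y * g' * (guField F n q τ y)⁻¹) * suΦ F n q τ := by
      rw [map_mul, map_mul, map_inv, ← suΦ_conj]
      group
    rw [h1, mul_left_inj, eq_comm, ← inv_mul_eq_one, ← map_inv, ← map_mul, suD_eq_one_iff hσ hτ h2]
    refine (center_aux (scalar_mem_center u) (scalar_mem_center u') hu hu').trans ?_
    rw [coe_guField, ← map_inv, ← map_mul, ← map_mul, mem_center_gl_iff']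
    constructor
    · rintro ⟨w, hw⟩
      obtain ⟨v, hv⟩ := exists_fixed_smul (mul_inv_eq_iff_eq_mul.1 hw)
      obtain ⟨P, hP⟩ := exists_map_of_fixed he hv
      have e1 : h * mp e P * h'⁻¹ = sc v * y.1 := by rw [hP, ← mul_assoc, hc]; group
      refine ⟨v⁻¹, P, by rw [e1, map_inv, inv_mul_cancel_left]; rfl, ?_⟩
      have e2 := gram_two (h' := h') he hB P
      rw [e1, hsm, (mem_GU_iff hτ _).1 y.2, mul_smul_comm, mul_one, smul_mul_assoc,
        (inv_smul_eq_iff₀ hd').2 hB' |>.symm, smul_smul, smul_smul] at e2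
      obtain ⟨i, j, hij⟩ := exists_entry_ne_zero (GeneralLinearGroup.mkOfDetNeZero _ (hdet hd' hB'))
      have e3 : e ((P.1ᵀ * B * P.1) i j / B' i j) = d * (v * τ v) * d'⁻¹ := by
        rw [map_div₀, div_eq_iff ((_root_.map_ne_zero e).2 (show B' i j ≠ 0 from hij))]
        exact congrFun (congrFun e2 i) j
      generalize (P.1ᵀ * B * P.1) i j / B' i j = c at e3
      refine ⟨Units.mk0 c fun h0 => ?_, Matrix.map_injective e.injective ?_⟩
      · exact absurd (h0 ▸ e3).symm (by simp [hd, hd'])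
      · simp only [e2, Matrix.map_smul' _ _ _ (map_mul e), Units.val_mk0, e3]
    · rintro ⟨v, P, h3, -⟩
      have e1 : h⁻¹ * y.1 * h' = sc v * mp e P := by
        rw [show y.1 = _ from h3, ← mul_assoc, hc]; group
      rw [e1, map_mul, glField_map he, glField_scalar]
      exact ⟨v * (Units.map (τ : F →* F) v)⁻¹, by rw [map_mul, map_inv]; group⟩
  · rintro _ h B _ h' B' ⟨-, -, d, -, -, hd, hB, -⟩ ⟨-, -, d', -, -, -, hB', -⟩ P ⟨c, hP⟩
    have e2 := gram_two (h' := h') he hB P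
    rw [hP, Matrix.map_smul' _ _ _ (map_mul e), hB', smul_smul, ← inv_smul_eq_iff₀ hd, smul_smul,
      ← mul_one h'.1ᵀ, ← smul_mul_assoc, ← mul_smul_comm, mul_one] at e2
    obtain ⟨v, hv⟩ := exists_GU_of_gram hσ hτ
      ((glT h').mul_right_inj.1 ((glField κ F τ h').mul_left_inj.1 e2)).symm
    exact ⟨v, ⟨_, hv⟩, rfl⟩
  · rintro _ h B ⟨-, -, d, -, -, hd, hB, -⟩ P c v hP
    have e1 := hsm v (h * mp e P * h⁻¹)
    rw [(S2687.gram_conj he hd hB P c).1 hP, smul_smul] at e1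
    constructor
    · rintro ⟨y, hy⟩
      rw [← show y.1 = _ from hy, (mem_GU_iff hτ _).1 y.2] at e1
      exact smul_cancel (B := 1) (by simp) (e1.symm.trans (one_smul _ _).symm)
    · exact fun h => ⟨⟨_, (mem_GU_iff hτ _).2 (e1.trans (by rw [h, one_smul]))⟩, rfl⟩

theorem exists_unit_data [Fintype F] [Fintype F₀] (hF : Fintype.card F = q ^ 2)
    (hF₀ : Fintype.card F₀ = q) : ∃ (τ : F ≃+* F) (e : F₀ →+* F), orderOf τ = 2 ∧
      (∀ x, τ x = x ^ q) ∧ ∀ x, τ x = x ↔ ∃ y, e y = x := by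
  obtain ⟨τ, hσ, hτ⟩ := exists_conj_aut hF
  have h := card_fixF_pow τ
  rw [hσ, Nat.card_eq_fintype_card (α := F), hF] at h
  obtain ⟨e, he⟩ := exists_emb_fixF τ F₀ (hF₀.trans (Nat.pow_left_injective two_ne_zero h).symm)
  exact ⟨τ, e, hσ, hτ, he⟩

end Cfsg.Agent.H6
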