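import Cfsg.Agent.H6.JE

/-!
Hilbert's theorem 90 and surjectivity of the norm for finite rings with involution, and
counting of unitary elements.
-/

set_option autoImplicit false

namespace Cfsg.Agent.H6

theorem exists_idem_pow {M : Type*} [Monoid M] [Finite M] (a : M) :
    ∃ n, a ^ (n + 1) * a ^ (n + 1) = a ^ (n + 1) := by
  obtain ⟨i, j, hij, h⟩ := Set.finite_univ.exists_lt_map_eq_of_forall_mem
    (f := fun n : ℕ => a ^ n) fun _ => Set.mem_univ _
  obtain ⟨m, rfl⟩ := Nat.exists_eq_add_of_lt hij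
  have h1 : ∀ l, a ^ (i + (m + 1) * l) = a ^ i := fun l => by
    induction l with
    | zero => simp
    | succ l ih =>
      rw [show i + (m + 1) * (l + 1) = (i + m + 1) + (m + 1) * l by ring, pow_add, ← h, ← pow_add,
        ih]
  refine ⟨m * (i + 1) + i, ?_⟩
  rw [← pow_add, show m * (i + 1) + i + 1 + (m * (i + 1) + i + 1) =
    (i + (m + 1) * (i + 1)) + (m * (i + 1) + 1) by ring, pow_add, h1, ← pow_add]
  congr 1
  ring

section comm

variable {S : Type*} [CommRing S] [StarRing S] [Finite S]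

theorem h90_comm {k x : S} (hk : IsUnit (k - star k)) (hx : x * star x = 1) :
    ∃ y, IsUnit y ∧ y = x * star y := by
  have h1 : ∀ a, a + x * star a = x * star (a + x * star a) := fun a => by
    rw [star_add, star_mul', star_star]
    linear_combination -a * hx
  have h2 := h1 1
  have h3 := h1 k
  have h4 : (k + x * star k) - star k * (1 + x * star 1) = k - star k := by
    rw [star_one]; ring
  generalize 1 + x * star 1 = y at *
  generalize k + x * star k = z at *
  have h5 : y * star y = star x * y ^ 2 := by linear_combination -star x * y * h2 - y * star y * hx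
  obtain ⟨n, he⟩ := exists_idem_pow (y * star y)
  have h6 : star ((y * star y) ^ (n + 1)) = (y * star y) ^ (n + 1) := by
    rw [star_pow, star_mul', star_star, mul_comm]
  have h7 : (y * star y) ^ (n + 1) = star x ^ (n + 1) * y ^ (2 * n + 1) * y := by
    rw [h5]; ring
  have h8 : x ^ (n + 1) * star x ^ (n + 1) = 1 := by rw [← mul_pow, hx, one_pow]
  generalize (y * star y) ^ (n + 1) = e at *
  refine ⟨y * e + (1 - e) * z, IsLeftRegular.isUnit_of_finite
    (isLeftRegular_iff_right_eq_zero_of_mul.2 fun s hs => ?_), ?_⟩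
  · have a1 : e * s = 0 := by
      linear_combination star x ^ (n + 1) * y ^ (2 * n + 1) * e * hs - s * he + e * s * h7 -
        star x ^ (n + 1) * y ^ (2 * n + 1) * s * (y - z) * he
    have a2 : z * s = 0 := by linear_combination hs - (y - z) * a1
    have a3 : y ^ (2 * n + 2) * s = 0 := by
      linear_combination x ^ (n + 1) * a1 - y ^ (2 * n + 2) * s * h8 - x ^ (n + 1) * s * h7
    obtain ⟨c, hc⟩ := sub_dvd_pow_sub_pow (z - star k * y) (-(star k * y)) (2 * n + 2)
    refine ((hk.pow (2 * n + 2)).mul_right_eq_zero).1 ?_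
    rw [← h4]
    linear_combination s * hc + c * a2 + (-star k) ^ (2 * n + 2) * a3
  · rw [star_add, star_mul', star_mul', star_sub, star_one, h6]
    linear_combination e * h2 + (1 - e) * h3

theorem norm_surj_comm {k x : S} (hk : IsUnit (k - star k)) (hx : IsUnit x) (h : star x = x) :
    ∃ y, star y * y = x := by
  let N : Sˣ →* Sˣ := (starMulAut (R := Sˣ)).toMonoidHom * MonoidHom.id _
  let D : Sˣ →* Sˣ := MonoidHom.id _ / (starMulAut (R := Sˣ)).toMonoidHom
  have hN : ∀ u, N u = star u * u := fun _ => rfl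
  have hD : ∀ u, D u = u / star u := fun _ => rfl
  have h1 : N.ker ≤ D.range := fun u hu => by
    obtain ⟨y, ⟨y, rfl⟩, hy⟩ := h90_comm hk (x := u.1) (by
      rw [mul_comm]; exact congrArg Units.val hu)
    exact ⟨y, by rw [hD, div_eq_iff_eq_mul]; exact Units.ext hy⟩
  have h2 : N.range ≤ D.ker := by
    rintro _ ⟨u, rfl⟩
    rw [MonoidHom.mem_ker, hD, hN, star_mul', star_star, mul_comm, div_self']
  have h3 := Subgroup.card_eq_card_quotient_mul_card_subgroup N.ker
  have h4 := Subgroup.card_eq_card_quotient_mul_card_subgroup D.ker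
  rw [Nat.card_congr (QuotientGroup.quotientKerEquivRange _).toEquiv] at h3 h4
  have h5 := Subgroup.card_le_of_le h1
  have h6 := Subgroup.eq_of_le_of_card_ge h2 (by
    have : 0 < Nat.card D.range := Nat.card_pos
    nlinarith)
  obtain ⟨u, rfl⟩ := hx
  obtain ⟨y, hy⟩ : u ∈ N.range := by
    rw [h6, MonoidHom.mem_ker, hD, div_eq_one]
    exact Units.ext h.symm
  exact ⟨y, congrArg Units.val hy⟩

end comm

section noncomm

variable {R : Type*} [Ring R]

/-- an additive anti-multiplicative map -/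
structure Anti (d : R → R) : Prop where
  add : ∀ x y, d (x + y) = d x + d y
  mul : ∀ x y, d (x * y) = d y * d x
  one : d 1 = 1

namespace Anti

variable {d : R → R} (h : Anti d)

include h

theorem zero : d 0 = 0 := by simpa using h.add 0 0

theorem neg (x : R) : d (-x) = -d x := by
  rw [eq_neg_iff_add_eq_zero, ← h.add, neg_add_cancel, h.zero]

theorem sub (x y : R) : d (x - y) = d x - d y := by
  rw [sub_eq_add_neg, h.add, h.neg, sub_eq_add_neg]

theorem pow (x : R) (n : ℕ) : d (x ^ n) = d x ^ n := by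
  induction n with
  | zero => simp [h.one]
  | succ n ih => rw [pow_succ, h.mul, ih, pow_succ']

theorem closure {s : Set R} (hd : ∀ a ∈ s, d a ∈ s) (hdd : ∀ a ∈ s, d (d a) = a) {x : R}
    (hx : x ∈ Subring.closure s) : d x ∈ Subring.closure s ∧ d (d x) = x := by
  induction hx using Subring.closure_induction with
  | mem x hx => exact ⟨Subring.subset_closure (hd x hx), hdd x hx⟩
  | zero => simp [h.zero]
  | one => simp [h.one]
  | add x y _ _ hx hy => exact ⟨h.add x y ▸ add_mem hx.1 hy.1, by rw [h.add, h.add, hx.2, hy.2]⟩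
  | neg x _ hx => exact ⟨h.neg x ▸ neg_mem hx.1, by rw [h.neg, h.neg, hx.2]⟩
  | mul x y _ _ hx hy => exact ⟨h.mul x y ▸ mul_mem hy.1 hx.1, by rw [h.mul, h.mul, hx.2, hy.2]⟩

/-- the involution on a stable subring -/
abbrev starRing (S : Subring R) (hS : ∀ x ∈ S, d x ∈ S ∧ d (d x) = x) : StarRing S where
  star x := ⟨d x, (hS x x.2).1⟩
  star_involutive x := Subtype.ext (hS x x.2).2
  star_mul x y := Subtype.ext (h.mul x y)
  star_add x y := Subtype.ext (h.add x y)

omit h in
theorem isUnit_subring [Finite R] {S : Subring R} {x : S} (hx : IsUnit x.1) : IsUnit x :=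
  IsLeftRegular.isUnit_of_finite fun _ _ h => Subtype.ext (hx.mul_left_cancel (congrArg Subtype.val h))

open scoped IsMulCommutative in
theorem h90 [Finite R] {s : Set R} (hc : ∀ a ∈ s, ∀ b ∈ s, a * b = b * a) (hd : ∀ a ∈ s, d a ∈ s)
    (hdd : ∀ a ∈ s, d (d a) = a) {k x : R} (hk : k ∈ Subring.closure s) (hx : x ∈ Subring.closure s)
    (hu : IsUnit (k - d k))
    (h1 : x * d x = 1) : ∃ y ∈ Subring.closure s, IsUnit y ∧ y = x * d y := by
  have := Subring.isMulCommutative_closure hc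
  letI := h.starRing _ fun x hx => h.closure hd hdd hx
  obtain ⟨y, h2, h3⟩ := h90_comm (S := Subring.closure s) (k := ⟨k, hk⟩)
    (x := ⟨x, hx⟩) (isUnit_subring hu) (Subtype.ext h1)
  exact ⟨y, y.2, h2.map (Subring.subtype _), congrArg Subtype.val h3⟩

open scoped IsMulCommutative in
theorem norm_surj [Finite R] {s : Set R} (hc : ∀ a ∈ s, ∀ b ∈ s, a * b = b * a)
    (hd : ∀ a ∈ s, d a ∈ s) (hdd : ∀ a ∈ s, d (d a) = a) {k x : R} (hk : k ∈ Subring.closure s)
    (hx : x ∈ Subring.closure s) (hu : IsUnit (k - d k)) (h1 : IsUnit x) (h2 : d x = x) :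
    ∃ y ∈ Subring.closure s, d y * y = x := by
  have := Subring.isMulCommutative_closure hc
  letI := h.starRing _ fun x hx => h.closure hd hdd hx
  obtain ⟨y, h3⟩ := norm_surj_comm (S := Subring.closure s) (k := ⟨k, hk⟩)
    (x := ⟨x, hx⟩) (isUnit_subring hu) (isUnit_subring h1) (Subtype.ext h2)
  exact ⟨y, y.2, congrArg Subtype.val h3⟩

end Anti

end noncomm

section count

variable {R S : Type*} [Ring R] [StarRing R] [Ring S] [StarRing S]

theorem norm_surj_central [Finite R] {k x : R} (hk : ∀ y, k * y = y * k) (hu : IsUnit (k - star k))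
    (h1 : IsUnit x) (h2 : star x = x) : ∃ y, star y * y = x := by
  have hk' : ∀ y, star k * y = y * star k := fun y => by
    rw [← star_star y, ← star_mul, ← star_mul, hk]
  obtain ⟨y, -, hy⟩ := Anti.norm_surj (d := star) ⟨star_add, star_mul, star_one R⟩
    (s := {k, star k, x}) (by simp [hk, hk']) (by simp [h2]) (fun a _ => star_star a)
    (Subring.subset_closure (by simp)) (Subring.subset_closure (by simp)) hu h1 h2
  exact ⟨y, hy⟩

/-- orbit counting for the action `x ↦ y† x y` on the orbit of `1` -/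
theorem card_eq_mul_of_norm [Finite R] (Γ : Subgroup Rˣ) (P : R → Prop)
    (h1 : ∀ y ∈ Γ, P (star y.1 * y.1)) (h2 : ∀ x, P x → ∃ y ∈ Γ, star y.1 * y.1 = x) :
    Nat.card Γ = Nat.card {y : Γ // star y.1.1 * y.1.1 = 1} * Nat.card {x // P x} := by
  choose s hs hs' using h2
  rw [← Nat.card_prod]
  refine (Nat.card_congr (Equiv.ofBijective (fun z => z.1.1 * ⟨s z.2.1 z.2.2, hs _ _⟩)
    ⟨?_, fun y => ?_⟩)).symm
  · have key : ∀ (u : Γ) (_ : star u.1.1 * u.1.1 = 1) x hx,
        star (u * ⟨s x hx, hs _ _⟩).1.1 * (u * ⟨s x hx, hs _ _⟩).1.1 = x := fun u hu x hx => by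
      simp only [Subgroup.coe_mul, Units.val_mul, star_mul]
      rw [mul_assoc, ← mul_assoc (star u.1.1), hu, one_mul, hs']
    rintro ⟨⟨u, hu⟩, ⟨x, hx⟩⟩ ⟨⟨u', hu'⟩, ⟨x', hx'⟩⟩ h
    obtain rfl : x = x' := by
      rw [← key u hu x hx, ← key u' hu' x' hx']
      exact congrArg (fun w : Γ => star w.1.1 * w.1.1) h
    obtain rfl : u = u' := mul_right_cancel h
    rfl
  · refine ⟨⟨⟨y * (⟨s _ (h1 y y.2), hs _ _⟩ : Γ)⁻¹, ?_⟩, ⟨_, h1 y y.2⟩⟩, by simp⟩
    have := hs' _ (h1 y y.2)
    generalize_proofs at *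
    generalize s _ _ = w at *
    simp only [Subgroup.coe_mul, Units.val_mul, star_mul, Subgroup.coe_inv]
    rw [mul_assoc, ← mul_assoc (star y.1.1), ← this, mul_assoc, Units.mul_inv, mul_one, ← star_mul,
      Units.mul_inv, star_one]

theorem card_units_eq_mul' [Finite R] (P : R → Prop) (h1 : ∀ y : Rˣ, P (star y.1 * y.1))
    (h2 : ∀ x, P x → ∃ y : Rˣ, star y.1 * y.1 = x) :
    Nat.card Rˣ = Nat.card {y : R // star y * y = 1} * Nat.card {x : R // P x} := by
  rw [← Subgroup.card_top, card_eq_mul_of_norm ⊤ P (fun y _ => h1 y) fun x hx => by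
      obtain ⟨y, rfl⟩ := h2 x hx
      exact ⟨y, trivial, rfl⟩]
  congr 1
  exact Nat.card_congr (Equiv.ofBijective (fun y => ⟨y.1.1.1, y.2⟩)
    ⟨fun _ _ h => Subtype.ext (Subtype.ext (Units.ext (congrArg Subtype.val h))), fun y => by
      obtain ⟨u, hu⟩ : IsUnit y.1 :=
        isUnit_of_mul_isUnit_right (x := star y.1) (by rw [y.2]; exact isUnit_one)
      exact ⟨⟨⟨u, trivial⟩, by simpa [hu] using y.2⟩, Subtype.ext hu⟩⟩)

omit [StarRing R] in
theorem exists_sqrt_of_nil [Finite R] (h2 : IsUnit (2 : R)) {x : R} (hx : IsNilpotent (x - 1)) :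
    ∃ m, x ^ m * x ^ m = x := by
  have h1 := hx.isUnit_add_one
  rw [sub_add_cancel] at h1
  obtain ⟨u, rfl⟩ := h1
  have h3 := orderOf_pos u
  rcases Nat.even_or_odd' (orderOf u) with ⟨c, hc | hc⟩
  · refine absurd (Units.ext ?_) (pow_ne_one_of_lt_orderOf (x := u) (n := c) (by omega) (by omega))
    have h4 : IsNilpotent (u.1 ^ c - 1) := by
      rw [← mul_geom_sum]
      refine Commute.isNilpotent_mul_right ?_ hx
      rw [Commute, SemiconjBy, mul_geom_sum, geom_sum_mul]
    have h5 : IsUnit (2 + (u.1 ^ c - 1)) := h4.isUnit_add_left_of_commute h2 (Commute.ofNat_right _ _)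
    have h6 : u.1 ^ c * u.1 ^ c = 1 := by
      rw [← pow_add, ← two_mul, ← hc, ← Units.val_pow_eq_pow_val, pow_orderOf_eq_one, Units.val_one]
    rw [Units.val_pow_eq_pow_val, Units.val_one, ← sub_eq_zero, ← h5.mul_right_eq_zero]
    generalize u.1 ^ c = w at *
    rw [add_mul, sub_mul, mul_sub, mul_sub, h6, two_mul, mul_one, mul_one, one_mul,
      ← one_add_one_eq_two]
    abel
  · refine ⟨c + 1, ?_⟩
    rw [← pow_add, show c + 1 + (c + 1) = orderOf u + 1 by omega, pow_succ,
      ← Units.val_pow_eq_pow_val, pow_orderOf_eq_one, Units.val_one, one_mul]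

theorem norm_of_nil [Finite R] (h2 : IsUnit (2 : R)) {x : R} (hx : IsNilpotent (x - 1))
    (h : star x = x) : ∃ y, star y * y = x := by
  obtain ⟨m, hm⟩ := exists_sqrt_of_nil h2 hx
  exact ⟨x ^ m, by rw [star_pow, h, hm]⟩

variable (π : R →+* S) (hs : Function.Surjective π) (hn : ∀ x, π x = 0 → IsNilpotent x)
  (hπ : ∀ x, π (star x) = star (π x)) (ha : ∀ x, π x = 1 → star x = x → ∃ y, star y * y = x)

include hs hn hπ ha

theorem norm_lift [Finite R] {x : R} (h : star x = x) {z : Sˣ} (hz : star z.1 * z.1 = π x) :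
    ∃ y : Rˣ, star y.1 * y.1 = x := by
  obtain ⟨w, hw⟩ := hs z.1
  obtain ⟨w, rfl⟩ := isUnit_of_map_nil π hs hn (hw ▸ z.isUnit)
  have hw' : π w⁻¹.1 = z⁻¹.1 := by
    rw [← mul_one (π _), ← z.mul_inv, ← mul_assoc, ← hw, ← map_mul, w.inv_mul, map_one, one_mul]
  have h1 : π (star w⁻¹.1 * x * w⁻¹.1) = 1 := by
    rw [map_mul, map_mul, hπ, hw', ← hz, ← mul_assoc, ← star_mul, z.mul_inv, star_one, one_mul,
      z.mul_inv]
  obtain ⟨y, hy⟩ := ha _ h1 (by rw [star_mul, star_mul, star_star, h, mul_assoc])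
  have h2 : IsUnit (star y * y) := isUnit_of_map_nil π hs hn (by rw [hy, h1]; exact isUnit_one)
  obtain ⟨y, rfl⟩ := isUnit_of_mul_isUnit_right h2
  refine ⟨y * w, ?_⟩
  rw [Units.val_mul, star_mul, mul_assoc, ← mul_assoc (star y.1), hy, mul_assoc, w.inv_mul, mul_one,
    ← mul_assoc, ← star_mul, w.inv_mul, star_one, one_mul]

theorem card_unitary_mul [Finite R] {a : R} (hc : ∀ y, a * y = y * a) (h1 : a + star a = 1) :
    Nat.card {y : R // star y * y = 1} * Nat.card {x : R // π x = 0 ∧ star x = x} =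
      Nat.card {y : S // star y * y = 1} * Nat.card π.toAddMonoidHom.ker := by
  have : Finite S := Finite.of_surjective π hs
  have e1 := card_units_eq_mul' (R := R) (fun x => star x = x ∧ ∃ z : Sˣ, star z.1 * z.1 = π x)
    (fun y => ⟨by rw [star_mul, star_star], Units.map π.toMonoidHom y, by simp [hπ]⟩)
    fun x ⟨hx, z, hz⟩ => norm_lift π hs hn hπ ha hx hz
  have e2 := card_units_eq_mul' (R := S) (fun x => star x = x ∧ ∃ z : Sˣ, star z.1 * z.1 = x)
    (fun y => ⟨by rw [star_mul, star_star], y, rfl⟩) fun x hx => hx.2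
  have e3 := card_units_of_nil π hs hn
  let f : selfAdjoint R →+ selfAdjoint S :=
    { toFun := fun x => ⟨π x, (hπ x).symm.trans (congrArg π x.2)⟩
      map_zero' := Subtype.ext (map_zero π)
      map_add' := fun x y => Subtype.ext (map_add π _ _) }
  have hf : Function.Surjective f := fun y => by
    obtain ⟨x, hx⟩ := hs y
    refine ⟨⟨a * x + star (a * x), IsSelfAdjoint.add_star_self _⟩, Subtype.ext ?_⟩
    change π (a * x + star (a * x)) = y
    have hy : star y.1 = y.1 := y.2
    rw [map_add, hπ, hc, map_mul, hx]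
    nth_rewrite 2 [← hx]
    rw [← map_mul, ← hc, map_mul, star_mul, hx, hy, ← hπ, ← mul_add, ← map_add, h1, map_one, mul_one]
  have e4 := (Nat.card_congr (Equiv.subtypeSubtypeEquivSubtypeInter (fun x : R => star x = x)
      fun x => ∃ z : Sˣ, star z.1 * z.1 = π x)).symm.trans
    ((card_preimage_add f hf fun b => ∃ z : Sˣ, star z.1 * z.1 = b.1).trans (congrArg (· * _)
      (Nat.card_congr (Equiv.subtypeSubtypeEquivSubtypeInter (fun x : S => star x = x)
      fun x => ∃ z : Sˣ, star z.1 * z.1 = x))))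
  have e5 : Nat.card f.ker = Nat.card {x : R // π x = 0 ∧ star x = x} :=
    Nat.card_congr
      { toFun := fun x => ⟨x.1.1, congrArg Subtype.val x.2, x.1.2⟩
        invFun := fun x => ⟨⟨x.1, x.2.2⟩, Subtype.ext x.2.1⟩
        left_inv := fun _ => rfl
        right_inv := fun _ => rfl }
  rw [e1, e2, e4, e5] at e3
  have : Nonempty {x : S // star x = x ∧ ∃ z : Sˣ, star z.1 * z.1 = x} := ⟨⟨1, by simp, 1, by simp⟩⟩
  refine Nat.eq_of_mul_eq_mul_left (Nat.card_pos
    (α := {x : S // star x = x ∧ ∃ z : Sˣ, star z.1 * z.1 = x})) ?_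
  linear_combination e3

omit hs hn ha in
theorem card_ker_eq_sq {k : R} (hk : ∀ y, k * y = y * k) (hu : IsUnit (k - star k)) :
    Nat.card π.toAddMonoidHom.ker = Nat.card {x : R // π x = 0 ∧ star x = x} ^ 2 := by
  have hk' : ∀ y, star k * y = y * star k := fun y => by
    rw [← star_star y, ← star_mul, ← star_mul, hk]
  obtain ⟨u, hu⟩ := hu
  have hu' : ∀ y, u.1 * y = y * u.1 := fun y => by rw [hu, sub_mul, mul_sub, hk, hk']
  have hu'' : ∀ y, u⁻¹.1 * y = y * u⁻¹.1 := fun y => Commute.units_inv_left (hu' y)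
  have h1 : star u⁻¹.1 = -u⁻¹.1 := by
    have : star u.1 = -u.1 := by rw [hu, star_sub, star_star, neg_sub]
    rw [← mul_one (star _), ← u.mul_inv, ← mul_assoc, ← neg_neg u.1, ← this, mul_neg, ← star_mul,
      u.mul_inv, star_one, neg_mul, one_mul]
  rw [sq, ← Nat.card_prod]
  refine (Nat.card_congr (Equiv.ofBijective (fun z => ⟨z.1.1 + k * z.2.1, by
    simp [AddMonoidHom.mem_ker, z.1.2.1, z.2.2.1]⟩) ⟨?_, ?_⟩)).symm
  · rintro ⟨⟨a, ha, ha'⟩, ⟨b, hb, hb'⟩⟩ ⟨⟨c, hc, hc'⟩, ⟨d, hd, hd'⟩⟩ h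
    have h2 : a + k * b = c + k * d := congrArg Subtype.val h
    have h3 := congrArg star h2
    rw [star_add, star_add, star_mul, star_mul, ha', hb', hc', hd', ← hk', ← hk'] at h3
    obtain rfl : b = d := u.mul_right_inj.1 (by
      rw [hu, sub_mul, sub_mul, ← add_sub_add_left_eq_sub _ _ a, h2, h3, add_sub_add_left_eq_sub])
    obtain rfl : a = c := add_right_cancel h2
    rfl
  · rintro ⟨x, hx⟩
    have hx' : π x = 0 := hx
    have h2 : star (u⁻¹.1 * (x - star x)) = u⁻¹.1 * (x - star x) := by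
      rw [star_mul, h1, star_sub, star_star, mul_neg, ← neg_mul, neg_sub, hu'']
    refine ⟨⟨⟨x - k * (u⁻¹.1 * (x - star x)), by simp [hx', hπ], ?_⟩,
      ⟨u⁻¹.1 * (x - star x), by simp [hx', hπ], h2⟩⟩, Subtype.ext (sub_add_cancel _ _)⟩
    rw [star_sub, star_mul, h2, ← hk', sub_eq_sub_iff_sub_eq_sub, ← sub_mul, ← neg_sub k, ← hu,
      neg_mul, Units.mul_inv_cancel_left, neg_sub]

omit ha in
theorem card_unitary_second [Finite R] {k : R} (hk : ∀ y, k * y = y * k)
    (hu : IsUnit (k - star k)) : ∃ j, j ^ 2 = Nat.card π.toAddMonoidHom.ker ∧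
      Nat.card {y : R // star y * y = 1} = Nat.card {y : S // star y * y = 1} * j := by
  have h1 := card_ker_eq_sq π hπ hk hu
  have hk' : ∀ y, star k * y = y * star k := fun y => by
    rw [← star_star y, ← star_mul, ← star_mul, hk]
  obtain ⟨u, hu'⟩ := id hu
  have hu1 : ∀ y, u.1 * y = y * u.1 := fun y => by rw [hu', sub_mul, mul_sub, hk, hk']
  have hu2 : ∀ y, u⁻¹.1 * y = y * u⁻¹.1 := fun y => Commute.units_inv_left (hu1 y)
  have h2 : star u⁻¹.1 = -u⁻¹.1 := by
    have : star u.1 = -u.1 := by rw [hu', star_sub, star_star, neg_sub]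
    rw [← mul_one (star _), ← u.mul_inv, ← mul_assoc, ← neg_neg u.1, ← this, mul_neg, ← star_mul,
      u.mul_inv, star_one, neg_mul, one_mul]
  have h3 := card_unitary_mul π hs hn hπ (fun x hx h => norm_surj_central hk hu
    (isUnit_of_map_nil π hs hn (hx ▸ isUnit_one)) h) (a := k * u⁻¹.1)
    (fun y => by rw [mul_assoc, hu2, ← mul_assoc, hk, mul_assoc]) (by
      rw [star_mul, h2, neg_mul, hu2 (star k), ← sub_eq_add_neg, ← sub_mul, ← hu', u.mul_inv])
  refine ⟨_, h1.symm, ?_⟩
  have : Nonempty {x : R // π x = 0 ∧ star x = x} := ⟨⟨0, by simp⟩⟩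
  refine Nat.eq_of_mul_eq_mul_right (Nat.card_pos (α := {x : R // π x = 0 ∧ star x = x})) ?_
  rw [h3, h1, sq, mul_assoc]

end count

end Cfsg.Agent.H6
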