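import Cfsg.Agent.H6.TT
import Cfsg.Agent.H4.SS

/-! Tools for identifying a group given by eight involutions and relators. -/

set_option autoImplicit false

namespace Cfsg.Agent.H6.He

open Cfsg.Agent.H5 Cfsg.Agent.H8.TC Cfsg.Agent.H6.TT

variable {Γ : Type*} [Group Γ]

theorem val_cons {lt : ℕ → Γ} (h0 : lt 0 = 1) {c : ℕ} (hc : c < 16) (w : ℕ) :
    val lt (c + 16 * w) = lt c * val lt w := by
  rw [val_step h0, show (c + 16 * w) % 16 = c by omega, show (c + 16 * w) / 16 = w by omega]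

/-- relabelled letters -/
def rl (P : ℕ) (lt : ℕ → Γ) (c : ℕ) : Γ := lt (fld P 4 15 c)

noncomputable def mapw (P fuel : ℕ) : ℕ → ℕ :=
  Nat.rec (motive := fun _ => ℕ → ℕ) (fun _ => 0)
    (fun _ ih W => fld P 4 15 (W % 16) + 16 * ih (W / 16)) fuel

theorem val_mapw {lt : ℕ → Γ} (h0 : lt 0 = 1) {P : ℕ} (hP : fld P 4 15 0 = 0) (fuel : ℕ) :
    ∀ W, W < 16 ^ fuel → val (rl P lt) W = val lt (mapw P fuel W) := by
  have h1 : rl P lt 0 = 1 := by rw [rl, hP, h0]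
  induction fuel with
  | zero => intro W h; obtain rfl : W = 0 := by omega
            exact (val_zero _).trans (val_zero _).symm
  | succ f ih =>
    intro W h
    change _ = val lt (fld P 4 15 (W % 16) + 16 * mapw P f (W / 16))
    rw [val_cons h0 (Nat.lt_succ_of_le (fld_le _ _ _ _)), val_step h1,
      ih _ (by rw [pow_succ] at h; omega)]
    rfl

theorem rel_rl {lt : ℕ → Γ} (h0 : lt 0 = 1) {RL RL' : List ℕ} (h : ∀ w ∈ RL, val lt w = 1) {P : ℕ}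
    (hP : fld P 4 15 0 = 0) (hc : ∀ w ∈ RL', w < 16 ^ 16 ∧ mapw P 16 w ∈ 0 :: RL) :
    ∀ w ∈ RL', val (rl P lt) w = 1 := fun w hw => by
  rw [val_mapw h0 hP 16 w (hc w hw).1]
  rcases List.mem_cons.1 (hc w hw).2 with e | e
  · rw [e, val_zero]
  · exact h _ e

theorem gen_rl {lt : ℕ → Γ} {P : ℕ} (h : ∀ c < 8, ∃ d < 8, fld P 4 15 (d + 1) = c + 1) :
    gen lt 8 ≤ gen (rl P lt) 8 := by
  refine (Subgroup.closure_le _).2 ?_
  rintro _ ⟨c, h1, h2, rfl⟩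
  obtain ⟨d, hd, e⟩ := h (c - 1) (by omega)
  have : lt c = rl P lt (d + 1) := by rw [rl, e]; congr 1; omega
  rw [this]
  exact lt_mem_gen (by omega) (by omega)

def ivI (c : ℕ) : ℕ := c

theorem ub_step {lt : ℕ → Γ} {K : Subgroup Γ} {WT T : ℕ → ℕ} {nc ns n B : ℕ} (h0 : lt 0 = 1)
    (hsq : ∀ c, 1 ≤ c → c ≤ 8 → lt c * lt c = 1) (hnc : nc ≤ 8) (hn : 0 < n)
    (hrel : ∀ k < 256, val lt (WT k) = 1) (hs : ∀ c, 1 ≤ c → c ≤ ns → lt c ∈ K)
    (hK : Finite K ∧ Nat.card K ≤ B) (h : ∀ i < n, chkR T ivI WT nc ns n i = 0) :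
    Finite (gen lt nc) ∧ Nat.card (gen lt nc) ≤ n * B := by
  classical
  have H : Tab lt K ivI T nc n := tab_of ⟨h0, fun c h1 h2 => ⟨h1, h2⟩,
    fun c h1 h2 => eq_inv_of_mul_eq_one_left (hsq c h1 (h2.trans hnc)), hrel, hs⟩ h
  have := hK.1
  obtain ⟨a, b⟩ := H4.card_le_of_cover (gen lt nc) K
    ((Finset.range n).image fun i => (TT.rep lt T i)⁻¹) fun g hg => by
      obtain ⟨i, hi, e⟩ := H.cover hn _ (inv_mem hg)
      refine ⟨_, Finset.mem_image_of_mem _ (Finset.mem_range.2 hi), ?_⟩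
      simpa using inv_mem e
  exact ⟨a, b.trans (Nat.mul_le_mul (Finset.card_image_le.trans (by simp)) hK.2)⟩

/-- the three step chain -/
theorem ub_chain {lt : ℕ → Γ} (h0 : lt 0 = 1) {RL R1 R2 R3 : List ℕ} (h : ∀ w ∈ RL, val lt w = 1)
    {P : ℕ} (hP : fld P 4 15 0 = 0) (hg : ∀ c < 8, ∃ d < 8, fld P 4 15 (d + 1) = c + 1)
    (hq : ∀ c < 8, mapw P 16 (17 * (c + 1)) ∈ 0 :: RL)
    (hc : ∀ w ∈ R1 ++ R2 ++ R3, w < 16 ^ 16 ∧ mapw P 16 w ∈ 0 :: RL)
    {W1 W2 W3 A1 A2 A3 B1 B2 B3 T1 T2 T3 : ℕ → ℕ} {n1 n2 n3 : ℕ}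
    (w1 : sumTo (fun k => Nat.xor (W1 k) (rot (nth R1 (A1 k)) (B1 k))) 256 = 0)
    (w2 : sumTo (fun k => Nat.xor (W2 k) (rot (nth R2 (A2 k)) (B2 k))) 256 = 0)
    (w3 : sumTo (fun k => Nat.xor (W3 k) (rot (nth R3 (A3 k)) (B3 k))) 256 = 0)
    (p1 : 0 < n1) (p2 : 0 < n2) (p3 : 0 < n3)
    (t1 : ∀ i < n1, chkR T1 ivI W1 4 0 n1 i = 0) (t2 : ∀ i < n2, chkR T2 ivI W2 7 4 n2 i = 0)
    (t3 : ∀ i < n3, chkR T3 ivI W3 8 7 n3 i = 0) :
    Finite (gen lt 8) ∧ Nat.card (gen lt 8) ≤ n3 * (n2 * (n1 * 1)) := by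
  have h1 : rl P lt 0 = 1 := by rw [rl, hP, h0]
  have hr := rel_rl h0 h hP hc
  have hsq : ∀ c, 1 ≤ c → c ≤ 8 → rl P lt c * rl P lt c = 1 := fun c a b => by
    have := rel_rl (RL' := [17 * c]) h0 h hP (by
      intro w hw
      obtain rfl := List.mem_singleton.1 hw
      refine ⟨by omega, ?_⟩
      have := hq (c - 1) (by omega)
      rwa [Nat.sub_add_cancel a] at this) _ List.mem_cons_self
    rwa [show 17 * c = c + 16 * c by ring, val_cons h1 (by omega), val_small h1 (by omega)] at this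
  have u1 := ub_step (K := ⊥) (B := 1) h1 hsq (by decide) p1
    (rel_of_rot h1 (fun w hw => hr w (by simp [hw])) w1) (fun c a b => by omega)
    ⟨inferInstance, by simp⟩ t1
  have u2 := ub_step h1 hsq (by decide) p2 (rel_of_rot h1 (fun w hw => hr w (by simp [hw])) w2)
    (fun c a b => lt_mem_gen a b) u1 t2
  have u3 := ub_step h1 hsq le_rfl p3 (rel_of_rot h1 (fun w hw => hr w (by simp [hw])) w3)
    (fun c a b => lt_mem_gen a b) u2 t3
  have := u3.1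
  exact ⟨Finite.of_injective _ (Subgroup.inclusion_injective (gen_rl hg)),
    (Subgroup.card_le_of_le (gen_rl hg)).trans u3.2⟩

theorem map_val {Δ : Type*} [Group Δ] (f : Γ →* Δ) (lt : ℕ → Γ) (w : ℕ) :
    f (val lt w) = val (fun c => f (lt c)) w := by
  simp only [val, map_list_prod, List.map_map]; rfl

theorem map_gen {Δ : Type*} [Group Δ] (f : Γ →* Δ) (lt : ℕ → Γ) (n : ℕ) :
    (gen lt n).map f = gen (fun c => f (lt c)) n := by
  rw [gen, MonoidHom.map_closure, gen]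
  congr 1
  ext x
  constructor
  · rintro ⟨_, ⟨c, a, b, rfl⟩, rfl⟩; exact ⟨c, a, b, rfl⟩
  · rintro ⟨c, a, b, rfl⟩; exact ⟨_, ⟨c, a, b, rfl⟩, rfl⟩

theorem val_mem {lt : ℕ → Γ} (h0 : lt 0 = 1) {K : Subgroup Γ} (h : ∀ c < 16, lt c ∈ K) (w : ℕ) :
    val lt w ∈ K := by
  induction w using Nat.strong_induction_on with
  | _ w ih =>
    rcases Nat.eq_zero_or_pos w with rfl | hw
    · rw [val_zero]; exact one_mem _
    · rw [val_step h0]; exact mul_mem (h _ (Nat.mod_lt _ (by decide))) (ih _ (by omega))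

universe u

/-- the order bound of a list of relators -/
def UB (RL : List ℕ) (N : ℕ) : Prop :=
  ∀ (Γ : Type u) [Group Γ] (lt : ℕ → Γ), lt 0 = 1 → (∀ w ∈ RL, val lt w = 1) →
    Finite (gen lt 8) ∧ Nat.card (gen lt 8) ≤ N

theorem gen_eq {A : Type} [Group A] {K : Subgroup A} {RL : List ℕ} {N : ℕ} (ub : UB.{0} RL N)
    (hN : Nat.card K = N) {k : ℕ → A} (k0 : k 0 = 1) (kr : ∀ w ∈ RL, val k w = 1)
    (kg : K ≤ gen k 8) : gen k 8 = K := by
  obtain ⟨a, b⟩ := ub A k k0 kr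
  exact (Subgroup.eq_of_le_of_card_ge kg (hN ▸ b)).symm

theorem iso_of {A : Type} [Group A] {K : Subgroup A} (hK : IsSimpleGroup K) {RL : List ℕ} {N : ℕ}
    (ub : UB.{u} RL N) (hN : Nat.card K = N) {k : ℕ → A} (k0 : k 0 = 1)
    (kr : ∀ w ∈ RL, val k w = 1) (kg : gen k 8 = K) {G : Type u} [Group G] [Nontrivial G]
    (lt : ℕ → G) (h0 : lt 0 = 1) (hrel : ∀ w ∈ RL, val lt w = 1) (hgen : gen lt 8 = ⊤) :
    Nonempty (G ≃* K) := by
  obtain ⟨a, b⟩ := ub (A × G) (fun c => (k c, lt c)) (by rw [k0, h0]; rfl) fun w hw =>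
    Prod.ext ((map_val (MonoidHom.fst A G) _ w).trans (kr w hw))
      ((map_val (MonoidHom.snd A G) _ w).trans (hrel w hw))
  obtain ⟨φ, h1, -⟩ := H4.exists_hom_of_card_le (gen (fun c => (k c, lt c)) 8) K
    ((map_gen _ _ _).trans kg) (hN ▸ b)
  rw [map_gen] at h1
  have h2 : φ.range = ⊤ := h1.trans hgen
  refine ⟨(MulEquiv.ofBijective φ ⟨?_, MonoidHom.range_eq_top.1 h2⟩).symm⟩
  rw [← MonoidHom.ker_eq_bot_iff]
  refine (IsSimpleGroup.eq_bot_or_eq_top_of_normal φ.ker inferInstance).resolve_right fun h => ?_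
  obtain ⟨x, hx⟩ := exists_ne (1 : G)
  obtain ⟨y, rfl⟩ := MonoidHom.range_eq_top.1 h2 x
  exact hx ((Subgroup.eq_top_iff' _).1 h y)

/-- evaluation of a word on codes -/
noncomputable def evw (mul : ℕ → ℕ → ℕ) (one : ℕ) (gl : ℕ → ℕ) (fuel : ℕ) : ℕ → ℕ :=
  Nat.rec (motive := fun _ => ℕ → ℕ) (fun _ => one)
    (fun _ ih W => ifz W one (force (gl (Nat.land W 15)) fun a =>
      force (ih (Nat.shiftRight W 4)) fun b => mul a b)) fuel

theorem rep_val {Rep : Γ → ℕ → Prop} {mul : ℕ → ℕ → ℕ} {one : ℕ} {gl : ℕ → ℕ} {k : ℕ → Γ}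
    (h1 : Rep 1 one) (hm : ∀ {a b x y}, Rep a x → Rep b y → Rep (a * b) (mul x y)) (k0 : k 0 = 1)
    (hk : ∀ c, Rep (k c) (gl c)) (fuel : ℕ) :
    ∀ W, W < 16 ^ fuel → Rep (val k W) (evw mul one gl fuel W) := by
  induction fuel with
  | zero => intro W h; obtain rfl : W = 0 := by omega
            rw [val_zero]; exact h1
  | succ f ih =>
    intro W h
    have e1 : Nat.land W 15 = W % 16 := Nat.and_two_pow_sub_one_eq_mod W 4
    have e2 : Nat.shiftRight W 4 = W / 16 := Nat.shiftRight_eq_div_pow W 4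
    change Rep _ (ifz W one (force (gl (Nat.land W 15)) fun a =>
      force (evw mul one gl f (Nat.shiftRight W 4)) fun b => mul a b))
    rw [ifz_eq, force_eq', force_eq', e1, e2]
    split_ifs with h2
    · rw [h2, val_zero]; exact h1
    · rw [val_step k0]; exact hm (hk _) (ih _ (by rw [pow_succ] at h; omega))

end Cfsg.Agent.H6.He
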