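import Cfsg.Agent.H6.Low

/-!
Class numbers of subgroups of index two.
-/

set_option autoImplicit false

namespace Cfsg.Agent.H6N

open Finset
open scoped Classical

theorem sum_cent {H : Type*} [Group H] [Fintype H] (P : ConjClasses H → Prop) :
    ∑ x : H, (if P (ConjClasses.mk x) then ∑ y, if Commute x y then (1 : ℤ) else 0 else 0) =
      Nat.card {C // P C} * Nat.card H := by
  have := Fintype.ofFinite (ConjClasses H)
  have h1 : ∀ x : H, (#{z | ConjClasses.mk z = ConjClasses.mk x} : ℤ) *
      ∑ y, (if Commute x y then (1 : ℤ) else 0) = Nat.card H := fun x => by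
    have := (MulAction.stabilizer (ConjAct H) x).index_mul_card
    rw [MulAction.index_stabilizer, ConjAct.orbit_eq_carrier_conjClasses,
      ← Subgroup.nat_card_centralizer_nat_card_stabilizer] at this
    rw [sum_boole, ← Nat.cast_mul, Nat.cast_inj]
    convert this
    · rw [← Set.ncard_coe_finset]; congr; ext; simp [ConjClasses.mem_carrier_iff_mk_eq]
    · rw [Nat.card_eq_fintype_card, Fintype.card_subtype]; congr; ext
      rw [Subgroup.mem_centralizer_singleton_iff, commute_iff_eq, eq_comm]
    · rfl
  rw [← sum_fiberwise (g := ConjClasses.mk), Nat.card_eq_fintype_card, Fintype.card_subtype,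
    ← sum_boole, sum_mul]
  refine sum_congr rfl fun C _ => ?_
  obtain ⟨x, rfl⟩ := ConjClasses.mk_surjective C
  refine mul_left_cancel₀ (Nat.cast_ne_zero.2 (card_ne_zero_of_mem
    (s := {z | ConjClasses.mk z = ConjClasses.mk x}) (a := x) (by simp))) ?_
  rw [mul_sum, ← nsmul_eq_mul, ← sum_const]
  refine sum_congr rfl fun z hz => ?_
  rw [← (mem_filter.1 hz).2]
  split_ifs <;> simp [-sum_boole, h1]

/-- the classes whose centralizers lie in the kernel -/
def Spl {H : Type*} [Group H] (φ : H →* ℤˣ) (C : ConjClasses H) : Prop :=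
  ∀ x y, ConjClasses.mk x = C → Commute x y → φ y = 1

theorem idx2 {N H : Type*} [Group N] [Group H] [Finite H] (j : N →* H) (inj : Function.Injective j)
    (φ : H →* ℤˣ) (h : ∀ x, φ x = 1 ↔ x ∈ j.range) {x₀ : H} (h₀ : φ x₀ ≠ 1) :
    2 * Nat.card (ConjClasses N) = Nat.card (ConjClasses H) + 3 * Nat.card {C // Spl φ C} := by
  have := Finite.of_injective j inj
  have := Fintype.ofFinite H
  have := Fintype.ofFinite N
  let s : H → ℤ := fun x => ∑ y, if Commute x y then φ y else 0
  let c : H → ℤ := fun x => ∑ y, if Commute x y then 1 else 0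
  have h1 : ∀ x y, Commute x y → φ y * s x = s x := fun x y e => by
    rw [mul_sum]
    refine Fintype.sum_equiv (Equiv.mulLeft y) _ _ fun z => ?_
    rw [Equiv.coe_mulLeft, if_congr (show Commute x (y * z) ↔ Commute x z from
      ⟨fun a => by simpa using e.inv_right.mul_right a, e.mul_right⟩) rfl rfl]
    split_ifs <;> simp
  have h2 : ∀ x y, Commute x y → φ y ≠ 1 → s x = 0 := fun x y e e' => by
    have := h1 x y e
    rw [(Int.units_eq_one_or _).resolve_left e'] at this
    simp at this; omega
  have h3 : ∀ f : H → ℤ, ∑ x, (1 + φ x) * f x = 2 * ∑ a, f (j a) := fun f => by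
    rw [show ∑ a, f (j a) = _ from (sum_map univ ⟨j, inj⟩ f).symm, mul_sum,
      ← sum_subset (subset_univ (univ.map ⟨j, inj⟩))]
    · exact sum_congr rfl fun x hx => by rw [(h x).2 (by simpa using hx)]; rfl
    · exact fun x _ hx => by
        rw [(Int.units_eq_one_or _).resolve_left (mt (h x).1 (by simpa using hx))]; simp
  have h4 : (Nat.card H : ℤ) = 2 * Nat.card N := by
    have := h3 1
    have := h2 1 x₀ (Commute.one_left _) h₀
    simp_all [s, sum_add_distrib]
  have h6 := sum_cent (H := H) fun _ => True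
  have h7 := sum_cent (H := N) fun _ => True
  simp only [if_true, Nat.card_congr (Equiv.subtypeUnivEquiv fun _ => trivial)] at h6 h7
  have h8 : ∑ x, s x = _ := (sum_congr rfl fun x _ => by
    split_ifs with e
    · exact sum_congr rfl fun y _ => if_ctx_congr .rfl (fun a => by rw [e x y rfl a]; rfl) fun _ => rfl
    · simp only [Spl, not_forall] at e
      obtain ⟨x', y, a, b, d⟩ := e
      obtain ⟨c, rfl⟩ := isConj_iff.1 (ConjClasses.mk_eq_mk_iff_isConj.1 a)
      exact h2 _ (c * y * c⁻¹) (b.map (MulAut.conj c)) (by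
        rwa [map_mul, map_mul, map_inv, mul_inv_cancel_comm])).trans (sum_cent (Spl φ))
  have h9 : ∑ x, φ x * c x = ∑ x, s x := by
    simp only [c, mul_sum]
    rw [sum_comm]
    exact sum_congr rfl fun x _ => sum_congr rfl fun y _ => by
      rw [mul_ite, mul_one, mul_zero]; exact if_congr ⟨.symm, .symm⟩ rfl rfl
  have h10 := h3 fun x => ∑ y, (1 + φ y) * if Commute x y then 1 else 0
  have h11 : ∀ x, (1 + φ x) * (∑ y, (1 + φ y) * if Commute x y then (1 : ℤ) else 0) =
      c x + 2 * s x + φ x * c x := fun x => by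
    have := h1 x x (.refl x)
    simp only [add_mul _ _ (ite _ _ _), one_mul, sum_add_distrib, mul_ite (Commute _ _), mul_one,
      mul_zero]
    linear_combination this
  rw [sum_congr rfl fun x _ => h11 x, sum_add_distrib, sum_add_distrib, h9, ← mul_sum, h6, h8,
    h4] at h10
  simp only [h3, show ∀ a b, Commute (j a) (j b) ↔ Commute a b from fun a b =>
    ⟨fun e => e.of_map inj, fun e => e.map j⟩, ← mul_sum, h7] at h10
  have := mul_right_cancel₀ (M₀ := ℤ) (b := 2 * Nat.card N) (by simpa using Nat.card_pos.ne')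
    (a := 2 * Nat.card (ConjClasses N)) (c := Nat.card (ConjClasses H) + 3 * Nat.card {C // Spl φ C})
    (by linear_combination -h10)
  exact_mod_cast this

end Cfsg.Agent.H6N
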