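import Cfsg.Agent.H6.J3Q

/-! Computational models of the groups `2^{1+4}.A₅` and `A₅`. -/

set_option autoImplicit false

namespace Cfsg.Agent.H6.J3

open Cfsg.Agent.H5 Cfsg.Agent.H8.TC Cfsg.Agent.H6.TT

def em (a b : ℕ) : ℕ :=
  fld eT (nat_lit 8) (nat_lit 31) (Nat.add (Nat.mul (nat_lit 32) a) b)
def am (a b : ℕ) : ℕ :=
  fld aT (nat_lit 8) (nat_lit 63) (Nat.add (Nat.mul (nat_lit 64) a) b)
def ac (a b : ℕ) : ℕ :=
  fld cT (nat_lit 8) (nat_lit 31) (Nat.add (Nat.mul (nat_lit 32) a) b)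
def kc (δ : Bool) (a b : ℕ) : ℕ :=
  Nat.mul (nat_lit 16) (fld (cond δ kT1 (nat_lit 0)) (nat_lit 1) (nat_lit 1)
    (Nat.add (Nat.mul (nat_lit 64) a) b))

noncomputable def lp2 (m n : ℕ) (f : ℕ → ℕ → ℕ) : ℕ :=
  sumTo (fun a => force a fun a => sumTo (fun b => force b fun b => f a b) n) m
noncomputable def lp3 (l m n : ℕ) (f : ℕ → ℕ → ℕ → ℕ) : ℕ :=
  sumTo (fun a => force a fun a => lp2 m n (f a)) l

theorem lp2_zero {m n : ℕ} {f : ℕ → ℕ → ℕ} (h : lp2 m n f = 0) : ∀ a < m, ∀ b < n, f a b = 0 := by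
  intro a ha b hb
  unfold lp2 at h
  have h1 := sumTo_zero h a ha
  rw [force_eq'] at h1
  have h2 := sumTo_zero h1 b hb
  rwa [force_eq'] at h2

theorem lp3_zero {l m n : ℕ} {f : ℕ → ℕ → ℕ → ℕ} (h : lp3 l m n f = 0) :
    ∀ a < l, ∀ b < m, ∀ c < n, f a b c = 0 := by
  intro a ha
  unfold lp3 at h
  have h1 := sumTo_zero h a ha
  rw [force_eq'] at h1
  exact lp2_zero h1

theorem em_lt (a b : ℕ) : em a b < 32 := Nat.lt_succ_of_le (fld_le _ _ _ _)
theorem ac_lt (a b : ℕ) : ac a b < 32 := Nat.lt_succ_of_le (fld_le _ _ _ _)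
theorem kc_cases (δ : Bool) (a b : ℕ) : kc δ a b = 0 ∨ kc δ a b = 16 := by
  have h : fld (cond δ kT1 (nat_lit 0)) (nat_lit 1) (nat_lit 1)
    (Nat.add (Nat.mul (nat_lit 64) a) b) ≤ 1 := fld_le _ _ _ _
  have e : kc δ a b = 16 * fld (cond δ kT1 (nat_lit 0)) (nat_lit 1) (nat_lit 1)
    (Nat.add (Nat.mul (nat_lit 64) a) b) := rfl
  omega

theorem am_lt0 : lp2 60 60 (fun a b => lz (am a b) 60) = 0 := by decide +kernel
theorem am_lt {a b : ℕ} (ha : a < 60) (hb : b < 60) : am a b < 60 :=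
  lt_of_lz (lp2_zero am_lt0 a ha b hb)

theorem em_as0 : lp3 32 32 32 (fun a b c => Nat.xor (em (em a b) c) (em a (em b c))) = 0 := by
  decide +kernel
theorem am_as0 : lp2 60 60 (fun a b => force (am a b) fun ab =>
    sumTo (fun c => force c fun c => Nat.xor (am ab c) (am a (am b c))) 60) = 0 := by
  decide +kernel
theorem ac_em0 : lp3 60 32 32 (fun s a b => Nat.xor (ac s (em a b)) (em (ac s a) (ac s b))) = 0 := by
  decide +kernel
theorem ac_am0 : lp3 60 60 32 (fun s u a => Nat.xor (ac (am s u) a) (ac s (ac u a))) = 0 := by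
  decide +kernel
theorem em_x0 : lp2 32 32 (fun a b => Nat.add (Nat.xor (em (Nat.xor a 16) b) (Nat.xor (em a b) 16))
    (Nat.xor (em a (Nat.xor b 16)) (Nat.xor (em a b) 16))) = 0 := by decide +kernel
theorem ac_x0 : lp2 60 32 (fun s a => Nat.xor (ac s (Nat.xor a 16)) (Nat.xor (ac s a) 16)) = 0 := by
  decide +kernel
theorem kc_co0 : lp2 60 60 (fun a b => force (am a b) fun ab => force (kc true a b) fun k =>
    sumTo (fun c => force c fun c => Nat.xor (Nat.xor k (kc true ab c))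
      (Nat.xor (kc true b c) (kc true a (am b c)))) 60) = 0 := by
  decide +kernel

theorem am_as {a b c : ℕ} (ha : a < 60) (hb : b < 60) (hc : c < 60) :
    am (am a b) c = am a (am b c) := by
  have h := lp2_zero am_as0 a ha b hb
  rw [force_eq'] at h
  have h2 := sumTo_zero h c hc
  rw [force_eq'] at h2
  exact xor_eq_zero' h2

theorem kc_false (a b : ℕ) : kc false a b = 0 := by
  simp [kc, fld]

theorem kc_co (δ : Bool) {a b c : ℕ} (ha : a < 60) (hb : b < 60) (hc : c < 60) :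
    kc δ a b ^^^ kc δ (am a b) c = kc δ b c ^^^ kc δ a (am b c) := by
  cases δ
  · simp [kc_false]
  · have h := lp2_zero kc_co0 a ha b hb
    rw [force_eq', force_eq'] at h
    have h2 := sumTo_zero h c hc
    rw [force_eq'] at h2
    exact xor_eq_zero' h2

theorem em_xl {a b c : ℕ} (ha : a < 32) (hb : b < 32) (hc : c = 0 ∨ c = 16) :
    em (a ^^^ c) b = em a b ^^^ c := by
  rcases hc with rfl | rfl
  · simp
  · exact xor_eq_zero' (add_eq_zero' (lp2_zero em_x0 a ha b hb)).1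

theorem em_xr {a b c : ℕ} (ha : a < 32) (hb : b < 32) (hc : c = 0 ∨ c = 16) :
    em a (b ^^^ c) = em a b ^^^ c := by
  rcases hc with rfl | rfl
  · simp
  · exact xor_eq_zero' (add_eq_zero' (lp2_zero em_x0 a ha b hb)).2

theorem ac_x {s a c : ℕ} (hs : s < 60) (ha : a < 32) (hc : c = 0 ∨ c = 16) :
    ac s (a ^^^ c) = ac s a ^^^ c := by
  rcases hc with rfl | rfl
  · simp
  · exact xor_eq_zero' (lp2_zero ac_x0 s hs a ha)

noncomputable def mulN (δ : Bool) (i j : ℕ) : ℕ :=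
  force i fun i => force j fun j =>
    force (Nat.shiftRight i (nat_lit 5)) fun s => force (Nat.shiftRight j (nat_lit 5)) fun u =>
      Nat.add (Nat.xor (em (Nat.land i (nat_lit 31)) (ac s (Nat.land j (nat_lit 31)))) (kc δ s u))
        (Nat.mul (nat_lit 32) (am s u))

theorem mulN_eq (δ : Bool) (i j : ℕ) : mulN δ i j =
    (em (i % 32) (ac (i / 32) (j % 32)) ^^^ kc δ (i / 32) (j / 32)) + 32 * am (i / 32) (j / 32) := by
  unfold mulN
  rw [force_eq', force_eq', force_eq', force_eq']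
  have e1 : ∀ i, Nat.shiftRight i (nat_lit 5) = i / 32 := fun i => Nat.shiftRight_eq_div_pow i 5
  have e2 : ∀ i, Nat.land i (nat_lit 31) = i % 32 := fun i => Nat.and_two_pow_sub_one_eq_mod i 5
  rw [e1, e1, e2, e2]
  rfl

theorem xk_lt (δ : Bool) (a b c d : ℕ) : em a b ^^^ kc δ c d < 32 :=
  Nat.xor_lt_two_pow (n := 5) (em_lt a b) (by rcases kc_cases δ c d with h | h <;> simp [h])

theorem mulN_lt (δ : Bool) {i j : ℕ} (hi : i < 1920) (hj : j < 1920) : mulN δ i j < 1920 := by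
  rw [mulN_eq]
  have h1 := xk_lt δ (i % 32) (ac (i / 32) (j % 32)) (i / 32) (j / 32)
  have h2 := am_lt (a := i / 32) (b := j / 32) (by omega) (by omega)
  omega

theorem mulN_as (δ : Bool) {i j k : ℕ} (hi : i < 1920) (hj : j < 1920) (hk : k < 1920) :
    mulN δ (mulN δ i j) k = mulN δ i (mulN δ j k) := by
  have e1 : ∀ a b : ℕ, a < 32 → (a + 32 * b) % 32 = a := fun a b h => by omega
  have e2 : ∀ a b : ℕ, a < 32 → (a + 32 * b) / 32 = b := fun a b h => by omega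
  have a1 : i / 32 < 60 := by omega
  have a2 : j / 32 < 60 := by omega
  have a3 : k / 32 < 60 := by omega
  have b1 : i % 32 < 32 := by omega
  have b2 : j % 32 < 32 := by omega
  have b3 : k % 32 < 32 := by omega
  rw [mulN_eq δ (mulN δ i j), mulN_eq δ i (mulN δ j k), mulN_eq δ i j, mulN_eq δ j k,
    e1 _ _ (xk_lt _ _ _ _ _), e2 _ _ (xk_lt _ _ _ _ _), e1 _ _ (xk_lt _ _ _ _ _),
    e2 _ _ (xk_lt _ _ _ _ _), am_as a1 a2 a3, em_xl (em_lt _ _) (ac_lt _ _) (kc_cases _ _ _),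
    ac_x a1 (em_lt _ _) (kc_cases _ _ _), em_xr b1 (ac_lt _ _) (kc_cases _ _ _),
    xor_eq_zero' (lp3_zero ac_em0 _ a1 _ b2 _ (ac_lt _ _)),
    xor_eq_zero' (lp3_zero ac_am0 _ a1 _ a2 _ b3),
    xor_eq_zero' (lp3_zero em_as0 _ b1 _ (ac_lt _ _) _ (ac_lt _ _)), Nat.xor_assoc, Nat.xor_assoc,
    kc_co δ a1 a2 a3]

/-- the model of `2^{1+4}.A₅`, split for `δ = false` -/
def Q (_δ : Bool) : Type := Fin 1920

variable {δ : Bool}

def Q.mk (δ : Bool) (n : ℕ) : Q δ := (⟨Nat.mod n (nat_lit 1920), Nat.mod_lt _ (by decide)⟩ : Fin 1920)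
def Q.val (q : Q δ) : ℕ := Fin.val (n := 1920) q
theorem Q.val_lt (q : Q δ) : q.val < 1920 := Fin.isLt (n := 1920) q
theorem Q.ext' {a b : Q δ} (h : a.val = b.val) : a = b := Fin.ext (n := 1920) h
theorem Q.mk_val (q : Q δ) : Q.mk δ q.val = q := Q.ext' (Nat.mod_eq_of_lt q.val_lt)

instance instDecEqQ : DecidableEq (Q δ) := fun a b =>
  decidable_of_iff (a.val = b.val) ⟨Q.ext', fun h => h ▸ rfl⟩
instance instFiniteQ : Finite (Q δ) := inferInstanceAs (Finite (Fin 1920))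
theorem card_Q : Nat.card (Q δ) = 1920 := Nat.card_fin 1920

noncomputable def cntN (n : ℕ) (f : ℕ → ℕ) : ℕ := sumTo (s64 fun i => force i f) n

theorem cntN_eq (n : ℕ) (f : ℕ → ℕ) : cntN n f = ∑ i ∈ Finset.range (n * 64), f i := by
  rw [cntN, sumTo_eq, (s64_blk _).sum]
  exact Finset.sum_congr rfl fun i _ => force_eq' _ _

noncomputable def cntQ (δ : Bool) (P : Q δ → Prop) [DecidablePred P] : ℕ :=
  cntN 30 fun i => if P (Q.mk δ i) then 1 else 0

theorem card_eq_cnt (P : Q δ → Prop) [DecidablePred P] : Nat.card {m // P m} = cntQ δ P := by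
  rw [cntQ, cntN_eq, ← Finset.card_filter]
  refine (Nat.card_congr ?_).trans (Nat.card_eq_finsetCard _)
  exact {
    toFun := fun m => ⟨m.1.val, by
      simp only [Finset.mem_filter, Finset.mem_range, Q.mk_val]; exact ⟨m.1.val_lt, m.2⟩⟩
    invFun := fun i => ⟨Q.mk δ i.1, (Finset.mem_filter.1 i.2).2⟩
    left_inv := fun m => Subtype.ext (Q.mk_val _)
    right_inv := fun i => Subtype.ext (Nat.mod_eq_of_lt
      (Finset.mem_range.1 (Finset.mem_filter.1 i.2).1)) }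

theorem forall_iff_cnt (P : Q δ → Prop) [DecidablePred P] :
    (cntN 30 fun i => if P (Q.mk δ i) then 0 else 1) = 0 ↔ ∀ m, P m := by
  rw [cntN_eq, Finset.sum_eq_zero_iff]
  constructor
  · intro h m
    have := h m.val (Finset.mem_range.2 m.val_lt)
    rw [Q.mk_val] at this
    by_contra hm
    simp [hm] at this
  · intro h i _
    simp [h]

noncomputable instance instDecAllQ (P : Q δ → Prop) [DecidablePred P] : Decidable (∀ m, P m) :=
  decidable_of_iff _ (forall_iff_cnt P)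

noncomputable instance instMulQ : Mul (Q δ) :=
  ⟨fun a b => (⟨mulN δ a.val b.val, mulN_lt δ a.val_lt b.val_lt⟩ : Fin 1920)⟩
instance instOneQ : One (Q δ) := ⟨Q.mk δ (nat_lit 0)⟩
instance instInvQ : Inv (Q δ) :=
  ⟨fun a => Q.mk δ (fld (cond δ iT1 iT0) (nat_lit 12) (nat_lit 4095) a.val)⟩

theorem Q.one_mul' : ∀ a : Q δ, 1 * a = a := by cases δ <;> decide +kernel
theorem Q.inv_mul' : ∀ a : Q δ, a⁻¹ * a = 1 := by cases δ <;> decide +kernel

noncomputable instance instGroupQ : Group (Q δ) :=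
  Group.ofLeftAxioms (fun a b c => Q.ext' (mulN_as δ a.val_lt b.val_lt c.val_lt)) Q.one_mul' Q.inv_mul'

/-- the model of `A₅` -/
def A : Type := Fin 60

def A.mk (n : ℕ) : A := (⟨Nat.mod n (nat_lit 60), Nat.mod_lt _ (by decide)⟩ : Fin 60)
def A.val (q : A) : ℕ := Fin.val (n := 60) q
theorem A.val_lt (q : A) : q.val < 60 := Fin.isLt (n := 60) q
theorem A.ext' {a b : A} (h : a.val = b.val) : a = b := Fin.ext (n := 60) h
instance instDecEqA : DecidableEq A := fun a b =>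
  decidable_of_iff (a.val = b.val) ⟨A.ext', fun h => h ▸ rfl⟩
instance instFintypeA : Fintype A := inferInstanceAs (Fintype (Fin 60))
theorem card_A : Nat.card A = 60 := Nat.card_fin 60
instance instDecAllA (P : A → Prop) [h : DecidablePred P] : Decidable (∀ m, P m) :=
  @Nat.decidableForallFin 60 P h
noncomputable instance instMulA : Mul A :=
  ⟨fun a b => (⟨force a.val fun a => force b.val fun b => am a b, am_lt a.val_lt b.val_lt⟩ : Fin 60)⟩
instance instOneA : One A := ⟨A.mk (nat_lit 0)⟩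
instance instInvA : Inv A := ⟨fun a => A.mk (fld aI (nat_lit 8) (nat_lit 255) a.val)⟩
theorem A.one_mul' : ∀ a : A, 1 * a = a := by decide +kernel
theorem A.inv_mul' : ∀ a : A, a⁻¹ * a = 1 := by decide +kernel
noncomputable instance instGroupA : Group A :=
  Group.ofLeftAxioms (fun a b c => A.ext' (am_as a.val_lt b.val_lt c.val_lt)) A.one_mul' A.inv_mul'

/-! ### Homomorphisms out of the models -/

theorem gen_of_idx {M : Type*} [Group M] (g : ℕ → M) (idx l iv : M → ℕ) {nc : ℕ}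
    (h : ∀ m, m = 1 ∨ (1 ≤ l m ∧ l m ≤ nc ∧ idx (m * (g (l m))⁻¹) < idx m)) (P : M → Prop)
    (h1 : P 1) (h2 : ∀ m, P m → ∀ c, 1 ≤ c → c ≤ nc → P (m * g c)) : ∀ m, P m := by
  intro m
  induction hd : idx m using Nat.strong_induction_on generalizing m with
  | _ d ih =>
    rcases h m with rfl | ⟨a, b, c⟩
    · exact h1
    · have := h2 _ (ih _ (hd ▸ c) _ rfl) _ a b
      simpa using this

def tQ (δ : Bool) : Q δ := Q.mk δ (nat_lit 16)
def eQ (δ : Bool) : Q δ := Q.mk δ (nat_lit 15)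
def e0Q (δ : Bool) : Q δ := Q.mk δ (nat_lit 1)
def fQ (δ : Bool) : Q δ := Q.mk δ (nat_lit 32)
def xQ (δ : Bool) : Q δ := Q.mk δ (nat_lit 64)

/-- the letters -/
def ltr6 {Γ : Type*} [Group Γ] (a b c d : Γ) : ℕ → Γ
  | 1 => a | 2 => b | 3 => c | 4 => c⁻¹ | 5 => d | 6 => d⁻¹ | _ => 1

def idxQ (m : Q δ) : ℕ := fld (cond δ xT1 xT0) (nat_lit 12) (nat_lit 4095) m.val
noncomputable def qT (δ : Bool) : ℕ → ℕ := cond δ q1T q0T
noncomputable def gQ (δ : Bool) : ℕ → Q δ := ltr6 (e0Q δ) (tQ δ) (fQ δ) (xQ δ)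

theorem idxQ_lt : ∀ m : Q δ, idxQ m < 1920 := by cases δ <;> decide +kernel
theorem idxQ_one : idxQ (1 : Q δ) = 0 := by cases δ <;> decide +kernel
theorem idxQ_T : ∀ m : Q δ, ∀ c : Fin 6, nx (qT δ) (idxQ m) (c.1 + 1) = idxQ (m * gQ δ (c.1 + 1)) := by
  cases δ <;> decide +kernel
theorem idxQ_par : ∀ m : Q δ, m = 1 ∨ (1 ≤ lr (ent (qT δ (idxQ m)) 0) ∧ lr (ent (qT δ (idxQ m)) 0) ≤ 6 ∧
    idxQ (m * (gQ δ (lr (ent (qT δ (idxQ m)) 0)))⁻¹) < idxQ m) := by
  cases δ <;> decide +kernel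

theorem gen_Q (P : Q δ → Prop) (h1 : P 1)
    (h2 : ∀ m, P m → ∀ c, 1 ≤ c → c ≤ 6 → P (m * gQ δ c)) : ∀ m, P m :=
  gen_of_idx (gQ δ) idxQ _ idxQ idxQ_par P h1 h2

variable {Γ : Type*} [Group Γ]

theorem le_cases6 {c : ℕ} (h1 : 1 ≤ c) (h2 : c ≤ 6) :
    c = 1 ∨ c = 2 ∨ c = 3 ∨ c = 4 ∨ c = 5 ∨ c = 6 := by omega

/-- the presentation of `Q δ` -/
structure PresQ (δ : Bool) (e t f x : Γ) : Prop where
  ee : e * e = 1
  tt : t * t = 1
  f5 : f ^ 5 = 1
  xf : (x * f) ^ 3 = 1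
  te : t * e = e * t
  tf : t * f = f * t
  tx : t * x = x * t
  c1 : (e * (f * e * f⁻¹)) ^ 2 = t
  c2 : (e * (f ^ 2 * e * (f ^ 2)⁻¹)) ^ 2 = t
  ef : (e * f) ^ 5 = 1
  x0 : x * e * x⁻¹ = f * e * f⁻¹
  x2 : x * (f ^ 2 * e * (f ^ 2)⁻¹) * x⁻¹ = f ^ 3 * e * (f ^ 3)⁻¹
  xx : x * x = cond δ t 1

theorem rel_of_list {lt : ℕ → Γ} (h0 : lt 0 = 1) {R : List (List ℕ)} (h1 : ∀ l ∈ R, ∀ c ∈ l, c < 16)
    (h2 : ∀ l ∈ R, (l.map lt).prod = 1) : ∀ w ∈ R.map pk, val lt w = 1 := by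
  intro w hw
  obtain ⟨l, hl, rfl⟩ := List.mem_map.1 hw
  rw [val_pk h0 l (h1 l hl), h2 l hl]

theorem PresQ.hom {e t f x : Γ} (h : PresQ δ e t f x) :
    ∃ ι : Q δ →* Γ, ι (e0Q δ) = e ∧ ι (tQ δ) = t ∧ ι (fQ δ) = f ∧ ι (xQ δ) = x := by
  have he : e⁻¹ = e := inv_eq_of_mul_eq_one_right h.ee
  have ht : t⁻¹ = t := inv_eq_of_mul_eq_one_right h.tt
  have r1 : f * (f * (f * (f * f))) = 1 := by rw [← h.f5]; simp only [pow_succ, pow_zero]; group
  have r2 : x * (f * (x * (f * (x * f)))) = 1 := by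
    rw [← h.xf]; simp only [pow_succ, pow_zero]; group
  have r3 : t * (e * (t * e)) = 1 := by
    rw [← mul_assoc e, ← h.te, mul_assoc t, h.ee, mul_one, h.tt]
  have r4 : t * (f * (t * f⁻¹)) = 1 := by
    rw [← mul_assoc f, ← h.tf, mul_inv_cancel_right, h.tt]
  have r5 : t * (x * (t * x⁻¹)) = 1 := by
    rw [← mul_assoc x, ← h.tx, mul_inv_cancel_right, h.tt]
  have r6 : e * (f * (e * (f⁻¹ * (e * (f * (e * (f⁻¹ * t))))))) = 1 := by
    rw [← h.tt]; nth_rewrite 2 [← h.c1]; simp only [pow_succ, pow_zero]; group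
  have r7 : e * (f * (f * (e * (f⁻¹ * (f⁻¹ * (e * (f * (f * (e * (f⁻¹ * (f⁻¹ * t))))))))))) = 1 := by
    rw [← h.tt]; nth_rewrite 2 [← h.c2]; simp only [pow_succ, pow_zero, mul_inv_rev, mul_assoc,
      one_mul, inv_one, mul_one]
  have r8 : e * (f * (e * (f * (e * (f * (e * (f * (e * f)))))))) = 1 := by
    rw [← h.ef]; simp only [pow_succ, pow_zero, mul_assoc, one_mul]
  have r9 : x * (e * (x⁻¹ * (f * (e * f⁻¹)))) = 1 := by
    calc _ = x * e * x⁻¹ * (f * e * f⁻¹) := by group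
      _ = f * (e * e) * f⁻¹ := by rw [h.x0]; group
      _ = 1 := by rw [h.ee]; group
  have r10 : x * (f * (f * (e * (f⁻¹ * (f⁻¹ * (x⁻¹ * (f * (f * (f * (e * (f⁻¹ * (f⁻¹ * f⁻¹)))))))))))) =
      1 := by
    calc _ = x * (f ^ 2 * e * (f ^ 2)⁻¹) * x⁻¹ * (f ^ 3 * e * (f ^ 3)⁻¹) := by
          simp only [pow_succ, pow_zero, mul_inv_rev, mul_assoc, one_mul, inv_one, mul_one]
      _ = f ^ 3 * (e * e) * (f ^ 3)⁻¹ := by rw [h.x2]; group
      _ = 1 := by rw [h.ee]; group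
  have hiv : ∀ c, 1 ≤ c → c ≤ 6 → ltr6 e t f x (q0iv c) = (ltr6 e t f x c)⁻¹ := by
    intro c h1 h2
    rcases le_cases6 h1 h2 with rfl | rfl | rfl | rfl | rfl | rfl
    exacts [he.symm, ht.symm, rfl, (inv_inv _).symm, rfl, (inv_inv _).symm]
  have hiv2 : ∀ c, 1 ≤ c → c ≤ 6 → 1 ≤ q0iv c ∧ q0iv c ≤ 6 := by
    intro c h1 h2
    rcases le_cases6 h1 h2 with rfl | rfl | rfl | rfl | rfl | rfl <;> decide
  have H : Tab (ltr6 e t f x) ⊥ q0iv (qT δ) 6 1920 := by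
    cases δ
    · refine tab_of (ns := 0) ⟨rfl, hiv2, hiv, rel_of_rot rfl ?_ q0W_ok, fun c a b => by omega⟩ q0f_all
      rw [q0RL_eq]
      refine rel_of_list rfl (by decide) ?_
      have r11 : x * x = 1 := h.xx
      simp [q0rels, ltr6, r1, r2, r3, r4, r5, r6, r7, r8, r9, r10, r11]
    · refine tab_of (ns := 0) ⟨rfl, hiv2, hiv, rel_of_rot rfl ?_ q1W_ok, fun c a b => by omega⟩ q1f_all
      rw [q1RL_eq]
      refine rel_of_list rfl (by decide) ?_
      have r11 : x * (x * t) = 1 := by rw [← mul_assoc, h.xx]; exact h.tt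
      simp [q1rels, ltr6, r1, r2, r3, r4, r5, r6, r7, r8, r9, r10, r11]
  obtain ⟨ι, hι⟩ := H.hom (gQ δ) idxQ idxQ_lt idxQ_one (fun m c h1 h2 => by
    have := idxQ_T m ⟨c - 1, by omega⟩
    rwa [show c - 1 + 1 = c by omega] at this) gen_Q
  exact ⟨ι, hι 1 (by omega) (by omega), hι 2 (by omega) (by omega), hι 3 (by omega) (by omega),
    hι 5 (by omega) (by omega)⟩

def wA : A := A.mk (nat_lit 2)
def rA : A := A.mk (nat_lit 27)
def hA : A := A.mk (nat_lit 45)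

def ltr4 {Γ : Type*} [Group Γ] (a b c : Γ) : ℕ → Γ
  | 1 => a | 2 => b | 3 => c | 4 => c⁻¹ | _ => 1

def idxA (m : A) : ℕ := fld xTA (nat_lit 8) (nat_lit 255) m.val
noncomputable def gA : ℕ → A := ltr4 wA rA hA

theorem idxA_lt : ∀ m : A, idxA m < 60 := by decide +kernel
theorem idxA_T : ∀ m : A, ∀ c : Fin 4, nx qaT (idxA m) (c.1 + 1) = idxA (m * gA (c.1 + 1)) := by
  decide +kernel
theorem idxA_par : ∀ m : A, m = 1 ∨ (1 ≤ lr (ent (qaT (idxA m)) 0) ∧ lr (ent (qaT (idxA m)) 0) ≤ 4 ∧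
    idxA (m * (gA (lr (ent (qaT (idxA m)) 0)))⁻¹) < idxA m) := by
  decide +kernel

theorem hom_A {w r h : Γ} (hw : w * w = 1) (hr : r * r = 1) (h1 : h ^ 3 = 1) (h2 : (h * w) ^ 3 = 1)
    (h3 : (w * r) ^ 3 = 1) (h4 : (h * r) ^ 2 = 1) :
    ∃ ι : A →* Γ, ι wA = w ∧ ι rA = r ∧ ι hA = h := by
  have cs : ∀ c, 1 ≤ c → c ≤ 4 → c = 1 ∨ c = 2 ∨ c = 3 ∨ c = 4 := by omega
  simp only [pow_succ, pow_zero, mul_assoc, one_mul] at h1 h2 h3 h4
  have H : Tab (ltr4 w r h) ⊥ qaiv qaT 4 60 := by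
    refine tab_of (ns := 0) ⟨rfl, fun c a b => ?_, fun c a b => ?_, rel_of_rot rfl ?_ qaW_ok,
      fun c a b => by omega⟩ qaf_all
    · rcases cs c a b with rfl | rfl | rfl | rfl <;> decide
    · rcases cs c a b with rfl | rfl | rfl | rfl
      exacts [(inv_eq_of_mul_eq_one_right hw).symm, (inv_eq_of_mul_eq_one_right hr).symm, rfl,
        (inv_inv _).symm]
    · rw [qaRL_eq]
      refine rel_of_list rfl (by decide) ?_
      simp [qarels, ltr4, h1, h2, h3, h4]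
  obtain ⟨ι, hι⟩ := H.hom gA idxA idxA_lt (by decide +kernel) (fun m c h1 h2 => by
    have := idxA_T m ⟨c - 1, by omega⟩
    rwa [show c - 1 + 1 = c by omega] at this) (gen_of_idx gA idxA _ idxA idxA_par)
  exact ⟨ι, hι 1 (by omega) (by omega), hι 2 (by omega) (by omega), hι 3 (by omega) (by omega)⟩

end Cfsg.Agent.H6.J3
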