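import Cfsg.Agent.H6.JF

/-!
The centralizer ring of a nilpotent matrix and its semisimple quotient.
-/

set_option autoImplicit false

namespace Cfsg.Agent.H6

open Polynomial Module Matrix

section abstract

theorem card_preimage_add {A B : Type*} [AddGroup A] [AddGroup B] (f : A →+ B)
    (hf : Function.Surjective f) (P : B → Prop) :
    Nat.card {a // P (f a)} = Nat.card {b // P b} * Nat.card f.ker := by
  choose s hs using hf
  rw [← Nat.card_prod]
  exact Nat.card_congr
    { toFun := fun a => (⟨f a.1, a.2⟩, ⟨-s (f a.1) + a.1, by simp [AddMonoidHom.mem_ker, hs]⟩)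
      invFun := fun x => ⟨s x.1.1 + x.2.1, by
        rw [map_add, hs, (AddMonoidHom.mem_ker).1 x.2.2, add_zero]; exact x.1.2⟩
      left_inv := fun a => by simp
      right_inv := fun ⟨⟨b, hb⟩, ⟨x, hx⟩⟩ => by simp [hs, (AddMonoidHom.mem_ker).1 hx] }

theorem card_eq_card_mul_ker {A B : Type*} [AddGroup A] [AddGroup B] (f : A →+ B)
    (hf : Function.Surjective f) : Nat.card A = Nat.card B * Nat.card f.ker := by
  simpa using card_preimage_add f hf fun _ => True

variable {R S : Type*} [Ring R] [Ring S]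

theorem card_units_eq (R : Type*) [Monoid R] : Nat.card Rˣ = Nat.card {x : R // IsUnit x} :=
  Nat.card_congr (Equiv.ofBijective (fun u => ⟨u.1, u.isUnit⟩)
    ⟨fun _ _ h => Units.ext (congrArg Subtype.val h), fun ⟨_, u, h⟩ => ⟨u, Subtype.ext h⟩⟩)

theorem isUnit_of_map_nil (π : R →+* S) (hs : Function.Surjective π)
    (hn : ∀ x, π x = 0 → IsNilpotent x) {x : R} (h : IsUnit (π x)) : IsUnit x := by
  obtain ⟨u, hu⟩ := h
  obtain ⟨y, hy⟩ := hs u⁻¹.1
  have h1 := (hn (x * y - 1) (by simp [← hu, hy])).isUnit_add_one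
  have h2 := (hn (y * x - 1) (by simp [← hu, hy])).isUnit_add_one
  rw [sub_add_cancel] at h1 h2
  obtain ⟨a, ha⟩ := h1.exists_right_inv
  obtain ⟨b, hb⟩ := h2.exists_left_inv
  exact isUnit_iff_exists_and_exists.2 ⟨⟨y * a, by rw [← mul_assoc, ha]⟩,
    b * y, by rw [mul_assoc, hb]⟩

theorem card_units_of_nil (π : R →+* S) (hs : Function.Surjective π)
    (hn : ∀ x, π x = 0 → IsNilpotent x) :
    Nat.card Rˣ = Nat.card Sˣ * Nat.card π.toAddMonoidHom.ker := by
  rw [card_units_eq, card_units_eq, ← card_preimage_add π.toAddMonoidHom hs]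
  exact Nat.card_congr (Equiv.subtypeEquivRight fun x => ⟨fun h => h.map π,
    isUnit_of_map_nil π hs hn⟩)

end abstract

variable {F : Type*} [Field F] {ι κ T : Type*} [Fintype ι] [DecidableEq ι] [Fintype κ]
  [DecidableEq κ] [Fintype T] [DecidableEq T]

theorem card_GL [Fintype F] : Nat.card (GL κ F) =
    ∏ i : Fin (Fintype.card κ), (Fintype.card F ^ Fintype.card κ - Fintype.card F ^ (i : ℕ)) := by
  rw [← card_GL_field]
  exact Nat.card_congr (Units.mapEquiv
    (reindexAlgEquiv F F (Fintype.equivFin κ)).toMulEquiv).toEquiv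

omit [DecidableEq κ] in
theorem card_matrix : Nat.card (Matrix κ κ F) = Nat.card F ^ Fintype.card κ ^ 2 := by
  change Nat.card (κ → κ → F) = _
  rw [Nat.card_fun, Nat.card_fun, Nat.card_eq_fintype_card (α := κ), sq, pow_mul]

theorem sum_min_aux (n : ℕ) (a : ℕ → ℕ) (h0 : a 0 = 0) :
    ∑ i ∈ Finset.range n, a i * ∑ j ∈ Finset.range n, a j * min i j =
      (2 * (∑ i ∈ Finset.range n, ∑ j ∈ Finset.range n, if i < j then i * a i * a j else 0) +
      ∑ i ∈ Finset.range n, (i - 1) * a i ^ 2) + ∑ i ∈ Finset.range n, a i ^ 2 := by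
  have h1 : ∀ i j, a i * (a j * min i j) = (if i < j then i * a i * a j else 0) +
      (if j < i then j * a j * a i else 0) + if i = j then (i - 1) * a i ^ 2 + a i ^ 2 else 0 := by
    intro i j
    rcases lt_trichotomy i j with h | rfl | h
    · simp [h, h.le, h.not_gt, h.ne]; ring
    · cases i with
      | zero => simp [h0]
      | succ i => simp; ring
    · simp [h, h.le, h.not_gt, h.ne']; ring
  rw [two_mul]
  simp only [Finset.mul_sum, h1, Finset.sum_add_distrib, Finset.sum_ite_eq, Finset.mem_range]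
  rw [Finset.sum_comm (f := fun i j => if j < i then j * a j * a i else 0), add_assoc _ _
    (∑ i ∈ Finset.range n, a i ^ 2), ← Finset.sum_add_distrib (f := fun i => (i - 1) * a i ^ 2)]
  congr 1
  exact Finset.sum_congr rfl fun i hi => if_pos (Finset.mem_range.1 hi)

theorem card_ker_mulVec [Finite F] (M : Matrix ι ι F) :
    Nat.card {v : ι → F // M *ᵥ v = 0} = Nat.card F ^ (Fintype.card ι - M.rank) := by
  have h := mkd_add_rank M X
  rw [aeval_X, mkd, kd, aeval_X] at h
  rw [← h, Nat.add_sub_cancel, ← Module.natCard_eq_pow_finrank]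
  rfl

/-- the action on the generators modulo the image of the nilpotent matrix -/
def jπ (e c : T → ι → F) (g : Matrix ι ι F) : Matrix T T F := of fun l k => c l ⬝ᵥ (g *ᵥ e k)

omit [DecidableEq ι] [Fintype T] [DecidableEq T] in
theorem jπ_apply (e c : T → ι → F) (g : Matrix ι ι F) (l k : T) :
    jπ e c g l k = c l ⬝ᵥ (g *ᵥ e k) := rfl

theorem comm_pow_mulVec {g N : Matrix ι ι F} (h : g * N = N * g) (m : ℕ) (v : ι → F) :
    g *ᵥ (N ^ m *ᵥ v) = N ^ m *ᵥ (g *ᵥ v) := by
  rw [mulVec_mulVec, mulVec_mulVec, ((Commute.pow_right h m)).eq]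

omit [DecidableEq ι] in
theorem comm_mulVec {g N : Matrix ι ι F} (h : g * N = N * g) (v : ι → F) :
    g *ᵥ (N *ᵥ v) = N *ᵥ (g *ᵥ v) := by
  rw [mulVec_mulVec, mulVec_mulVec, h]

/-- the ring of matrices commuting with `N` -/
abbrev cE (N : Matrix ι ι F) : Subring (Matrix ι ι F) := Subring.centralizer {N}

theorem mem_cE {N g : Matrix ι ι F} : g ∈ cE N ↔ g * N = N * g := by
  simp [Subring.mem_centralizer_iff, eq_comm]

theorem cE_comm {N : Matrix ι ι F} (g : cE N) : g.1 * N = N * g.1 := mem_cE.1 g.2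

theorem card_units_cE (N : Matrix ι ι F) :
    Nat.card (cE N)ˣ = Nat.card {g : GL ι F // g.1 * N = N * g.1} :=
  Nat.card_congr
    { toFun := fun u => ⟨Units.map (cE N).subtype.toMonoidHom u, cE_comm u.1⟩
      invFun := fun g => ⟨⟨g.1.1, mem_cE.2 g.2⟩, ⟨g.1⁻¹.1, mem_cE.2
        (Commute.units_inv_left g.2)⟩, Subtype.ext g.1.mul_inv, Subtype.ext g.1.inv_mul⟩
      left_inv := fun _ => rfl
      right_inv := fun _ => rfl }

namespace JF

variable {N : Matrix ι ι F} {d : T → ℕ} {e c : T → ι → F} (J : JF N d e c)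

include J

theorem dot_sum (a : T → F) (l : T) : c l ⬝ᵥ ∑ k, a k • e k = a l := by
  simp [dotProduct_sum, J.dual]

theorem decomp (v : ι → F) : ∃ w, v = ∑ k, (c k ⬝ᵥ v) • e k + N *ᵥ w := by
  obtain ⟨w, hw⟩ := J.range (v - ∑ k, (c k ⬝ᵥ v) • e k) fun l => by
    rw [dotProduct_sub, J.dot_sum, sub_self]
  exact ⟨w, by rw [← hw, add_sub_cancel]⟩

theorem nil : ∃ m, N ^ m = 0 :=
  ⟨_, pow_eq_zero_of_rank J.rank fun k => Finset.le_sup (f := d) (Finset.mem_univ k)⟩

theorem card_eq : Fintype.card ι = ∑ k, d k := by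
  simpa using J.rank 0

theorem kill_le {k : T} {m : ℕ} (h : d k ≤ m) : N ^ m *ᵥ e k = 0 := by
  obtain ⟨m, rfl⟩ := Nat.exists_eq_add_of_le' h
  rw [pow_add, ← mulVec_mulVec, J.kill, mulVec_zero]

theorem dot_mulVec {g : Matrix ι ι F} (hg : g * N = N * g) (v : ι → F) (l : T) :
    c l ⬝ᵥ (g *ᵥ v) = ∑ k, jπ e c g l k * (c k ⬝ᵥ v) := by
  obtain ⟨w, hw⟩ := J.decomp v
  conv_lhs => rw [hw]
  rw [mulVec_add, comm_mulVec hg, dotProduct_add, J.cN, add_zero, mulVec_sum, dotProduct_sum]
  exact Finset.sum_congr rfl fun k _ => by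
    rw [mulVec_smul, dotProduct_smul, smul_eq_mul, mul_comm, jπ_apply]

theorem jπ_mul {g : Matrix ι ι F} (hg : g * N = N * g) (h : Matrix ι ι F) :
    jπ e c (g * h) = jπ e c g * jπ e c h := by
  ext l k
  rw [jπ_apply, ← mulVec_mulVec, J.dot_mulVec hg, mul_apply]
  rfl

theorem jπ_one : jπ e c 1 = 1 := by
  ext l k
  rw [jπ_apply, one_mulVec, J.dual, one_apply]

theorem jπ_tri {g : Matrix ι ι F} (hg : g * N = N * g) {k l : T} (h : d k < d l) :
    jπ e c g l k = 0 :=
  J.ker (d k) _ l (by rw [← comm_pow_mulVec hg, J.kill, mulVec_zero]) h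

theorem exists_jπ (M : Matrix T T F) (h : ∀ l k, d k < d l → M l k = 0) :
    ∃ g, g * N = N * g ∧ jπ e c g = M := by
  obtain ⟨g, h1, h2⟩ := J.ext (fun k => ∑ l, M l k • e l) fun k => by
    rw [mulVec_sum]
    refine Finset.sum_eq_zero fun l _ => ?_
    rw [mulVec_smul]
    rcases lt_or_ge (d k) (d l) with h' | h'
    · rw [h l k h', zero_smul]
    · rw [J.kill_le h', smul_zero]
  exact ⟨g, h1, Matrix.ext fun l k => by rw [jπ_apply, h2, J.dot_sum]⟩

theorem nil_of_jπ {g : Matrix ι ι F} (hg : g * N = N * g) (h : jπ e c g = 0) : IsNilpotent g := by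
  obtain ⟨m, hm⟩ := J.nil
  have : ∀ j v, ∃ w, g ^ j *ᵥ v = N ^ j *ᵥ w := fun j => by
    induction j with
    | zero => exact fun v => ⟨v, by simp⟩
    | succ j ih =>
      intro v
      obtain ⟨w, hw⟩ := ih v
      obtain ⟨z, hz⟩ := J.range (g *ᵥ w) fun l => by simp [J.dot_mulVec hg, h]
      exact ⟨z, by rw [pow_succ', ← mulVec_mulVec, hw, comm_pow_mulVec hg, hz, mulVec_mulVec,
        ← pow_succ]⟩
  exact ⟨m, ext_mulVec fun v => by
    obtain ⟨w, hw⟩ := this m v
    rw [hw, hm]; simp⟩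

theorem eq_zero_of_gen {g : Matrix ι ι F} (hg : g * N = N * g) (h : ∀ k, g *ᵥ e k = 0) : g = 0 := by
  obtain ⟨m, hm⟩ := J.nil
  have : ∀ j v, ∃ w, g *ᵥ v = N ^ j *ᵥ (g *ᵥ w) := fun j => by
    induction j with
    | zero => exact fun v => ⟨v, by simp⟩
    | succ j ih =>
      intro v
      obtain ⟨w, hw⟩ := ih v
      obtain ⟨z, hz⟩ := J.decomp w
      refine ⟨z, ?_⟩
      rw [hw, hz, mulVec_add, mulVec_sum, Finset.sum_eq_zero fun k _ => by
        rw [mulVec_smul, h, smul_zero], zero_add, comm_mulVec hg, mulVec_mulVec, ← pow_succ]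
  exact ext_mulVec fun v => by
    obtain ⟨w, hw⟩ := this m v
    rw [hw, hm]; simp

theorem nil_of_diag {g : Matrix ι ι F} (hg : g * N = N * g)
    (h : ∀ l k, d l = d k → jπ e c g l k = 0) : IsNilpotent g := by
  have : ∀ m l k, jπ e c (g ^ m) l k ≠ 0 → d l + m ≤ d k := fun m => by
    induction m with
    | zero =>
      intro l k h
      rw [pow_zero, J.jπ_one] at h
      by_cases h' : l = k
      · simp [h']
      · exact absurd (one_apply_ne h') h
    | succ m ih =>
      intro l k h1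
      rw [pow_succ', J.jπ_mul hg, mul_apply] at h1
      obtain ⟨j, -, hj⟩ := Finset.exists_ne_zero_of_sum_ne_zero h1
      have h2 := ih _ _ (right_ne_zero_of_mul hj)
      have h3 : ¬ d j < d l := fun h => left_ne_zero_of_mul hj (J.jπ_tri hg h)
      have h4 : d l ≠ d j := fun h' => left_ne_zero_of_mul hj (h _ _ h')
      omega
  refine IsNilpotent.of_pow (m := Finset.univ.sup d + 1)
    (J.nil_of_jπ (Commute.pow_left hg _) (Matrix.ext fun l k => ?_))
  by_contra h1
  have h2 := this _ _ _ h1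
  have : d k ≤ Finset.univ.sup d := Finset.le_sup (f := d) (Finset.mem_univ k)
  omega

theorem card_cE [Finite F] : Nat.card (cE N) = Nat.card F ^ ∑ k, ∑ l, min (d k) (d l) := by
  have : Nat.card (cE N) = Nat.card (∀ k, {v : ι → F // N ^ d k *ᵥ v = 0}) :=
    Nat.card_congr (Equiv.ofBijective (fun g k => ⟨g.1 *ᵥ e k, by
      rw [← comm_pow_mulVec (cE_comm g), J.kill, mulVec_zero]⟩) ⟨fun g g' h => by
        rw [← sub_eq_zero]
        refine Subtype.ext (J.eq_zero_of_gen (cE_comm (g - g')) fun k => ?_)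
        have := congrArg Subtype.val (congrFun h k)
        simp only at this
        rw [AddSubgroupClass.coe_sub, sub_mulVec, this, sub_self], fun w => by
        obtain ⟨g, h1, h2⟩ := J.ext (fun k => (w k).1) fun k => (w k).2
        exact ⟨⟨g, mem_cE.2 h1⟩, funext fun k => Subtype.ext (h2 k)⟩⟩)
  rw [this, Nat.card_pi, ← Finset.prod_pow_eq_pow_sum]
  refine Finset.prod_congr rfl fun k _ => ?_
  rw [card_ker_mulVec, J.rank, J.card_eq]
  congr 1
  have : ∑ l, d l = ∑ l, min (d k) (d l) + ∑ l, (d l - d k) := by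
    rw [← Finset.sum_add_distrib]
    exact Finset.sum_congr rfl fun k _ => by omega
  omega

/-- the diagonal blocks of the action on the generators -/
def blkHom (n : ℕ) : cE N →+* ∀ i : Fin n, Matrix {k // d k = i} {k // d k = i} F where
  toFun g i := of fun l k => jπ e c g.1 l.1 k.1
  map_one' := by
    ext i l k
    simp [J.jπ_one, one_apply, Subtype.ext_iff]
  map_mul' g h := by
    ext i l k
    rw [of_apply, Subring.coe_mul, J.jπ_mul (cE_comm g), Pi.mul_apply, mul_apply, mul_apply,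
      ← Finset.sum_subset (Finset.subset_univ (Finset.univ.filter fun k => d k = i)),
      Finset.sum_subtype (p := fun k => d k = i) _ (by simp)]
    · rfl
    · intro j _ hj
      have := l.2
      have := k.2
      rcases lt_or_gt_of_ne (show d j ≠ i by simpa using hj) with h' | h'
      · rw [J.jπ_tri (cE_comm g) (by omega), zero_mul]
      · rw [J.jπ_tri (cE_comm h) (by omega), mul_zero]
  map_zero' := by
    ext i l k
    simp [jπ_apply]
  map_add' g h := by
    ext i l k
    simp [jπ_apply, add_mulVec]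

theorem blkHom_apply (n : ℕ) (g : cE N) (i : Fin n) (l k : {k // d k = i}) :
    J.blkHom n g i l k = c l.1 ⬝ᵥ (g.1 *ᵥ e k.1) := rfl

theorem blkHom_surj (n : ℕ) : Function.Surjective (J.blkHom n) := fun M => by
  obtain ⟨g, h1, h2⟩ := J.exists_jπ (of fun l k => if h : d l = d k ∧ d k < n then
    M ⟨d k, h.2⟩ ⟨l, h.1⟩ ⟨k, rfl⟩ else 0) fun l k h => by
      rw [of_apply, dif_neg (by omega)]
  refine ⟨⟨g, mem_cE.2 h1⟩, ?_⟩
  refine funext fun ⟨i, hi⟩ => Matrix.ext fun ⟨l, hl⟩ ⟨k, hk⟩ => ?_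
  obtain rfl : d k = i := hk
  exact (congrFun (congrFun h2 l) k).trans (dif_pos ⟨hl, hi⟩)

theorem blkHom_nil {n : ℕ} (hn : ∀ k, d k < n) (g : cE N) (h : J.blkHom n g = 0) :
    IsNilpotent g := by
  obtain ⟨m, hm⟩ := J.nil_of_diag (cE_comm g) fun l k hl =>
    congrFun (congrFun (congrFun h ⟨d k, hn k⟩) ⟨l, hl⟩) ⟨k, rfl⟩
  exact ⟨m, Subtype.ext hm⟩

omit J in
theorem sum_min {n : ℕ} (pos : ∀ k, 1 ≤ d k) (hn : ∀ k, d k < n) :
    ∑ k, ∑ l, min (d k) (d l) = (2 * (∑ i ∈ Finset.range n, ∑ j ∈ Finset.range n,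
      if i < j then i * (Finset.univ.filter (fun k => d k = i)).card *
        (Finset.univ.filter (fun k => d k = j)).card else 0) +
      ∑ i ∈ Finset.range n, (i - 1) * (Finset.univ.filter (fun k => d k = i)).card ^ 2) +
      ∑ i ∈ Finset.range n, (Finset.univ.filter (fun k => d k = i)).card ^ 2 := by
  have h0 : (Finset.univ.filter (fun k => d k = 0)).card = 0 := by
    rw [Finset.card_eq_zero, Finset.filter_eq_empty_iff]
    exact fun k _ => by have := pos k; omega
  have h1 : ∀ f : ℕ → ℕ, ∑ k, f (d k) =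
      ∑ i ∈ Finset.range n, (Finset.univ.filter (fun k => d k = i)).card * f i := fun f => by
    rw [← Finset.sum_fiberwise_of_maps_to' (t := Finset.range n) (g := d) (by simpa using hn)]
    simp
  rw [h1 fun i => ∑ l, min i (d l)]
  simp only [fun i => h1 (min i)]
  exact sum_min_aux n (fun i => (Finset.univ.filter (fun k => d k = i)).card) h0

theorem card_ker_blkHom [Fintype F] {n : ℕ} (hn : ∀ k, d k < n) :
    Nat.card (J.blkHom n).toAddMonoidHom.ker = Fintype.card F ^
      (2 * (∑ i ∈ Finset.range n, ∑ j ∈ Finset.range n,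
      if i < j then i * (Finset.univ.filter (fun k => d k = i)).card *
        (Finset.univ.filter (fun k => d k = j)).card else 0) +
      ∑ i ∈ Finset.range n, (i - 1) * (Finset.univ.filter (fun k => d k = i)).card ^ 2) := by
  have h := card_eq_card_mul_ker (J.blkHom n).toAddMonoidHom (J.blkHom_surj n)
  rw [J.card_cE, sum_min J.pos hn, Nat.card_pi, pow_add, mul_comm, ← Finset.prod_pow_eq_pow_sum,
    Finset.prod_range, Nat.card_eq_fintype_card] at h
  refine (Nat.eq_of_mul_eq_mul_left ?_ (h.trans ?_)).symm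
  · positivity
  · congr 1
    refine Finset.prod_congr rfl fun i _ => ?_
    rw [card_matrix, Fintype.card_subtype, Nat.card_eq_fintype_card]

theorem card_comm_GL [Fintype F] {n : ℕ} (hn : ∀ k, d k < n) :
    Nat.card {g : GL ι F // g.1 * N = N * g.1} = Fintype.card F ^
      (2 * (∑ i ∈ Finset.range n, ∑ j ∈ Finset.range n,
      if i < j then i * (Finset.univ.filter (fun k => d k = i)).card *
        (Finset.univ.filter (fun k => d k = j)).card else 0) +
      ∑ i ∈ Finset.range n, (i - 1) * (Finset.univ.filter (fun k => d k = i)).card ^ 2) *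
      ∏ i ∈ Finset.range n, ∏ j : Fin (Finset.univ.filter (fun k => d k = i)).card,
        (Fintype.card F ^ (Finset.univ.filter (fun k => d k = i)).card -
          Fintype.card F ^ (j : ℕ)) := by
  rw [← card_units_cE, card_units_of_nil _ (J.blkHom_surj n) (J.blkHom_nil hn),
    J.card_ker_blkHom hn, mul_comm, Nat.card_congr MulEquiv.piUnits.toEquiv, Nat.card_pi,
    Finset.prod_range]
  congr 1
  refine Finset.prod_congr rfl fun i _ => ?_
  rw [← Fintype.card_subtype]
  exact card_GL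

end JF

end Cfsg.Agent.H6
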