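import Cfsg.Agent.H6.Cls
import Cfsg.Prelude.Def_JordanBlocks

/-!
Jordan frames of nilpotent matrices.
-/

set_option autoImplicit false

namespace Cfsg.Agent.H6

open Polynomial Module Matrix

variable {F : Type*} [Field F] {ι κ T : Type*} [Fintype ι] [DecidableEq ι] [Fintype κ]
  [DecidableEq κ] [Fintype T] [DecidableEq T]

/-- generators `e k` of the Jordan blocks of `N`, of sizes `d k`, with dual forms `c k` -/
structure JF (N : Matrix ι ι F) (d : T → ℕ) (e c : T → ι → F) : Prop where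
  pos : ∀ k, 1 ≤ d k
  dual : ∀ k l, c k ⬝ᵥ e l = if k = l then 1 else 0
  cN : ∀ k v, c k ⬝ᵥ (N *ᵥ v) = 0
  range : ∀ v, (∀ k, c k ⬝ᵥ v = 0) → ∃ w, v = N *ᵥ w
  ker : ∀ i v k, N ^ i *ᵥ v = 0 → i < d k → c k ⬝ᵥ v = 0
  kill : ∀ k, N ^ d k *ᵥ e k = 0
  ext : ∀ w : T → ι → F, (∀ k, N ^ d k *ᵥ w k = 0) → ∃ g, g * N = N * g ∧ ∀ k, g *ᵥ e k = w k
  rank : ∀ m, (N ^ m).rank = ∑ k, (d k - m)

section std

variable (F) in
/-- the standard nilpotent matrix of type `d` -/
def stdN (d : T → ℕ) : Matrix ((k : T) × Fin (d k)) ((k : T) × Fin (d k)) F :=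
  blockDiagonal' (fun k => jordanBlock (d k) F) - 1

variable {d : T → ℕ}

theorem stdN_mulVec (v : (k : T) × Fin (d k) → F) (k : T) (i : Fin (d k)) :
    (stdN F d *ᵥ v) ⟨k, i⟩ = if h : 1 ≤ (i : ℕ) then v ⟨k, ⟨i - 1, by omega⟩⟩ else 0 := by
  rw [stdN, sub_mulVec, one_mulVec, Pi.sub_apply, mulVec, dotProduct, Fintype.sum_sigma,
    Finset.sum_eq_single k (fun l _ hl => by simp [blockDiagonal'_apply_ne _ _ _ hl.symm])
      (by simp)]
  simp only [blockDiagonal'_apply_eq, jordanBlock, of_apply]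
  rw [sub_eq_iff_eq_add', ← Finset.add_sum_erase _ _ (Finset.mem_univ i), if_pos rfl, one_mul,
    add_right_inj]
  split_ifs with h
  · rw [Finset.sum_eq_single ⟨i - 1, by omega⟩]
    · rw [if_neg (by simp; omega), if_pos (by simp; omega), one_mul]
    · intro j hj hj'
      rw [if_neg fun h => (Finset.mem_erase.1 hj).1 (Fin.ext h.symm), if_neg fun h => hj'
        (Fin.ext (by simp; omega)), zero_mul]
    · intro h'
      exact absurd (Finset.mem_erase.2 ⟨fun h => by have := congrArg Fin.val h; simp at this; omega,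
        Finset.mem_univ _⟩) h'
  · refine Finset.sum_eq_zero fun j hj => ?_
    rw [if_neg fun h => (Finset.mem_erase.1 hj).1 (Fin.ext h.symm), if_neg (by omega), zero_mul]

theorem stdN_pow_mulVec (m : ℕ) (v : (k : T) × Fin (d k) → F) (k : T) (i : Fin (d k)) :
    (stdN F d ^ m *ᵥ v) ⟨k, i⟩ = if h : m ≤ (i : ℕ) then v ⟨k, ⟨i - m, by omega⟩⟩ else 0 := by
  induction m generalizing i with
  | zero => simp
  | succ m ih =>
    rw [pow_succ', ← mulVec_mulVec, stdN_mulVec]
    simp only [ih]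
    split_ifs with h1 h2 h3 h4 <;> first | rfl | omega | skip
    congr 3
    omega

theorem stdN_pow_single (k : T) (j : Fin (d k)) (h : 0 < d k) :
    stdN F d ^ (j : ℕ) *ᵥ Pi.single ⟨k, ⟨0, h⟩⟩ 1 = Pi.single ⟨k, j⟩ 1 := by
  ext ⟨l, i⟩
  rw [stdN_pow_mulVec]
  by_cases hl : l = k
  · subst hl
    simp only [Pi.single_apply, Sigma.mk.injEq, heq_eq_eq, true_and, Fin.ext_iff]
    split_ifs <;> first | rfl | omega
  · simp [Pi.single_apply, hl]

theorem mem_range_stdN_pow (m : ℕ) (v : (k : T) × Fin (d k) → F) :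
    (∃ w, v = stdN F d ^ m *ᵥ w) ↔ ∀ x : (k : T) × Fin (d k), (x.2 : ℕ) < m → v x = 0 := by
  constructor
  · rintro ⟨w, rfl⟩ ⟨k, i⟩ h
    rw [stdN_pow_mulVec, dif_neg (by simpa using h)]
  · intro h
    refine ⟨fun x => if h : x.2 + m < d x.1 then v ⟨x.1, ⟨x.2 + m, h⟩⟩ else 0, ?_⟩
    ext ⟨k, i⟩
    rw [stdN_pow_mulVec]
    split_ifs with h1 h2
    · have : (i : ℕ) - m + m = i := by omega
      simp only [this]
    · simp at h2; omega
    · exact h _ (by simpa using h1)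

theorem rank_stdN_pow (m : ℕ) : (stdN F d ^ m).rank = ∑ k, (d k - m) := by
  classical
  have : (stdN F d ^ m).rank =
      (diagonal fun x : (k : T) × Fin (d k) => if m ≤ (x.2 : ℕ) then (1 : F) else 0).rank := by
    rw [Matrix.rank, Matrix.rank]
    refine congrArg (fun W : Submodule F _ => finrank F W) ?_
    ext v
    simp only [LinearMap.mem_range, mulVecLin_apply, eq_comm (b := v)]
    rw [mem_range_stdN_pow]
    constructor
    · intro h
      refine ⟨v, funext fun x => ?_⟩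
      rw [mulVec_diagonal]
      split_ifs with h1
      · rw [one_mul]
      · rw [zero_mul, h x (by omega)]
    · rintro ⟨w, rfl⟩ x hx
      rw [mulVec_diagonal, if_neg (by omega), zero_mul]
  rw [this, rank_diagonal, Fintype.card_subtype, Finset.card_filter, Fintype.sum_sigma]
  refine Finset.sum_congr rfl fun k _ => ?_
  simp only [ne_eq, ite_eq_right_iff, one_ne_zero, imp_false, not_not]
  rw [← Finset.card_filter]
  have h1 := Fin.card_filter_val_lt (n := d k) (m := m)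
  have h2 := Finset.card_filter_add_card_filter_not (s := Finset.univ)
    (fun i : Fin (d k) => (i : ℕ) < m)
  simp only [not_lt, Finset.card_univ, Fintype.card_fin] at h2
  omega

theorem stdN_jf (pos : ∀ k, 1 ≤ d k) : JF (stdN F d) d (fun k => Pi.single ⟨k, ⟨0, pos k⟩⟩ 1)
    (fun k => Pi.single ⟨k, ⟨0, pos k⟩⟩ 1) := by
  have kill : ∀ k, stdN F d ^ d k *ᵥ Pi.single ⟨k, ⟨0, pos k⟩⟩ 1 = 0 := fun k => by
    ext ⟨l, i⟩
    rw [stdN_pow_mulVec]
    split_ifs with h
    · exact Pi.single_eq_of_ne (fun h' => by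
        have h2 : l = k := congrArg Sigma.fst h'
        subst h2
        omega) _
    · rfl
  refine ⟨pos, fun k l => ?_, fun k v => ?_, fun v hv => ?_, fun i v k h hi => ?_, kill,
    fun w hw => ?_, rank_stdN_pow⟩
  · by_cases h : k = l
    · subst h; simp
    · simp [Pi.single_apply, h, Ne.symm h]
  · simp [stdN_mulVec]
  · rw [← pow_one (stdN F d), mem_range_stdN_pow]
    rintro ⟨k, i⟩ hi
    obtain rfl : i = ⟨0, pos k⟩ := Fin.ext (by simpa using hi)
    simpa using hv k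
  · have := congrFun h ⟨k, ⟨i, hi⟩⟩
    simpa [stdN_pow_mulVec] using this
  · let g : Matrix ((k : T) × Fin (d k)) ((k : T) × Fin (d k)) F :=
      of fun x y => (stdN F d ^ (y.2 : ℕ) *ᵥ w y.1) x
    have hg : ∀ y, g *ᵥ Pi.single y 1 = stdN F d ^ (y.2 : ℕ) *ᵥ w y.1 := fun y => by
      rw [mulVec_single_one]; rfl
    refine ⟨g, ?_, fun k => by rw [hg]; simp⟩
    refine Matrix.toLin'.injective (LinearMap.pi_ext' fun ⟨k, j⟩ => LinearMap.ext_ring ?_)
    simp only [LinearMap.comp_apply, LinearMap.single_apply, toLin'_apply, ← mulVec_mulVec]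
    rw [hg, mulVec_mulVec (w k), ← pow_succ', ← stdN_pow_single k j (pos k),
      mulVec_mulVec _ (stdN F d), ← pow_succ']
    by_cases h : (j : ℕ) + 1 < d k
    · rw [stdN_pow_single k ⟨j + 1, h⟩, hg]
    · rw [show (j : ℕ) + 1 = d k by omega, kill, hw, mulVec_zero]

end std

theorem rank_mul_mul {P : Matrix ι κ F} {Q : Matrix κ ι F} (h : Q * P = 1) (M : Matrix κ κ F) :
    (P * M * Q).rank = M.rank := by
  refine le_antisymm ((rank_mul_le_left _ _).trans (rank_mul_le_right _ _)) ?_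
  calc M.rank = (Q * (P * M * Q) * P).rank := by
        rw [← Matrix.mul_assoc, ← Matrix.mul_assoc, h, Matrix.one_mul, Matrix.mul_assoc, h,
          Matrix.mul_one]
    _ ≤ _ := (rank_mul_le_left _ _).trans (rank_mul_le_right _ _)

theorem conj_pow_rect {P : Matrix ι κ F} {Q : Matrix κ ι F} (h : Q * P = 1) (h' : P * Q = 1)
    (M : Matrix κ κ F) (m : ℕ) : (P * M * Q) ^ m = P * M ^ m * Q := by
  induction m with
  | zero => simp [h']
  | succ m ih =>
    rw [pow_succ, ih, pow_succ]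
    simp only [Matrix.mul_assoc]
    rw [← Matrix.mul_assoc Q, h, Matrix.one_mul]

theorem JF.transfer {N : Matrix κ κ F} {d : T → ℕ} {e c : T → κ → F} (J : JF N d e c)
    {P : Matrix ι κ F} {Q : Matrix κ ι F} (h : Q * P = 1) (h' : P * Q = 1) :
    JF (P * N * Q) d (fun k => P *ᵥ e k) (fun k => c k ᵥ* Q) := by
  have hQ : ∀ v, Q *ᵥ (P *ᵥ v) = v := fun v => by rw [mulVec_mulVec, h, one_mulVec]
  have hP : ∀ v, P *ᵥ (Q *ᵥ v) = v := fun v => by rw [mulVec_mulVec, h', one_mulVec]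
  refine ⟨J.pos, fun k l => ?_, fun k v => ?_, fun v hv => ?_, fun i v k h1 hi => ?_, fun k => ?_,
    fun w hw => ?_, fun m => by rw [conj_pow_rect h h', rank_mul_mul h, J.rank]⟩
  · rw [← dotProduct_mulVec, hQ, J.dual]
  · rw [← dotProduct_mulVec, ← mulVec_mulVec, ← mulVec_mulVec, hQ, J.cN]
  · obtain ⟨w, hw⟩ := J.range (Q *ᵥ v) fun k => by rw [dotProduct_mulVec, hv]
    exact ⟨P *ᵥ w, by rw [← mulVec_mulVec, ← mulVec_mulVec, hQ, ← hw, hP]⟩
  · rw [← dotProduct_mulVec]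
    refine J.ker i _ k ?_ hi
    rw [conj_pow_rect h h', ← mulVec_mulVec, ← mulVec_mulVec] at h1
    rw [← hQ (N ^ i *ᵥ _), h1, mulVec_zero]
  · rw [conj_pow_rect h h', ← mulVec_mulVec, ← mulVec_mulVec, hQ, J.kill, mulVec_zero]
  · obtain ⟨g, h1, h2⟩ := J.ext (fun k => Q *ᵥ w k) fun k => by
      have := hw k
      rw [conj_pow_rect h h', ← mulVec_mulVec, ← mulVec_mulVec] at this
      rw [← hQ (N ^ d k *ᵥ _), this, mulVec_zero]
    refine ⟨P * g * Q, ?_, fun k => by rw [← mulVec_mulVec, ← mulVec_mulVec, hQ, h2, hP]⟩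
    simp only [Matrix.mul_assoc]
    rw [← Matrix.mul_assoc Q, ← Matrix.mul_assoc Q, h, Matrix.one_mul, Matrix.one_mul,
      ← Matrix.mul_assoc g, h1, Matrix.mul_assoc]

theorem pow_eq_zero_of_rank {N : Matrix ι ι F} {d : T → ℕ}
    (h : ∀ m, (N ^ m).rank = ∑ k, (d k - m)) {m : ℕ} (hm : ∀ k, d k ≤ m) : N ^ m = 0 := by
  rw [← rank_eq_zero_iff, h]
  exact Finset.sum_eq_zero fun k _ => Nat.sub_eq_zero_of_le (hm k)

theorem exists_jf [Finite F] {N : Matrix ι ι F} {d : T → ℕ} (pos : ∀ k, 1 ≤ d k)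
    (h : ∀ m, (N ^ m).rank = ∑ k, (d k - m)) : ∃ e c, JF N d e c := by
  have h0 := h 0
  rw [pow_zero, rank_one] at h0
  let σ : ((k : T) × Fin (d k)) ≃ ι := Fintype.equivOfCardEq (by simp [h0])
  have J := (stdN_jf (F := F) pos).transfer (P := (1 : Matrix ι ι F).submatrix id σ)
    (Q := (1 : Matrix ι ι F).submatrix σ id) (by
      exact (submatrix_mul_equiv _ _ σ (Equiv.refl ι) σ).trans (by simp)) (by
      rw [submatrix_mul_equiv]; simp)
  have hm : ∀ k, d k ≤ Finset.univ.sup d := fun k => Finset.le_sup (Finset.mem_univ k)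
  obtain ⟨u, hu⟩ := isConj_of_nil (pow_eq_zero_of_rank J.rank hm) (pow_eq_zero_of_rank h hm)
    fun m => by rw [J.rank, h]
  have := J.transfer (P := u.1) (Q := u⁻¹.1) u.inv_mul u.mul_inv
  rw [hu.eq, Units.mul_inv_cancel_right] at this
  exact ⟨_, _, this⟩

theorem exists_type [Finite F] {N : Matrix ι ι F} {n : ℕ} (h : N ^ n = 0) :
    ∃ (t : ℕ) (d : Fin t → ℕ), (∀ k, 1 ≤ d k) ∧ ∀ m, (N ^ m).rank = ∑ k, (d k - m) := by
  obtain ⟨t, p, e, h1, h2⟩ := exists_decomp (Matrix.toLin' N)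
  have h3 : ∀ f, Fintype.card ι = (aeval N f).rank + ∑ k, kd (cyc (p k ^ e k)) f := fun f => by
    rw [← h2, add_comm]
    exact (mkd_add_rank N f).symm
  have h4 : ∀ k, p k = X := fun k => by
    have h5 := h3 0
    have h6 := h3 (X ^ n)
    rw [map_pow, aeval_X, h, map_zero] at *
    have h7 := (Finset.sum_eq_sum_iff_of_le fun k _ => ?_).1 (add_left_cancel (h6.symm.trans h5)) k
      (Finset.mem_univ k)
    · by_contra hne
      have : IsCoprime (p k ^ e k) (X ^ n) := IsCoprime.pow (((h1 k).1.coprime_iff_not_dvd).2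
        fun hd => hne (eq_of_monic_of_associated (h1 k).2.1 monic_X
          ((h1 k).1.associated_of_dvd irreducible_X hd)))
      rw [kd_cyc_coprime (pow_ne_zero _ (h1 k).1.ne_zero) this,
        kd_cyc_dvd (pow_ne_zero _ (h1 k).1.ne_zero) (dvd_zero _), natDegree_pow] at h7
      have := (h1 k).1.natDegree_pos
      have := (h1 k).2.2
      exact absurd h7 (by positivity : 0 < _).ne
    · have : FiniteDimensional F (AdjoinRoot (p k ^ e k)) :=
        (AdjoinRoot.powerBasis (pow_ne_zero _ (h1 k).1.ne_zero)).finite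
      rw [kd_zero]
      exact kd_le _ _
  refine ⟨t, e, fun k => (h1 k).2.2, fun m => ?_⟩
  have h5 := h3 0
  have h6 := h3 (X ^ m)
  rw [map_zero, rank_zero] at h5
  rw [map_pow, aeval_X] at h6
  have h7 : ∀ k, kd (cyc (p k ^ e k)) 0 = e k := fun k => by
    rw [kd_cyc_dvd (pow_ne_zero _ (h1 k).1.ne_zero) (dvd_zero _), h4, natDegree_X_pow]
  have h8 : ∀ k, kd (cyc (p k ^ e k)) (X ^ m) = min (e k) m := fun k => by
    have := kd_cyc_pow (h1 k).1.ne_zero (e k) m
    rw [← h4 k, this, h4, natDegree_X, mul_one]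
  simp only [h7, h8] at h5 h6
  have : ∑ k, e k = ∑ k, (e k - m) + ∑ k, min (e k) m := by
    rw [← Finset.sum_add_distrib]
    exact Finset.sum_congr rfl fun k _ => by omega
  omega

end Cfsg.Agent.H6
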