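import Cfsg.Agent.H6.EvU
import Cfsg.Agent.H7.Cnt

/-!
Lower bounds for class numbers of orthogonal and symplectic groups.
-/

set_option autoImplicit false

namespace Cfsg.Agent.H6N

open QuadraticMap Module H7 Polynomial
open H6 hiding perp mem_perp finrank_perp
open scoped Classical

universe u

section

variable {F V W : Type*} [Field F] [AddCommGroup V] [Module F V] [FiniteDimensional F V]
  [AddCommGroup W] [Module F W] [FiniteDimensional F W] {Q : QuadraticForm F V}
  {Q' : QuadraticForm F W} {P P' : F[X]}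

theorem charpoly_eq (e : V ≃ₗ[F] W) {f : Module.End F V} {f' : Module.End F W}
    (h : ∀ v, f' (e v) = e (f v)) : f'.charpoly = f.charpoly := by
  rw [← e.charpoly_conj]
  exact congrArg _ (LinearMap.ext fun w => by simpa using h (e.symm w))

theorem card_le_cc {H : Type*} [Group H] [Finite H] (ρ : H →* (V ≃ₗ[F] V)) {ι : Type*} (P : ι → F[X])
    (inj : Function.Injective P)
    (h : ∀ i, ∃ g, ((ρ g).toLinearMap + (ρ g⁻¹).toLinearMap).charpoly = P i) :
    Nat.card ι ≤ Nat.card (ConjClasses H) := by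
  choose g hg using h
  refine Nat.card_le_card_of_injective (fun i => ConjClasses.mk (g i)) fun i j e => inj ?_
  obtain ⟨c, hc⟩ := isConj_iff.1 (ConjClasses.mk_eq_mk_iff_isConj.1 e)
  rw [← hg, ← hg, ← hc]
  exact (charpoly_eq (ρ c) fun v => by simp).symm

/-- `P` is the characteristic polynomial of `g + g⁻¹` for an isometry `g` -/
def Real (Q : QuadraticForm F V) (P : F[X]) : Prop :=
  ∃ g : OG Q, (g.1.toLinearMap + (g⁻¹).1.toLinearMap).charpoly = P

theorem Real.congr (h : Real Q P) (e : V ≃ₗ[F] W) (he : ∀ x, Q' (e x) = Q x) : Real Q' P :=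
  let ⟨g, hg⟩ := h
  ⟨OG.congr e he g, hg ▸ charpoly_eq e fun v => by simp [← map_inv, OG.congr_apply]⟩

theorem Real.prod (h : Real Q P) (h' : Real Q' P') : Real (Q.prod Q') (P * P') := by
  obtain ⟨g, rfl⟩ := h
  obtain ⟨g', rfl⟩ := h'
  refine ⟨sumHom Q Q' (g, g'), ?_⟩
  rw [← LinearMap.charpoly_prodMap, ← map_inv]
  rfl

theorem real_pm {c : F} (hc : c = 2 ∨ c = -2) : Real Q ((X - C c) ^ finrank F V) := by
  have : (c • (1 : Module.End F V)).charpoly = (X - C c) ^ finrank F V := by
    simpa [sub_eq_add_neg] using LinearMap.charpoly_sub_smul (0 : Module.End F V) (-c)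
  rw [← this]
  rcases hc with rfl | rfl
  · exact ⟨1, congrArg _ (by ext; simp [two_smul])⟩
  · exact ⟨negOne Q, congrArg _ (LinearMap.ext fun v => by
      rw [LinearMap.add_apply, LinearEquiv.coe_coe, LinearEquiv.coe_coe,
        OG.inv_apply_eq.2 (show v = (negOne Q).1 (-v) by simp)]; simp [two_smul])⟩

theorem plus_iff [Finite F] {Q₀ : QuadraticForm F V} (two : (2 : F) = 0) (h₀ : ND Q₀) (hp : PlusType Q₀)
    (hev : Even (finrank F V)) {v : V} (h : ∀ x, Q x = Q₀ x + polar Q₀ x v ^ 2) :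
    PlusType Q ↔ ∃ t, t ^ 2 + t + Q₀ v = 0 := by
  have hB : ∀ x y, polar Q x y = polar Q₀ x y := fun x y => by
    simp only [polar.eq_1 Q, polar.eq_1 Q₀ x y, h, polar_add_left]
    linear_combination two * polar Q₀ x v * polar Q₀ y v
  have hv : polar Q₀ v v = 0 := by rw [B_self, two, zero_mul]
  constructor
  · intro h1
    by_contra! h2
    have hQ : ND Q := nd_of fun x hx => h₀.eq_zero fun y => (hB x y).symm.trans (hx y)
    obtain ⟨T, h3, h4⟩ := eps_eq_one_iff.1 ((eps_prod h₀ hQ hev hev).trans (by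
      rw [eps_plus hp, eps_plus h1, mul_one]))
    have h5 := ts_le (E := (LinearMap.ker (polarBilin Q₀ v)).map (LinearMap.id.prod LinearMap.id)) h3
      fun ⟨y, z⟩ hw h6 => by
        obtain ⟨c, hc⟩ : ∃ c : F, c • v = y - z := Submodule.mem_span_singleton.1 (by
          by_contra h7
          obtain ⟨w, a1, a2⟩ := h₀.exists_polar_eq_one _ h7
          have := mem_perp.1 h6 _ ⟨w, a1 v (Submodule.mem_span_singleton_self v), rfl⟩
          simp [polar_prod, hB] at this
          rw [polar_sub_left, B_comm _ y, B_comm _ z] at a2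
          exact one_ne_zero (α := F) (by linear_combination this - a2 - two * polar Q₀ w z))
        obtain rfl := eq_add_of_sub_eq hc.symm
        have := h3 _ hw
        simp only [prod_apply, h] at this
        revert this; qsimp; intro this
        rw [B_comm _ z] at this
        obtain ⟨a1, rfl⟩ := aniso_of_no_root h2 (polar Q₀ v z) c (by
          linear_combination this - two * Q₀ z)
        exact ⟨z, a1, by simp⟩
    have h6 := (Submodule.finrank_map_le (LinearMap.id.prod LinearMap.id : V →ₗ[F] V × V) _).trans_lt (Submodule.finrank_lt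
      (s := LinearMap.ker (polarBilin Q₀ v)) fun e => h2 0 (by
        rw [h₀.eq_zero fun y => (e.ge trivial : y ∈ _)]; simp))
    rw [finrank_prod] at h4
    exact (h5.trans_lt h6).ne (by omega)
  · rintro ⟨t, ht⟩
    obtain ⟨t, ht, t0⟩ : ∃ t, t ^ 2 + t + Q₀ v = 0 ∧ t ≠ 0 := by
      by_cases t0 : t = 0
      exacts [⟨1, by rw [t0] at ht; linear_combination ht + two, one_ne_zero⟩, ⟨t, ht, t0⟩]
    let f : V →ₗ[F] V := LinearMap.id + (t⁻¹ • (polarBilin Q₀).flip v).smulRight v
    have hf : ∀ x, f x = x + (t⁻¹ * polar Q₀ x v) • v := fun _ => rfl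
    have i : Function.Involutive f := fun x => by
      rw [hf, hf, polar_add_left, B_smul_left, hv, mul_zero, add_zero, add_assoc, ← two_smul F, two,
        zero_smul, add_zero]
    refine hp.congr (LinearEquiv.ofInvolutive f i) fun x => ?_
    rw [LinearEquiv.coe_ofInvolutive, h, hf]
    qsimp
    field_simp
    linear_combination polar Q₀ x v ^ 2 * ht + two * (Q₀ v * polar Q₀ x v ^ 2 * (2 * Q₀ v + 2 * t))

theorem sum_symm {ι : Type*} (two : (2 : F) = 0) (s : Finset ι) (f : ι → ι → F)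
    (h : ∀ i j, f i j = f j i) : ∑ i ∈ s, ∑ j ∈ s, f i j = ∑ i ∈ s, f i i := by
  induction s using Finset.induction_on with
  | empty => simp
  | insert a s ha ih =>
    simp only [Finset.sum_insert ha, Finset.sum_add_distrib, ih, h a]
    linear_combination two * ∑ i ∈ s, f i a

end

section

variable {F S : Type*} [Field F] [CommRing S] [Algebra F S] (l : S →ₗ[F] F) (s : S)

/-- the norm form -/
def QS : QuadraticForm F (S × S) := LinearMap.BilinMap.toQuadraticMap (LinearMap.mk₂ F
  (fun u v : S × S => l (u.1 * v.1 + s * u.1 * v.2 + u.2 * v.2))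
  (fun _ _ _ => by rw [← map_add]; congr 1; simp; ring)
  (fun _ _ _ => by rw [← map_smul]; congr 1; simp)
  (fun _ _ _ => by rw [← map_add]; congr 1; simp; ring)
  fun _ _ _ => by rw [← map_smul]; congr 1; simp)

theorem QS_apply (u : S × S) : QS l s u = l (u.1 * u.1 + s * u.1 * u.2 + u.2 * u.2) := rfl

/-- the bilinear form `l (a x y)` -/
def bS : LinearMap.BilinForm F S := (LinearMap.mul F S).compr₂ (l ∘ₗ LinearMap.mulLeft F s)

theorem bS_apply (x y : S) : bS l s x y = l (s * (x * y)) := rfl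

variable {l s} [FiniteDimensional F S] (hl : ∀ x, (∀ y, l (x * y) = 0) → x = 0)

theorem real_QS : Real (QS l s) ((LinearMap.mulLeft F s).charpoly ^ 2) := by
  let g : (S × S) ≃ₗ[F] S × S :=
    { toFun := fun u => (-u.2, u.1 + s * u.2)
      invFun := fun u => (u.2 + s * u.1, -u.1)
      map_add' := fun u v => by ext <;> simp <;> ring
      map_smul' := fun c u => by ext <;> simp
      left_inv := fun u => by simp
      right_inv := fun u => by simp }
  refine ⟨⟨g, fun u => congrArg l (by simp [g]; ring)⟩, ?_⟩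
  rw [pow_two, ← LinearMap.charpoly_prodMap]
  exact congrArg _ (LinearMap.ext fun u => by
    change (-u.2, u.1 + s * u.2) + (u.2 + s * u.1, -u.1) = _; simp)

include hl

omit [FiniteDimensional F S] in
theorem nd_QS (hs : IsUnit ((2 - s) * (-2 - s))) : ND (QS l s) := nd_of fun u hu => by
  simp only [QS, LinearMap.BilinMap.polar_toQuadraticMap, LinearMap.mk₂_apply, ← map_add] at hu
  have h1 := hl (2 * u.1 + s * u.2) fun y => (congrArg l (by simp; ring)).trans (hu (y, 0))
  have h2 := hl (s * u.1 + 2 * u.2) fun y => (congrArg l (by simp; ring)).trans (hu (0, y))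
  exact Prod.ext (hs.mul_right_eq_zero.1 (by linear_combination s * h2 - 2 * h1))
    (hs.mul_right_eq_zero.1 (by linear_combination s * h1 - 2 * h2))

omit [FiniteDimensional F S] in
theorem nd_bS (hs : IsUnit s) : (bS l s).Nondegenerate :=
  ⟨fun x hx => hs.mul_right_eq_zero.1 (hl _ fun y => (congrArg l (mul_assoc ..)).trans (hx y)),
    fun x hx => hs.mul_right_eq_zero.1 (hl _ fun y => (congrArg l (by ring)).trans ((bS_apply ..).symm.trans (hx y)))⟩

variable [Finite F]

theorem disc_QS (two : (2 : F) ≠ 0) : disc (QS l s) =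
    chi (LinearMap.det (LinearMap.mulLeft F ((2 - s) * (2 + s)))) := by
  let e : (S × S) ≃ₗ[F] S × S :=
    { toFun := fun u => (u.1 - s * u.2, (2 : F) • u.2)
      invFun := fun u => (u.1 + s * (2 : F)⁻¹ • u.2, (2 : F)⁻¹ • u.2)
      map_add' := fun u v => by ext <;> simp; ring
      map_smul' := fun c u => by ext <;> simp [smul_sub, smul_comm c]
      left_inv := fun u => by simp [smul_smul, two]
      right_inv := fun u => by simp [smul_smul, two] }
  have h1 : ∀ a : S, disc (bS l a).toQuadraticMap = chi (LinearMap.det (LinearMap.mulLeft F a) *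
      (gram (bS l 2) (finBasis F S)).det) := fun a => by
    rw [disc, show polarBilin (bS l a).toQuadraticMap = (bS l 2).comp (LinearMap.mulLeft F a) .id by
      ext x y; simp [bS_apply, ← map_add, LinearMap.BilinMap.polar_toQuadraticMap]; congr 1; ring, gram_comp_left, LinearMap.det_id, mul_one]
  rw [disc_congr (Q := (bS l 1).toQuadraticMap.prod (bS l ((2 - s) * (2 + s))).toQuadraticMap) e
    fun u => by simp [QS_apply, bS_apply, e, ← map_add, two_smul]; congr 1; ring, disc_prod, h1, h1,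
    LinearMap.mulLeft_one, LinearMap.det_id, one_mul, map_mul, mul_left_comm, chi_mul_self, mul_one]
  rw [gram_eq_toMatrix]
  exact (LinearMap.BilinForm.nondegenerate_iff_det_ne_zero _).1 (nd_bS hl (by
    simpa [map_ofNat] using (two.isUnit.map (algebraMap F S))))

theorem plus_QS (two : (2 : F) = 0) {d : S} (hd : s * d = 1) : PlusType (QS l s) ↔
    ∃ t, t ^ 2 + t + LinearMap.trace F S (LinearMap.mulLeft F d) = 0 := by
  have := CharTwo.of_one_ne_zero_of_two_eq_zero one_ne_zero two
  have := Fact.mk Nat.prime_two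
  have t2 : (2 : S) = 0 := by rw [← map_ofNat (algebraMap F S), two, map_zero]
  have nd := nd_bS hl (IsUnit.of_mul_eq_one _ hd)
  let φ := frobeniusEquiv F 2
  have hφ : ∀ a, φ.symm a ^ 2 = a := fun a => φ.apply_symm_apply a
  obtain ⟨a, ha⟩ : ∃ a, ∀ x, bS l s a x ^ 2 = l (x * x) := by
    obtain ⟨a, ha⟩ := ((bS l s).toDual nd).surjective
      { toFun := fun x => φ.symm (l (x * x))
        map_add' := fun x y => by
          rw [← map_add, ← map_add]; congr 2; linear_combination t2 * x * y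
        map_smul' := fun c x => by
          rw [smul_mul_smul_comm, map_smul, smul_eq_mul, map_mul φ.symm (c * c), ← pow_two,
            show φ.symm (c ^ 2) = c from φ.symm_apply_apply c]; rfl }
    exact ⟨a, fun x => by rw [show bS l s a x = _ from LinearMap.congr_fun ha x]; exact hφ _⟩
  let Q₀ : QuadraticForm F (S × S) := LinearMap.BilinMap.toQuadraticMap
    ((bS l s).compl₁₂ (LinearMap.fst F S S) (LinearMap.snd F S S))
  have hB : ∀ u v, polar Q₀ u v = bS l s u.1 v.2 + bS l s v.1 u.2 :=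
    LinearMap.BilinMap.polar_toQuadraticMap
  have sy : ∀ x y, bS l s x y = bS l s y x := fun x y => by rw [bS_apply, bS_apply, mul_comm x]
  rw [plus_iff (Q₀ := Q₀) two (nd_of fun u hu => Prod.ext (nd.1 _ fun y => by simpa [hB] using hu (0, y))
    (nd.2 _ fun y => by simpa [hB] using hu (y, 0))) ⟨LinearMap.range (LinearMap.inl F S S), by
      rintro _ ⟨x, rfl⟩; simp [Q₀], by
      rw [LinearMap.finrank_range_of_inj LinearMap.inl_injective, finrank_prod, two_mul]⟩
    (by simp) (v := (a, a)) fun u => by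
      rw [hB, CharTwo.add_sq, sy, ha, ha, QS_apply, map_add, map_add, mul_assoc]
      change _ = l (s * (u.1 * u.2)) + _; ring]
  let e := finBasis F S
  let f := (bS l s).dualBasis nd e
  have h1 : ∀ x, ∑ i, bS l s x (e i) • f i = x := fun x => by
    simpa only [f, LinearMap.BilinForm.dualBasis_repr_apply] using f.sum_repr x
  have h2 : Q₀ (a, a) = ∑ i, l (e i * e i) * bS l s (f i) (f i) := by
    change bS l s a a = _
    conv_lhs => rw [← h1 a]
    simp only [map_sum, LinearMap.sum_apply, map_smul, LinearMap.smul_apply, smul_eq_mul, Finset.mul_sum]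
    rw [sum_symm two _ (fun i j => bS l s a (e i) * (bS l s a (e j) * bS l s (f j) (f i))) fun i j => by
      rw [sy (f j)]; ring]
    exact Finset.sum_congr rfl fun i _ => by rw [← ha]; ring
  rw [h2, ← sum_symm two _ (fun i j => l (e i * e j) * bS l s (f i) (f j)) fun i j => by
    rw [sy, mul_comm (e i)], LinearMap.trace_eq_matrix_trace F f, Matrix.trace]
  refine iff_of_eq (congrArg (fun z => ∃ t, t ^ 2 + t + z = 0) (Finset.sum_congr rfl fun i _ => ?_))
  rw [Matrix.diag_apply, LinearMap.toMatrix_apply, LinearMap.BilinForm.dualBasis_repr_apply,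
    LinearMap.mulLeft_apply, bS_apply, ← mul_assoc, ← mul_assoc, hd, one_mul, mul_comm (f i)]
  conv_rhs => rw [← e.sum_repr (f i)]
  rw [Finset.mul_sum, map_sum]
  refine Finset.sum_congr rfl fun j _ => ?_
  rw [mul_smul_comm, map_smul, smul_eq_mul, mul_comm, sy]
  congr 1
  generalize f i = z
  conv_lhs => rw [← e.sum_repr z, map_sum]
  simp only [f, map_smul, LinearMap.BilinForm.apply_dualBasis_left]
  simp

end

variable {F : Type u} [Field F] {G : F[X]} {ε : ℤ}

theorem exists_frob (hG : G.Monic) :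
    ∃ l : AdjoinRoot G →ₗ[F] F, ∀ x, (∀ y, l (x * y) = 0) → x = 0 := by
  refine ⟨lcoeff F (G.natDegree - 1) ∘ₗ AdjoinRoot.modByMonicHom hG, fun x hx => ?_⟩
  obtain ⟨f, rfl, hf⟩ : ∃ f, AdjoinRoot.mk G f = x ∧ f.degree < G.degree := by
    obtain ⟨f, rfl⟩ := AdjoinRoot.mk_surjective x
    exact ⟨f %ₘ G, AdjoinRoot.mk_leftInverse hG (AdjoinRoot.mk G f), degree_modByMonic_lt _ hG⟩
  by_contra h
  have f0 : f ≠ 0 := by rintro rfl; simp at h
  have h1 := natDegree_lt_natDegree f0 hf
  have := hx (AdjoinRoot.mk G (X ^ (G.natDegree - 1 - f.natDegree)))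
  rw [← map_mul, LinearMap.comp_apply, AdjoinRoot.modByMonicHom_mk, (modByMonic_eq_self_iff hG).2
    (degree_lt_degree (by rw [natDegree_mul_X_pow _ f0]; omega)), lcoeff_apply,
    coeff_mul_X_pow', if_pos (by omega), show _ - _ = f.natDegree by omega] at this
  exact f0 (leadingCoeff_eq_zero.1 this)

/-- `G` is realised on a space of type `ε` -/
def Ex (G : F[X]) (ε : ℤ) : Prop := ∃ (V : Type u) (_ : AddCommGroup V) (_ : Module F V)
  (_ : FiniteDimensional F V) (Q : QuadraticForm F V), ND Q ∧ finrank F V = 2 * G.natDegree ∧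
    eps Q = ε ∧ Real Q (G ^ 2)

variable [Finite F]

theorem Ex.real {V : Type*} [AddCommGroup V] [Module F V] [FiniteDimensional F V]
    {Q : QuadraticForm F V} (h : Ex G (eps Q)) (hQ : ND Q) (hV : finrank F V = 2 * G.natDegree) :
    Real Q (G ^ 2) := by
  obtain ⟨W, _, _, _, Q', h1, h2, h3, h4⟩ := h
  obtain ⟨e, he⟩ := exists_isometry_of_type h1 hQ (by simp [h2]) (h2.trans hV.symm)
    (by rw [← eps_eq_one_iff, ← eps_eq_one_iff, h3])
  exact h4.congr e he

theorem ex_base (hG : G.Monic) (h1 : G.eval 2 ≠ 0) (h2 : G.eval (-2) ≠ 0) : ∃ ε, Ex G ε ∧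
    ((2 : F) ≠ 0 → (ε = 1 ↔ chi (G.eval 2 * G.eval (-2)) = 1)) ∧
    ((2 : F) = 0 → (ε = 1 ↔ ∃ t, t ^ 2 + t + G.coeff 1 / G.coeff 0 = 0)) := by
  obtain ⟨S, _, _, _, l, s, hl, ch⟩ : ∃ (S : Type u) (_ : CommRing S) (_ : Algebra F S)
      (_ : FiniteDimensional F S) (l : S →ₗ[F] F) (s : S), (∀ x, (∀ y, l (x * y) = 0) → x = 0) ∧
      (LinearMap.mulLeft F s).charpoly = G := by
    obtain ⟨l, hl⟩ := exists_frob hG
    have := (AdjoinRoot.powerBasis' hG).finite
    refine ⟨_, _, _, this, l, AdjoinRoot.root G, hl, ?_⟩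
    rw [← LinearMap.charpoly_toMatrix _ (AdjoinRoot.powerBasis hG.ne_zero).basis]
    exact (charpoly_leftMulMatrix (AdjoinRoot.powerBasis hG.ne_zero)).trans
      (AdjoinRoot.minpoly_powerBasis_gen_of_monic hG)
  have dm : finrank F S = G.natDegree := by rw [← ch, LinearMap.charpoly_natDegree]
  have ev : ∀ c, G.eval c = LinearMap.det (LinearMap.mulLeft F (algebraMap F _ c - s)) := fun c =>
    ((congrArg (eval c) ch).symm.trans (LinearMap.eval_charpoly _ c)).trans (congrArg _
      (LinearMap.ext fun x => by simp [sub_mul, Algebra.smul_def]))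
  have un : ∀ c, G.eval c ≠ 0 → IsUnit (algebraMap F _ c - s) := fun c hc =>
    (Algebra.lmul_isUnit_iff (R := F)).1 ((LinearMap.isUnit_iff_isUnit_det _).2 (ev c ▸ hc.isUnit))
  have nd := nd_QS hl (s := s) (by simpa [map_ofNat] using (un _ h1).mul (un _ h2))
  have dim : finrank F (S × S) = 2 * G.natDegree := by rw [finrank_prod, dm, two_mul]
  refine ⟨_, ⟨_, _, _, inferInstance, QS l s, nd, dim, rfl, by rw [← ch]; exact real_QS⟩, fun t => ?_, fun t => ?_⟩
  · have : LinearMap.mulLeft F ((2 - s) * (2 + s)) = (-1 : F) • (LinearMap.mulLeft F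
        (algebraMap F _ 2 - s) ∘ₗ LinearMap.mulLeft F (algebraMap F _ (-2) - s)) :=
      LinearMap.ext fun x => by simp [map_ofNat]; ring
    rw [eps_eq_one_iff, plusType_iff_disc t nd dim, disc_QS hl t, this, LinearMap.det_smul,
      LinearMap.det_comp, ← ev, ← ev, map_mul, map_pow, dm,
      mul_eq_left₀ (left_ne_zero_of_mul_eq_one (chi_neg_one_pow_mul_self _))]
  · rw [t] at h1
    obtain ⟨d, hd⟩ := ((IsUnit.neg_iff s).1 (by simpa using un _ h1)).exists_right_inv
    let b := finBasis F S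
    have h3 : LinearMap.toMatrix b b (LinearMap.mulLeft F s) *
        LinearMap.toMatrix b b (LinearMap.mulLeft F d) = 1 := by
      rw [← LinearMap.toMatrix_comp, ← LinearMap.mulLeft_mul, hd, LinearMap.mulLeft_one,
        LinearMap.toMatrix_id]
    have h4 := Matrix.charpoly_inv _ (IsUnit.of_mul_eq_one_right _ h3)
    rw [Matrix.inv_eq_left_inv h3, LinearMap.charpoly_toMatrix, ch, ← C_1, ← C_neg, ← C_pow,
      ← C_mul] at h4
    rw [← coeff_zero_eq_eval_zero] at h1
    have h5 : G.coeff 1 = -G.coeff 0 * LinearMap.trace F _ (LinearMap.mulLeft F d) := by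
      rw [h4, coeff_C_mul, coeff_C_mul, coeff_zero_eq_eval_zero, Matrix.eval_charpolyRev,
        Matrix.coeff_charpolyRev_eq_neg_trace, LinearMap.trace_eq_matrix_trace F b]; ring
    rw [eps_eq_one_iff, plus_QS hl t hd, h5, show -G.coeff 0 = G.coeff 0 by
      linear_combination -t * G.coeff 0, mul_div_cancel_left₀ _ h1]

theorem ex_root {δ : ℤ} (h : Ex G δ) (hG : G.Monic) {c : F} (hc : c = 2 ∨ c = -2)
    (hε : ε = 1 ∨ ε = -1) : Ex (G * (X - C c)) ε := by
  obtain ⟨V, _, _, _, Q, h1, h2, -, h4⟩ := h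
  have := Fintype.ofFinite F
  have key : ∀ (W : Type u) [AddCommGroup W] [Module F W] [FiniteDimensional F W]
      (Q' : QuadraticForm F W), ND Q' → finrank F W = 2 → Ex (G * (X - C c)) (eps Q * eps Q') :=
    fun W _ _ _ Q' a b => ⟨V × W, _, _, inferInstance, Q.prod Q', h1.prod a, by
      rw [finrank_prod, h2, b, hG.natDegree_mul (monic_X_sub_C c), natDegree_X_sub_C]; ring,
      eps_prod h1 a (by simp [h2]) (by simp [b]), by
      rw [mul_pow]; exact h4.prod (b ▸ real_pm hc)⟩
  obtain ⟨ζ, hζ⟩ := exists_noroot (F := F)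
  have a := key _ _ (nd_QP 1) (finrank_QP F 1)
  have b := key _ _ (nd_QM (m := 0) (disc_ne_zero_of_aniso (aniso_of_no_root hζ))) (by simp)
  rw [eps_plus (plusType_QP 1)] at a
  rw [eps_minus (not_plusType_QM (aniso_of_no_root hζ))] at b
  rcases hε with rfl | rfl <;> rcases eps_cases Q with e | e <;> simp_all

theorem Ex.cases (h : Ex G ε) : ε = 1 ∨ ε = -1 := by
  obtain ⟨V, _, _, _, Q, -, -, rfl, -⟩ := h
  exact eps_cases Q

theorem ex_all (hG : G.Monic) : (∃ ε, Ex G ε) ∧
    (G.eval 2 = 0 ∨ G.eval (-2) = 0 → ∀ ε, ε = 1 ∨ ε = -1 → Ex G ε) := by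
  induction h : G.natDegree using Nat.strong_induction_on generalizing G with
  | _ n ih =>
    have : G.eval 2 = 0 ∨ G.eval (-2) = 0 → ∀ ε, ε = 1 ∨ ε = -1 → Ex G ε := fun h1 ε hε => by
      obtain ⟨c, hc, h2⟩ : ∃ c : F, (c = 2 ∨ c = -2) ∧ G.eval c = 0 :=
        h1.elim (fun e => ⟨_, .inl rfl, e⟩) fun e => ⟨_, .inr rfl, e⟩
      obtain ⟨G', rfl⟩ := dvd_iff_isRoot.2 h2
      have h3 := (monic_X_sub_C c).of_mul_monic_left hG
      obtain ⟨δ, h4⟩ := (ih _ (by
        rw [← h, (monic_X_sub_C c).natDegree_mul h3, natDegree_X_sub_C]; omega) h3 rfl).1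
      exact mul_comm G' _ ▸ ex_root h4 h3 hc hε
    refine ⟨?_, this⟩
    by_cases h1 : G.eval 2 = 0 ∨ G.eval (-2) = 0
    · exact ⟨1, this h1 1 (.inl rfl)⟩
    · exact (ex_base hG (fun e => h1 (.inl e)) fun e => h1 (.inr e)).imp fun _ => And.left

/-- monic polynomials of degree `n` -/
abbrev Mon (F : Type u) [Field F] (n : ℕ) := {G : F[X] // G.Monic ∧ G.natDegree = n}

omit [Finite F] in
theorem card_mon [Fintype F] (n : ℕ) : Nat.card (Mon F n) = Fintype.card F ^ n := by
  simpa using Nat.card_congr ((monicEquivDegreeLT n).trans (degreeLTEquiv F n).toEquiv)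

omit [Finite F] in
theorem sq_inj {G' : F[X]} (hG : G.Monic) (hG' : G'.Monic) (h : G ^ 2 = G' ^ 2) : G = G' :=
  eq_of_monic_of_associated hG hG' ((Associated.pow_iff two_ne_zero).1 (h ▸ .rfl))

theorem exists_flip {n : ℕ} (hn : 2 ≤ n) : ∃ φ : Mon F n → Mon F n, Function.Injective φ ∧
    ∀ G ε, ε = 1 ∨ ε = -1 → Ex G.1 ε ∨ Ex (φ G).1 ε := by
  have mon : ∀ (G : Mon F n) a b, (G.1 + (C a * X + C b)).Monic ∧ (G.1 + (C a * X + C b)).natDegree = n :=
    fun G a b => by
      have : (C a * X + C b).natDegree < G.1.natDegree := natDegree_linear_le.trans_lt (by omega)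
      exact ⟨G.2.1.add_of_left (degree_lt_degree this), (natDegree_add_eq_left_of_natDegree_lt this).trans
        G.2.2⟩
  have key : ∀ G G' : F[X], G.Monic → G'.Monic → (G.eval 2 ≠ 0 → G.eval (-2) ≠ 0 → G'.eval 2 ≠ 0 ∧
      G'.eval (-2) ≠ 0 ∧ ((2 : F) ≠ 0 → (chi (G.eval 2 * G.eval (-2)) = 1 ↔
        ¬ chi (G'.eval 2 * G'.eval (-2)) = 1)) ∧ ((2 : F) = 0 →
        ((∃ t, t ^ 2 + t + G.coeff 1 / G.coeff 0 = 0) ↔ ¬ ∃ t, t ^ 2 + t + G'.coeff 1 / G'.coeff 0 = 0))) →
      ∀ ε, ε = 1 ∨ ε = -1 → Ex G ε ∨ Ex G' ε := fun G G' hG hG' h ε hε => by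
    by_cases h1 : G.eval 2 = 0 ∨ G.eval (-2) = 0
    · exact .inl ((ex_all hG).2 h1 ε hε)
    push Not at h1
    obtain ⟨a1, a2, a3, a4⟩ := h h1.1 h1.2
    obtain ⟨δ, b1, b2, b3⟩ := ex_base hG h1.1 h1.2
    obtain ⟨δ', c1, c2, c3⟩ := ex_base hG' a1 a2
    have : δ = 1 ↔ ¬ δ' = 1 := (em ((2 : F) = 0)).elim (fun t => by rw [b3 t, c3 t, a4 t])
      fun t => by rw [b2 t, c2 t, a3 t]
    rcases b1.cases with rfl | rfl <;> rcases c1.cases with rfl | rfl <;> rcases hε with rfl | rfl <;>
      first | exact .inl b1 | exact .inr c1 | simp at this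
  have := Fintype.ofFinite F
  by_cases t : (2 : F) = 0
  · obtain ⟨α, hα⟩ := exists_noroot (F := F)
    refine ⟨fun G => ⟨_, mon G (α * G.1.coeff 0) 0⟩, fun G G' e => ?_, fun G => key _ _ G.2.1
      (mon ..).1 fun h1 _ => ⟨by simpa [t] using h1, by simpa [t] using h1, (absurd t ·), fun _ => ?_⟩⟩
    · have e := congrArg Subtype.val e
      have := congrArg (coeff · 0) e
      simp at this
      exact Subtype.ext (by simpa [this] using e)
    rw [t, ← coeff_zero_eq_eval_zero] at h1
    simp only [coeff_add, coeff_C_mul, coeff_X_one, coeff_X_zero, map_zero, coeff_zero, mul_zero,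
      add_zero, mul_one, add_div, mul_div_cancel_right₀ _ h1]
    refine ⟨fun ⟨u, hu⟩ ⟨v, hv⟩ => hα (u + v) (by
      linear_combination hu + hv + t * (u * v - G.1.coeff 1 / G.1.coeff 0)), fun h => ?_⟩
    by_contra! h2
    obtain ⟨u, hu⟩ := exists_artin_schreier t hα h2
    exact h ⟨u, by linear_combination hu + t * (u ^ 2 + u + α)⟩
  · obtain ⟨δ, hδ⟩ := exists_nonsq t
    have d0 : δ ≠ 0 := fun e => hδ (e ▸ IsSquare.zero)
    have t4 : (4 : F) ≠ 0 := by rw [show (4 : F) = 2 * 2 by norm_num]; exact mul_ne_zero t t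
    have e1 : ∀ G : F[X], (G + (C ((δ - 1) * G.eval 2 / 4) * X + C (2 * ((δ - 1) * G.eval 2 / 4)))).eval 2
        = δ * G.eval 2 := fun G => by
      simp only [eval_add, eval_mul, eval_C, eval_X]; field_simp; ring
    have e2 : ∀ (G : F[X]) a, (G + (C a * X + C (2 * a))).eval (-2) = G.eval (-2) := fun G a => by
      simp only [eval_add, eval_mul, eval_C, eval_X]; ring
    refine ⟨fun G => ⟨_, mon G ((δ - 1) * G.1.eval 2 / 4) (2 * ((δ - 1) * G.1.eval 2 / 4))⟩,
      fun G G' e => ?_, fun G => key _ _ G.2.1 (mon ..).1 fun h1 h2 =>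
        ⟨e1 _ ▸ mul_ne_zero d0 h1, (e2 ..).trans_ne h2, fun _ => ?_, (absurd · t)⟩⟩
    · have e := congrArg Subtype.val e
      have := congrArg (eval 2) e
      rw [e1, e1, mul_right_inj' d0] at this
      exact Subtype.ext (by simpa only [this, add_left_inj] using e)
    rw [e1, e2, mul_assoc, map_mul _ δ, chi_eq_neg_one_iff.2 hδ]
    rcases chi_dichotomy (mul_ne_zero h1 h2) with e | e <;> simp [-map_mul, e]

omit [Finite F]

variable [Fintype F] {V : Type*} [AddCommGroup V] [Module F V] [FiniteDimensional F V]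
  {Q : QuadraticForm F V} {n : ℕ}

theorem lower_even (hQ : ND Q) (hV : finrank F V = 2 * n) (hn : 2 ≤ n) :
    Fintype.card F ^ n ≤ 2 * Nat.card (ConjClasses (OG Q)) := by
  obtain ⟨φ, h1, h2⟩ := exists_flip (F := F) hn
  have : Finite (Mon F n) := Nat.finite_of_card_ne_zero (by simp [card_mon])
  have h3 := card_le_cc (OG Q).subtype (fun G : {G : Mon F n // Ex G.1 (eps Q)} => G.1.1 ^ 2)
    (fun G G' e => Subtype.ext (Subtype.ext (sq_inj G.1.2.1 G'.1.2.1 e)))
    fun G => G.2.real hQ (by rw [hV, G.1.2.2])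
  have h4 := Nat.card_le_card_of_injective (fun G : Mon F n => if h : Ex G.1 (eps Q) then
    ((⟨G, h⟩, false) : {G : Mon F n // Ex G.1 (eps Q)} × Bool) else
    (⟨φ G, (h2 G _ (eps_cases Q)).resolve_left h⟩, true)) fun G G' e => by
      dsimp only at e
      split_ifs at e <;> simp at e
      exacts [e, h1 e]
  rw [card_mon, Nat.card_prod] at h4
  simp at h4
  omega

theorem lower_odd (two : (2 : F) ≠ 0) (hQ : ND Q) (hV : finrank F V = 2 * n + 1) :
    2 * Fintype.card F ^ n ≤ Nat.card (ConjClasses (OG Q)) := by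
  have h3 := card_le_cc (OG Q).subtype
    (fun p : Mon F n × Bool => p.1.1 ^ 2 * (X - C (if p.2 then 2 else -2)))
    (fun ⟨G, b⟩ ⟨G', b'⟩ e => by
      have : b = b' := by
        by_contra h
        have t : (2 : F) ≠ -2 := fun e => mul_ne_zero two two (by linear_combination e)
        have := congrArg (rootMultiplicity 2) e
        have r : ∀ (G : Mon F n) c, rootMultiplicity 2 (G.1 ^ 2 * (X - C c)) =
            2 * rootMultiplicity 2 G.1 + if 2 = c then 1 else 0 := fun G c => by
          have := G.2.1.ne_zero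
          rw [rootMultiplicity_mul (mul_ne_zero (pow_ne_zero _ this) (X_sub_C_ne_zero _)), pow_two,
            rootMultiplicity_mul (mul_ne_zero this this), rootMultiplicity_X_sub_C, two_mul]
        rw [r, r] at this
        cases b <;> cases b' <;> simp [t] at h this <;> omega
      subst this
      rw [Subtype.ext (sq_inj G.2.1 G'.2.1 (mul_right_cancel₀ (X_sub_C_ne_zero _) e))])
    fun ⟨G, b⟩ => by
      obtain ⟨_, W, _, _, _, Q', h1, h2, -, h4⟩ := (ex_all G.2.1).1
      obtain ⟨c, c0, hc⟩ : ∃ c : F, c ≠ 0 ∧ chi c = disc Q' * disc Q * chi (2 : F) := by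
        obtain ⟨δ, hδ⟩ := exists_nonsq two
        rcases disc_dichotomy h1 with a | a <;> rcases disc_dichotomy hQ with a' | a' <;>
          rcases chi_dichotomy two with a'' | a'' <;> rw [a, a', a''] <;>
          first | exact ⟨1, one_ne_zero, map_one _⟩ | exact ⟨δ, fun e => hδ (e ▸ IsSquare.zero),
            chi_eq_neg_one_iff.2 hδ⟩
      have h5 : ∀ x y, polar (c • QuadraticMap.sq (R := F) (A := F)) x y = 2 * c * x * y :=
        fun x y => by simp [polar]; ring
      have nd : ND (c • QuadraticMap.sq (R := F) (A := F)) := nd_of fun x hx => by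
        simpa [two, c0] using (h5 x 1).symm.trans (hx 1)
      obtain ⟨e, he⟩ := exists_isometry_of_disc two (h1.prod nd) hQ (by simp [h2, hV, G.2.2]) (by
        rw [disc_prod, disc_eq _ (Basis.singleton Unit F), Matrix.det_unique]
        simp only [gram, Matrix.of_apply, polarBilin_apply_apply, h5, Basis.singleton_apply, mul_one,
          map_mul, hc]
        linear_combination disc Q * chi (2 : F) ^ 2 * disc_mul_self h1 + disc Q * chi_mul_self two)
      have := (h4.prod (real_pm (Q := c • QuadraticMap.sq) (c := if b then 2 else -2)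
        (by cases b <;> simp))).congr e he
      rwa [finrank_self, pow_one] at this
  rw [Nat.card_prod, card_mon] at h3
  simpa [mul_comm] using h3

open Matrix in
theorem lower_sp (two : (2 : F) = 0) :
    Fintype.card F ^ n ≤ Nat.card (ConjClasses (symplecticGroup (Fin n) F)) := by
  have := CharTwo.of_one_ne_zero_of_two_eq_zero one_ne_zero two
  rw [← card_mon]
  refine card_le_cc ((glEquiv _ F).toMonoidHom.comp (symplecticGroup (Fin n) F).subtype.toHomUnits)
    (fun G : Mon F n => G.1 ^ 2) (fun G G' e => Subtype.ext (sq_inj G.2.1 G'.2.1 e)) fun G => ?_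
  obtain ⟨_, W, _, _, _, Q', h1, h2, -, h4⟩ := (ex_all G.2.1).1
  let e := LinearEquiv.ofFinrankEq (R := F) W (Fin n ⊕ Fin n → F) (by rw [finrank_QP, h2, G.2.2])
  have he : ∀ x, Q'.comp e.symm.toLinearMap (e x) = Q' x := by simp
  obtain ⟨P, hP⟩ := alt_cong isAlt_pG isAlt_J (det_pG.2 (h1.congr e he)) det_J_ne_zero
  let e' := P.toLinearEquiv' (invertibleOfIsUnitDet P (isUnit_iff_ne_zero.2
    (det_ne_zero_of_isom (κ := Unit) (σ := RingHom.id F) det_J_ne_zero hP)))
  obtain ⟨g, hg⟩ := (h4.congr e he).congr (Q' := (Q'.comp e.symm.toLinearMap).comp e'.toLinearMap)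
    e'.symm (by simp)
  have h5 : pG ((Q'.comp e.symm.toLinearMap).comp e'.toLinearMap) = J (Fin n) F :=
    pG_eq_iff.2 fun u v => by
      rw [← polar_map_of (Q' := Q'.comp e.symm.toLinearMap) e'.toLinearMap fun _ => rfl, ← bf_pG, ← hP]
      exact sf_mulVec (RingHom.id F) _ P u v
  refine ⟨⟨LinearMap.toMatrix' g.1.toLinearMap, SymplecticGroup.mem_iff'.2 (h5 ▸ pG_isom fun v => by
    rw [LinearMap.toMatrix'_mulVec]; exact OG.map_Q g v)⟩, ?_⟩
  rw [← hg, map_inv]
  congr <;> exact LinearEquiv.ext fun v => LinearMap.toMatrix'_mulVec _ v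

theorem card_cc_congr {G H : Type*} [Group G] [Group H] (e : G ≃* H) :
    Nat.card (ConjClasses G) = Nat.card (ConjClasses H) :=
  Nat.card_congr (Quotient.congr e.toEquiv fun a b => ⟨e.toMonoidHom.map_isConj, fun h =>
    isConj_iff.2 (by simpa using e.symm.toMonoidHom.map_isConj h)⟩)

theorem two_eq_zero_of_even (h : Even (Fintype.card F)) : (2 : F) = 0 := by
  by_contra h2
  have := card_odd_of_two_ne_zero h2
  have := Nat.even_iff.1 h
  omega

end Cfsg.Agent.H6N
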