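import Cfsg.Agent.H6.LyD0

set_option autoImplicit false
set_option maxRecDepth 100000

namespace Cfsg.Agent.H6.Ly

open Cfsg.Agent.H5 Cfsg.Agent.H8.TC Cfsg.Agent.H6.TT

theorem hf_262 : blk hf (nat_lit 66825) (nat_lit 262) (nat_lit 16) = 0 := by decide +kernel
theorem hf_278 : blk hf (nat_lit 66825) (nat_lit 278) (nat_lit 16) = 0 := by decide +kernel
theorem hf_294 : blk hf (nat_lit 66825) (nat_lit 294) (nat_lit 16) = 0 := by decide +kernel
theorem hf_310 : blk hf (nat_lit 66825) (nat_lit 310) (nat_lit 16) = 0 := by decide +kernel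
theorem hf_326 : blk hf (nat_lit 66825) (nat_lit 326) (nat_lit 16) = 0 := by decide +kernel
theorem hf_342 : blk hf (nat_lit 66825) (nat_lit 342) (nat_lit 16) = 0 := by decide +kernel
theorem hf_358 : blk hf (nat_lit 66825) (nat_lit 358) (nat_lit 16) = 0 := by decide +kernel
theorem hf_374 : blk hf (nat_lit 66825) (nat_lit 374) (nat_lit 16) = 0 := by decide +kernel
theorem hf_390 : blk hf (nat_lit 66825) (nat_lit 390) (nat_lit 16) = 0 := by decide +kernel
theorem hf_406 : blk hf (nat_lit 66825) (nat_lit 406) (nat_lit 16) = 0 := by decide +kernel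
theorem hf_422 : blk hf (nat_lit 66825) (nat_lit 422) (nat_lit 16) = 0 := by decide +kernel
theorem hf_438 : blk hf (nat_lit 66825) (nat_lit 438) (nat_lit 16) = 0 := by decide +kernel
theorem hf_454 : blk hf (nat_lit 66825) (nat_lit 454) (nat_lit 16) = 0 := by decide +kernel
theorem hf_470 : blk hf (nat_lit 66825) (nat_lit 470) (nat_lit 16) = 0 := by decide +kernel
theorem hf_486 : blk hf (nat_lit 66825) (nat_lit 486) (nat_lit 16) = 0 := by decide +kernel
theorem hf_502 : blk hf (nat_lit 66825) (nat_lit 502) (nat_lit 16) = 0 := by decide +kernel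
theorem hf_518 : blk hf (nat_lit 66825) (nat_lit 518) (nat_lit 6) = 0 := by decide +kernel

end Cfsg.Agent.H6.Ly
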