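import Cfsg.Agent.H6.LyD0

set_option autoImplicit false
set_option maxRecDepth 100000

namespace Cfsg.Agent.H6.Ly

open Cfsg.Agent.H5 Cfsg.Agent.H8.TC Cfsg.Agent.H6.TT

theorem hf_524 : blk hf (nat_lit 66825) (nat_lit 524) (nat_lit 16) = 0 := by decide +kernel
theorem hf_540 : blk hf (nat_lit 66825) (nat_lit 540) (nat_lit 16) = 0 := by decide +kernel
theorem hf_556 : blk hf (nat_lit 66825) (nat_lit 556) (nat_lit 16) = 0 := by decide +kernel
theorem hf_572 : blk hf (nat_lit 66825) (nat_lit 572) (nat_lit 16) = 0 := by decide +kernel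
theorem hf_588 : blk hf (nat_lit 66825) (nat_lit 588) (nat_lit 16) = 0 := by decide +kernel
theorem hf_604 : blk hf (nat_lit 66825) (nat_lit 604) (nat_lit 16) = 0 := by decide +kernel
theorem hf_620 : blk hf (nat_lit 66825) (nat_lit 620) (nat_lit 16) = 0 := by decide +kernel
theorem hf_636 : blk hf (nat_lit 66825) (nat_lit 636) (nat_lit 16) = 0 := by decide +kernel
theorem hf_652 : blk hf (nat_lit 66825) (nat_lit 652) (nat_lit 16) = 0 := by decide +kernel
theorem hf_668 : blk hf (nat_lit 66825) (nat_lit 668) (nat_lit 16) = 0 := by decide +kernel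
theorem hf_684 : blk hf (nat_lit 66825) (nat_lit 684) (nat_lit 16) = 0 := by decide +kernel
theorem hf_700 : blk hf (nat_lit 66825) (nat_lit 700) (nat_lit 16) = 0 := by decide +kernel
theorem hf_716 : blk hf (nat_lit 66825) (nat_lit 716) (nat_lit 16) = 0 := by decide +kernel
theorem hf_732 : blk hf (nat_lit 66825) (nat_lit 732) (nat_lit 16) = 0 := by decide +kernel
theorem hf_748 : blk hf (nat_lit 66825) (nat_lit 748) (nat_lit 16) = 0 := by decide +kernel
theorem hf_764 : blk hf (nat_lit 66825) (nat_lit 764) (nat_lit 16) = 0 := by decide +kernel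
theorem hf_780 : blk hf (nat_lit 66825) (nat_lit 780) (nat_lit 6) = 0 := by decide +kernel

end Cfsg.Agent.H6.Ly
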