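import Cfsg.Agent.H6.LyD0

set_option autoImplicit false
set_option maxRecDepth 100000

namespace Cfsg.Agent.H6.Ly

open Cfsg.Agent.H5 Cfsg.Agent.H8.TC Cfsg.Agent.H6.TT

theorem hf_786 : blk hf (nat_lit 66825) (nat_lit 786) (nat_lit 16) = 0 := by decide +kernel
theorem hf_802 : blk hf (nat_lit 66825) (nat_lit 802) (nat_lit 16) = 0 := by decide +kernel
theorem hf_818 : blk hf (nat_lit 66825) (nat_lit 818) (nat_lit 16) = 0 := by decide +kernel
theorem hf_834 : blk hf (nat_lit 66825) (nat_lit 834) (nat_lit 16) = 0 := by decide +kernel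
theorem hf_850 : blk hf (nat_lit 66825) (nat_lit 850) (nat_lit 16) = 0 := by decide +kernel
theorem hf_866 : blk hf (nat_lit 66825) (nat_lit 866) (nat_lit 16) = 0 := by decide +kernel
theorem hf_882 : blk hf (nat_lit 66825) (nat_lit 882) (nat_lit 16) = 0 := by decide +kernel
theorem hf_898 : blk hf (nat_lit 66825) (nat_lit 898) (nat_lit 16) = 0 := by decide +kernel
theorem hf_914 : blk hf (nat_lit 66825) (nat_lit 914) (nat_lit 16) = 0 := by decide +kernel
theorem hf_930 : blk hf (nat_lit 66825) (nat_lit 930) (nat_lit 16) = 0 := by decide +kernel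
theorem hf_946 : blk hf (nat_lit 66825) (nat_lit 946) (nat_lit 16) = 0 := by decide +kernel
theorem hf_962 : blk hf (nat_lit 66825) (nat_lit 962) (nat_lit 16) = 0 := by decide +kernel
theorem hf_978 : blk hf (nat_lit 66825) (nat_lit 978) (nat_lit 16) = 0 := by decide +kernel
theorem hf_994 : blk hf (nat_lit 66825) (nat_lit 994) (nat_lit 16) = 0 := by decide +kernel
theorem hf_1010 : blk hf (nat_lit 66825) (nat_lit 1010) (nat_lit 16) = 0 := by decide +kernel
theorem hf_1026 : blk hf (nat_lit 66825) (nat_lit 1026) (nat_lit 16) = 0 := by decide +kernel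
theorem hf_1042 : blk hf (nat_lit 66825) (nat_lit 1042) (nat_lit 3) = 0 := by decide +kernel

end Cfsg.Agent.H6.Ly
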