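import Cfsg.Agent.H6.LyK0
import Cfsg.Agent.H6.LyK1
import Cfsg.Agent.H6.LyK2
import Cfsg.Agent.H6.LyK3

set_option autoImplicit false
set_option maxRecDepth 100000

namespace Cfsg.Agent.H6.Ly

open Cfsg.Agent.H5 Cfsg.Agent.H8.TC Cfsg.Agent.H6.TT

theorem hf_all : ∀ i < 66825, hf i = 0 :=
  blk_end (blk_step (blk_step (blk_step (blk_step (blk_step (blk_step (blk_step (blk_step (blk_step (blk_step (blk_step (blk_step (blk_step (blk_step (blk_step (blk_step (blk_step (blk_step (blk_step (blk_step (blk_step (blk_step (blk_step (blk_step (blk_step (blk_step (blk_step (blk_step (blk_step (blk_step (blk_step (blk_step (blk_step (blk_step (blk_step (blk_step (blk_step (blk_step (blk_step (blk_step (blk_step (blk_step (blk_step (blk_step (blk_step (blk_step (blk_step (blk_step (blk_step (blk_step (blk_step (blk_step (blk_step (blk_step (blk_step (blk_step (blk_step (blk_step (blk_step (blk_step (blk_step (blk_step (blk_step (blk_step (blk_step (blk_step (blk_step (blk_step (blk_init _ _)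
    hf_0)
    hf_16)
    hf_32)
    hf_48)
    hf_64)
    hf_80)
    hf_96)
    hf_112)
    hf_128)
    hf_144)
    hf_160)
    hf_176)
    hf_192)
    hf_208)
    hf_224)
    hf_240)
    hf_256)
    hf_262)
    hf_278)
    hf_294)
    hf_310)
    hf_326)
    hf_342)
    hf_358)
    hf_374)
    hf_390)
    hf_406)
    hf_422)
    hf_438)
    hf_454)
    hf_470)
    hf_486)
    hf_502)
    hf_518)
    hf_524)
    hf_540)
    hf_556)
    hf_572)
    hf_588)
    hf_604)
    hf_620)
    hf_636)
    hf_652)
    hf_668)
    hf_684)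
    hf_700)
    hf_716)
    hf_732)
    hf_748)
    hf_764)
    hf_780)
    hf_786)
    hf_802)
    hf_818)
    hf_834)
    hf_850)
    hf_866)
    hf_882)
    hf_898)
    hf_914)
    hf_930)
    hf_946)
    hf_962)
    hf_978)
    hf_994)
    hf_1010)
    hf_1026)
    hf_1042) (by decide)

end Cfsg.Agent.H6.Ly
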