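import Cfsg.Agent.H6.LyD2
import Cfsg.Agent.H6.LyK

/-! The order bound for groups satisfying the Lyons relators. -/

set_option autoImplicit false
set_option maxRecDepth 100000

namespace Cfsg.Agent.H6.Ly

open Subgroup Cfsg.Agent.H5 Cfsg.Agent.H8.TC Cfsg.Agent.H6.TT

def p0 : ℕ → ℕ := fld (nat_lit 0xc23ba9810) (nat_lit 4) (nat_lit 15)
noncomputable def ww (j : ℕ) : List ℕ := [13] ++ aw j ++ [13]
noncomputable def trel (j : ℕ) (t : List ℕ × List ℕ) : List ℕ := ww j ++ t.1 ++ ww j ++ iw t.2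
noncomputable def xrels : List (List ℕ) :=
  (List.range 12).map (fun c => [c + 1, siv (c + 1)]) ++
  (List.range 7).map (fun c => [13, c + 1, 13] ++ iw (phw [c + 1])) ++
  [[13, 13], [13, 8, 13, 8, 13, 8], aw 3 ++ aw 3, aw 4 ++ aw 4] ++
  t2L.map (trel 2) ++ t3L.map (trel 3)
noncomputable def RL : List (List ℕ) := hrels.map (List.map p0) ++ srels ++ xrels

variable {Γ : Type*} [Group Γ] {lt : ℕ → Γ}

structure Rel (lt : ℕ → Γ) : Prop where
  zero : lt 0 = 1
  rel : ∀ l ∈ RL, ev lt l = 1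

theorem Rel.x (R : Rel lt) {l : List ℕ} (h : l ∈ xrels) : ev lt l = 1 :=
  R.rel l (List.mem_append_right _ h)

theorem Rel.iv (R : Rel lt) (c : ℕ) (h1 : 1 ≤ c) (h2 : c ≤ 12) : lt (siv c) = (lt c)⁻¹ := by
  have := R.x (l := [c, siv c]) (by interval_cases c <;> decide +kernel)
  rw [ev_cons, ev_cons, ev_nil, mul_one] at this
  exact eq_inv_of_mul_eq_one_right this

theorem Rel.iw (R : Rel lt) {l : List ℕ} (h : OK 12 l) : ev lt (iw l) = (ev lt l)⁻¹ :=
  ev_invw fun c hc => R.iv c (h c hc).1 (h c hc).2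

theorem Rel.tabS (R : Rel lt) : Tab lt (gen lt 7) siv sT 12 15400 :=
  tab_of (ns := 7) ⟨R.zero, fun c a b => by interval_cases c <;> decide, R.iv,
    rel_of_rot R.zero (rel_of_list R.zero (by decide +kernel) fun l hl =>
      R.rel l (List.mem_append_left _ (List.mem_append_right _ hl))) sW_ok,
    fun _ a b => lt_mem_gen a b⟩ sf_all

theorem Rel.tabH (R : Rel lt) :
    Tab (fun c => lt (p0 c)) (gen (fun c => lt (p0 c)) 6) hiv hT 8 66825 :=
  tab_of (ns := 6) ⟨R.zero, fun c a b => by interval_cases c <;> decide,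
    fun c a b => by
      obtain ⟨x, y, z⟩ : 1 ≤ p0 c ∧ p0 c ≤ 12 ∧ p0 (hiv c) = siv (p0 c) := by
        interval_cases c <;> decide
      exact (congrArg lt z).trans (R.iv _ x y),
    rel_of_rot (lt := fun c => lt (p0 c)) R.zero (rel_of_list (lt := fun c => lt (p0 c)) R.zero
      (by decide +kernel) fun l hl => (ev_map lt p0 l).symm.trans
      (R.rel _ (List.mem_append_left _ (List.mem_append_left _ (List.mem_map_of_mem hl))))) hW_ok,
    fun _ a b => lt_mem_gen a b⟩ hf_all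

theorem Rel.rr (R : Rel lt) : lt 13 * lt 13 = 1 := by
  simpa [ev] using R.x (l := [13, 13]) (by decide +kernel)
theorem Rel.ri (R : Rel lt) : (lt 13)⁻¹ = lt 13 := inv_eq_of_mul_eq_one_right R.rr
theorem Rel.rc (R : Rel lt) (x : Γ) : lt 13 * (lt 13 * x) = x := by rw [← mul_assoc, R.rr, one_mul]

theorem phw_ok (l : List ℕ) : OK 12 (phw l) := fun c hc => by
  obtain ⟨k, -, h⟩ := List.mem_flatMap.1 hc
  exact OK.getL (by decide) k c h

theorem Rel.ph (R : Rel lt) {l : List ℕ} (h : OK 7 l) : ev lt (phw l) = lt 13 * ev lt l * lt 13 := by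
  induction l with
  | nil => simp [phw, ev, R.rr]
  | cons c l ih =>
    have h1 := ih fun d hd => h d (List.mem_cons_of_mem _ hd)
    obtain ⟨a, b⟩ := h c List.mem_cons_self
    have h2 := R.x (l := [13, c, 13] ++ Ly.iw (phw [c])) (by interval_cases c <;> decide +kernel)
    rw [ev_app, R.iw (phw_ok _), mul_inv_eq_one] at h2
    have h3 : phw (c :: l) = phw [c] ++ phw l := by simp [phw]
    rw [h3, ev_app, ← h2, h1, ev_cons, ev_cons, ev_cons, ev_cons, ev_nil]
    simp only [mul_assoc, R.rc, one_mul]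

theorem Rel.phS (R : Rel lt) {s : Γ} (hs : s ∈ gen lt 7) : lt 13 * s * lt 13 ∈ gen lt 12 := by
  induction hs using closure_induction with
  | mem x hx =>
    obtain ⟨c, a, b, rfl⟩ := hx
    have := R.ph (l := [c]) (by simp [OK, a, b])
    rw [ev_cons, ev_nil, mul_one] at this
    exact this ▸ (phw_ok _).mem
  | one => simp [R.rr]
  | mul x y _ _ a b => convert mul_mem a b using 1; simp only [mul_assoc, R.rc]
  | inv x _ a => convert inv_mem a using 1; simp only [mul_inv_rev, R.ri, mul_assoc]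

theorem aw_ok (j : ℕ) : OK 12 (aw j) := OK.getL (by decide) j

noncomputable abbrev A (lt : ℕ → Γ) (j : ℕ) : Γ := ev lt (aw j)
noncomputable abbrev Wj (lt : ℕ → Γ) (j : ℕ) : Γ := lt 13 * A lt j * lt 13

theorem Rel.aa (R : Rel lt) {j : ℕ} (hj : j ≤ 4) : A lt j * A lt j = 1 := by
  rw [← ev_app]
  interval_cases j
  · rfl
  all_goals exact R.x (by decide +kernel)

theorem Rel.wi (R : Rel lt) {j : ℕ} (hj : j ≤ 4) : (Wj lt j)⁻¹ = Wj lt j := by
  simp only [mul_inv_rev, R.ri, inv_eq_of_mul_eq_one_right (R.aa hj), mul_assoc]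

theorem Rel.tri (R : Rel lt) : Wj lt 1 = A lt 1 * lt 13 * A lt 1 := by
  have h := R.x (l := [13, 8, 13, 8, 13, 8]) (by decide +kernel)
  have e : A lt 1 = lt 8 := mul_one _
  have h2 := R.aa (j := 1) (by omega)
  simp only [ev_cons, ev_nil, mul_one] at h
  rw [Wj, e] at *
  rw [← mul_assoc, ← mul_assoc, mul_eq_one_iff_eq_inv] at h
  rw [h, mul_inv_rev, mul_inv_rev, R.ri, inv_eq_of_mul_eq_one_right h2]

/-- the ball of radius two -/
def Om (lt : ℕ → Γ) (g : Γ) : Prop := ∃ a ∈ gen lt 12, ∃ b ∈ gen lt 12, ∃ c ∈ gen lt 12,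
  g = a ∨ g = a * lt 13 * b ∨ g = a * lt 13 * b * lt 13 * c

theorem Om.left {g h : Γ} (hg : Om lt g) (hh : h ∈ gen lt 12) : Om lt (h * g) := by
  obtain ⟨a, ha, b, hb, c, hc, e⟩ := hg
  refine ⟨h * a, mul_mem hh ha, b, hb, c, hc, ?_⟩
  rcases e with rfl | rfl | rfl <;> simp [mul_assoc]

theorem Om.right {g h : Γ} (hg : Om lt g) (hh : h ∈ gen lt 12) : Om lt (g * h) := by
  obtain ⟨a, ha, b, hb, c, hc, rfl | rfl | rfl⟩ := hg
  · exact ⟨_, mul_mem ha hh, 1, one_mem _, 1, one_mem _, Or.inl rfl⟩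
  · exact ⟨a, ha, _, mul_mem hb hh, 1, one_mem _, Or.inr (Or.inl (mul_assoc _ _ _))⟩
  · exact ⟨a, ha, b, hb, _, mul_mem hc hh, Or.inr (Or.inr (mul_assoc _ _ _))⟩

theorem Om.one {a b : Γ} (ha : a ∈ gen lt 12) (hb : b ∈ gen lt 12) : Om lt (a * lt 13 * b) :=
  ⟨a, ha, b, hb, 1, one_mem _, Or.inr (Or.inl rfl)⟩
theorem Om.two {a b c : Γ} (ha : a ∈ gen lt 12) (hb : b ∈ gen lt 12) (hc : c ∈ gen lt 12) :
    Om lt (a * lt 13 * b * lt 13 * c) := ⟨a, ha, b, hb, c, hc, Or.inr (Or.inr rfl)⟩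

def Gd (lt : ℕ → Γ) (i : ℕ) (h : Γ) : Prop := Om lt (Wj lt i * h⁻¹ * lt 13)

noncomputable def TJ (lt : ℕ → Γ) (j : ℕ) : Subgroup Γ :=
  (gen lt 12).comap (MulAut.conj (Wj lt j)).toMonoidHom

theorem mem_TJ {j : ℕ} {t : Γ} : t ∈ TJ lt j ↔ Wj lt j * t * (Wj lt j)⁻¹ ∈ gen lt 12 := Iff.rfl

theorem Rel.gd_S (R : Rel lt) {i : ℕ} {g h : Γ} (e : g * h⁻¹ ∈ gen lt 7) (hh : Gd lt i h) :
    Gd lt i g := by
  have := Om.right hh (R.phS (inv_mem e))
  unfold Gd
  convert this using 1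
  simp only [mul_assoc, R.rc, mul_inv_rev, inv_inv, inv_mul_cancel_left]

theorem gd_T {i : ℕ} {h t : Γ} (e : t ∈ TJ lt i) (hh : Gd lt i (h * t)) : Gd lt i h := by
  have := Om.left hh (mem_TJ.1 e)
  unfold Gd
  convert this using 1
  group

theorem Rel.gd_low (R : Rel lt) {i : ℕ} (hi : i ≤ 1) {h : Γ} (hh : h ∈ gen lt 12) : Gd lt i h := by
  unfold Gd
  interval_cases i
  · convert Om.one (inv_mem hh) (one_mem _) using 1
    simp [Wj, A, aw, awL, H4.getL, ev, R.rr]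
  · rw [R.tri]
    convert Om.two (aw_ok 1).mem (mul_mem (aw_ok 1).mem (inv_mem hh)) (one_mem _) using 1
    simp only [mul_assoc, mul_one]

theorem Rel.gd_lab (R : Rel lt) {i j : ℕ} (hj : j ≤ 1) {u : Γ} (hu : u ∈ gen lt 7) :
    Gd lt i (A lt j * u) := by
  have h1 := mul_mem (aw_ok i).mem (R.phS (inv_mem hu))
  have h2 : Wj lt i * (A lt j * u)⁻¹ * lt 13 = lt 13 * (A lt i * (lt 13 * u⁻¹ * lt 13)) * Wj lt j := by
    rw [mul_inv_rev, inv_eq_of_mul_eq_one_right (R.aa (by omega))]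
    simp only [mul_assoc, R.rc]
  unfold Gd
  rw [h2]
  interval_cases j
  · convert Om.one (one_mem _) h1 using 1
    simp [Wj, A, aw, awL, H4.getL, ev, R.rr]
  · rw [R.tri]
    convert Om.two (one_mem _) (mul_mem h1 (aw_ok 1).mem) (aw_ok 1).mem using 1
    simp only [mul_assoc, one_mul]

theorem Rel.lab (R : Rel lt) : ∀ c < 15400, lab (lb c) ≤ 4 ∧
    ∃ u ∈ gen lt 7, TT.rep lt sT c * (A lt (lab (lb c)) * u)⁻¹ ∈ gen lt 7 := by
  intro c
  induction hd : dep (lb c) using Nat.strong_induction_on generalizing c with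
  | _ d ih =>
    intro hc
    have h := lf_all c hc
    simp only [chkL, force_eq', ifz_eq] at h
    split_ifs at h with h0
    · obtain ⟨h1, h2⟩ := add_eq_zero' h
      have h3 := (run_zero R.tabS (by omega) (aw_ok (Ly.lab (lb c)))).2
      have h4 : Ly.lab (lb c) - 4 = 0 := h2
      rw [show run sT (aw (Ly.lab (lb c))) 0 = c from xor_eq_zero' h1] at h3
      exact ⟨by omega, 1, one_mem _, by simpa using inv_mem h3⟩
    · obtain ⟨h1, h2⟩ := add_eq_zero' h
      obtain ⟨h3, h4⟩ := add_eq_zero' h2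
      generalize Nat.land (Nat.shiftRight (lb c) (nat_lit 3)) (nat_lit 15) = k at h0 h1 h3 h4
      have h5 : k - 7 = 0 := h1
      obtain ⟨a, u, hu, b⟩ := ih _ (hd ▸ lt_of_lz h4) _ rfl (R.tabS.lt_n c hc k (by omega) (by omega))
      rw [xor_eq_zero' h3] at a b
      have hk : lt k ∈ gen lt 7 := lt_mem_gen (by omega) (by omega)
      refine ⟨a, _, mul_mem hu (inv_mem hk), ?_⟩
      convert mul_mem (R.tabS.holds c hc k (by omega) (by omega)) b using 1
      group

theorem Rel.trel (R : Rel lt) {j : ℕ} (hj : j ≤ 4) {t : List ℕ × List ℕ} (h : trel j t ∈ xrels)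
    (h2 : OK 12 t.2) : Wj lt j * ev lt t.1 * Wj lt j = ev lt t.2 ∧ ev lt t.1 ∈ TJ lt j := by
  have h1 := R.x h
  have e : ev lt (ww j) = Wj lt j := by simp [ww, ev, A, mul_assoc]
  rw [Ly.trel, ev_app, ev_app, ev_app, R.iw h2, mul_inv_eq_one, e] at h1
  exact ⟨h1, by rw [mem_TJ, R.wi hj, h1]; exact h2.mem⟩

theorem Rel.f4 (R : Rel lt) {l : List ℕ} (h : OK 7 l) (e : run sT (aw 4 ++ l ++ aw 4) 0 = 0) :
    ev lt (phw l) ∈ TJ lt 4 := by
  have h1 := R.phS (run_mem R.tabS (by omega) (a := aw 4 ++ l ++ aw 4) (fun c hc => by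
    simp only [List.mem_append] at hc
    rcases hc with (a | a) | a
    exacts [aw_ok 4 c a, ⟨(h c a).1, (h c a).2.trans (by omega)⟩, aw_ok 4 c a]) e)
  rw [mem_TJ, R.wi le_rfl, R.ph h]
  convert h1 using 1
  simp only [ev_app, mul_assoc, R.rc]

theorem Rel.m23 (R : Rel lt) {j : ℕ} {h u t : List ℕ} (hu : OK 7 u) (ht : ev lt t ∈ TJ lt j)
    (h1 : OK 12 h ∧ OK 12 (aw j ++ u) ∧ run sT h 0 = run sT (aw j ++ u) 0) (y : Γ) :
    lt 13 * ev lt h * lt 13 * y * (Wj lt j * (ev lt t * ev lt (phw u) * y))⁻¹ ∈ gen lt 12 := by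
  have h2 := R.phS (run_eq R.tabS (by omega) h1.1 h1.2.1 h1.2.2)
  convert mul_mem h2 (inv_mem (mem_TJ.1 ht)) using 1
  rw [R.ph hu, ev_app]
  simp only [A, mul_assoc, mul_inv_rev, R.ri, R.rc, inv_inv, mul_inv_cancel_left, inv_mul_cancel_left]

theorem Rel.ex (R : Rel lt) {h v u : List ℕ} {j : ℕ} (hv : OK 7 v) (hu : OK 7 u)
    (ho : OK 12 (v ++ aw j ++ u)) (e : ev lt (h ++ Ly.iw (v ++ aw j ++ u)) = 1) :
    lt 13 * ev lt h * lt 13 = ev lt (phw v) * Wj lt j * ev lt (phw u) := by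
  rw [ev_app, R.iw ho, mul_inv_eq_one] at e
  rw [e, R.ph hv, R.ph hu, ev_app, ev_app]
  simp only [mul_assoc, R.rc]

theorem Rel.tau (R : Rel lt) (e1 : ev lt ex1 = 1) (e2 : ev lt ex2 = 1) : ev lt tau ∈ TJ lt 4 := by
  have t1 := (R.trel (j := 3) (by omega) (t := t3L.getLast (by decide)) (by decide +kernel)
    (by decide +kernel)).2
  have t2 := (R.trel (j := 2) (by omega) (t := (ht2, ht2c)) (by decide +kernel) (by decide +kernel)).1
  have t3 := (R.trel (j := 2) (by omega) (t := t2L.getLast (by decide)) (by decide +kernel)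
    (by decide +kernel)).2
  have a1 := R.m23 (h := k3) (u := hu1) (t := ht1) (by decide) t1 (by decide +kernel)
    (A lt 1 * lt 13 * ev lt (aw 1 ++ hv0))
  have a2 := R.ex (by decide) (by decide) (by decide +kernel) e1
  have a3 := R.m23 (h := m3) (u := hu3) (t := ht3) (by decide) t3 (by decide +kernel)
    (A lt 2 * lt 13 * ev lt m1)
  have a4 := R.ex (by decide) (by decide) (by decide +kernel) e2
  have a5 := R.m23 (h := q2) (u := hu5) (t := []) (j := 4) (by decide) (one_mem _) (by decide +kernel)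
    (ev lt (aw 1 ++ phw hu4 ++ m1))
  have b1 : lt 13 * ev lt k3 * lt 13 * (A lt 1 * lt 13 * ev lt (aw 1 ++ hv0)) = Wj lt 4 := by
    have := R.tri
    rw [k3, ev_app, ev_app, ev_app, R.iw (phw_ok _), R.ph (by decide)]
    calc _ = Wj lt 4 * (ev lt hv0)⁻¹ * Wj lt 1 * (A lt 1 * lt 13 * A lt 1) * ev lt hv0 := by
          simp only [mul_assoc, mul_inv_rev, R.ri]
      _ = _ := by
          rw [← this, mul_assoc (_ * _⁻¹) (Wj lt 1), mul_eq_one_iff_inv_eq.2 (R.wi (j := 1) (by omega)),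
            mul_one, inv_mul_cancel_right]
  have b2 : Wj lt 3 * (ev lt ht1 * ev lt (phw hu1) * (A lt 1 * lt 13 * ev lt (aw 1 ++ hv0))) =
      lt 13 * ev lt m3 * lt 13 * (A lt 2 * lt 13 * ev lt m1) := by
    calc _ = lt 13 * A lt 3 * (lt 13 * ev lt k2 * lt 13) * ev lt (aw 1 ++ hv0) := by
          simp only [k2, ev_app, mul_assoc]
      _ = lt 13 * A lt 3 * ev lt (phw hv2) * (Wj lt 2 * ev lt ht2 * Wj lt 2) * Wj lt 2 *
          (ev lt ht2)⁻¹ * ev lt (phw hu2) * ev lt (aw 1 ++ hv0) := by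
          rw [a2]; nth_rewrite 4 [← R.wi (j := 2) (by omega)]; group
      _ = _ := by
          rw [t2]
          simp only [m3, m1, ev_app, R.iw (show OK 12 ht2 by decide), mul_assoc]
  have b3 : Wj lt 2 * (ev lt ht3 * ev lt (phw hu3) * (A lt 2 * lt 13 * ev lt m1)) =
      lt 13 * ev lt q2 * lt 13 * ev lt (aw 1 ++ phw hu4 ++ m1) := by
    calc _ = lt 13 * A lt 2 * (lt 13 * ev lt p2 * lt 13) * ev lt m1 := by
          simp only [p2, ev_app, mul_assoc]
      _ = _ := by rw [a4, R.tri]; simp only [q2, ev_app, mul_assoc]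
  rw [b1, b2] at a1
  rw [b3] at a3
  have := inv_mem (mul_mem (mul_mem a1 a3) a5)
  rw [mem_TJ, Ly.tau, ev_app]
  convert this using 1
  simp only [ev_nil]; group

theorem Rel.tw (R : Rel lt) (e1 : ev lt ex1 = 1) (e2 : ev lt ex2 = 1) {j : ℕ} (h2 : 2 ≤ j) (h4 : j ≤ 4)
    (k : ℕ) : ev lt (tw j k) ∈ TJ lt j := by
  rcases H4.getL_mem [] (twL j) k with e | e
  · rw [Ly.tw, e]; exact one_mem _
  rw [Ly.tw]
  generalize H4.getL [] (twL j) k = l at e
  interval_cases j
  · obtain ⟨t, ht, rfl⟩ := List.mem_map.1 (show l ∈ t2L.map Prod.fst from e)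
    exact (R.trel (by omega) (by revert t; decide +kernel) (by revert t; decide +kernel)).2
  · obtain ⟨t, ht, rfl⟩ := List.mem_map.1 (show l ∈ t3L.map Prod.fst from e)
    exact (R.trel (by omega) (by revert t; decide +kernel) (by revert t; decide +kernel)).2
  · rcases List.mem_append.1 (show l ∈ f4L.map phw ++ [Ly.tau] from e) with a | a
    · obtain ⟨t, ht, rfl⟩ := List.mem_map.1 a
      exact R.f4 (by revert t; decide +kernel) (by revert t; decide +kernel)
    · rw [List.mem_singleton.1 a]; exact R.tau e1 e2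

theorem g_all {i : ℕ} (h2 : 2 ≤ i) (h4 : i ≤ 4) : (∀ k, OK 12 (tw i k)) ∧
    ∀ c < 15400, chkG (tw i) i c = 0 := by
  unfold tw
  interval_cases i
  · rw [tl2_eq]; exact ⟨OK.getL (by decide +kernel), g2_all⟩
  · rw [tl3_eq]; exact ⟨OK.getL (by decide +kernel), g3_all⟩
  · rw [tl4_eq]; exact ⟨OK.getL (by decide +kernel), g4_all⟩

theorem Rel.good (R : Rel lt) (e1 : ev lt ex1 = 1) (e2 : ev lt ex2 = 1) :
    ∀ i, 2 ≤ i → i ≤ 4 → ∀ c < 15400, Gd lt i (TT.rep lt sT c) := by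
  intro i h2 h4 c
  induction hd : rnk (rk i c) using Nat.strong_induction_on generalizing i c with
  | _ d ih =>
    intro hc
    have h := (g_all h2 h4).2 c hc
    simp only [chkG, force_eq', ifz_eq] at h
    split_ifs at h with h0 h1 h3
    · obtain ⟨-, u, hu, b⟩ := R.lab c hc
      have h5 : Ly.lab (lb c) - 1 = 0 := h
      exact R.gd_S b (R.gd_lab (by omega) hu)
    · generalize H4.getL ([], 0, [], 0, []) steps _ = s at h3
      obtain ⟨u, j, t, i', v⟩ := s
      obtain ⟨a1, a2, ⟨a3, a4⟩, a5, a6, a7, a8, a9, a10⟩ := h3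
      dsimp only at a1 a2 a3 a4 a5 a6 a7 a8 a9 a10
      have o : ∀ {j u}, OK 7 u → OK 12 (aw j ++ u) := fun {j u} h c hc =>
        (List.mem_append.1 hc).elim (aw_ok j c) fun a => ⟨(h c a).1, (h c a).2.trans (by omega)⟩
      have b1 := (run_zero R.tabS (by omega) (o (j := j) a1)).2
      have b2 := R.phS (run_eq R.tabS (by omega) a6 (o a2) a9)
      obtain ⟨b3, b4⟩ := run_zero R.tabS (by omega) a7
      have b5 : Gd lt i' (ev lt (aw j ++ Ly.iw (phw v))) := by
        by_cases a : i' ≤ 1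
        · exact R.gd_low a a7.mem
        · exact R.gd_S b4 (ih _ (hd ▸ a10.resolve_left a) i' (by omega) a5 _ rfl b3)
      have b6 : ev lt (t.flatMap (Ly.tw j)) ∈ TJ lt j := by
        rw [ev_flat]; exact ev_mem fun k _ => R.tw e1 e2 a3 a4 k
      rw [a8] at b1
      refine R.gd_S (by simpa using inv_mem b1) ?_
      have b7 := (Om.left b5 b2).right (mem_TJ.1 (inv_mem b6))
      unfold Gd
      convert b7 using 1
      simp only [ev_app, R.iw (phw_ok _), R.ph a1, R.ph a2, mul_inv_rev, inv_inv, R.ri, mul_assoc, R.rc,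
        inv_eq_of_mul_eq_one_right (R.aa a4), inv_eq_of_mul_eq_one_right (R.aa a5),
        mul_inv_cancel_left, inv_mul_cancel_left]
      simp only [← mul_assoc (A lt _) (A lt _), R.aa a4, R.aa a5, one_mul, R.rc, inv_mul_cancel_left,
        mul_inv_cancel_left]
    · obtain ⟨b1, b2⟩ := run_spec R.tabS ((g_all h2 h4).1 (Nat.land (rk i c) 15).pred) c hc
      exact gd_T (R.tw e1 e2 h2 h4 _) (R.gd_S b2 (ih _ (hd ▸ lt_of_lz h) i h2 h4 _ rfl b1))

theorem Rel.om (R : Rel lt) (e1 : ev lt ex1 = 1) (e2 : ev lt ex2 = 1) : ∀ g ∈ gen lt 13, Om lt g := by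
  have key : ∀ g, Om lt g → ∀ c, 1 ≤ c → c ≤ 13 → Om lt (g * lt c) := by
    intro g hg c h1 h2
    by_cases h : c ≤ 12
    · exact hg.right (lt_mem_gen h1 h)
    obtain rfl : c = 13 := by omega
    obtain ⟨a, ha, b, hb, c, hc, rfl | rfl | rfl⟩ := hg
    · simpa using Om.one ha (one_mem _)
    · simpa using Om.two ha hb (one_mem _)
    obtain ⟨i, hi, e⟩ := R.tabS.cover (by omega) b hb
    obtain ⟨j4, u, hu, f⟩ := R.lab i hi
    generalize Ly.lab (lb i) = j at j4 f
    have hh := inv_mem (mul_mem (R.phS hu) hc)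
    have : Gd lt j (lt 13 * u * lt 13 * c)⁻¹ := by
      by_cases hj : j ≤ 1
      · exact R.gd_low hj hh
      · obtain ⟨k, hk, e'⟩ := R.tabS.cover (by omega) _ hh
        exact R.gd_S e' (R.good e1 e2 j (by omega) j4 k hk)
    convert Om.left this (mul_mem ha (R.phS (mul_mem e f))) using 1
    simp only [mul_inv_rev, inv_inv, mul_assoc, R.rc, inv_mul_cancel_left]
  intro g hg
  induction hg using Subgroup.closure_induction_right with
  | one => exact ⟨1, one_mem _, 1, one_mem _, 1, one_mem _, Or.inl rfl⟩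
  | mul_right x _ y hy ih =>
    obtain ⟨c, a, b, rfl⟩ := hy
    exact key x ih c a b
  | mul_inv_cancel x _ y hy ih =>
    obtain ⟨c, a, b, rfl⟩ := hy
    by_cases h : c ≤ 12
    · exact ih.right (inv_mem (lt_mem_gen a h))
    · obtain rfl : c = 13 := by omega
      rw [R.ri]; exact key x ih 13 a b

theorem Rel.card0 [Finite Γ] (R : Rel lt) (ho : ∀ g ∈ gen lt 13, Om lt g) {n : ℕ} {ρ : ℕ → Γ}
    (cv : ∀ g ∈ gen lt 12, ∃ i < n, g * (ρ i)⁻¹ ∈ gen lt 7) :
    Nat.card (gen lt 13) ≤ (1 + n + n * n) * Nat.card (gen lt 12) := by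
  classical
  let f : ℕ → Γ := fun i => lt 13 * ρ i
  obtain ⟨-, b⟩ := H4.card_le_of_cover (gen lt 13) (gen lt 12)
    ({1} ∪ (Finset.range n).image (fun i => (f i)⁻¹) ∪
      (Finset.range n ×ˢ Finset.range n).image fun i => (f i.1 * f i.2)⁻¹) fun g hg => by
      obtain ⟨a, ha, b, hb, c, hc, e | e | e⟩ := ho _ (inv_mem hg) <;>
        rw [inv_eq_iff_eq_inv] at e <;> subst e
      · exact ⟨1, by simp, by simpa using ha⟩
      · obtain ⟨i, hi, e⟩ := cv b hb
        refine ⟨(f i)⁻¹, Finset.mem_union_left _ (Finset.mem_union_right _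
          (Finset.mem_image.2 ⟨i, Finset.mem_range.2 hi, rfl⟩)), ?_⟩
        convert inv_mem (mul_mem ha (R.phS e)) using 1
        simp only [f, mul_inv_rev, inv_inv, mul_assoc, R.ri]
      · obtain ⟨i, hi, e⟩ := cv c hc
        obtain ⟨j, hj, e'⟩ := cv _ (mul_mem hb (R.phS e))
        refine ⟨(f j * f i)⁻¹, Finset.mem_union_right _
          (Finset.mem_image.2 ⟨(j, i), by simp [hi, hj], rfl⟩), ?_⟩
        convert inv_mem (mul_mem ha (R.phS e')) using 1
        simp only [f, mul_inv_rev, inv_inv, mul_assoc, R.ri]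
  exact b.trans (Nat.mul_le_mul ((Finset.card_union_le _ _).trans (Nat.add_le_add
    ((Finset.card_union_le _ _).trans (Nat.add_le_add (by simp) (Finset.card_image_le.trans (by simp))))
    (Finset.card_image_le.trans (by simp)))) le_rfl)

theorem Rel.card [Finite Γ] (R : Rel lt) (e1 : ev lt ex1 = 1) (e2 : ev lt ex2 = 1)
    (hg : gen lt 12 ≤ gen (fun c => lt (p0 c)) 8) : Nat.card (gen lt 13) ≤
      237175401 * (66825 * Nat.card (gen (fun c => lt (p0 c)) 6)) :=
  (R.card0 (R.om e1 e2) (R.tabS.cover (by omega))).trans (Nat.mul_le_mul (by norm_num)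
    ((card_le_of_le hg).trans (tab_card R.tabH (by omega))))

end Cfsg.Agent.H6.Ly
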