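import Cfsg.Agent.H6.LyM
import Cfsg.Prelude.Def_SporadicB

/-! Identification of a non-split double cover of `A₁₁` with the Clifford model. -/

set_option autoImplicit false
set_option maxRecDepth 100000

namespace Cfsg.Agent.H6.Ly

open Subgroup Equiv Cfsg.Agent.H5 Cfsg.Agent.H8.TC Cfsg.Agent.H6.TT

theorem card_le_map {A B : Type*} [Group A] [Group B] [Finite A] (f : A →* B) (D : Subgroup A) :
    Nat.card D ≤ Nat.card (D.map f) * Nat.card f.ker := by
  rw [card_eq_card_quotient_mul_card_subgroup (f.comp D.subtype).ker,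
    Nat.card_congr (QuotientGroup.quotientKerEquivRange (f.comp D.subtype)).toEquiv,
    MonoidHom.range_comp, range_subtype]
  exact Nat.mul_le_mul le_rfl (Nat.card_le_card_of_injective
    (fun x => (⟨x.1.1, x.2⟩ : f.ker)) fun a b e => Subtype.ext (Subtype.ext (Subtype.mk.inj e)))

theorem ev_prod {A B : Type*} [Monoid A] [Monoid B] (a : ℕ → A) (b : ℕ → B) (l : List ℕ) :
    ev (fun c => (a c, b c)) l = (ev a l, ev b l) :=
  Prod.ext (map_ev _ (MonoidHom.fst A B) l) (map_ev _ (MonoidHom.snd A B) l)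

structure Pre {C : Type*} [Group C] (z : C) (π : C →* P11) : Prop where
  ker : ∀ c, π c = 1 → c = 1 ∨ c = z
  zz : z * z = 1
  cen : ∀ c, c * z = z * c
  pz : π z = 1
  even : ∀ c, π c ∈ alternatingGroup (Fin 11)
  surj : ∀ s ∈ alternatingGroup (Fin 11), ∃ c, π c = s
  card : Nat.card C = 39916800

section
variable {C : Type*} [Group C] {z : C} {π : C →* P11}

theorem Pre.eq (P : Pre z π) {a b : C} (h : π a = π b) : a = b ∨ a = z * b := by
  rcases P.ker (a * b⁻¹) (by simp [h]) with e | e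
  exacts [Or.inl (mul_inv_eq_one.1 e), Or.inr (mul_inv_eq_iff_eq_mul.1 e)]

theorem Pre.top (P : Pre z π) {K : Subgroup C} (hz : z ∈ K)
    (h : ∀ i, 1 ≤ i → i ≤ 10 → ∃ c ∈ K, π c = pm i) : K = ⊤ := by
  refine (eq_top_iff' _).2 fun c => ?_
  obtain ⟨k, hk, e⟩ := alt_le (K := K.map π) h (P.even c)
  rcases P.eq e.symm with a | a <;> rw [a]
  exacts [hk, mul_mem hz hk]

theorem Pre.conj (P : Pre z π) {a b : C} (h : π a * π a = 1) (h2 : π b * π b = 1)
    (h3 : (π a).support.card = (π b).support.card) (h4 : π b ≠ 1) (h5 : sw * π b = π b * sw) :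
    ∃ c, c⁻¹ * a * c = b ∨ c⁻¹ * a * c = z * b := by
  obtain ⟨s, hs, e⟩ := conj_even h h2 h3 h4 sw_sign h5
  obtain ⟨c, rfl⟩ := P.surj s hs
  exact ⟨c, P.eq (by simpa using e)⟩

theorem Pre.sq (P : Pre z π) {a b : C} (h : π a * π a = 1) (h3 : (π a).support.card = 4)
    (hb : π b = pm 3) : a * a = b * b := by
  have r := pm_rep (i := 3) (by omega)
  rw [← hb] at r
  have h2 : π b * π b = 1 := (rep_cmp r r).eq_one (by decide +kernel)
  obtain ⟨c, e⟩ := P.conj h h2 (by rw [h3, supp_card r]; decide +kernel)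
    (rep_ne r H4.Enc.rep_one (by decide +kernel))
    (rep_eq (rep_cmp sw_rep r) (rep_cmp r sw_rep) (by decide +kernel))
  have e1 : c⁻¹ * a * c * (c⁻¹ * a * c) = b * b := by
    rcases e with e | e <;> rw [e]
    rw [mul_assoc, ← mul_assoc b, P.cen b, mul_assoc, ← mul_assoc, P.zz, one_mul]
  have e2 : c * (b * b) = b * b * c := by
    rcases P.ker (b * b) (by rwa [map_mul]) with x | x <;> rw [x]
    exacts [by simp, P.cen c]
  calc a * a = c * (c⁻¹ * a * c * (c⁻¹ * a * c)) * c⁻¹ := by group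
    _ = _ := by rw [e1, e2]; group

theorem Pre.fix (P : Pre z π) (a : C) {i : ℕ} (hi : i < 11) {p : ℕ} (ha : E11.Rep (π a) p)
    (h : evP (fun c => if c = 0 then p else mP i) [0, 1, 0, 1, 0, 1] = H4.idc 11 4) :
    ∃ b, π b = pm i ∧ a * (b * (a * (b * (a * b)))) = 1 := by
  obtain ⟨b, hb⟩ := P.surj _ (pm_even hi)
  have r := rep_ev (f := fun c => if c = 0 then π a else π b) (l := [0, 1, 0, 1, 0, 1])
    (tb := fun c => if c = 0 then p else mP i) fun c _ => by
      split_ifs
      exacts [ha, hb ▸ pm_rep hi]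
  rcases P.ker (a * (b * (a * (b * (a * b))))) (by simpa [ev] using r.eq_one h) with e | e
  · exact ⟨b, hb, e⟩
  · refine ⟨b * z, by simp [hb, P.pz], ?_⟩
    have c : ∀ x y, x * (z * y) = z * (x * y) := fun x y => by rw [← mul_assoc, P.cen, mul_assoc]
    have d : ∀ y, z * (z * y) = y := fun y => by rw [← mul_assoc, P.zz, one_mul]
    simp only [P.cen b, mul_assoc, c, d]
    rw [e, P.zz]

theorem Pre.moore (P : Pre z π) : ∃ n : ℕ → C, (∀ i < 11, π (n i) = pm i) ∧ Moore n (n 3 * n 3) := by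
  obtain ⟨n1, a1, b1⟩ := P.fix 1 (i := 1) (by omega) (map_one π ▸ H4.Enc.rep_one) (by decide +kernel)
  have r : ∀ {a i}, i < 11 → π a = pm i → E11.Rep (π a) (mP i) := fun h e => e ▸ pm_rep h
  obtain ⟨n3, a3, b3⟩ := P.fix n1 (i := 3) (by omega) (r (by omega) a1) (by decide +kernel)
  obtain ⟨n4, a4, b4⟩ := P.fix n3 (i := 4) (by omega) (r (by omega) a3) (by decide +kernel)
  obtain ⟨n5, a5, b5⟩ := P.fix n4 (i := 5) (by omega) (r (by omega) a4) (by decide +kernel)
  obtain ⟨n6, a6, b6⟩ := P.fix n5 (i := 6) (by omega) (r (by omega) a5) (by decide +kernel)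
  obtain ⟨n7, a7, b7⟩ := P.fix n6 (i := 7) (by omega) (r (by omega) a6) (by decide +kernel)
  obtain ⟨n8, a8, b8⟩ := P.fix n7 (i := 8) (by omega) (r (by omega) a7) (by decide +kernel)
  obtain ⟨n9, a9, b9⟩ := P.fix n8 (i := 9) (by omega) (r (by omega) a8) (by decide +kernel)
  obtain ⟨n10, a10, b10⟩ := P.fix n9 (i := 10) (by omega) (r (by omega) a9) (by decide +kernel)
  let n := fun i => [1, n1, n1⁻¹, n3, n4, n5, n6, n7, n8, n9, n10].getD i 1
  have hn : ∀ i < 11, π (n i) = pm i := fun i hi => by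
    interval_cases i
    · exact rep_eq (map_one π ▸ H4.Enc.rep_one) (pm_rep hi) (by decide +kernel)
    · exact a1
    · exact rep_eq (map_inv π _ ▸ (r (by omega) a1).inv) (pm_rep hi) (by decide +kernel)
    all_goals assumption
  refine ⟨n, hn, rfl, fun l hl => ?_, fun l hl => ?_⟩
  · simp only [one_mul] at b1
    revert l
    simp [c3L, List.range_succ, ev, n, b1, b3, b4, b5, b6, b7, b8, b9, b10]
  · obtain ⟨x, y, w⟩ : (∀ c ∈ l, c < 11) ∧ cmp (evP mP l) (evP mP l) = H4.idc 11 4 ∧ mv (evP mP l) = 4 := by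
      revert l; decide +kernel
    have h := rep_ev (f := fun c => π (n c)) fun c hc => r (x c hc) (hn c (x c hc))
    rw [← map_ev] at h
    rw [ev_app]
    exact P.sq ((rep_cmp h h).eq_one y) (by rw [supp_card h, w]) a3

theorem em3_z : em3 (dM 3) = -1 := by
  have : ∀ i j : Fin 32, H4.ent3 (ZMod 3) (32 * 32) (dM 3) (32 * j + i) = -(if i = j then 1 else 0) := by
    decide +kernel
  exact Matrix.ext this

noncomputable def mU (i : ℕ) : Matˣ := if h : i < 11 then
  ⟨em3 (mM i), em3 (mI i), by rw [← em3_mul, ← em3_one]; congr 1; revert i; decide +kernel,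
    by rw [← em3_mul, ← em3_one]; congr 1; revert i; decide +kernel⟩ else 1

theorem mU_ev {l : List ℕ} (h : ∀ c ∈ l, c < 11) : ((ev mU l : Matˣ) : Mat) = em3 (evM mM l) := by
  rw [em3_ev]
  exact (map_ev mU (Units.coeHom Mat) l).trans (ev_congr _ fun c hc => by simp [mU, h c hc])

theorem moore_U : Moore mU (-1) := by
  refine ⟨Units.ext ((show _ = em3 (mM 0) by simp [mU]).trans ?_), fun l hl => Units.ext ?_,
    fun l hl => Units.ext ?_⟩
  · rw [Units.val_one, ← em3_one]; congr 1; decide +kernel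
  · rw [mU_ev (by revert l; decide), Units.val_one, ← em3_one]; congr 1; revert l; decide +kernel
  · rw [mU_ev (by revert l; decide), Units.val_neg, Units.val_one, ← em3_z]; congr 1; revert l
    decide +kernel

theorem Pre.theta [Finite C] (P : Pre z π) (hs : ∀ L : Subgroup C, ¬ (zpowers z).IsComplement' L)
    (z1 : z ≠ 1) : ∃ θ : C →* Mat, θ z = -1 ∧ ∀ i < 11, ∃ c, θ c = em3 (mM i) ∧ π c = pm i := by
  obtain ⟨n, hn, M⟩ := P.moore
  have top : z ∈ gen n 10 → gen n 10 = ⊤ := fun h =>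
    P.top h fun i a b => ⟨_, lt_mem_gen a b, hn i (by omega)⟩
  have oz : orderOf z = 2 := orderOf_eq_prime (by rw [pow_two, P.zz]) z1
  rcases P.ker (n 3 * n 3) (by
    rw [map_mul, hn 3 (by omega)]
    exact (rep_cmp (pm_rep (by omega)) (pm_rep (by omega))).eq_one (by decide +kernel)) with e | e
  · rw [e] at M
    have h1 := M.card
    have h2 := (card_le_of_le (alt_le (K := (gen n 10).map π) fun i a b =>
      ⟨_, lt_mem_gen a b, hn i (by omega)⟩)).trans
      (Nat.le_of_dvd Nat.card_pos (card_map_dvd (H := gen n 10) π))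
    rw [card_A11] at h2
    refine absurd (isComplement'_of_card_mul_and_disjoint (K := gen n 10) (by
      rw [Nat.card_zpowers, oz, P.card]; omega) (disjoint_def.2 fun {x} hx h => ?_)) (hs _)
    obtain ⟨k, rfl⟩ := hx
    refine (P.ker _ (by simp [P.pz])).resolve_right fun e => ?_
    rw [top (e ▸ h), card_top, P.card] at h1
    omega
  rw [e] at M
  let w : C × Matˣ := (z, -1)
  haveI : (zpowers w).Normal := ⟨fun x ⟨k, hk⟩ g => by
    have : Commute g w := Prod.ext (P.cen _) (by simp [w])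
    rw [← hk, (this.zpow_right k).eq, mul_inv_cancel_right]; exact ⟨k, rfl⟩⟩
  have M2 : Moore (fun c => (n c, mU c)) w := ⟨by rw [M.zero, moore_U.zero]; rfl,
    fun l hl => by rw [ev_prod, M.c3 l hl, moore_U.c3 l hl]; rfl,
    fun l hl => by rw [ev_prod, M.c2 l hl, moore_U.c2 l hl]⟩
  have M3 := M2.map (QuotientGroup.mk' (zpowers w))
  rw [show QuotientGroup.mk' (zpowers w) w = 1 from (QuotientGroup.eq_one_iff _).2 (mem_zpowers _)] at M3
  have h1 := card_le_map (QuotientGroup.mk' (zpowers w)) (gen (fun c => (n c, mU c)) 10)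
  have h2 : orderOf w ≤ 2 := orderOf_le_of_pow_eq_one (by omega) (by
    rw [pow_two]; exact Prod.ext P.zz (by simp [w]))
  rw [He.map_gen, QuotientGroup.ker_mk', Nat.card_zpowers] at h1
  have m3 := lt_mem_gen (lt := n) (c := 3) (nc := 10) (by omega) (by omega)
  obtain ⟨φ, -, h3⟩ := H4.exists_hom_of_card_le (gen (fun c => (n c, mU c)) 10) ⊤
    ((He.map_gen _ _ _).trans (top (e ▸ mul_mem m3 m3))) (by
      rw [card_top, P.card]; exact h1.trans (Nat.mul_le_mul M3.card h2))
  have m4 := lt_mem_gen (lt := fun c => (n c, mU c)) (c := 3) (nc := 10) (by omega) (by omega)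
  refine ⟨(Units.coeHom Mat).comp (φ.comp topEquiv.symm.toMonoidHom), ?_, fun i hi => ⟨n i, ?_, hn i hi⟩⟩
  · have := M2.c2 [3] (by decide)
    exact congrArg Units.val (h3 ⟨z, mem_top _⟩ (-1) (show w ∈ _ from this ▸ OK.mem (by decide)))
  · refine (congrArg Units.val (h3 ⟨n i, mem_top _⟩ (mU i) ?_)).trans (by simp [mU, hi])
    rcases Nat.eq_zero_or_pos i with rfl | h
    · exact M2.zero ▸ one_mem _
    · exact lt_mem_gen (lt := fun c => (n c, mU c)) h (by omega)
end

variable {G : Type*} [Group G]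

abbrev CC (z : G) : Subgroup G := centralizer {z}
def zC (z : G) : CC z := ⟨z, mem_centralizer_singleton_iff.2 rfl⟩

structure Base (z : G) (θ : CC z →* Mat) (π : CC z →* P11) : Prop extends Pre (zC z) π where
  tz : θ (zC z) = -1
  mo : ∀ i < 11, ∃ c, θ c = em3 (mM i) ∧ π c = pm i

theorem exists_base [Finite G] {z : G} (hz : orderOf z = 2)
    (h : IsNonsplitDoubleCover (CC z) (alternatingGroup (Fin 11))) : ∃ θ π, Base z θ π := by
  classical
  obtain ⟨h1, ⟨φ⟩, h2⟩ := h
  have oz : orderOf (zC z) = 2 := by rw [← hz, ← orderOf_coe]; rfl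
  have cen : ∀ c : CC z, c * zC z = zC z * c := fun c =>
    Subtype.ext (mem_centralizer_singleton_iff.1 c.2)
  have e : zpowers (zC z) = center (CC z) := eq_of_le_of_card_ge
    (zpowers_le.2 (mem_center_iff.2 cen)) (by rw [h1, Nat.card_zpowers, oz])
  have zz : zC z * zC z = 1 := by rw [← pow_two, ← oz, pow_orderOf_eq_one]
  let π : CC z →* P11 := (alternatingGroup _).subtype.comp
    (φ.toMonoidHom.comp (QuotientGroup.mk' _))
  have k : ∀ c, π c = 1 ↔ c ∈ zpowers (zC z) := fun c => by simp [π, e]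
  have P : Pre (zC z) π := ⟨fun c hc => ?_, zz, cen, (k _).2 (mem_zpowers _), fun c => (φ c).2,
    fun s hs => ?_, ?_⟩
  · obtain ⟨θ, a, b⟩ := P.theta (e ▸ h2) fun x => by simp [x] at oz
    exact ⟨θ, π, P, a, b⟩
  · obtain ⟨j, hj, rfl⟩ := Finset.mem_image.1 (mem_zpowers_iff_mem_range_orderOf.1 ((k c).1 hc))
    rw [oz, Finset.mem_range] at hj
    interval_cases j <;> simp
  · obtain ⟨c, hc⟩ := φ.surjective ⟨s, hs⟩
    obtain ⟨c, rfl⟩ := QuotientGroup.mk_surjective c
    exact ⟨c, congrArg Subtype.val hc⟩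
  · rw [card_eq_card_quotient_mul_card_subgroup (center _), h1, Nat.card_congr φ.toEquiv, card_A11]

end Cfsg.Agent.H6.Ly
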