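import Cfsg.Agent.H6.HeT

/-! Words as lists and their traces in coset tables. -/

set_option autoImplicit false

namespace Cfsg.Agent.H6.Ly

open Cfsg.Agent.H5 Cfsg.Agent.H8.TC Cfsg.Agent.H6.TT

variable {Γ : Type*} [Group Γ]

def ev {M : Type*} [Monoid M] (lt : ℕ → M) (l : List ℕ) : M := (l.map lt).prod

section
variable {M : Type*} [Monoid M] (lt : ℕ → M)
theorem ev_nil : ev lt [] = 1 := rfl
theorem ev_cons (c : ℕ) (l : List ℕ) : ev lt (c :: l) = lt c * ev lt l := by simp [ev]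
theorem ev_app (a b : List ℕ) : ev lt (a ++ b) = ev lt a * ev lt b := by simp [ev]
theorem ev_map (p : ℕ → ℕ) (l : List ℕ) : ev lt (l.map p) = ev (fun c => lt (p c)) l := by
  simp [ev, Function.comp_def]
theorem ev_flat (tb : ℕ → List ℕ) (l : List ℕ) :
    ev lt (l.flatMap tb) = ev (fun c => ev lt (tb c)) l := by
  induction l with
  | nil => rfl
  | cons c l ih => rw [List.flatMap_cons, ev_app, ih, ev_cons]
theorem ev_congr {lt' : ℕ → M} {l : List ℕ} (h : ∀ c ∈ l, lt c = lt' c) : ev lt l = ev lt' l := by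
  unfold ev; rw [List.map_congr_left h]
theorem map_ev {N : Type*} [Monoid N] (f : M →* N) (l : List ℕ) :
    f (ev lt l) = ev (fun c => f (lt c)) l := by
  simp only [ev, map_list_prod, List.map_map]; rfl
end

def OK (n : ℕ) (l : List ℕ) : Prop := ∀ c ∈ l, 1 ≤ c ∧ c ≤ n
instance instDecOK (n : ℕ) (l : List ℕ) : Decidable (OK n l) := List.decidableBAll _ _

theorem OK.getL {n : ℕ} {L : List (List ℕ)} (h : ∀ l ∈ L, OK n l) (k : ℕ) : OK n (H4.getL [] L k) := by
  rcases H4.getL_mem [] L k with e | e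
  · rw [e]; intro c hc; simp at hc
  · exact h _ e

theorem ev_mem {lt : ℕ → Γ} {K : Subgroup Γ} {l : List ℕ} (h : ∀ c ∈ l, lt c ∈ K) : ev lt l ∈ K :=
  list_prod_mem fun x hx => by
    obtain ⟨c, hc, rfl⟩ := List.mem_map.1 hx
    exact h c hc

theorem OK.mem {lt : ℕ → Γ} {n : ℕ} {l : List ℕ} (h : OK n l) : ev lt l ∈ gen lt n :=
  ev_mem fun c hc => lt_mem_gen (h c hc).1 (h c hc).2

theorem rel_of_list {lt : ℕ → Γ} (h0 : lt 0 = 1) {R : List (List ℕ)} (h1 : ∀ l ∈ R, ∀ c ∈ l, c < 16)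
    (h2 : ∀ l ∈ R, ev lt l = 1) : ∀ w ∈ R.map pk, val lt w = 1 := by
  intro w hw
  obtain ⟨l, hl, rfl⟩ := List.mem_map.1 hw
  rw [val_pk h0 l (h1 l hl)]; exact h2 l hl

noncomputable def run (T : ℕ → ℕ) (l : List ℕ) : ℕ → ℕ :=
  List.rec (motive := fun _ => ℕ → ℕ) (fun i => i) (fun c _ ih i => force (nx T i c) ih) l

theorem run_cons (T : ℕ → ℕ) (c : ℕ) (l : List ℕ) (i : ℕ) : run T (c :: l) i = run T l (nx T i c) :=
  force_eq' _ _

variable {lt : ℕ → Γ} {K : Subgroup Γ} {iv T : ℕ → ℕ} {nc n : ℕ}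

theorem run_spec (H : Tab lt K iv T nc n) {l : List ℕ} (hl : OK nc l) : ∀ i < n,
    run T l i < n ∧ TT.rep lt T i * ev lt l * (TT.rep lt T (run T l i))⁻¹ ∈ K := by
  induction l with
  | nil => intro i hi; exact ⟨hi, by simp [ev_nil, run]⟩
  | cons c l ih =>
    intro i hi
    obtain ⟨h1, h2⟩ := hl c List.mem_cons_self
    obtain ⟨h3, h4⟩ := ih (fun d hd => hl d (List.mem_cons_of_mem _ hd)) _ (H.lt_n i hi c h1 h2)
    rw [run_cons, ev_cons]
    refine ⟨h3, ?_⟩
    have := K.mul_mem (H.holds i hi c h1 h2) h4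
    convert this using 1; group

theorem run_zero (H : Tab lt K iv T nc n) (hn : 0 < n) {l : List ℕ} (hl : OK nc l) :
    run T l 0 < n ∧ ev lt l * (TT.rep lt T (run T l 0))⁻¹ ∈ K := by
  simpa [TT.rep_zero] using run_spec H hl 0 hn

theorem run_eq (H : Tab lt K iv T nc n) (hn : 0 < n) {a b : List ℕ} (ha : OK nc a) (hb : OK nc b)
    (e : run T a 0 = run T b 0) : ev lt a * (ev lt b)⁻¹ ∈ K := by
  have := mul_mem (run_zero H hn ha).2 (inv_mem (e ▸ (run_zero H hn hb).2))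
  convert this using 1; group

theorem run_mem (H : Tab lt K iv T nc n) (hn : 0 < n) {a : List ℕ} (ha : OK nc a)
    (e : run T a 0 = 0) : ev lt a ∈ K := by
  simpa [e, TT.rep_zero] using (run_zero H hn ha).2

theorem tab_card [Finite Γ] (H : Tab lt K iv T nc n) (hn : 0 < n) :
    Nat.card (gen lt nc) ≤ n * Nat.card K := by
  classical
  obtain ⟨-, b⟩ := H4.card_le_of_cover (gen lt nc) K
    ((Finset.range n).image fun i => (TT.rep lt T i)⁻¹) fun g hg => by
      obtain ⟨i, hi, e⟩ := H.cover hn _ (inv_mem hg)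
      refine ⟨_, Finset.mem_image_of_mem _ (Finset.mem_range.2 hi), ?_⟩
      simpa using inv_mem e
  exact b.trans (Nat.mul_le_mul (Finset.card_image_le.trans (by simp)) le_rfl)

/-- the formal inverse of a word -/
def invw (iv : ℕ → ℕ) (l : List ℕ) : List ℕ := (l.map iv).reverse

theorem ev_invw {l : List ℕ} (h : ∀ c ∈ l, lt (iv c) = (lt c)⁻¹) : ev lt (invw iv l) = (ev lt l)⁻¹ := by
  induction l with
  | nil => simp [invw, ev]
  | cons c l ih =>
    have := ih fun d hd => h d (List.mem_cons_of_mem _ hd)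
    unfold invw at this ⊢
    rw [List.map_cons, List.reverse_cons, ev_app, this, ev_cons, ev_cons, ev_nil,
      h c List.mem_cons_self]
    group

theorem gen_mono {a b : ℕ} (h : a ≤ b) : gen lt a ≤ gen lt b :=
  Subgroup.closure_mono fun _ ⟨c, x, y, e⟩ => ⟨c, x, y.trans h, e⟩

end Cfsg.Agent.H6.Ly
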