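import Cfsg.Agent.H6.LyR
import Cfsg.Agent.BS.RedZ
import Mathlib.GroupTheory.Goursat

/-! Generation and uniqueness. -/

set_option autoImplicit false
set_option maxRecDepth 100000

namespace Cfsg.Agent.H6.Ly

open Subgroup Cfsg.Agent.H5 Cfsg.Agent.H8.TC Cfsg.Agent.H6.TT

theorem top_of_se {G : Type*} [Group G] [Finite G] [IsSimpleGroup G] {H : Subgroup G} {t a b : G}
    (t2 : t * t = 1) (t1 : t ≠ 1) (h2 : ∀ y, y * t = t * y → y ∈ H)
    (c1 : ∀ u : G, u * u = 1 → u ≠ 1 → u * t = t * u → ∃ k ∈ H, k⁻¹ * u * k = t)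
    (ha : a ∈ H) (hb : b ∈ H) (a2 : a * a = 1) (b2 : b * b = 1) (ab : (a * b) ^ 3 = 1)
    (ab1 : a * b ≠ b * a) : H = ⊤ := by
  by_contra hH
  have ht := h2 t rfl
  have c2 : ∀ u ∈ H, u * u = 1 → u ≠ 1 → ∃ k ∈ H, k⁻¹ * u * k = t := by
    intro u hu u2 u1
    by_cases hc : IsConj (⟨u, hu⟩ : H) ⟨_, ht⟩
    · obtain ⟨k, hk⟩ := isConj_iff.1 hc
      exact ⟨k⁻¹, inv_mem k.2, by simpa using congrArg Subtype.val hk⟩
    obtain ⟨z, z2, a, b⟩ := H3.exists_commuting_involution (Subtype.ext u2) (Subtype.ext t2) hc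
    obtain ⟨k, hk, e⟩ := c1 z (by rw [← coe_mul, ← pow_two, ← z2, pow_orderOf_eq_one, coe_one])
      (fun e => by rw [show z = 1 from Subtype.ext e] at z2; simp at z2) (congrArg Subtype.val b)
    have a' : (z : G) * u = u * z := congrArg Subtype.val a
    obtain ⟨k', hk', e'⟩ := c1 (k⁻¹ * u * k) (by
      calc _ = k⁻¹ * (u * u) * k := by group
        _ = 1 := by rw [u2]; group) (fun e => u1 (by
      calc u = k * (k⁻¹ * u * k) * k⁻¹ := by group
        _ = 1 := by rw [e]; group)) (by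
      rw [← e]
      calc _ = k⁻¹ * (u * z) * k := by group
        _ = _ := by rw [← a']; group)
    exact ⟨k * k', mul_mem hk hk', by rw [← e']; group⟩
  have o2 : ∀ {u : G}, orderOf u = 2 → u * u = 1 ∧ u ≠ 1 := fun {u} h =>
    ⟨by rw [← pow_two, ← h, pow_orderOf_eq_one], fun e => by simp [e] at h⟩
  have ot : orderOf t = 2 := orderOf_eq_prime (by rw [pow_two, t2]) t1
  have se : IsStronglyEmbedded H := (H3.isStronglyEmbedded_iff H).2 ⟨hH, ⟨_, ht, ot⟩,
    fun g u hu u2 hg => by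
      obtain ⟨k, hk, e⟩ := c2 u hu (o2 u2).1 (o2 u2).2
      have u3 : orderOf (g * u * g⁻¹) = 2 := BS.ord2_conj u2 g
      obtain ⟨k', hk', e'⟩ := c2 _ hg (o2 u3).1 (o2 u3).2
      have := h2 (k'⁻¹ * g * k) (by nth_rewrite 2 [← e']; rw [← e]; group)
      rwa [mul_mem_cancel_right hk, mul_mem_cancel_left (inv_mem hk')] at this⟩
  haveI := BS.oneFix_of_se se
  have hb' := BS.base_of_se ⟨a, b, ab1⟩ se
  obtain ⟨Q, hQ, h3, h4⟩ := BS.base_two BS.regThm BS.twoThm _ G (G ⧸ H) rfl hb' ((1 : G) : G ⧸ H)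
  rw [BS.St, MulAction.stabilizer_quotient] at hQ
  obtain ⟨p, b1⟩ := hb'.two ((1 : G) : G ⧸ H)
  have f1 : t • ((1 : G) : G ⧸ H) = ((1 : G) : G ⧸ H) := by
    rw [← MulAction.mem_stabilizer_iff, MulAction.stabilizer_quotient]; exact ht
  obtain ⟨x, hx, e⟩ := h4 p (t • p) b1 fun e => b1 (by rw [← f1, ← e, BS.smul_smul2 ot])
  obtain ⟨z, hz, z2⟩ := H3.exists_involution_of_ne_bot h3 (by
    rintro rfl
    rw [mem_bot.1 hx, one_smul] at e
    exact b1 (BS.OneFix.uniq _ ot _ _ e.symm f1))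
  have cj : ∀ k ∈ H, ∀ u, k⁻¹ * u * k ∈ Q ↔ u ∈ Q := fun k hk u => by
    simpa using ((hQ.2 (inv_mem hk)) u).symm
  have all : ∀ u ∈ H, u * u = 1 → u ≠ 1 → u ∈ Q := fun u hu u2 u1 => by
    obtain ⟨k, hk, e⟩ := c2 u hu u2 u1
    obtain ⟨k', hk', e'⟩ := c2 z (hQ.1 hz) (o2 z2).1 (o2 z2).2
    rwa [← cj k hk, e, ← e', cj k' hk']
  have := H3.eq_one_of_odd_of_pgroup h3 (mul_mem (all a ha a2 fun e => ab1 (by simp [e]))
    (all b hb b2 fun e => ab1 (by simp [e])))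
    ((by decide : Odd 3).of_dvd_nat (orderOf_dvd_of_pow_eq_one ab))
  exact ab1 (this.trans (mul_eq_one_comm.1 this).symm)

variable {G : Type*} [Group G] {z g : G} {θ : CC z →* Mat} {π : CC z →* P11} {l : ℕ → G}

theorem Good.top [Finite G] [IsSimpleGroup G] (J : Good z θ π l g) : gen (lT l g) 13 = ⊤ := by
  have h2 : ∀ y, y * z = z * y → y ∈ gen (lT l g) 13 := fun y => J.gen fun c a b d => by
    rw [← lT_l (l := l) (g := g) b d]
    rcases Nat.eq_zero_or_pos c with rfl | h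
    exacts [show l 0 ∈ _ from J.l0 ▸ one_mem _, lt_mem_gen h a]
  have hg : g ∈ gen (lT l g) 13 := lt_mem_gen (c := 12) (by omega) (by omega)
  have s2 : l 8 * l 8 = 1 := (ev_two l _ _).symm.trans (J.eq (b := []) (by decide +kernel))
  have s1 := (J.hl 8 (by omega)).comm
  refine top_of_se J.z2 J.z1 h2 (fun u a b c => ?_) hg (h2 _ s1) J.gg s2 J.g3 fun e => ?_
  · obtain rfl | ⟨k, x, y⟩ := (J.invo a c).resolve_left b
    · exact ⟨1, one_mem _, by simp⟩
    · exact ⟨k * g, mul_mem (h2 k x) hg, by rw [← J.tz', ← y]; group⟩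
  · have h := J.eq (a := [3, 15, 8]) (b := [8, 15]) (by decide +kernel)
    simp only [ev_cons, ev_nil, mul_one, J.l3] at h
    have c : Commute (l 8) g := e.symm
    have := ((c.inv_right.mul_right s1).mul_right c).eq
    rw [J.zt] at this
    exact J.z1 (by simpa [this] using h)

theorem iso_of_lt {G H : Type*} [Group G] [Group H] [IsSimpleGroup G] [IsSimpleGroup H]
    {D : Subgroup (G × H)} (h1 : D.map (MonoidHom.fst G H) = ⊤) (h2 : D.map (MonoidHom.snd G H) = ⊤)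
    (h : D ≠ ⊤) : Nonempty (G ≃* H) := by
  have s1 : Function.Surjective ((MonoidHom.fst G H).comp D.subtype) := by
    rwa [← MonoidHom.range_eq_top, MonoidHom.range_comp, range_subtype]
  have s2 : Function.Surjective ((MonoidHom.snd G H).comp D.subtype) := by
    rwa [← MonoidHom.range_eq_top, MonoidHom.range_comp, range_subtype]
  have i1 : D.goursatSnd = ⊥ := (normal_goursatSnd s2).eq_bot_or_eq_top.resolve_right fun e =>
    h ((eq_top_iff' _).2 fun ⟨a, b⟩ => by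
      obtain ⟨⟨⟨_, c⟩, x⟩, rfl⟩ := s1 a
      have := mul_mem x (mem_goursatSnd.1 (e ▸ mem_top (c⁻¹ * b)))
      rwa [Prod.mk_mul_mk, mul_inv_cancel_left, mul_one] at this)
  have i2 : D.goursatFst = ⊥ := (normal_goursatFst s1).eq_bot_or_eq_top.resolve_right fun e =>
    h ((eq_top_iff' _).2 fun ⟨a, b⟩ => by
      obtain ⟨⟨⟨c, _⟩, x⟩, rfl⟩ := s2 b
      have := mul_mem x (mem_goursatFst.1 (e ▸ mem_top (c⁻¹ * a)))
      rwa [Prod.mk_mul_mk, mul_inv_cancel_left, mul_one] at this)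
  refine ⟨(MulEquiv.ofBijective _ ⟨(injective_iff_map_eq_one _).2 ?_, s1⟩).symm.trans
    (MulEquiv.ofBijective _ ⟨(injective_iff_map_eq_one _).2 ?_, s2⟩)⟩
  · rintro ⟨⟨a, b⟩, x⟩ (rfl : a = 1)
    exact Subtype.ext (Prod.ext rfl (mem_bot.1 (i1 ▸ mem_goursatSnd.2 x)))
  · rintro ⟨⟨a, b⟩, x⟩ (rfl : b = 1)
    exact Subtype.ext (Prod.ext (mem_bot.1 (i2 ▸ mem_goursatFst.2 x)) rfl)

theorem Good.iso [Finite G] [IsSimpleGroup G] (J : Good z θ π l g) {H : Type*} [Group H] [Finite H]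
    [IsSimpleGroup H] {z' g' : H} {θ' : CC z' →* Mat} {π' : CC z' →* P11} {l' : ℕ → H}
    (J' : Good z' θ' π' l' g') (hH : Nat.card H = 51765179004000000) : Nonempty (G ≃* H) := by
  let f : ℕ → G × H := fun c => (lT l g c, lT l' g' c)
  have R : Rel f := ⟨by rw [show f 0 = (_, _) from rfl, J.rel.zero, J'.rel.zero]; rfl, fun w hw => by
    rw [ev_prod, J.rel.rel w hw, J'.rel.rel w hw]; rfl⟩
  have h1 := R.card (by rw [ev_prod, J.e1, J'.e1]; rfl) (by rw [ev_prod, J.e2, J'.e2]; rfl)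
    ((closure_le _).2 (by
      rintro _ ⟨c, a, b, rfl⟩
      have : ev (fun c => f (p0 c)) (Ly.xp c) = f c := by rw [ev_prod, J.xp c b, J'.xp c b]
      rw [← this]
      exact OK.mem (by clear this; interval_cases c <;> decide)))
  let S : Subgroup (G × H) := (((θ.comp (MonoidHom.fst _ _)).toHomUnits.prod (π.comp (MonoidHom.fst _ _))).eqLocus
    ((θ'.comp (MonoidHom.snd _ _)).toHomUnits.prod (π'.comp (MonoidHom.snd _ _)))).map
    ((CC z).subtype.prodMap (CC z').subtype)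
  have h2 : gen (fun c => f (p0 c)) 6 ≤ S := (closure_le _).2 (by
    rintro _ ⟨c, a, b, rfl⟩
    obtain ⟨x, x1, x2, x3⟩ := J.l6 b
    obtain ⟨y, y1, y2, y3⟩ := J'.l6 b
    exact ⟨(x, y), Prod.ext (Units.ext (x2.trans y2.symm)) (x3.unique y3), Prod.ext x1 y1⟩)
  have h3 : Nat.card S ≤ 39916800 := by
    rw [← J.card]
    refine (Nat.le_of_dvd Nat.card_pos (card_map_dvd _ _)).trans
      (Nat.card_le_card_of_injective (fun x => x.1.1) ?_)
    rintro ⟨⟨a, b⟩, x⟩ ⟨⟨c, d⟩, y⟩ (rfl : a = c)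
    exact Subtype.ext (Prod.ext rfl (J'.inj (congrArg Units.val ((congrArg Prod.fst x).symm.trans
      (congrArg Prod.fst y))) ((congrArg Prod.snd x).symm.trans (congrArg Prod.snd y))))
  have h4 : 39916800 ≤ Nat.card G := J.card ▸ (CC z).card_le_card_group
  refine iso_of_lt (D := gen f 13) ((He.map_gen _ _ _).trans J.top) ((He.map_gen _ _ _).trans J'.top)
    fun e => ?_
  rw [e, card_top, Nat.card_prod, hH] at h1
  have := (card_le_of_le h2).trans h3
  omega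

theorem iso_ly [Finite G] [IsSimpleGroup G] (hz : orderOf z = 2)
    (h : IsNonsplitDoubleCover (CC z) (alternatingGroup (Fin 11))) {H : Type*} [Group H] (hH : IsLy H)
    {t : H} (ht : orderOf t = 2) (h' : IsNonsplitDoubleCover (CC t) (alternatingGroup (Fin 11))) :
    Nonempty (G ≃* H) := by
  haveI := hH.1
  haveI : Finite H := Nat.finite_of_card_ne_zero (by rw [hH.2]; decide)
  obtain ⟨θ, π, l, g, J⟩ := exists_good hz h
  obtain ⟨θ', π', l', g', J'⟩ := exists_good ht h'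
  exact J.iso J' hH.2

end Cfsg.Agent.H6.Ly
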