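import Cfsg.Agent.H6.LyD0

set_option autoImplicit false
set_option maxRecDepth 100000

namespace Cfsg.Agent.H6.Ly

open Cfsg.Agent.H5 Cfsg.Agent.H8.TC Cfsg.Agent.H6.TT

theorem hf_0 : blk hf (nat_lit 66825) (nat_lit 0) (nat_lit 16) = 0 := by decide +kernel
theorem hf_16 : blk hf (nat_lit 66825) (nat_lit 16) (nat_lit 16) = 0 := by decide +kernel
theorem hf_32 : blk hf (nat_lit 66825) (nat_lit 32) (nat_lit 16) = 0 := by decide +kernel
theorem hf_48 : blk hf (nat_lit 66825) (nat_lit 48) (nat_lit 16) = 0 := by decide +kernel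
theorem hf_64 : blk hf (nat_lit 66825) (nat_lit 64) (nat_lit 16) = 0 := by decide +kernel
theorem hf_80 : blk hf (nat_lit 66825) (nat_lit 80) (nat_lit 16) = 0 := by decide +kernel
theorem hf_96 : blk hf (nat_lit 66825) (nat_lit 96) (nat_lit 16) = 0 := by decide +kernel
theorem hf_112 : blk hf (nat_lit 66825) (nat_lit 112) (nat_lit 16) = 0 := by decide +kernel
theorem hf_128 : blk hf (nat_lit 66825) (nat_lit 128) (nat_lit 16) = 0 := by decide +kernel
theorem hf_144 : blk hf (nat_lit 66825) (nat_lit 144) (nat_lit 16) = 0 := by decide +kernel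
theorem hf_160 : blk hf (nat_lit 66825) (nat_lit 160) (nat_lit 16) = 0 := by decide +kernel
theorem hf_176 : blk hf (nat_lit 66825) (nat_lit 176) (nat_lit 16) = 0 := by decide +kernel
theorem hf_192 : blk hf (nat_lit 66825) (nat_lit 192) (nat_lit 16) = 0 := by decide +kernel
theorem hf_208 : blk hf (nat_lit 66825) (nat_lit 208) (nat_lit 16) = 0 := by decide +kernel
theorem hf_224 : blk hf (nat_lit 66825) (nat_lit 224) (nat_lit 16) = 0 := by decide +kernel
theorem hf_240 : blk hf (nat_lit 66825) (nat_lit 240) (nat_lit 16) = 0 := by decide +kernel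
theorem hf_256 : blk hf (nat_lit 66825) (nat_lit 256) (nat_lit 6) = 0 := by decide +kernel

end Cfsg.Agent.H6.Ly
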