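import Cfsg.Agent.H6.LyN0
import Cfsg.Agent.H6.J3M

/-! A computational model of the normaliser of a four-group in `2.A₁₁`. -/

set_option autoImplicit false
set_option maxRecDepth 100000

namespace Cfsg.Agent.H6.Ly

open Cfsg.Agent.H5 Cfsg.Agent.H8.TC Cfsg.Agent.H6.TT
open J3 (lp2 lp3 lp2_zero lp3_zero cntN cntN_eq gen_of_idx)

def em (a b : ℕ) : ℕ := fld eT (nat_lit 8) (nat_lit 63) (Nat.add (Nat.mul (nat_lit 64) a) b)
def am (a b : ℕ) : ℕ := fld aT (nat_lit 8) (nat_lit 63) (Nat.add (Nat.mul (nat_lit 64) a) b)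
def ac (a b : ℕ) : ℕ := fld cT (nat_lit 8) (nat_lit 63) (Nat.add (Nat.mul (nat_lit 64) a) b)

theorem em_lt (a b : ℕ) : em a b < 64 := Nat.lt_succ_of_le (fld_le _ _ _ _)
theorem ac_lt (a b : ℕ) : ac a b < 64 := Nat.lt_succ_of_le (fld_le _ _ _ _)
theorem am_lt0 : lp2 36 36 (fun a b => lz (am a b) 36) = 0 := by decide +kernel
theorem em_as0 : lp2 64 64 (fun a b => force (em a b) fun ab =>
    sumTo (fun c => force c fun c => Nat.xor (em ab c) (em a (em b c))) 64) = 0 := by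
  decide +kernel
theorem am_as0 : lp3 36 36 36 (fun a b c => Nat.xor (am (am a b) c) (am a (am b c))) = 0 := by
  decide +kernel
theorem ac_em0 : lp3 36 64 64 (fun s a b => Nat.xor (ac s (em a b)) (em (ac s a) (ac s b))) = 0 := by
  decide +kernel
theorem ac_am0 : lp3 36 36 64 (fun s u a => Nat.xor (ac (am s u) a) (ac s (ac u a))) = 0 := by
  decide +kernel

theorem em_as {a b c : ℕ} (ha : a < 64) (hb : b < 64) (hc : c < 64) :
    em (em a b) c = em a (em b c) := by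
  have h := lp2_zero em_as0 a ha b hb
  rw [force_eq'] at h
  have h2 := sumTo_zero h c hc
  rw [force_eq'] at h2
  exact xor_eq_zero' h2

noncomputable def mulN (i j : ℕ) : ℕ :=
  force i fun i => force j fun j =>
    force (Nat.shiftRight i (nat_lit 6)) fun s => force (Nat.shiftRight j (nat_lit 6)) fun u =>
      Nat.add (em (Nat.land i (nat_lit 63)) (ac s (Nat.land j (nat_lit 63)))) (Nat.mul (nat_lit 64) (am s u))

theorem mulN_eq (i j : ℕ) : mulN i j =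
    em (i % 64) (ac (i / 64) (j % 64)) + 64 * am (i / 64) (j / 64) := by
  unfold mulN
  rw [force_eq', force_eq', force_eq', force_eq']
  have e1 : ∀ i, Nat.shiftRight i (nat_lit 6) = i / 64 := fun i => Nat.shiftRight_eq_div_pow i 6
  have e2 : ∀ i, Nat.land i (nat_lit 63) = i % 64 := fun i => Nat.and_two_pow_sub_one_eq_mod i 6
  rw [e1, e1, e2, e2]
  rfl

theorem mulN_lt {i j : ℕ} (hi : i < 2304) (hj : j < 2304) : mulN i j < 2304 := by
  rw [mulN_eq]
  have h1 := em_lt (i % 64) (ac (i / 64) (j % 64))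
  have h2 := lt_of_lz (lp2_zero am_lt0 (i / 64) (by omega) (j / 64) (by omega))
  omega

theorem mulN_as {i j k : ℕ} (hi : i < 2304) (hj : j < 2304) (hk : k < 2304) :
    mulN (mulN i j) k = mulN i (mulN j k) := by
  have e1 : ∀ a b : ℕ, a < 64 → (a + 64 * b) % 64 = a := fun a b h => by omega
  have e2 : ∀ a b : ℕ, a < 64 → (a + 64 * b) / 64 = b := fun a b h => by omega
  have a1 : i / 64 < 36 := by omega
  have a2 : j / 64 < 36 := by omega
  have a3 : k / 64 < 36 := by omega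
  have b1 : i % 64 < 64 := by omega
  have b2 : j % 64 < 64 := by omega
  have b3 : k % 64 < 64 := by omega
  rw [mulN_eq (mulN i j), mulN_eq i (mulN j k), mulN_eq i j, mulN_eq j k,
    e1 _ _ (em_lt _ _), e2 _ _ (em_lt _ _), e1 _ _ (em_lt _ _), e2 _ _ (em_lt _ _),
    xor_eq_zero' (lp3_zero am_as0 _ a1 _ a2 _ a3),
    xor_eq_zero' (lp3_zero ac_em0 _ a1 _ b2 _ (ac_lt _ _)),
    xor_eq_zero' (lp3_zero ac_am0 _ a1 _ a2 _ b3), em_as b1 (ac_lt _ _) (ac_lt _ _)]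

def N : Type := Fin 2304

def N.mk (n : ℕ) : N := (⟨Nat.mod n (nat_lit 2304), Nat.mod_lt _ (by decide)⟩ : Fin 2304)
def N.val (q : N) : ℕ := Fin.val (n := 2304) q
theorem N.val_lt (q : N) : q.val < 2304 := Fin.isLt (n := 2304) q
theorem N.ext' {a b : N} (h : a.val = b.val) : a = b := Fin.ext (n := 2304) h
theorem N.mk_val (q : N) : N.mk q.val = q := N.ext' (Nat.mod_eq_of_lt q.val_lt)

instance instDecEqN : DecidableEq N := fun a b =>
  decidable_of_iff (a.val = b.val) ⟨N.ext', fun h => h ▸ rfl⟩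
instance instFiniteN : Finite N := inferInstanceAs (Finite (Fin 2304))
theorem card_N : Nat.card N = 2304 := Nat.card_fin 2304

theorem forall_iff_cnt (P : N → Prop) [DecidablePred P] :
    (cntN 36 fun i => if P (N.mk i) then 0 else 1) = 0 ↔ ∀ m, P m := by
  rw [cntN_eq, Finset.sum_eq_zero_iff]
  constructor
  · intro h m
    have := h m.val (Finset.mem_range.2 m.val_lt)
    rw [N.mk_val] at this
    by_contra hm
    simp [hm] at this
  · intro h i _
    simp [h]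

noncomputable instance instDecAllN (P : N → Prop) [DecidablePred P] : Decidable (∀ m, P m) :=
  decidable_of_iff _ (forall_iff_cnt P)

noncomputable instance instMulN : Mul N :=
  ⟨fun a b => (⟨mulN a.val b.val, mulN_lt a.val_lt b.val_lt⟩ : Fin 2304)⟩
instance instOneN : One N := ⟨N.mk (nat_lit 0)⟩
instance instInvN : Inv N := ⟨fun a => N.mk (fld iT (nat_lit 12) (nat_lit 4095) a.val)⟩

theorem N.one_mul' : ∀ a : N, 1 * a = a := by decide +kernel
theorem N.inv_mul' : ∀ a : N, a⁻¹ * a = 1 := by decide +kernel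

noncomputable instance instGroupN : Group N :=
  Group.ofLeftAxioms (fun a b c => N.ext' (mulN_as a.val_lt b.val_lt c.val_lt)) N.one_mul' N.inv_mul'

def gB (c : ℕ) : N := N.mk (fld gBT (nat_lit 12) (nat_lit 4095) c)
def pN : ℕ → ℕ := fld (nat_lit 0x32a9810) (nat_lit 4) (nat_lit 15)
def idxN (m : N) : ℕ := fld xT (nat_lit 12) (nat_lit 4095) m.val
def xx : N := N.mk (nat_lit 64)
def uu : N := N.mk (nat_lit 128)
def ss : N := N.mk (nat_lit 192)
def ee : N := N.mk (nat_lit 1)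
def zz : N := N.mk (nat_lit 45)
def tt : N := N.mk (nat_lit 53)
def s0 : N := N.mk (nat_lit 256)

theorem idxN_lt : ∀ m : N, idxN m < 2304 := by decide +kernel
theorem idxN_T : ∀ m : N, ∀ c : Fin 6, nx nT (idxN m) (c.1 + 1) = idxN (m * gB (pN (c.1 + 1))) := by
  decide +kernel
theorem idxN_par : ∀ m : N, m = 1 ∨ (1 ≤ lr (ent (nT (idxN m)) 0) ∧ lr (ent (nT (idxN m)) 0) ≤ 6 ∧
    idxN (m * (gB (pN (lr (ent (nT (idxN m)) 0))))⁻¹) < idxN m) := by
  decide +kernel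

theorem gen_N (P : N → Prop) (h1 : P 1)
    (h2 : ∀ m, P m → ∀ c, 1 ≤ c → c ≤ 6 → P (m * gB (pN c))) : ∀ m, P m :=
  gen_of_idx (fun c => gB (pN c)) idxN _ idxN idxN_par P h1 h2

theorem hom_N {Γ : Type*} [Group Γ] {lt : ℕ → Γ} (h0 : lt 0 = 1)
    (h1 : ∀ c, 1 ≤ c → c ≤ 6 → lt (pN c) * lt (pN c) = 1) (h2 : ∀ l ∈ nrels, ev lt (l.map pN) = 1) :
    ∃ ι : N →* Γ, ∀ c, 1 ≤ c → c ≤ 6 → ι (gB (pN c)) = lt (pN c) := by
  have e : ∀ c ≤ 6, niv c = c := by decide
  have H : Tab (fun c => lt (pN c)) ⊥ niv nT 6 2304 :=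
    tab_of (ns := 0) ⟨h0, fun c a b => by rw [e c b]; exact ⟨a, b⟩,
      fun c a b => by rw [e c b]; exact eq_inv_of_mul_eq_one_right (h1 c a b),
      rel_of_rot (lt := fun c => lt (pN c)) h0 (rel_of_list (lt := fun c => lt (pN c)) h0
        (by decide) fun l hl => (ev_map lt pN l).symm.trans (h2 l hl)) nW_ok,
      fun c a b => by omega⟩ nf_all
  exact H.hom (fun c => gB (pN c)) idxN idxN_lt (by decide +kernel) (fun m c h1 h2 => by
    have := idxN_T m ⟨c - 1, by omega⟩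
    rwa [show c - 1 + 1 = c by omega] at this) gen_N

def rkN (m : N) : ℕ := fld rT (nat_lit 4) (nat_lit 15) (Nat.succ (Nat.mul 2 m.val))
noncomputable def cmN (m : N) : N :=
  (fun g => m * g * m⁻¹ * g⁻¹) (gB (pN (fld rT (nat_lit 4) (nat_lit 15) (Nat.mul 2 m.val))))
theorem n_ker : ∀ m : N, m = 1 ∨ m = zz ∨ m = xx ∨ m = xx⁻¹ ∨ (cmN m ≠ 1 ∧ rkN (cmN m) < rkN m) := by
  decide +kernel

theorem inj_N {Γ : Type*} [Group Γ] {ι : N →* Γ} (h1 : ι zz ≠ 1) (h2 : ι xx ≠ 1) :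
    Function.Injective ι := by
  rw [injective_iff_map_eq_one]
  intro m
  induction hd : rkN m using Nat.strong_induction_on generalizing m with
  | _ d ih =>
    intro hm
    rcases n_ker m with a | rfl | rfl | rfl | ⟨a, b⟩
    exacts [a, absurd hm h1, absurd hm h2, absurd (by simpa using hm) h2,
      absurd (ih _ (hd ▸ b) _ rfl (by simp [cmN, hm])) a]

def q5 {M : Type*} [One M] (a b c d : M) : ℕ → M
  | 1 => a | 2 => b | 3 => c | 4 => d | _ => 1
def gK : ℕ → N := q5 xx uu ss ee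
noncomputable def kw (m : N) : List ℕ :=
  (List.range 13).map (fld (fld kT (nat_lit 52) (nat_lit 0xfffffffffffff) m.val) (nat_lit 4) (nat_lit 15))
noncomputable def ap (im : ℕ → N) (m : N) : N := ev im (kw m)
def uI (i : Fin 6) : N := N.mk (fld uIT (nat_lit 12) (nat_lit 4095) i.1)
def eI (i : Fin 2) : N := N.mk (fld eIT (nat_lit 12) (nat_lit 4095) i.1)
def sI (i : Fin 12) : N := N.mk (fld sIT (nat_lit 12) (nat_lit 4095) i.1)
def kL : ℕ → List ℕ
  | 1 => [1, 2] | 2 => [8, 9] | 3 => [1] | 4 => [10] | _ => []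
def bL (k d : ℕ) : ℕ → List ℕ
  | 1 => [1, 2] | 2 => [9, 8] ++ (List.replicate k [1, 2]).flatten
  | 3 => [1] ++ (List.replicate d [3, 15]).flatten | 4 => [9, 10, 9] | _ => []

theorem n_k : ∀ m : N, m * tt = tt * m → ap gK m = m := by decide +kernel
theorem n_z : ∀ m : N, m * zz = zz * m := by decide +kernel
theorem n_s0 : ∀ m : N, m * tt = tt * m ∨ m * s0 * tt = tt * (m * s0) := by decide +kernel
theorem n_0 : ∀ m : N, m⁻¹ * xx * m = xx ∨ m⁻¹ * xx * m = xx⁻¹ := by decide +kernel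
theorem n_1 : ∀ m : N, m * tt = tt * m → m * m * m = 1 → m ≠ 1 →
    ee⁻¹ * m * ee = m ∨ ee⁻¹ * m * ee = m⁻¹ → ∃ b : Fin 2, (ss ^ b.1)⁻¹ * m * ss ^ b.1 = xx := by
  decide +kernel
theorem n_2 : ∀ m : N, m * tt = tt * m → m * m * m = 1 → m = 1 ∨ m = xx ∨ m = xx⁻¹ ∨
    ∃ q : Fin 64, ∃ i, (N.mk q)⁻¹ * m * N.mk q = uI i := by decide +kernel
theorem n_3 : ∀ i, ∀ m : N, m * tt = tt * m → m * m = 1 →
    m * ((uI i)⁻¹ * m * uI i) * (uI i * m * (uI i)⁻¹) = 1 → m = 1 ∨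
    ∃ j : Fin 3, ∃ b, (uu ^ j.1)⁻¹ * m * uu ^ j.1 = eI b := by decide +kernel
theorem n_4 : ∀ i, ∀ m : N, m * tt = tt * m → m * m = 1 → m * xx * m = xx⁻¹ → m * uI i * m = (uI i)⁻¹ →
    ∃ j : Fin 3, ∃ v, (xx ^ j.1)⁻¹ * m * xx ^ j.1 = sI v := by decide +kernel
def Inn (f : N → N) (m : N) : Prop := ∀ c : Fin 4, m⁻¹ * gK (c.1 + 1) * m = f (gK (c.1 + 1))
noncomputable instance instDecInn (f : N → N) (m : N) : Decidable (Inn f m) :=
  Nat.decidableForallFin _
noncomputable def b2 (im : ℕ → N) (m : N) : N := ap im (ap im m)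
noncomputable def b1 (im : ℕ → N) (m : N) : N := s0⁻¹ * ap im m * s0
noncomputable def b3 (im : ℕ → N) (m : N) : N := b1 im (b1 im (b1 im m))
theorem n_5 : ∀ i v b, ap (q5 xx (uI i) (sI v) (eI b)) zz = tt → ap (q5 xx (uI i) (sI v) (eI b)) tt = zz →
    (∀ m, ¬ Inn (b3 (q5 xx (uI i) (sI v) (eI b))) m) ∨ (∀ m, ¬ Inn (b2 (q5 xx (uI i) (sI v) (eI b))) m) ∨
    Inn (b3 (q5 xx (uI i) (sI v) (eI b))) 1 ∧ Inn (b2 (q5 xx (uI i) (sI v) (eI b))) 1 ∧
    ∃ k < 3, ∃ d < 2, ∀ c < 5, q5 xx (uI i) (sI v) (eI b) c = ev gB (bL k d c) := by decide +kernel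
theorem n_6 : ∀ m : N, Inn id m → m = 1 ∨ m = zz ∨ m = tt ∨ m = zz * tt := by decide +kernel
theorem n_7 : ∀ m : N, m * tt = tt * m → m * ss = ss * m →
    ∃ a b c : Fin 2, m = zz ^ a.1 * tt ^ b.1 * ss ^ c.1 := by decide +kernel

end Cfsg.Agent.H6.Ly
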