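import Cfsg.Agent.H6.LyX
import Cfsg.Agent.H6.LyN
import Cfsg.Agent.H3.ZStar

/-! The normaliser of the four-group. -/

set_option autoImplicit false
set_option maxRecDepth 100000

namespace Cfsg.Agent.H6.Ly

open Subgroup Equiv Cfsg.Agent.H5 Cfsg.Agent.H8.TC Cfsg.Agent.H6.TT

variable {G : Type*} [Group G] {z : G} {θ : CC z →* Mat} {π : CC z →* P11} {l : ℕ → G}

def NL : List ℕ := [0, 1, 2, 3, 4, 8, 9, 10, 15]

structure Mod (l : ℕ → G) (ι : N →* G) : Prop where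
  inj : Function.Injective ι
  cent : ∀ y, y * l 3 = l 3 * y → y * l 15 = l 15 * y → ∃ m, ι m = y
  gb : ∀ c ∈ NL, ι (gB c) = l c

variable {ι : N →* G} {g h : G} {a b c d : N}

theorem Mod.ev (M : Mod l ι) {w : List ℕ} (h : ∀ c ∈ w, c ∈ NL) : ι (ev gB w) = ev l w :=
  (map_ev _ ι w).trans (ev_congr _ fun c hc => M.gb c (h c hc))

theorem Ctx.mod [Finite G] (X : Ctx z θ π l) : ∃ ι, Mod l ι := by
  obtain ⟨ι, h⟩ := hom_N X.l0 (fun c a b => (ev_two l _ _).symm.trans (X.eq (b := []) (by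
    interval_cases c <;> decide +kernel))) fun w hw => X.eq (b := []) (by revert w; decide +kernel)
  have h1 : ι (gB 1) = l 1 := h 1 (by omega) (by omega)
  have h8 : ι (gB 8) = l 8 := h 2 (by omega) (by omega)
  have h9 : ι (gB 9) = l 9 := h 3 (by omega) (by omega)
  have h10 : ι (gB 10) = l 10 := h 4 (by omega) (by omega)
  have h2 : ι (gB 2) = l 2 := h 5 (by omega) (by omega)
  have h3 : ι (gB 3) = l 3 := h 6 (by omega) (by omega)
  have e : ∀ w : List ℕ, (∀ c ∈ w, c ∈ [1, 8, 9, 10, 2, 3]) → ι (ev gB w) = ev l w := fun w hw =>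
    (map_ev _ ι w).trans (ev_congr _ fun c hc => by
      have := hw c hc
      simp only [List.mem_cons, List.not_mem_nil, or_false] at this
      rcases this with rfl | rfl | rfl | rfl | rfl | rfl <;> assumption)
  have h4 : ι (gB 4) = l 4 := by
    rw [show gB 4 = ev gB [8, 2, 9] by decide +kernel, e _ (by decide), ← ev_one l 4]
    exact X.eq (by decide +kernel)
  have h15 : ι (gB 15) = l 15 := by
    rw [show gB 15 = ev gB (tw0.flatMap kL) by decide +kernel, e _ (by decide), ← ev_one l 15]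
    exact X.eq (by decide +kernel)
  have inj : Function.Injective ι := inj_N (by rw [show zz = gB 3 by decide, h3, X.l3]; exact X.z1) (by
    rw [show xx = ev gB [1, 2] by decide +kernel, e _ (by decide)]
    exact X.ne (b := []) (by decide +kernel))
  refine ⟨ι, inj, fun y y1 y2 => ?_, fun c hc => ?_⟩
  · obtain ⟨t, t1, -, r⟩ := X.hl 15 (by omega)
    let P := ((centralizer {π t} ⊓ alternatingGroup (Fin 11)).comap π).map (CC z).subtype
    have c1 : Nat.card P ≤ 2304 := by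
      rw [card_map_of_injective (subtype_injective _)]
      refine (card_le_map π _).trans (Nat.mul_le_mul ((card_le_of_le (map_comap_le _ _)).trans
        (card_cent r)) (show _ ≤ 2 from ?_))
      refine (card_le_of_le (show π.ker ≤ zpowers (zC z) from fun c hc => ?_)).trans ?_
      · rcases X.ker c hc with rfl | rfl
        exacts [one_mem _, mem_zpowers _]
      · rw [Nat.card_zpowers]
        exact orderOf_le_of_pow_eq_one (by omega) (by rw [pow_two, X.zz])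
    have c2 : ι.range ≤ P := by
      rintro _ ⟨m, rfl⟩
      refine gen_N (fun m => ι m ∈ P) (by simp [one_mem]) (fun m hm c a b => ?_) m
      rw [map_mul, h c a b]
      obtain ⟨d, d1, -, d3⟩ := X.hl (pN c) (by interval_cases c <;> decide)
      exact mul_mem hm ⟨d, ⟨mem_centralizer_singleton_iff.2 (rep_eq (rep_cmp d3 r) (rep_cmp r d3)
        (by interval_cases c <;> decide +kernel)), X.even d⟩, d1⟩
    have c3 := eq_of_le_of_card_ge c2 (by
      rwa [← Nat.card_congr (MonoidHom.ofInjective inj).toEquiv, card_N])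
    lift y to CC z using mem_centralizer_singleton_iff.2 (X.l3 ▸ y1)
    have : y * t = t * y := Subtype.ext (by rwa [← t1] at y2)
    exact c3.ge ⟨y, ⟨mem_centralizer_singleton_iff.2 (by rw [← map_mul, this, map_mul]), X.even y⟩, rfl⟩
  · simp only [NL, List.mem_cons, List.not_mem_nil, or_false] at hc
    rcases hc with rfl | rfl | rfl | rfl | rfl | rfl | rfl | rfl | rfl <;> try assumption
    exact (map_one ι).trans X.l0.symm

def Cj (ι : N →* G) (g : G) (a b : N) : Prop := g⁻¹ * ι a * g = ι b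

theorem Cj.mul (h1 : Cj ι g a b) (h2 : Cj ι g c d) : Cj ι g (a * c) (b * d) := by
  unfold Cj at *; rw [map_mul, map_mul, ← h1, ← h2]; group
theorem Cj.inv (h1 : Cj ι g a b) : Cj ι g a⁻¹ b⁻¹ := by
  unfold Cj at *; rw [map_inv, map_inv, ← h1]; group
theorem Cj.one : Cj ι g 1 1 := by simp [Cj]
theorem Cj.pow (h1 : Cj ι g a b) (n : ℕ) : Cj ι g (a ^ n) (b ^ n) := by
  induction n with
  | zero => simpa using Cj.one
  | succ n ih => rw [pow_succ, pow_succ]; exact ih.mul h1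
theorem Cj.comp (h1 : Cj ι g a b) (h2 : Cj ι h b c) : Cj ι (g * h) a c := by
  unfold Cj at *; rw [← h2, ← h1]; group
theorem Cj.symm (h1 : Cj ι g a b) : Cj ι g⁻¹ b a := by
  unfold Cj at *; rw [← h1]; group
theorem Cj.map (k a : N) : Cj ι (ι k) a (k⁻¹ * a * k) := by simp [Cj]
theorem Cj.of {k : N} (h1 : k⁻¹ * a * k = b) : Cj ι (ι k) a b := h1 ▸ Cj.map k a
theorem Cj.eq (h1 : Cj ι g a b) {a' b' : N} (e1 : a = a') (e2 : b = b') : Cj ι g a' b' :=
  e1 ▸ e2 ▸ h1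
theorem Mod.uq (M : Mod l ι) (h1 : Cj ι g a b) (h2 : Cj ι g a c) : b = c :=
  M.inj (Eq.trans (Eq.symm h1) h2)
theorem Mod.uq' (M : Mod l ι) (h1 : Cj ι g a c) (h2 : Cj ι g b c) : a = b := M.uq h1.symm h2.symm
theorem Mod.comm (M : Mod l ι) (h1 : Cj ι g a b) (h2 : Cj ι g c d) (e : a * c = c * a) :
    b * d = d * b := M.uq (h1.mul h2) ((h2.mul h1).eq e.symm rfl)
theorem Mod.one (M : Mod l ι) (h1 : Cj ι g a b) (e : a = 1) : b = 1 := M.uq h1 (Cj.one.eq e.symm rfl)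
theorem Mod.iz (M : Mod l ι) : ι zz = l 3 := M.gb 3 (by decide)
theorem Mod.it (M : Mod l ι) : ι tt = l 15 := M.gb 15 (by decide)
theorem Mod.fix (M : Mod l ι) (h1 : Cj ι g zz zz) (h2 : Cj ι g tt tt) : ∃ m, ι m = g :=
  M.cent g (by rw [← M.iz]; nth_rewrite 1 [← h1]; group) (by rw [← M.it]; nth_rewrite 1 [← h2]; group)
theorem Mod.ex (M : Mod l ι) (h1 : Cj ι g zz tt) (h2 : Cj ι g tt zz) (e : c * tt = tt * c) :
    ∃ d, Cj ι g c d := by
  obtain ⟨d, hd⟩ := M.fix (g := g⁻¹ * ι c * g)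
    ((h2.symm.comp (Cj.of (by rw [mul_assoc, ← e]; simp))).comp h2 |>.eq rfl rfl |> fun x => by
      simpa using x)
    ((h1.symm.comp (Cj.of (by rw [mul_assoc, ← n_z]; simp))).comp h1)
  exact ⟨d, hd.symm⟩

structure NF (ι : N →* G) (g : G) (x u s e : N) : Prop where
  zt : Cj ι g zz tt
  tz : Cj ι g tt zz
  x : Cj ι g xx x
  u : Cj ι g uu u
  s : Cj ι g ss s
  e : Cj ι g ee e

variable {x u s e : N}

theorem NF.mul (F : NF ι g x u s e) (k : N) (hk : k * tt = tt * k) {x' u' s' e' : N}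
    (h1 : k⁻¹ * x * k = x') (h2 : k⁻¹ * u * k = u') (h3 : k⁻¹ * s * k = s') (h4 : k⁻¹ * e * k = e') :
    NF ι (g * ι k) x' u' s' e' :=
  ⟨F.zt.comp (Cj.of (by rw [mul_assoc, ← hk]; simp)), F.tz.comp (Cj.of (by rw [mul_assoc, ← n_z]; simp)),
    F.x.comp (Cj.of h1), F.u.comp (Cj.of h2), F.s.comp (Cj.of h3), F.e.comp (Cj.of h4)⟩

theorem NF.q (F : NF ι g x u s e) : ∀ c, Cj ι g (gK c) (q5 x u s e c)
  | 0 => Cj.one | 1 => F.x | 2 => F.u | 3 => F.s | 4 => F.e | _ + 5 => Cj.one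

theorem Cj.ev {f f' : ℕ → N} (h : ∀ c, Cj ι g (f c) (f' c)) (w : List ℕ) : Cj ι g (ev f w) (ev f' w) := by
  induction w with
  | nil => exact Cj.one
  | cons c w ih => rw [ev_cons, ev_cons]; exact (h c).mul ih

theorem cj_ap {im : ℕ → N} (h : ∀ c, Cj ι g (gK c) (im c)) (ha : a * tt = tt * a) : Cj ι g a (ap im a) :=
  (Cj.ev h _).eq (n_k a ha) rfl

theorem n_c : (∀ b : Fin 2, ss ^ b.1 * tt = tt * ss ^ b.1) ∧
    (∀ q : Fin 64, N.mk q * tt = tt * N.mk q ∧ (N.mk q)⁻¹ * xx * N.mk q = xx) ∧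
    ∀ j : Fin 3, (uu ^ j.1 * tt = tt * uu ^ j.1 ∧ (uu ^ j.1)⁻¹ * xx * uu ^ j.1 = xx ∧
      ∀ i, (uu ^ j.1)⁻¹ * uI i * uu ^ j.1 = uI i) ∧ xx ^ j.1 * tt = tt * xx ^ j.1 ∧
      (xx ^ j.1)⁻¹ * xx * xx ^ j.1 = xx ∧ (∀ i, (xx ^ j.1)⁻¹ * uI i * xx ^ j.1 = uI i) ∧
      ∀ b, (xx ^ j.1)⁻¹ * eI b * xx ^ j.1 = eI b := by decide +kernel

theorem Mod.nf (M : Mod l ι) (h1 : Cj ι g zz tt) (h2 : Cj ι g tt zz) :
    ∃ g i v b, NF ι g xx (uI i) (sI v) (eI b) := by
  obtain ⟨x, hx⟩ := M.ex h1 h2 (c := xx) (by decide +kernel)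
  obtain ⟨u, hu⟩ := M.ex h1 h2 (c := uu) (by decide +kernel)
  obtain ⟨s, hs⟩ := M.ex h1 h2 (c := ss) (by decide +kernel)
  obtain ⟨e, he⟩ := M.ex h1 h2 (c := ee) (by decide +kernel)
  have F : NF ι g x u s e := ⟨h1, h2, hx, hu, hs, he⟩
  obtain ⟨f, hf⟩ := M.ex h2.symm h1.symm (c := ee) (by decide +kernel)
  have hf := hf.symm
  rw [inv_inv] at hf
  obtain ⟨b, hb⟩ := n_1 x (M.comm hx h1 (n_z _)) (M.one ((hx.mul hx).mul hx) (by decide +kernel))
    (fun a => absurd (M.uq' hx (Cj.one.eq rfl a.symm)) (by decide +kernel))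
    ((n_0 f).imp (fun a => M.uq (((hf.inv.mul hx).mul hf).eq a rfl) hx)
      fun a => M.uq (((hf.inv.mul hx).mul hf).eq a rfl) hx.inv)
  replace F := F.mul (ss ^ b.1) (n_c.1 b) hb rfl rfl rfl
  clear hx hu hs he hf h1 h2 hb
  generalize g * _ = g, _ * u * _ = u, _ * s * _ = s, _ * e * _ = e at F
  obtain ⟨q, i, hq⟩ := ((n_2 u (M.comm F.u F.zt (n_z _))
    (M.one ((F.u.mul F.u).mul F.u) (by decide +kernel))).resolve_left fun a =>
      absurd (M.uq' F.u (Cj.one.eq rfl a.symm)) (by decide +kernel)).resolve_left (fun a =>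
      absurd (M.uq' F.u (F.x.eq rfl a.symm)) (by decide +kernel)) |>.resolve_left fun a =>
      absurd (M.uq' F.u (F.x.inv.eq rfl a.symm)) (by decide +kernel)
  replace F := F.mul (N.mk q) (n_c.2.1 q).1 (n_c.2.1 q).2 hq rfl rfl
  clear hq
  generalize g * _ = g, _ * s * _ = s, _ * e * _ = e at F
  obtain ⟨j, b, hb⟩ := (n_3 i e (M.comm F.e F.zt (n_z _)) (M.one (F.e.mul F.e) (by decide +kernel))
    (M.one ((F.e.mul ((F.u.inv.mul F.e).mul F.u)).mul ((F.u.mul F.e).mul F.u.inv))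
      (by decide +kernel))).resolve_left fun a =>
      absurd (M.uq' F.e (Cj.one.eq rfl a.symm)) (by decide +kernel)
  replace F := F.mul (uu ^ j.1) (n_c.2.2 j).1.1 (n_c.2.2 j).1.2.1 ((n_c.2.2 j).1.2.2 i) rfl hb
  clear hb
  generalize g * _ = g, _ * s * _ = s at F
  obtain ⟨j, v, hv⟩ := n_4 i s (M.comm F.s F.zt (n_z _)) (M.one (F.s.mul F.s) (by decide +kernel))
    (M.uq (((F.s.mul F.x).mul F.s).eq (by decide +kernel) rfl) F.x.inv)
    (M.uq (((F.s.mul F.u).mul F.s).eq (by decide +kernel) rfl) F.u.inv)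
  exact ⟨_, i, v, b, F.mul (xx ^ j.1) (n_c.2.2 j).2.1 (n_c.2.2 j).2.2.1 ((n_c.2.2 j).2.2.2.1 i) hv
    ((n_c.2.2 j).2.2.2.2 b)⟩

structure Loc (l : ℕ → G) (g : G) (k d : ℕ) : Prop where
  gg : g * g = 1
  g3 : (g * l 8) ^ 3 = 1
  cj : ∀ c < 5, g⁻¹ * ev l (kL c) * g = ev l (bL k d c)

theorem Mod.inn (M : Mod l ι) {f : N → N} (h : ∀ c : Fin 4, Cj ι g (gK (c.1 + 1)) (f (gK (c.1 + 1))))
    (h1 : Cj ι g zz zz) (h2 : Cj ι g tt tt) : ∃ m, ι m = g ∧ Inn f m := by
  obtain ⟨m, rfl⟩ := M.fix h1 h2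
  exact ⟨m, rfl, fun c => M.uq (Cj.map _ _) (h c)⟩

theorem Mod.c2 (M : Mod l ι) (F : NF ι g x u s e) : ∃ m, ι m = g * g ∧ Inn (b2 (q5 x u s e)) m :=
  M.inn (fun c => (cj_ap F.q (by revert c; decide +kernel)).comp (cj_ap F.q (M.comm (cj_ap F.q
    (by revert c; decide +kernel)) F.zt (n_z _)))) (F.zt.comp F.tz) (F.tz.comp F.zt)

theorem Mod.c3 (M : Mod l ι) (F : NF ι g x u s e) :
    Cj ι (g * ι s0) zz (zz * tt) ∧ Cj ι (g * ι s0) tt zz ∧
    ∃ m, ι m = (g * ι s0) ^ 3 ∧ Inn (b3 (q5 x u s e)) m := by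
  have h1 : Cj ι (g * ι s0) zz (zz * tt) := F.zt.comp (Cj.of (by decide +kernel))
  have h2 : Cj ι (g * ι s0) tt zz := F.tz.comp (Cj.of (by decide +kernel))
  have h3 : Cj ι (g * ι s0) (zz * tt) tt := (h1.mul h2).eq rfl (by decide +kernel)
  have h4 : ∀ a, a * tt = tt * a →
      Cj ι (g * ι s0) a (b1 (q5 x u s e) a) ∧ b1 (q5 x u s e) a * tt = tt * b1 (q5 x u s e) a :=
    fun a ha => by
      have := (cj_ap F.q ha).comp (Cj.map s0 _)
      exact ⟨this, M.comm this h3 (by rw [← mul_assoc, n_z, mul_assoc, ha, mul_assoc])⟩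
  refine ⟨h1, h2, ?_⟩
  rw [pow_three']
  refine M.inn (fun c => ?_) ((h1.comp h3).comp h2) ((h2.comp h1).comp h3)
  obtain ⟨a1, a2⟩ := h4 (gK (c.1 + 1)) (by revert c; decide +kernel)
  obtain ⟨a3, a4⟩ := h4 _ a2
  exact (a1.comp a3).comp (h4 _ a4).1

theorem Inn.id {f : N → N} (h : Inn f 1) (h2 : Inn f a) : Inn id a := fun c => by
  have := h c
  rw [inv_one, one_mul, mul_one] at this
  exact (h2 c).trans this.symm

theorem Mod.loc (M : Mod l ι) (h1 : Cj ι g zz tt) (h2 : Cj ι g tt zz) :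
    ∃ g, ∃ k < 3, ∃ d < 2, Loc l g k d := by
  obtain ⟨g, i, v, b, F⟩ := M.nf h1 h2
  obtain ⟨m, e2, a2⟩ := M.c2 F
  obtain ⟨i3, i2, k, hk, d, hd, e⟩ := ((n_5 i v b (M.uq (cj_ap F.q (n_z _).symm) F.zt)
    (M.uq (cj_ap F.q rfl) F.tz)).resolve_left fun a => by
      obtain ⟨-, -, m, -, a3⟩ := M.c3 F
      exact a m a3).resolve_left fun a => a m a2
  have fin : ∀ g, NF ι g xx (uI i) (sI v) (eI b) → g * g = 1 → Loc l g k d := fun g F gg => by
    obtain ⟨c1, c2, m, e3, a3⟩ := M.c3 F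
    have c3 : Cj ι (g * ι s0) m m := by unfold Cj; rw [e3]; generalize g * ι s0 = y; group
    refine ⟨gg, ?_, fun c hc => ?_⟩
    · rw [← M.gb 8 (by decide)]
      rcases n_6 m (i3.id a3) with rfl | rfl | rfl | rfl
      · exact e3.symm.trans (map_one ι)
      · exact absurd (M.uq c3 c1) (by decide +kernel)
      · exact absurd (M.uq c3 c2) (by decide +kernel)
      · exact absurd (M.uq c3 (c1.mul c2)) (by decide +kernel)
    · rw [← M.ev (by revert c; decide), ← M.ev (by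
        interval_cases k <;> interval_cases d <;> revert c <;> decide), ← e c hc,
        show Ly.ev gB (kL c) = gK c by revert c; decide +kernel]
      exact F.q c
  have c3 : Cj ι g m m := by unfold Cj; rw [e2]; group
  rcases n_6 m (i2.id a2) with rfl | rfl | rfl | rfl
  · exact ⟨g, k, hk, d, hd, fin g F (e2.symm.trans (map_one ι))⟩
  · exact absurd (M.uq c3 F.zt) (by decide +kernel)
  · exact absurd (M.uq c3 F.tz) (by decide +kernel)
  · have y : ∀ a : N, zz⁻¹ * a * zz = a := fun a => by rw [mul_assoc, n_z]; simp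
    refine ⟨g * ι zz, k, hk, d, hd, fin _ (F.mul zz (n_z _).symm (y _) (y _) (y _) (y _)) ?_⟩
    calc _ = g * g * (g⁻¹ * ι zz * g) * ι zz := by group
      _ = 1 := by
        rw [← e2, F.zt, ← map_mul, ← map_mul, show zz * tt * tt * zz = 1 by decide +kernel, map_one]

theorem Ctx.swap [Finite G] [IsSimpleGroup G] (X : Ctx z θ π l) :
    ∃ g, g⁻¹ * z * g = l 15 ∧ g⁻¹ * l 15 * g = z := by
  obtain ⟨g, hg1, hg2⟩ : ∃ g : G, Commute z (g * z * g⁻¹) ∧ g * z * g⁻¹ ≠ z := by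
    by_contra hn
    push Not at hn
    obtain ⟨N, hN, hodd, hc⟩ := H3.zstar_commute X.z2 hn
    rcases hN.eq_bot_or_eq_top with rfl | rfl
    · have h1 : z ∈ center G := mem_center_iff.2 fun g => by
        have := mem_bot.1 (hc g)
        rw [mul_inv_eq_one, mul_inv_eq_iff_eq_mul] at this
        exact this.symm
      rcases (inferInstance : (center G).Normal).eq_bot_or_eq_top with a | a
      · exact X.z1 (by rwa [a] at h1)
      · refine X.ne (a := [1, 2]) (b := [2, 1]) (by decide +kernel) ?_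
        rw [ev_two, ev_two]
        exact mem_center_iff.1 (a ▸ mem_top _ : l 2 ∈ center G) _
    · have := orderOf_dvd_natCard z
      rw [orderOf_eq_prime (by rw [pow_two, X.z2]) X.z1] at this
      rw [card_top] at hodd
      exact (Nat.not_even_iff_odd.2 hodd) (even_iff_two_dvd.2 this)
  have key : ∀ g : G, Commute z (g⁻¹ * z * g) → g⁻¹ * z * g ≠ z →
      ∃ c, c * z = z * c ∧ c⁻¹ * (g⁻¹ * z * g) * c = l 15 := fun g a b =>
    ((X.invo (by calc _ = g⁻¹ * (z * z) * g := by group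
        _ = 1 := by rw [X.z2]; group) a.symm).resolve_left fun e => X.z1 (by
      calc z = g * (g⁻¹ * z * g) * g⁻¹ := by group
        _ = 1 := by rw [e]; group)).resolve_left b
  obtain ⟨c, -, e⟩ := key g⁻¹ (by rwa [inv_inv]) (by rwa [inv_inv])
  have t1 : l 15 ≠ z := fun e => X.ne (a := [15]) (b := [3]) (by decide +kernel) (by
    rw [ev_one, ev_one, e, X.l3])
  generalize hh : (g⁻¹ * c)⁻¹ = h
  have e1 : h⁻¹ * l 15 * h = z := by rw [← hh, ← e]; group
  obtain ⟨c, c1, c2⟩ := key h (by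
    nth_rewrite 1 [← e1]
    calc _ = h⁻¹ * (l 15 * z) * h := by group
      _ = _ := by rw [(X.hl 15 (by omega)).comm]; group) fun a => t1 (by
    calc _ = h * (h⁻¹ * l 15 * h) * h⁻¹ := by group
      _ = z := by rw [e1]; nth_rewrite 1 [← a]; group)
  refine ⟨h * c, by rw [← c2]; group, ?_⟩
  calc _ = c⁻¹ * (h⁻¹ * l 15 * h * c) := by group
    _ = z := by rw [e1, ← c1]; group

end Cfsg.Agent.H6.Ly
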