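import Cfsg.Agent.H6.LyM0

/-! Moore's presentation of `A₁₁`, permutation lemmas and codes of the double cover. -/

set_option autoImplicit false
set_option maxRecDepth 100000

namespace Cfsg.Agent.H6.Ly

open Subgroup Equiv Cfsg.Agent.H5 Cfsg.Agent.H8.TC Cfsg.Agent.H6.TT

def c3L : List (List ℕ) := [1, 1, 1] :: [1, 2] :: [1, 3, 1, 3, 1, 3] ::
  (List.range 7).map fun i => [i + 3, i + 4, i + 3, i + 4, i + 3, i + 4]
def c2L : List (List ℕ) := (List.range 8).map (fun i => [i + 3]) ++ (List.range 7).map (fun i => [1, i + 4]) ++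
  (List.range 6).flatMap fun i => (List.range (6 - i)).map fun j => [i + 3, i + j + 5]

section
variable {Γ : Type*} [Group Γ] {lt : ℕ → Γ}

structure Moore (lt : ℕ → Γ) (e : Γ) : Prop where
  zero : lt 0 = 1
  c3 : ∀ l ∈ c3L, ev lt l = 1
  c2 : ∀ l ∈ c2L, ev lt (l ++ l) = e

theorem Moore.map {Δ : Type*} [Group Δ] {e : Γ} (h : Moore lt e) (f : Γ →* Δ) :
    Moore (fun c => f (lt c)) (f e) :=
  ⟨by rw [h.zero, map_one], fun l hl => by rw [← map_ev, h.c3 l hl, map_one],
    fun l hl => by rw [← map_ev, h.c2 l hl]⟩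

def miv (c : ℕ) : ℕ := if c = 1 then 2 else if c = 2 then 1 else c

theorem Moore.step [Finite Γ] (M : Moore lt 1) {iv WT A B T : ℕ → ℕ} {R : List (List ℕ)} {nc ns n : ℕ}
    {K : Subgroup Γ} (hK : gen lt ns ≤ K)
    (w : sumTo (fun k => Nat.xor (WT k) (rot (nth (R.map pk) (A k)) (B k))) 256 = 0)
    (h : ∀ i < n, chkR T iv WT nc ns n i = 0)
    (hc : (0 < n ∧ 2 ≤ nc ∧ nc ≤ 10 ∧ ∀ c ≤ nc, iv c = miv c) ∧
      ∀ l ∈ R, (∀ c ∈ l, c < 16) ∧ l ∈ [] :: c3L ++ c2L.map fun l => l ++ l) :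
    Nat.card (gen lt nc) ≤ n * Nat.card K := by
  obtain ⟨⟨h1, h2, h3, h4⟩, h5⟩ := hc
  have e12 : lt 2 = (lt 1)⁻¹ := by
    simpa [ev, eq_inv_iff_mul_eq_one, mul_eq_one_comm] using M.c3 [1, 2] (by decide)
  refine tab_card (tab_of (ns := ns) ⟨M.zero, fun c a b => ?_, fun c a b => ?_,
    rel_of_rot M.zero (rel_of_list M.zero (fun l hl => (h5 l hl).1) fun l hl => ?_) w,
    fun c a b => hK (lt_mem_gen a b)⟩ h) h1
  · rw [h4 c b, miv]; split_ifs <;> omega
  · rw [h4 c b, miv]
    split_ifs with x y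
    · rw [x, e12]
    · rw [y, e12, inv_inv]
    · have : c ≤ 10 := by omega
      have := M.c2 [c] (by interval_cases c <;> first | decide | omega)
      simpa [ev, eq_inv_iff_mul_eq_one] using this
  · rcases List.mem_append.1 (h5 l hl).2 with a | a
    · rcases List.mem_cons.1 a with rfl | a
      exacts [rfl, M.c3 l a]
    · obtain ⟨l', a', e⟩ := List.mem_map.1 a
      exact e ▸ M.c2 l' a'

theorem Moore.card [Finite Γ] (M : Moore lt 1) : Nat.card (gen lt 10) ≤ 19958400 := by
  have h1 := M.step (K := ⊥) ((closure_le _).2 fun _ ⟨c, a, b, _⟩ => absurd (a.trans b) (by decide)) mo1W_ok mo1_all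
    (by decide +kernel)
  have h2 := M.step le_rfl mo2W_ok mo2_all (by decide +kernel)
  have h3 := M.step le_rfl mo3W_ok mo3_all (by decide +kernel)
  have h4 := M.step le_rfl mo4W_ok mo4_all (by decide +kernel)
  have h5 := M.step le_rfl mo5W_ok mo5_all (by decide +kernel)
  have h6 := M.step le_rfl mo6W_ok mo6_all (by decide +kernel)
  have h7 := M.step le_rfl mo7W_ok mo7_all (by decide +kernel)
  have h8 := M.step le_rfl mo8W_ok mo8_all (by decide +kernel)
  have h9 := M.step le_rfl mo9W_ok mo9_all (by decide +kernel)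
  rw [card_bot] at h1
  change Nat.card (gen lt 2) ≤ 3 * 1 at h1
  change Nat.card (gen lt 3) ≤ 4 * Nat.card (gen lt 2) at h2
  change Nat.card (gen lt 4) ≤ 5 * Nat.card (gen lt 3) at h3
  change Nat.card (gen lt 5) ≤ 6 * Nat.card (gen lt 4) at h4
  change Nat.card (gen lt 6) ≤ 7 * Nat.card (gen lt 5) at h5
  change Nat.card (gen lt 7) ≤ 8 * Nat.card (gen lt 6) at h6
  change Nat.card (gen lt 8) ≤ 9 * Nat.card (gen lt 7) at h7
  change Nat.card (gen lt 9) ≤ 10 * Nat.card (gen lt 8) at h8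
  change Nat.card (gen lt 10) ≤ 11 * Nat.card (gen lt 9) at h9
  omega
end

abbrev P11 := Perm (Fin 11)
abbrev Mat := Matrix (Fin 32) (Fin 32) (ZMod 3)
def E11 : H4.Enc (Fin 11) 11 4 := H4.finEnc 11 4 (by decide)
def em3 (a : ℕ) : Mat := H4.ev3 (ZMod 3) 32 a

noncomputable def evM (tb : ℕ → ℕ) (l : List ℕ) : ℕ :=
  List.rec (motive := fun _ => ℕ) (H4.one2 32) (fun c _ ih => H4.mul3 32 (tb c) ih) l
noncomputable def cmp (a b : ℕ) : ℕ := force a fun a => force b fun b => H4.comp 11 4 a b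
noncomputable def evP (tb : ℕ → ℕ) (l : List ℕ) : ℕ :=
  List.rec (motive := fun _ => ℕ) (H4.idc 11 4) (fun c _ ih => cmp (tb c) ih) l

theorem em3_mul (a b : ℕ) : em3 (H4.mul3 32 a b) = em3 a * em3 b := H4.ev3_mul 32 a b
theorem em3_one : em3 (H4.one2 32) = 1 := H4.ev3_one 32
theorem em3_ev (tb : ℕ → ℕ) (l : List ℕ) : em3 (evM tb l) = ev (fun c => em3 (tb c)) l := by
  induction l with
  | nil => exact em3_one
  | cons c l ih => rw [ev_cons, ← ih, ← em3_mul]; rfl
theorem rep_cmp {g h : P11} {a b : ℕ} (h1 : E11.Rep g a) (h2 : E11.Rep h b) :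
    E11.Rep (g * h) (cmp a b) := by
  unfold cmp; rw [force_eq', force_eq']; exact h1.mul h2
theorem rep_ev {f : ℕ → P11} {tb : ℕ → ℕ} {l : List ℕ} (h : ∀ c ∈ l, E11.Rep (f c) (tb c)) :
    E11.Rep (ev f l) (evP tb l) := by
  induction l with
  | nil => exact H4.Enc.rep_one
  | cons c l ih =>
    rw [ev_cons]
    exact rep_cmp (h c List.mem_cons_self) (ih fun d hd => h d (List.mem_cons_of_mem _ hd))

noncomputable def mM : ℕ → ℕ := nth mML
noncomputable def mI : ℕ → ℕ := nth mIL
noncomputable def mP : ℕ → ℕ := nth mPL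
noncomputable def dM : ℕ → ℕ := nth dML
noncomputable def dP : ℕ → ℕ := nth dPL
noncomputable def pm (i : ℕ) : P11 := E11.mkPerm (mP i)
theorem mP_even : ∀ i < 11, H4.isEven 11 4 (mP i) = true := by decide +kernel
theorem pm_rep {i : ℕ} (h : i < 11) : E11.Rep (pm i) (mP i) := E11.rep_mkPerm (by
  have := mP_even i h
  simp only [H4.isEven, H4.band_eq, Bool.and_eq_true] at this; exact this.1)
theorem pm_even {i : ℕ} (h : i < 11) : pm i ∈ alternatingGroup (Fin 11) :=
  H4.mem_alternatingGroup_of_isEven (pm_rep h) (mP_even i h)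
theorem card_A11 : Nat.card (alternatingGroup (Fin 11)) = 19958400 :=
  (H4.card_alt_fin 11 (by norm_num)).trans (by norm_num [Nat.factorial])

theorem alt_le {K : Subgroup P11} (h : ∀ i, 1 ≤ i → i ≤ 10 → pm i ∈ K) :
    alternatingGroup (Fin 11) ≤ K := by
  have h1 := H4.CG.le_card_of_check (H4.scg_keyed 11 4 (by decide)) (H4.scg_vt 11 4 (by decide)) rfl
    (L := aL) (n := 19958400) (by decide +kernel)
  have h2 : (H4.scg 11 4 (by decide)).gen (H4.CG.gensOf aL) ≤ K ⊓ alternatingGroup (Fin 11) := by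
    refine (closure_le _).2 ?_
    rintro g ⟨c, hc, hg⟩
    obtain ⟨i, a, b, rfl⟩ : ∃ i < 11, 1 ≤ i ∧ c = mP i := by
      clear hg; revert c; decide +kernel
    rw [show g = pm i from H4.Enc.Rep.unique hg (pm_rep a)]
    exact ⟨h i b (by omega), pm_even a⟩
  have h3 := Subgroup.eq_of_le_of_card_ge (inf_le_right (a := K))
    (card_A11 ▸ h1.trans (card_le_of_le h2))
  exact h3 ▸ inf_le_left

theorem ct_two {p : P11} (h : p * p = 1) (h1 : p ≠ 1) :
    p.support.card = 2 * p.cycleType.card ∧ p.cycleType = Multiset.replicate p.cycleType.card 2 := by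
  have h2 : orderOf p = 2 := orderOf_eq_prime (by rw [pow_two, h]) h1
  obtain ⟨n, hn⟩ := Perm.cycleType_prime_order (σ := p) (h2 ▸ Nat.prime_two)
  rw [← Perm.sum_cycleType, hn, h2]; simp; ring

noncomputable def mv (p : ℕ) : ℕ :=
  ((Finset.univ : Finset (Fin 11)).filter fun i => H4.img 4 p i.1 ≠ i.1).card

theorem supp_card {g : P11} {p : ℕ} (h : E11.Rep g p) : g.support.card = mv p := by
  unfold mv Perm.support
  congr 1
  refine Finset.filter_congr fun i _ => ?_
  rw [← show (g i).1 = H4.img 4 p i.1 from h i, Ne, Ne, Fin.ext_iff]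

theorem conj_even {p q o : P11} (h : p * p = 1) (h2 : q * q = 1) (h3 : p.support.card = q.support.card)
    (h4 : q ≠ 1) (ho : Perm.sign o = -1) (hq : o * q = q * o) :
    ∃ s ∈ alternatingGroup (Fin 11), s⁻¹ * p * s = q := by
  have h1 : p ≠ 1 := fun e => h4 (by
    rwa [e, Perm.support_one, Finset.card_empty, eq_comm, Finset.card_eq_zero,
      Perm.support_eq_empty_iff] at h3)
  obtain ⟨a, b⟩ := ct_two h h1
  obtain ⟨c, d⟩ := ct_two h2 h4
  obtain ⟨s, hs⟩ := isConj_iff.1 (Perm.isConj_iff_cycleType_eq.2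
    (show q.cycleType = p.cycleType by rw [b, d]; congr 1; omega))
  rcases Int.units_eq_one_or (Perm.sign s) with e | e
  · exact ⟨s, e, by rw [← hs]; group⟩
  · refine ⟨s * o, by simp [Perm.mem_alternatingGroup, e, ho], ?_⟩
    rw [← hs]
    calc _ = o⁻¹ * (q * o) := by group
      _ = _ := by rw [← hq]; group

theorem supp_even {p : P11} (h : p * p = 1) (h1 : p ≠ 1) (h2 : p ∈ alternatingGroup (Fin 11)) :
    p.support.card = 4 ∨ p.support.card = 8 := by
  obtain ⟨a, -⟩ := ct_two h h1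
  have h3 : p.support.card ≤ 11 := by simpa using Finset.card_le_univ p.support
  have h4 := Perm.sign_of_cycleType p
  rw [Perm.mem_alternatingGroup.1 h2, Perm.sum_cycleType, a] at h4
  have h5 : p.support.card ≠ 0 := fun e => h1 (by
    rwa [Finset.card_eq_zero, Perm.support_eq_empty_iff] at e)
  generalize p.cycleType.card = k at a h4
  have : k ≤ 5 := by omega
  interval_cases k <;> first | omega | exact absurd h4 (by decide)

def sw : P11 := swap 8 9
theorem sw_rep : E11.Rep sw 0xa8976543210 := by unfold H4.Enc.Rep; decide +kernel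
theorem sw_sign : Perm.sign sw = -1 := Perm.sign_swap (by decide)
theorem rep_eq {g h : P11} {a b : ℕ} (h1 : E11.Rep g a) (h2 : E11.Rep h b) (e : a = b) : g = h :=
  h1.unique (e ▸ h2)
theorem rep_ne {g h : P11} {a b : ℕ} (h1 : E11.Rep g a) (h2 : E11.Rep h b)
    (e : ¬ ∀ i < 11, H4.img 4 a i = H4.img 4 b i) : g ≠ h := fun x => e ((h1.eq_iff h2).1 x)

theorem card_cent {t : P11} (h : E11.Rep t (dP 15)) :
    Nat.card (centralizer {t} ⊓ alternatingGroup (Fin 11) : Subgroup P11) ≤ 1152 := by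
  obtain ⟨a, b⟩ := ct_two (rep_eq (rep_cmp h h) H4.Enc.rep_one (by decide +kernel))
    (rep_ne h H4.Enc.rep_one (by decide +kernel))
  rw [supp_card h, show mv (dP 15) = 8 by decide +kernel] at a
  have h1 := Perm.nat_card_centralizer t
  rw [b, show t.cycleType.card = 4 by omega] at h1
  have h2 : Nat.card (centralizer ({t} : Set P11)) = 2304 := by
    rw [h1]; simp [Nat.factorial]
  have h3 := card_dvd_of_le (inf_le_left (a := centralizer ({t} : Set P11)) (b := alternatingGroup _))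
  by_contra hc
  have h4 : Nat.card (centralizer {t} ⊓ alternatingGroup (Fin 11) : Subgroup P11) = 2304 := by
    rw [h2] at h3
    obtain ⟨k, hk⟩ := h3
    have : k = 1 := by
      rcases k with _ | _ | k
      · omega
      · rfl
      · nlinarith
    rw [hk, this, mul_one]
  have h5 := Subgroup.eq_of_le_of_card_ge (inf_le_left (a := centralizer ({t} : Set P11))
    (b := alternatingGroup _)) (by rw [h2, h4])
  have h6 : sw ∈ centralizer ({t} : Set P11) := mem_centralizer_singleton_iff.2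
    (rep_eq (rep_cmp sw_rep h) (rep_cmp h sw_rep) (by decide +kernel))
  rw [← h5] at h6
  exact absurd (sw_sign.symm.trans h6.2) (by decide)

end Cfsg.Agent.H6.Ly
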