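import Cfsg.Agent.H6.LyL
import Cfsg.Agent.H6.LyB

/-! The amalgam is unique, and its relators hold. -/

set_option autoImplicit false
set_option maxRecDepth 100000

namespace Cfsg.Agent.H6.Ly

open Subgroup Equiv Cfsg.Agent.H5 Cfsg.Agent.H8.TC Cfsg.Agent.H6.TT

variable {G : Type*} [Group G] {z g : G} {θ : CC z →* Mat} {π : CC z →* P11} {l : ℕ → G} {k d : ℕ}
  {ι : N →* G}

theorem ev_conj {f f' : ℕ → G} {w : List ℕ} (h : ∀ c ∈ w, g⁻¹ * f c * g = f' c) :
    g⁻¹ * ev f w * g = ev f' w := by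
  rw [← ev_congr _ h]
  simpa using map_ev f (MulAut.conj g⁻¹).toMonoidHom w

def Tr3 (k d : ℕ) (a w b : List ℕ) : Prop :=
  (∀ c ∈ w, c < 5) ∧ Ceq a (w.flatMap kL) ∧ Ceq (w.flatMap (bL k d)) b
noncomputable instance instDecTr3 (k d : ℕ) (a w b : List ℕ) : Decidable (Tr3 k d a w b) :=
  instDecidableAnd

theorem Loc.tr (L : Loc l g k d) (X : Ctx z θ π l) {a b : List ℕ} (w : List ℕ) (h : Tr3 k d a w b) :
    g⁻¹ * ev l a * g = ev l b := by
  rw [X.eq h.2.1, ← X.eq h.2.2, ev_flat, ev_flat]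
  exact ev_conj fun c hc => L.cj c (h.1 c hc)

theorem Loc.twist (L : Loc l g k 1) (X : Ctx z θ π l) (hk : k < 3) :
    ∃ θ π l', Ctx z θ π l' ∧ Loc l' g (2 * k % 3) 0 := by
  obtain ⟨θ', π', l', X', h⟩ := X.twist
  have e : ∀ w : List ℕ, (∀ c ∈ w, c ∈ [1, 2, 8, 9, 10]) →
      ev l' w = ev l (w.flatMap (H4.getL [] tsL)) := fun w hw => by
    rw [ev_flat]; exact ev_congr _ fun c hc => h c (hw c hc)
  refine ⟨θ', π', l', X', L.gg, (h 8 (by decide)).trans (ev_one l 8) ▸ L.g3, fun c hc => ?_⟩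
  rw [e _ (by revert c; decide), e _ (by interval_cases k <;> revert c <;> decide)]
  exact L.tr X (H4.getL [] tkL c) (by interval_cases k <;> revert c <;> decide +kernel)

def l1 (l : ℕ → G) (g : G) (c : ℕ) : G := if c = 12 then g else l c
def dl (d : ℕ) : List ℕ := (List.replicate d [3, 15, 1]).flatten
noncomputable def pw (k d c : ℕ) : List ℕ :=
  if c = 12 then dl d ++ [14] else (H4.getL [] qwL c).flatMap (bL k 0)

theorem Ctx.qq (X : Ctx z θ π l) : (l 14)⁻¹ = l 14 :=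
  inv_eq_of_mul_eq_one_right ((ev_two l _ _).symm.trans (X.eq (b := []) (by decide +kernel)))

theorem Loc.ps (L : Loc l g k 0) (X : Ctx z θ π l) {a : ℕ} {b : List ℕ} (w : List ℕ)
    (h : Tr3 k 0 [14, a, 14] w b) : (l 14 * g)⁻¹ * l a * (l 14 * g) = ev l b := by
  rw [← L.tr X w h, mul_inv_rev, X.qq]
  simp [ev, mul_assoc]

theorem Loc.cube (L : Loc l g k 0) (X : Ctx z θ π l) (M : Mod l ι) (hk : k < 3) :
    ∃ d < 2, (l 14 * g) ^ 3 = ev l (dl d) := by
  have s : ι ss = l 1 := M.gb 1 (by decide)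
  have h1 : Cj ι (l 14 * g) zz tt := by
    unfold Cj; rw [M.iz, M.it, L.ps X zw (b := [15]) (by interval_cases k <;> decide +kernel), ev_one]
  have h2 : Cj ι (l 14 * g) tt ss := by
    unfold Cj; rw [M.it, s, L.ps X [3] (b := [1]) (by interval_cases k <;> decide +kernel), ev_one]
  have h3 : Cj ι (l 14 * g) ss zz := by
    unfold Cj; rw [M.iz, s, L.ps X tw0 (b := [3]) (by interval_cases k <;> decide +kernel), ev_one]
  generalize l 14 * g = h at *
  obtain ⟨m, e⟩ := M.fix ((h1.comp h2).comp h3) ((h2.comp h3).comp h1)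
  have cc : ∀ a, Cj ι (h * h * h) a a → m * a = a * m := fun a x => by
    have := M.uq (Cj.map m a) (e ▸ x)
    rw [mul_assoc, inv_mul_eq_iff_eq_mul] at this
    exact this.symm
  obtain ⟨a, b, c, rfl⟩ := n_7 m (cc _ ((h2.comp h3).comp h1)) (cc _ ((h3.comp h1).comp h2))
  have h4 := M.uq (((h1.pow a).mul (h2.pow b)).mul (h3.pow c)) (by unfold Cj; rw [e]; group)
  obtain ⟨d, hd, h5⟩ : ∃ d < 2, zz ^ a.1 * tt ^ b.1 * ss ^ c.1 = ev gB (dl d) := by
    clear e cc; revert a b c; decide +kernel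
  exact ⟨d, hd, by rw [pow_three', ← e, h5, M.ev (by interval_cases d <;> decide)]⟩

theorem Loc.psi (L : Loc l g k 0) (X : Ctx z θ π l) (hk : k < 3) (hd : d < 2)
    (h : (l 14 * g) ^ 3 = ev l (dl d)) :
    ∀ c ∈ [1, 3, 8, 11, 12, 13], (l 14 * g)⁻¹ * l1 l g c * (l 14 * g) = ev l (pw k d c) := by
  intro c hc
  by_cases e : c = 12
  · have h1 : (ev l (dl d))⁻¹ = ev l (dl d) := inv_eq_of_mul_eq_one_right
      ((ev_app l _ _).symm.trans (X.eq (b := []) (by interval_cases d <;> decide +kernel)))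
    have h2 := inv_eq_of_mul_eq_one_right L.gg
    have h3 := mul_eq_one_iff_inv_eq.2 X.qq
    rw [l1, pw, if_pos e, if_pos e, ev_app, ev_one, ← h1, ← h, ← inv_pow, mul_inv_rev, X.qq, h2]
    simp only [pow_three', mul_assoc, h3, mul_one]
  · rw [l1, pw, if_neg e, if_neg e]
    exact L.ps X (H4.getL [] qwL c) (by interval_cases k <;> revert c <;> decide +kernel)

structure Good (z : G) (θ : CC z →* Mat) (π : CC z →* P11) (l : ℕ → G) (g : G) : Prop
    extends Ctx z θ π l, Loc l g 1 0 where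
  q3 : (l 14 * g) ^ 3 = ev l (dl 0)

theorem Loc.good [Finite G] (L : Loc l g k 0) (X : Ctx z θ π l) (hk : k < 3) : Good z θ π l g := by
  obtain ⟨ι, M⟩ := X.mod
  obtain ⟨d, hd, h⟩ := L.cube X M hk
  by_cases e : k = 1 ∧ d = 0
  · obtain ⟨rfl, rfl⟩ := e
    exact ⟨X, L, h⟩
  exfalso
  obtain ⟨a, b⟩ : (∀ c ∈ H4.getL [] bdL (2 * k + d), c ∈ [3, 8, 11, 12]) ∧
      Ceq ((H4.getL [] bdL (2 * k + d)).flatMap (pw k d)) (pw k d 1) := by
    revert e; interval_cases k <;> interval_cases d <;> decide +kernel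
  generalize H4.getL [] bdL (2 * k + d) = w at a b
  have h1 := ev_conj (w := w) fun c hc => L.psi X hk hd h c
    ((by decide : ∀ c ∈ [3, 8, 11, 12], c ∈ [1, 3, 8, 11, 12, 13]) c (a c hc))
  rw [← ev_flat, X.eq b, ← L.psi X hk hd h 1 (by decide), mul_left_inj, mul_right_inj] at h1
  have h2 : ev (l1 l g) w ∈ centralizer {ev l [1, 2]} := ev_mem fun c hc => by
    rw [mem_centralizer_singleton_iff]
    have := a c hc
    by_cases e : c = 12
    · rw [l1, if_pos e]; nth_rewrite 1 [← show _ = ev l [1, 2] from L.cj 1 (by omega)]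
      rw [← mul_assoc, ← mul_assoc, mul_inv_cancel, one_mul]; rfl
    · rw [l1, if_neg e, ← ev_cons, ← ev_one l c, ← ev_app]
      exact X.eq (by clear hc; revert c; decide +kernel)
  rw [h1, mem_centralizer_singleton_iff] at h2
  exact X.ne (a := [1, 1, 2]) (b := [1, 2] ++ [1]) (by decide +kernel) (by
    rw [ev_cons, ev_app, ev_one]; exact h2)

theorem exists_good [Finite G] [IsSimpleGroup G] (hz : orderOf z = 2)
    (h : IsNonsplitDoubleCover (CC z) (alternatingGroup (Fin 11))) : ∃ θ π l g, Good z θ π l g := by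
  obtain ⟨θ, π, B⟩ := exists_base hz h
  obtain ⟨l, X⟩ := B.ctx
  obtain ⟨ι, M⟩ := X.mod
  obtain ⟨g, h1, h2⟩ := X.swap
  obtain ⟨g, k, hk, d, hd, L⟩ := M.loc (g := g) (by unfold Cj; rwa [M.iz, M.it, X.l3])
    (by unfold Cj; rwa [M.iz, M.it, X.l3])
  interval_cases d
  · exact ⟨θ, π, l, g, L.good X hk⟩
  · obtain ⟨θ, π, l, X, L⟩ := L.twist X hk
    exact ⟨θ, π, l, g, L.good X (by omega)⟩

end Cfsg.Agent.H6.Ly
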