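import Cfsg.Agent.H6.LyP

/-! The relators hold. -/

set_option autoImplicit false
set_option maxRecDepth 100000

namespace Cfsg.Agent.H6.Ly

open Subgroup Equiv Cfsg.Agent.H5 Cfsg.Agent.H8.TC Cfsg.Agent.H6.TT

variable {G : Type*} [Group G] {z g : G} {θ : CC z →* Mat} {π : CC z →* P11} {l : ℕ → G} {ι : N →* G}

def dw : List ℕ := [11, 12, 8, 11, 8, 12, 11]
def lT (l : ℕ → G) (g : G) (c : ℕ) : G := if c = 7 then ev (l1 l g) dw else l1 l g c
theorem lT_l {c : ℕ} (h : c ≠ 7) (h' : c ≠ 12) : lT l g c = l c := by rw [lT, l1, if_neg h, if_neg h']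
theorem lT_g : lT l g 12 = g := rfl

noncomputable def sM : ℕ → ℕ := nth sML
noncomputable def sP : ℕ → ℕ := nth sPL

theorem Good.ps (J : Good z θ π l g) : ∀ c ∈ [1, 3, 7, 8, 11, 12, 13],
    Rp θ π ((l 14 * g)⁻¹ * lT l g c * (l 14 * g)) (sM c) (sP c) := by
  have h : ∀ c ∈ [1, 3, 8, 11, 12, 13],
      Rp θ π ((l 14 * g)⁻¹ * l1 l g c * (l 14 * g)) (sM c) (sP c) := fun c hc => by
    obtain ⟨a, b, d⟩ : (∀ i ∈ pw 1 0 c, i < 16) ∧ evM dM (pw 1 0 c) = sM c ∧ evP dP (pw 1 0 c) = sP c := by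
      revert c; decide +kernel
    rw [J.psi J.toCtx (by omega) (by omega) J.q3 c hc, ← b, ← d]
    exact J.rp a
  intro c hc
  by_cases e : c = 7
  · rw [lT, if_pos e, ev_conj fun _ _ => rfl, e, show sM 7 = evM sM dw by decide +kernel,
      show sP 7 = evP sP dw by decide +kernel]
    exact Rp.ev fun c hc => h c (by revert c; decide)
  · rw [lT, if_neg e]; exact h c (by revert c; decide)

def imB : ℕ → N := q5 xx (uI 4) ss (eI 0)
noncomputable def stp (c : ℕ) (s : N × Bool × N) : N × Bool × N :=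
  if c = 12 then
    (if s.2.1 then (if s.1 * tt = tt * s.1 then (1, false, ap imB s.1 * s.2.2)
      else (ap imB (s.1 * s0) * s0, true, s0 * s.2.2)) else (1, true, s.1 * s.2.2))
  else (gB c * s.1, s.2.1, s.2.2)
noncomputable def mch (w : List ℕ) : N × Bool × N :=
  List.rec (motive := fun _ => N × Bool × N) (1, false, 1) (fun c _ ih => stp c ih) w

theorem Good.mch (J : Good z θ π l g) (M : Mod l ι) {w : List ℕ}
    (h : ∀ c ∈ w, c ∈ [1, 2, 3, 4, 8, 9, 10, 12]) :
    ev (lT l g) w = ι (mch w).1 * (if (mch w).2.1 then g else 1) * ι (mch w).2.2 := by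
  have gi := inv_eq_of_mul_eq_one_right J.gg
  have b : ∀ c, Cj ι g (gK c) (imB c) := fun c => by
    by_cases hc : c < 5
    · have := J.cj c hc
      rwa [← M.ev (by clear this; revert c; decide), ← M.ev (by clear this; revert c; decide),
        show Ly.ev gB (kL c) = gK c by clear this; revert c; decide +kernel,
        show Ly.ev gB (bL 1 0 c) = imB c by clear this; revert c; decide +kernel] at this
    · obtain ⟨c, rfl⟩ := Nat.exists_eq_add_of_le' (not_lt.1 hc)
      exact Cj.one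
  have s2 : ι s0 * ι s0 = 1 := by rw [← map_mul, show s0 * s0 = 1 by decide +kernel, map_one]
  have s3 : g * ι s0 * g = ι s0 * g * ι s0 := by
    have := J.g3
    rw [← show ι s0 = l 8 from M.gb 8 (by decide)] at this
    calc _ = (g * ι s0) ^ 3 * (ι s0)⁻¹ * g⁻¹ * (ι s0)⁻¹ := by rw [pow_three']; group
      _ = _ := by rw [this, gi, inv_eq_of_mul_eq_one_right s2, one_mul]
  induction w with
  | nil => simp [Ly.mch, ev]
  | cons c w ih =>
    rw [ev_cons, ih fun d hd => h d (List.mem_cons_of_mem _ hd)]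
    change _ = ι (stp c (Ly.mch w)).1 * (if (stp c (Ly.mch w)).2.1 then g else 1) * ι (stp c (Ly.mch w)).2.2
    obtain ⟨m, x, n⟩ := Ly.mch w
    have hc := h c List.mem_cons_self
    unfold stp
    by_cases e : c = 12
    · rw [if_pos e, e, lT_g]
      cases x
      · simp
      by_cases y : m * tt = tt * m
      · simp only [y, if_true, map_mul, map_one, one_mul, Bool.false_eq_true, if_false]
        rw [← cj_ap b y, gi]; group
      · simp only [y, if_true, if_false, map_mul]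
        rw [← cj_ap b ((n_s0 m).resolve_left y), gi, map_mul]
        calc _ = g * (ι m * (ι s0 * (g * g) * ι s0)) * g * ι n := by rw [J.gg, mul_one, s2, mul_one]; group
          _ = g * (ι m * ι s0) * g * (g * ι s0 * g) * ι n := by group
          _ = _ := by rw [s3]; group
    · rw [if_neg e, lT_l (by clear ih h; revert c; decide) e, ← M.gb c (by clear ih h; revert c; decide)]
      simp only [map_mul, mul_assoc]

def Chk (w : List ℕ) : Prop :=
  ((∀ c ∈ w, c ≠ 7 ∧ c ≠ 12) ∧ Ceq w []) ∨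
  ((∀ c ∈ w, c ∈ [1, 2, 3, 4, 8, 9, 10, 12]) ∧ (mch w).2.1 = false ∧ (mch w).1 * (mch w).2.2 = 1) ∨
  ((∀ c ∈ w, c ∈ [1, 3, 7, 8, 11, 12, 13]) ∧ evM sM w = evM dM [] ∧ evP sP w = evP dP [])
noncomputable instance instDecChk (w : List ℕ) : Decidable (Chk w) := instDecidableOr
theorem chk_h : ∀ w ∈ hrels.map (List.map p0), Chk w := by decide +kernel
theorem chk_s : ∀ w ∈ srels, Chk w := by decide +kernel
theorem chk_x : ∀ w ∈ xrels, Chk w := by decide +kernel

theorem Good.rel [Finite G] (J : Good z θ π l g) : Rel (lT l g) := by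
  obtain ⟨ι, M⟩ := J.mod
  refine ⟨J.l0, fun w hw => ?_⟩
  obtain ⟨a, b⟩ | ⟨a, b, c⟩ | ⟨a, b, c⟩ : Chk w := by
    rcases List.mem_append.1 hw with h | h
    exacts [(List.mem_append.1 h).elim (chk_h w) (chk_s w), chk_x w h]
  · exact (ev_congr _ fun c hc => lT_l (a c hc).1 (a c hc).2).trans (J.eq b)
  · rw [J.mch M a, b, if_neg (by simp), mul_one, ← map_mul, c, map_one]
  · have := J.uq (Rp.ev fun c hc => J.ps c (a c hc)) (b ▸ c ▸ J.rp (w := []) (by simp))
    rw [← ev_conj fun _ _ => rfl, ev_nil] at this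
    generalize l 14 * g = h at this
    rwa [mul_assoc, inv_mul_eq_one, right_eq_mul] at this

def xp : ℕ → List ℕ := H4.getL [] [[], [1], [7], [6], [2, 7, 3], [4, 1, 4, 5], [5, 4, 1, 4],
  [5, 8, 2, 5, 2, 8, 5], [2], [3], [4], [5], [8]]

theorem Good.xp (J : Good z θ π l g) : ∀ c ≤ 12, ev (fun c => lT l g (p0 c)) (xp c) = lT l g c := by
  intro c hc
  rw [← ev_map]
  by_cases e : c = 7 ∨ c = 12
  · rcases e with rfl | rfl
    exacts [rfl, ev_one _ _]
  obtain ⟨a, b⟩ : (∀ i ∈ (Ly.xp c).map p0, i ≠ 7 ∧ i ≠ 12) ∧ Ceq ((Ly.xp c).map p0) [c] := by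
    revert c; decide +kernel
  rw [ev_congr _ fun c hc => lT_l (a c hc).1 (a c hc).2, J.eq b, ev_one, lT_l (by omega) (by omega)]

theorem Good.zt (J : Good z θ π l g) : g⁻¹ * z * g = l 15 := by
  simpa only [ev_one, J.l3] using J.tr J.toCtx (a := [3]) (b := [15]) zw (by decide +kernel)
theorem Good.tz' (J : Good z θ π l g) : g⁻¹ * l 15 * g = z := by
  simpa only [ev_one, J.l3] using J.tr J.toCtx (a := [15]) (b := [3]) tw0 (by decide +kernel)

theorem Good.l6 (J : Good z θ π l g) {c : ℕ} (h : c ≤ 6) :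
    Rp θ π (lT l g (p0 c)) (dM (p0 c)) (dP (p0 c)) := by
  obtain ⟨a, b, d⟩ : p0 c ≠ 7 ∧ p0 c ≠ 12 ∧ p0 c < 16 := by revert c; decide
  rw [lT_l a b]; exact J.hl _ d

def tc (c : List ℕ) : List ℕ := (c.map p0).reverse ++ [15] ++ c.map p0
def Trc (w v : List ℕ) : Prop := OK 8 v ∧ run hT (v ++ w ++ invw hiv v) 0 = 0
noncomputable instance instDecTrc (w v : List ℕ) : Decidable (Trc w v) := instDecidableAnd

theorem Good.ex [Finite G] (J : Good z θ π l g) {w : List ℕ} (h : ∀ c ∈ w, c ≤ 12)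
    (h0 : OK 8 (w.flatMap Ly.xp))
    (h1 : ∀ v ∈ [] :: ([8] ++ c0 ++ [8]) :: cL.map (8 :: ·), Trc (w.flatMap Ly.xp) v) :
    ev (lT l g) w = 1 := by
  have H := J.rel.tabH
  rw [← ev_congr _ fun c hc => J.xp c (h c hc), ← ev_flat]
  generalize w.flatMap Ly.xp = w at h0 h1
  have st : ∀ y ∈ gen (fun c => lT l g (p0 c)) 6, ∃ c : CC z, c.1 = y ∧ π c 10 = 10 := by
    intro y hy
    have : gen (fun c => lT l g (p0 c)) 6 ≤
        ((MulAction.stabilizer P11 (10 : Fin 11)).comap π).map (CC z).subtype := (closure_le _).2 (by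
      rintro _ ⟨c, a, b, rfl⟩
      obtain ⟨d, d1, -, d3⟩ := J.l6 b
      exact ⟨d, Fin.ext ((d3 10).trans (by interval_cases c <;> decide +kernel)), d1⟩)
    obtain ⟨c, a, b⟩ := this hy
    exact ⟨c, b, a⟩
  have l7 : ∀ c : List ℕ, (∀ i ∈ c, i ≤ 6) → ev (fun c => lT l g (p0 c)) c = ev l (c.map p0) :=
    fun c hc => by
      rw [ev_map]
      exact ev_congr _ fun i hi => lT_l (by have := hc i hi; clear hi; revert i; decide)
        (by have := hc i hi; clear hi; revert i; decide)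
  have g8 : (fun c => lT l g (p0 c)) 8 = g := rfl
  generalize (fun c => lT l g (p0 c)) = f at *
  have tr : ∀ v, Trc w v → ∃ c : CC z, c.1 = ev f v * ev f w * (ev f v)⁻¹ ∧ π c 10 = 10 := fun v hv => by
    have := run_mem H (by omega) (a := v ++ w ++ invw hiv v) (fun c hc => by
      simp only [invw, List.mem_append, List.mem_reverse, List.mem_map] at hc
      rcases hc with (a | a) | ⟨d, a, rfl⟩
      exacts [hv.1 c a, h0 c a, H.iv_mem d (hv.1 d a).1 (hv.1 d a).2]) hv.2
    rw [ev_app, ev_app, ev_invw fun c hc => H.lt_iv c (hv.1 c hc).1 (hv.1 c hc).2] at this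
    exact st _ this
  have cm : ∀ v, Trc w v → Commute (ev f w) ((ev f v)⁻¹ * z * ev f v) := fun v hv => by
    obtain ⟨c, a, -⟩ := tr v hv
    have b := mem_centralizer_singleton_iff.1 c.2
    rw [a] at b
    calc _ = (ev f v)⁻¹ * (ev f v * ev f w * (ev f v)⁻¹ * z) * ev f v := by group
      _ = _ := by rw [b]; group
  have tcl : ∀ c ∈ c0 :: cL, (ev f (8 :: c))⁻¹ * z * ev f (8 :: c) = ev l (tc c) := fun c hc => by
    have := J.eq (a := c.map p0 ++ tc c) (b := 15 :: c.map p0) (by revert c; decide +kernel)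
    rw [ev_app, ev_cons, ← J.zt] at this
    rw [ev_cons, l7 c (by clear this; revert c; decide), g8, eq_inv_mul_of_mul_eq this]; group
  obtain ⟨c, c1, c2⟩ := tr [] (h1 _ List.mem_cons_self)
  simp only [ev_nil, one_mul, inv_one, mul_one] at c1
  rw [← c1] at cm ⊢
  have fx : ∀ i : Fin 11, i.1 < 8 → π c i = i := fun i hi => by
    refine (by decide +kernel : ∀ i j : Fin 11, i.1 < 8 →
      (∀ p ∈ pcL, H4.img 4 p i = i ↔ H4.img 4 p j = j) → j = i) i _ hi fun p hp => ?_
    obtain ⟨a, ha, b, hb, x, rfl⟩ : ∃ a ∈ cL, ∃ b ∈ cL, (∀ c ∈ tc a ++ tc b, c < 16) ∧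
        evP dP (tc a ++ tc b) = p := by revert p; decide +kernel
    have y : ∀ a ∈ cL, Commute c.1 (ev l (tc a)) := fun a ha => tcl a (List.mem_cons_of_mem _ ha) ▸
      cm _ (h1 _ (List.mem_cons_of_mem _ (List.mem_cons_of_mem _ (List.mem_map_of_mem ha))))
    obtain ⟨d, d1, -, d3⟩ := J.rp x
    have u : c * d = d * c := Subtype.ext (by
      have := (y a ha).mul_right (y b hb)
      rwa [← ev_app, ← d1] at this)
    have u2 : π c (π d i) = π d (π c i) := by rw [← Perm.mul_apply, ← map_mul, u, map_mul]; rfl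
    have d4 : ∀ j : Fin 11, (π d j).1 = H4.img 4 (evP dP (tc a ++ tc b)) j.1 := d3
    rw [← d4, ← d4, ← u2, ← Fin.ext_iff, ← Fin.ext_iff, (π c).injective.eq_iff]
  have s2 : (π c).support.card ≤ 2 := Finset.card_le_card (t := {8, 9}) fun i hi => by
    rw [Perm.mem_support] at hi
    have := mt (fx i) hi
    have : i ≠ 10 := fun e => hi (e ▸ c2)
    simp only [Finset.mem_insert, Finset.mem_singleton]; omega
  have s1 : π c = 1 := Perm.card_support_le_one.1 (by
    by_contra hc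
    exact absurd ((Perm.card_support_eq_two.1 (by omega)).sign_eq.symm.trans (J.even c)) (by decide))
  rcases J.ker c s1 with rfl | rfl
  · rfl
  have := cm _ (h1 _ (List.mem_cons_of_mem _ List.mem_cons_self))
  rw [ev_app, ev_one, g8, show ∀ a : G, (a * g)⁻¹ * z * (a * g) = g⁻¹ * (a⁻¹ * z * a) * g from
    fun a => by group, show [8] ++ c0 = 8 :: c0 from rfl, tcl c0 List.mem_cons_self,
    show (zC z).1 = z from rfl, ← J.tz'] at this
  refine absurd ?_ (J.ne (a := 15 :: tc c0) (b := tc c0 ++ [15]) (by decide +kernel))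
  rw [ev_cons, ev_app, ev_one]
  calc _ = g * (g⁻¹ * l 15 * g * (g⁻¹ * ev l (tc c0) * g)) * g⁻¹ := by group
    _ = _ := by rw [this.eq]; group

theorem Good.e1 [Finite G] (J : Good z θ π l g) : ev (lT l g) ex1 = 1 :=
  J.ex (by decide +kernel) (by decide +kernel) (by decide +kernel)
theorem Good.e2 [Finite G] (J : Good z θ π l g) : ev (lT l g) ex2 = 1 :=
  J.ex (by decide +kernel) (by decide +kernel) (by decide +kernel)

end Cfsg.Agent.H6.Ly
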