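import Cfsg.Agent.H6.LyC
import Cfsg.Agent.H6.LyN0

/-! Letters of the centraliser, given by their codes. -/

set_option autoImplicit false
set_option maxRecDepth 100000

namespace Cfsg.Agent.H6.Ly

open Subgroup Equiv Cfsg.Agent.H5 Cfsg.Agent.H8.TC Cfsg.Agent.H6.TT

variable {G : Type*} [Group G] {z : G} {θ : CC z →* Mat} {π : CC z →* P11} {l : ℕ → G}

def Rp (θ : CC z →* Mat) (π : CC z →* P11) (g : G) (a p : ℕ) : Prop :=
  ∃ c : CC z, c.1 = g ∧ θ c = em3 a ∧ E11.Rep (π c) p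

theorem Rp.ev {f : ℕ → G} {A P : ℕ → ℕ} {w : List ℕ} (h : ∀ c ∈ w, Rp θ π (f c) (A c) (P c)) :
    Rp θ π (ev f w) (evM A w) (evP P w) := by
  induction w with
  | nil => exact ⟨1, rfl, by rw [map_one]; exact em3_one.symm, map_one π ▸ H4.Enc.rep_one⟩
  | cons c w ih =>
    obtain ⟨a, a1, a2, a3⟩ := h c List.mem_cons_self
    obtain ⟨b, b1, b2, b3⟩ := ih fun d hd => h d (List.mem_cons_of_mem _ hd)
    exact ⟨a * b, by rw [ev_cons, ← a1, ← b1]; rfl, by rw [map_mul, a2, b2, ← em3_mul]; rfl,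
      map_mul π a b ▸ rep_cmp a3 b3⟩

theorem Rp.comm {g : G} {a p : ℕ} (h : Rp θ π g a p) : g * z = z * g := by
  obtain ⟨c, rfl, -⟩ := h
  exact mem_centralizer_singleton_iff.1 c.2

theorem Base.inj (B : Base z θ π) {a b : CC z} (h1 : θ a = θ b) (h2 : π a = π b) : a = b := by
  refine (B.toPre.eq h2).resolve_right fun e => ?_
  have : θ (zC z) = 1 := by
    rw [show zC z = a * b⁻¹ by rw [e]; simp, map_mul, h1, ← map_mul, mul_inv_cancel, map_one]
  rw [B.tz] at this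
  exact absurd (congrFun (congrFun this 0) 0) (by decide)

theorem Base.uq (B : Base z θ π) {g h : G} {a p : ℕ} (h1 : Rp θ π g a p) (h2 : Rp θ π h a p) : g = h := by
  obtain ⟨c, rfl, a2, a3⟩ := h1
  obtain ⟨d, rfl, b2, b3⟩ := h2
  rw [B.inj (a2.trans b2.symm) (a3.unique b3)]

structure Ctx (z : G) (θ : CC z →* Mat) (π : CC z →* P11) (l : ℕ → G) : Prop extends Base z θ π where
  hl : ∀ c < 16, Rp θ π (l c) (dM c) (dP c)

theorem Base.ctx (B : Base z θ π) : ∃ l, Ctx z θ π l := by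
  choose! n h1 h2 using B.mo
  refine ⟨fun c => ev (fun i => (n i : G)) (H4.getL [] dWL c), B, fun c hc => ?_⟩
  obtain ⟨a, b, d⟩ : (∀ i ∈ H4.getL [] dWL c, i < 11) ∧ evM mM (H4.getL [] dWL c) = dM c ∧
      evP mP (H4.getL [] dWL c) = dP c := by revert c; decide +kernel
  rw [← b, ← d]
  exact Rp.ev fun i hi => ⟨n i, rfl, h1 i (a i hi), h2 i (a i hi) ▸ pm_rep (a i hi)⟩

def Ceq (a b : List ℕ) : Prop :=
  (∀ c ∈ a ++ b, c < 16) ∧ evM dM a = evM dM b ∧ evP dP a = evP dP b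
noncomputable instance instDecCeq (a b : List ℕ) : Decidable (Ceq a b) := instDecidableAnd
def Cne (a b : List ℕ) : Prop :=
  (∀ c ∈ a ++ b, c < 16) ∧ ¬ ∀ i < 11, H4.img 4 (evP dP a) i = H4.img 4 (evP dP b) i
noncomputable instance instDecCne (a b : List ℕ) : Decidable (Cne a b) := instDecidableAnd

theorem Ctx.rp (X : Ctx z θ π l) {w : List ℕ} (h : ∀ c ∈ w, c < 16) :
    Rp θ π (ev l w) (evM dM w) (evP dP w) := Rp.ev fun c hc => X.hl c (h c hc)

theorem Ctx.eq (X : Ctx z θ π l) {a b : List ℕ} (h : Ceq a b) : ev l a = ev l b :=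
  X.uq (X.rp fun c hc => h.1 c (List.mem_append_left _ hc))
    (h.2.1 ▸ h.2.2 ▸ X.rp fun c hc => h.1 c (List.mem_append_right _ hc))

theorem Ctx.ne (X : Ctx z θ π l) {a b : List ℕ} (h : Cne a b) : ev l a ≠ ev l b := fun e => by
  obtain ⟨c, c1, -, c3⟩ := X.rp fun c hc => h.1 c (List.mem_append_left _ hc)
  obtain ⟨d, d1, -, d3⟩ := X.rp fun c hc => h.1 c (List.mem_append_right _ hc)
  exact rep_ne c3 d3 h.2 (by rw [show c = d from Subtype.ext (c1.trans (e.trans d1.symm))])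

theorem ev_one {M : Type*} [Monoid M] (l : ℕ → M) (c : ℕ) : ev l [c] = l c := mul_one _
theorem ev_two {M : Type*} [Monoid M] (l : ℕ → M) (c d : ℕ) : ev l [c, d] = l c * l d := by simp [ev]

theorem Ctx.l0 (X : Ctx z θ π l) : l 0 = 1 :=
  (ev_one l 0).symm.trans (X.eq (b := []) (by decide +kernel))
theorem Ctx.l3 (X : Ctx z θ π l) : l 3 = z :=
  X.uq (X.hl 3 (by omega)) ⟨zC z, rfl, X.tz.trans em3_z.symm, X.pz ▸ H4.Enc.rep_one⟩
theorem Ctx.z1 (X : Ctx z θ π l) : z ≠ 1 := fun e => by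
  have := X.tz
  rw [show zC z = 1 from Subtype.ext e, map_one] at this
  exact absurd (congrFun (congrFun this 0) 0) (by decide)
theorem Ctx.z2 (X : Ctx z θ π l) : z * z = 1 := congrArg Subtype.val X.zz

theorem Ctx.invo (X : Ctx z θ π l) {u : G} (h1 : u * u = 1) (h2 : u * z = z * u) :
    u = 1 ∨ u = z ∨ ∃ c, c * z = z * c ∧ c⁻¹ * u * c = l 15 := by
  lift u to CC z using mem_centralizer_singleton_iff.2 h2
  have h3 : u * u = 1 := Subtype.ext h1
  have h4 : π u * π u = 1 := by rw [← map_mul, h3, map_one]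
  by_cases h5 : π u = 1
  · exact (X.ker u h5).imp (congrArg Subtype.val) fun e => Or.inl (congrArg Subtype.val e)
  rcases supp_even h4 h5 (X.even u) with a | a
  · obtain ⟨b, b1, b2⟩ := X.mo 3 (by omega)
    have := congrArg θ (X.sq h4 a b2)
    rw [h3, map_one, map_mul, b1, ← em3_mul, show H4.mul3 32 (mM 3) (mM 3) = dM 3 by decide +kernel,
      em3_z] at this
    exact absurd (congrFun (congrFun this 0) 0) (by decide)
  obtain ⟨t, t1, -, r⟩ := X.hl 15 (by omega)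
  obtain ⟨c, e⟩ := X.conj h4 ((rep_cmp r r).eq_one (by decide +kernel))
    (by rw [a, supp_card r]; decide +kernel) (rep_ne r H4.Enc.rep_one (by decide +kernel))
    (rep_eq (rep_cmp sw_rep r) (rep_cmp r sw_rep) (by decide +kernel))
  have hc := mem_centralizer_singleton_iff.1 c.2
  refine Or.inr (Or.inr ?_)
  rcases e with e | e
  · exact ⟨c, hc, t1 ▸ congrArg Subtype.val e⟩
  · have e' : (c : G)⁻¹ * u * c = z * l 15 := t1 ▸ congrArg Subtype.val e
    have h6 := X.eq (a := [3, 15, 8]) (b := [8, 15]) (by decide +kernel)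
    have h7 := (X.hl 8 (by omega)).comm
    simp only [ev_cons, ev_nil, mul_one, X.l3] at h6
    refine ⟨c * l 8, by rw [mul_assoc, h7, ← mul_assoc, hc, mul_assoc], ?_⟩
    calc _ = (l 8)⁻¹ * ((c : G)⁻¹ * u * c * l 8) := by group
      _ = _ := by rw [e', mul_assoc, h6]; group

theorem Ctx.gen (X : Ctx z θ π l) {K : Subgroup G} (h : ∀ c ≤ 13, c ≠ 7 → c ≠ 12 → l c ∈ K) {y : G}
    (hy : y * z = z * y) : y ∈ K := by
  have := X.top (K := K.subgroupOf (CC z)) (show z ∈ K from X.l3 ▸ h 3 (by omega) (by omega) (by omega))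
    fun i a b => by
      obtain ⟨x, w⟩ : (∀ c ∈ H4.getL [] gWL i, c < 16 ∧ c ≤ 13 ∧ c ≠ 7 ∧ c ≠ 12) ∧
          evP dP (H4.getL [] gWL i) = mP i := by
        interval_cases i <;> decide +kernel
      obtain ⟨c, c1, -, c3⟩ := X.rp fun c hc => (x c hc).1
      exact ⟨c, show c.1 ∈ K from c1 ▸ ev_mem fun c hc => h c (x c hc).2.1 (x c hc).2.2.1 (x c hc).2.2.2,
        rep_eq c3 (pm_rep (by omega)) w⟩
  exact (eq_top_iff' _).1 this ⟨y, mem_centralizer_singleton_iff.2 hy⟩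

theorem Ctx.twist (X : Ctx z θ π l) : ∃ θ π l', Ctx z θ π l' ∧
    ∀ c ∈ [1, 2, 8, 9, 10], l' c = ev l (H4.getL [] tsL c) := by
  have e1 : em3 tauI * em3 tauM = 1 := by rw [← em3_mul, ← em3_one]; congr 1; decide +kernel
  have e2 : em3 tauM * em3 tauI = 1 := by rw [← em3_mul, ← em3_one]; congr 1; decide +kernel
  let θ' : CC z →* Mat := ⟨⟨fun c => em3 tauM * θ c * em3 tauI, by simp [e2]⟩, fun a b => by
    simp only [map_mul, mul_assoc]; rw [← mul_assoc (em3 tauI), e1, one_mul]⟩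
  let π' : CC z →* P11 := (MulAut.conj sw).toMonoidHom.comp π
  have si : sw⁻¹ = sw := swap_inv _ _
  have r : ∀ {g a p}, Rp θ π g a p →
      Rp θ' π' g (H4.mul3 32 (H4.mul3 32 tauM a) tauI) (cmp (cmp 0xa8976543210 p) 0xa8976543210) :=
    fun ⟨c, c1, c2, c3⟩ => ⟨c, c1, by rw [em3_mul, em3_mul, ← c2]; rfl,
      rep_cmp (rep_cmp sw_rep c3) (si.symm ▸ sw_rep)⟩
  have B : Base z θ' π' := ⟨⟨fun c hc => X.ker c (by simpa [π'] using hc), X.zz, X.cen,
    by simp [π', X.pz], fun c => (alternatingGroup.normal).conj_mem _ (X.even c) _, fun s hs => ?_,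
    X.card⟩, by simp [θ', X.tz, e2], fun i hi => ?_⟩
  · obtain ⟨l', X'⟩ := B.ctx
    refine ⟨θ', π', l', X', fun c hc => ?_⟩
    obtain ⟨a, b, d, e⟩ : (∀ i ∈ H4.getL [] tsL c, i < 16) ∧ c < 16 ∧
        H4.mul3 32 (H4.mul3 32 tauM (evM dM (H4.getL [] tsL c))) tauI = dM c ∧
        cmp (cmp 0xa8976543210 (evP dP (H4.getL [] tsL c))) 0xa8976543210 = dP c := by
      revert c; decide +kernel
    exact B.uq (X'.hl c b) (d ▸ e ▸ r (X.rp a))
  · obtain ⟨c, hc⟩ := X.surj _ ((alternatingGroup.normal).conj_mem' _ hs sw)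
    exact ⟨c, by simp [π', hc, mul_assoc]⟩
  · choose! n h1 h2 using X.mo
    obtain ⟨a, b, d⟩ : (∀ j ∈ H4.getL [] tWL i, j < 11) ∧
        H4.mul3 32 (H4.mul3 32 tauM (evM mM (H4.getL [] tWL i))) tauI = mM i ∧
        cmp (cmp 0xa8976543210 (evP mP (H4.getL [] tWL i))) 0xa8976543210 = mP i := by
      revert i; decide +kernel
    obtain ⟨c, -, c2, c3⟩ := r (Rp.ev (f := fun i => (n i : G)) (A := mM) (P := mP) fun j hj =>
      ⟨n j, rfl, h1 j (a j hj), h2 j (a j hj) ▸ pm_rep (a j hj)⟩)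
    exact ⟨c, b ▸ c2, rep_eq c3 (pm_rep hi) d⟩

end Cfsg.Agent.H6.Ly
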