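import Cfsg.Agent.H7.Classify

/-!
Unipotent isometries of quadratic spaces: cyclic submodules, normalisation of generators.
-/

set_option autoImplicit false

namespace Cfsg.Agent.H6N

open QuadraticMap Module H7

variable {F V : Type*} [Field F] [AddCommGroup V] [Module F V] {Q : QuadraticForm F V}
  {n : Module.End F V} {x y z v w : V} {m : ℕ} {U W : Submodule F V}

/-- `1 + n` is an isometry -/
def UI (Q : QuadraticForm F V) (n : Module.End F V) : Prop := ∀ v, Q (n v) + polar Q (n v) v = 0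

theorem pw_succ (n : Module.End F V) (i : ℕ) (v : V) : (n ^ (i + 1)) v = n ((n ^ i) v) := by
  rw [pow_succ', Module.End.mul_apply]
theorem pw_succ' (n : Module.End F V) (i : ℕ) (v : V) : (n ^ (i + 1)) v = (n ^ i) (n v) := by
  rw [pow_succ, Module.End.mul_apply]
theorem pw_add (n : Module.End F V) (i j : ℕ) (v : V) : (n ^ (i + j)) v = (n ^ i) ((n ^ j) v) := by
  rw [pow_add, Module.End.mul_apply]
theorem pw_le (h : (n ^ m) v = 0) {i : ℕ} (hi : m ≤ i) : (n ^ i) v = 0 := by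
  obtain ⟨k, rfl⟩ := Nat.exists_eq_add_of_le' hi
  rw [pw_add, h, map_zero]

/-- the cyclic submodule -/
def cy (n : Module.End F V) (x : V) : Submodule F V := Submodule.span F (Set.range fun j => (n ^ j) x)

theorem pw_mem_cy (j : ℕ) : (n ^ j) x ∈ cy n x := Submodule.subset_span ⟨j, rfl⟩
theorem self_mem_cy : x ∈ cy n x := pw_mem_cy 0
theorem cy_le_iff : cy n x ≤ W ↔ ∀ j, (n ^ j) x ∈ W := by
  simp [cy, Submodule.span_le, Set.range_subset_iff]
theorem pw_mem (h : ∀ w ∈ W, n w ∈ W) (hx : x ∈ W) (j : ℕ) : (n ^ j) x ∈ W := by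
  induction j with
  | zero => exact hx
  | succ j ih => rw [pw_succ]; exact h _ ih
theorem cy_le (h : ∀ w ∈ W, n w ∈ W) (hx : x ∈ W) : cy n x ≤ W := cy_le_iff.2 (pw_mem h hx)
theorem cy_inv : ∀ w ∈ cy n x, n w ∈ cy n x := fun _ hw =>
  (cy_le_iff (W := (cy n x).comap n)).2 (fun j => by
    rw [Submodule.mem_comap, ← pw_succ]; exact pw_mem_cy _) hw
theorem cy_succ_le : cy n (n x) ≤ cy n x := cy_le cy_inv (cy_inv _ self_mem_cy)
theorem exists_of_mem_cy (h : v ∈ cy n (n x)) : ∃ w ∈ cy n x, n w = v :=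
  (cy_le_iff (W := (cy n x).map n)).2 (fun j => ⟨_, pw_mem_cy j, by rw [← pw_succ, pw_succ']⟩) h
theorem exists_smul_of_mem_cy (h : v ∈ cy n x) : ∃ c : F, v - c • x ∈ cy n (n x) := by
  obtain ⟨a, ha, b, hb, rfl⟩ := Submodule.mem_sup.1 ((cy_le_iff (W := (F ∙ x) ⊔ cy n (n x))).2
    (fun j => by
      cases j with
      | zero => exact Submodule.mem_sup_left (Submodule.mem_span_singleton_self x)
      | succ j => rw [pw_succ']; exact Submodule.mem_sup_right (pw_mem_cy j)) h)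
  obtain ⟨c, rfl⟩ := Submodule.mem_span_singleton.1 ha
  exact ⟨c, by simpa using hb⟩
theorem pw_eq_zero_of_mem_cy (h : (n ^ m) x = 0) (hv : v ∈ cy n x) : (n ^ m) v = 0 :=
  (cy_le_iff (W := LinearMap.ker (n ^ m))).2 (fun j => by
    rw [LinearMap.mem_ker, ← pw_add]; exact pw_le h (by omega)) hv
theorem cy_zero : cy n 0 = ⊥ := le_bot_iff.1 (cy_le_iff.2 (by simp))
theorem mem_perp_cy : w ∈ perp Q (cy n x) ↔ ∀ j, polar Q ((n ^ j) x) w = 0 := by
  rw [cy, mem_perp_span, Set.forall_mem_range]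
theorem cy_eq_span (h : (n ^ m) x = 0) :
    cy n x = Submodule.span F (Set.range fun j : Fin m => (n ^ (j : ℕ)) x) :=
  le_antisymm (cy_le_iff.2 fun j => by
    by_cases hj : j < m
    · exact Submodule.subset_span ⟨⟨j, hj⟩, rfl⟩
    · rw [pw_le h (by omega)]; exact zero_mem _)
    (Submodule.span_mono (by rintro _ ⟨j, rfl⟩; exact ⟨j, rfl⟩))
theorem perp_symm (h : W ≤ perp Q U) : U ≤ perp Q W := fun u hu =>
  mem_perp.2 fun w hw => by rw [B_comm]; exact mem_perp.1 (h hw) u hu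
theorem perp_anti (h : U ≤ W) : perp Q W ≤ perp Q U := fun _ hx =>
  mem_perp.2 fun u hu => mem_perp.1 hx u (h hu)

namespace UI

variable (h : UI Q n)
include h

theorem pol (v w : V) : polar Q (n v) (n w) + polar Q (n v) w + polar Q v (n w) = 0 := by
  have := h (v + w)
  rw [map_add, Q_add, polar_add_left, polar_add_right, polar_add_right, B_comm Q (n w) v] at this
  linear_combination this - h v - h w

theorem t0 (i : ℕ) {w : V} (hw : (n ^ i) w = 0) (y : V) : polar Q ((n ^ i) y) w = 0 := by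
  induction i generalizing w y with
  | zero => rw [show w = 0 from hw, polar_zero_right]
  | succ i ih =>
    rw [pw_succ'] at hw
    have h1 := ih hw (n y)
    rw [← pw_succ', pw_succ] at h1
    rw [pw_succ]
    linear_combination h.pol ((n ^ i) y) w - h1 - ih hw y

theorem t0' (hw : (n ^ m) w = 0) {i j : ℕ} (hij : m ≤ i + j) (y : V) :
    polar Q ((n ^ i) y) ((n ^ j) w) = 0 := h.t0 i (by rw [← pw_add]; exact pw_le hw hij) y

theorem t1 (i : ℕ) {w : V} (hw : (n ^ (i + 1)) w = 0) (y : V) :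
    polar Q ((n ^ i) y) w = (-1) ^ i * polar Q y ((n ^ i) w) := by
  induction i generalizing w with
  | zero => simp
  | succ i ih =>
    rw [pw_succ'] at hw
    have h1 := h.t0 _ hw y
    rw [pw_succ] at h1
    rw [pw_succ, pw_succ']
    linear_combination h.pol ((n ^ i) y) w - h1 - ih hw

theorem t1' (hw : (n ^ (m + 1)) w = 0) {i j : ℕ} (hij : i + j = m) (y : V) :
    polar Q ((n ^ i) y) ((n ^ j) w) = (-1) ^ i * polar Q y ((n ^ m) w) := by
  rw [h.t1 i (by rw [← pw_add, ← hw, ← hij, add_right_comm]), ← pw_add, hij]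

theorem q_succ (j : ℕ) (v : V) :
    Q ((n ^ (j + 1)) v) = -polar Q ((n ^ (j + 1)) v) ((n ^ j) v) := by
  rw [pw_succ]; linear_combination h ((n ^ j) v)

theorem q_zero (hv : (n ^ m) v = 0) {j : ℕ} (hj : m < 2 * j) : Q ((n ^ j) v) = 0 := by
  obtain ⟨k, rfl⟩ : ∃ k, j = k + 1 := ⟨j - 1, by omega⟩
  rw [h.q_succ, h.t0' hv (by omega), neg_zero]

theorem q_top (hv : (n ^ m) v = 0) {j : ℕ} (hj : m ≤ 2 * j + 1) (y : V) :
    Q ((n ^ j) (y + n v)) = Q ((n ^ j) y) := by
  rw [map_add, Q_add, ← pw_succ', h.q_zero hv (by omega), h.t0' hv (by omega)]; ring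

theorem perp_inv (hx : (n ^ m) x = 0) : ∀ w ∈ perp Q (cy n x), n w ∈ perp Q (cy n x) := by
  intro w hw
  rw [mem_perp_cy] at hw ⊢
  have : ∀ k i, m ≤ i + k → polar Q ((n ^ i) x) (n w) = 0 := fun k => by
    induction k with
    | zero => exact fun i hi => by rw [pw_le hx (show m ≤ i from hi), polar_zero_left]
    | succ k ih =>
      intro i hi
      have := h.pol ((n ^ i) x) w
      rw [← pw_succ, ih _ (by omega), hw] at this
      simpa using this
  exact fun j => this m j (by omega)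

theorem cy_perp (hx : (n ^ m) x = 0) (hy : ∀ j, polar Q ((n ^ j) x) y = 0) :
    cy n y ≤ perp Q (cy n x) := cy_le (h.perp_inv hx) (mem_perp_cy.2 hy)

theorem cy_iso (h1 : ∀ j, 2 * Q ((n ^ j) x) = 0) (h2 : ∀ j, Q ((n ^ (j + 1)) x) = 0) :
    cy n x ≤ perp Q (cy n x) := by
  have : ∀ d, (∀ i, polar Q ((n ^ i) x) ((n ^ (i + d)) x) = 0) ∧
      ∀ i, polar Q ((n ^ i) x) ((n ^ (i + (d + 1))) x) = 0 := fun d => by
    induction d with
    | zero => exact ⟨fun i => (B_self Q _).trans (h1 i), fun i => by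
        have := h.q_succ i x
        rw [h2, B_comm] at this
        simpa using this.symm⟩
    | succ d ih =>
      refine ⟨ih.2, fun i => ?_⟩
      have := h.pol ((n ^ i) x) ((n ^ (i + (d + 1))) x)
      rw [← pw_succ, ← pw_succ, show i + (d + 1) + 1 = (i + 1) + (d + 1) by ring, ih.2,
        show i + (d + 1) = (i + 1) + d by ring, ih.1,
        show (i + 1) + (d + 1) = i + (d + 1 + 1) by ring] at this
      simpa using this
  refine cy_le_iff.2 fun j => mem_perp_cy.2 fun i => ?_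
  rcases le_total i j with hij | hij <;> obtain ⟨d, rfl⟩ := Nat.exists_eq_add_of_le hij
  · exact (this d).1 i
  · rw [B_comm]; exact (this d).1 j

theorem exists_dual (hy : (n ^ (m + 1)) y = 0) (hb : polar Q x ((n ^ m) y) ≠ 0) (c : ℕ → F) :
    ∃ z ∈ cy n y, ∀ i ≤ m, polar Q ((n ^ i) x) z = c i := by
  have : ∀ k ≤ m + 1, ∃ z ∈ cy n y, ∀ i ≤ m, m < i + k → polar Q ((n ^ i) x) z = c i := fun k => by
    induction k with
    | zero => exact fun _ => ⟨0, zero_mem _, fun i _ _ => by omega⟩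
    | succ k ih =>
      intro hk
      obtain ⟨z, h1, h2⟩ := ih (by omega)
      have h3 : (-1 : F) ^ (m - k) * polar Q x ((n ^ m) y) ≠ 0 := mul_ne_zero (by simp) hb
      refine ⟨z + ((c (m - k) - polar Q ((n ^ (m - k)) x) z) / ((-1) ^ (m - k) *
        polar Q x ((n ^ m) y))) • (n ^ k) y, add_mem h1 (Submodule.smul_mem _ _ (pw_mem_cy k)),
        fun i h4 h5 => ?_⟩
      rw [polar_add_right, B_smul_right]
      by_cases h6 : i + k = m
      · rw [h.t1' hy h6, show m - k = i by omega, div_mul_cancel₀ _ (by rwa [show i = m - k by omega])]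
        ring
      · rw [h.t0' hy (by omega), h2 i h4 (by omega)]; ring
  obtain ⟨z, h1, h2⟩ := this _ le_rfl
  exact ⟨z, h1, fun i hi => h2 i hi (by omega)⟩

theorem exists_dual' (hx : (n ^ (m + 1)) x = 0) (hy : (n ^ (m + 1)) y = 0)
    (hb : polar Q x ((n ^ m) y) ≠ 0) (c : ℕ → F) (hc : ∀ i, m ≤ i → c i = 0) :
    ∃ v ∈ cy n y, ∀ i, polar Q ((n ^ i) x) (n v) = c i := by
  have h1 : ∀ v ∈ cy n y, ∀ i, m ≤ i → polar Q ((n ^ i) x) (n v) = c i := fun v hv i hi => by
    rw [hc i hi]; exact h.t0' (pw_eq_zero_of_mem_cy hy hv) (j := 1) (by omega) x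
  cases m with
  | zero => exact ⟨0, zero_mem _, fun i => h1 _ (zero_mem _) i (by omega)⟩
  | succ m =>
    obtain ⟨z, h2, h3⟩ := h.exists_dual (y := n y) (x := x) (m := m) (by rw [← pw_succ', hy])
      (by rwa [← pw_succ']) c
    obtain ⟨v, hv, rfl⟩ := exists_of_mem_cy h2
    exact ⟨v, hv, fun i => (le_or_gt i m).elim (h3 i) (h1 v hv i)⟩

theorem exists_kill (hz : (n ^ (m + 1)) z = 0) {k : ℕ} (hk : 2 * k ≤ m + 1)
    (hq : ∀ i, m + 1 ≤ i + k → Q ((n ^ i) z) = 0) {y : V} (hb : polar Q y ((n ^ m) z) ≠ 0) :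
    ∃ v ∈ cy n z, ∀ j, Q ((n ^ j) (y + n v)) = if j < k then 0 else Q ((n ^ j) y) := by
  induction k generalizing y with
  | zero => exact ⟨0, zero_mem _, by simp⟩
  | succ k ih =>
    obtain ⟨e, he⟩ : ∃ e, m = 2 * k + (e + 1) := ⟨m - 2 * k - 1, by omega⟩
    have h3 : (-1 : F) ^ k * polar Q y ((n ^ m) z) ≠ 0 := mul_ne_zero (by simp) hb
    obtain ⟨c, hc⟩ : ∃ c, c * ((-1 : F) ^ k * polar Q y ((n ^ m) z)) = -Q ((n ^ k) y) :=
      ⟨_, div_mul_cancel₀ _ h3⟩
    obtain ⟨v, h1, h2⟩ := ih (by omega) (fun i hi => hq i (by omega)) (y := y + c • (n ^ (e + 1)) z)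
      (by rwa [polar_add_left, B_smul_left, h.t0' hz (by omega), mul_zero, add_zero])
    refine ⟨c • (n ^ e) z + v, add_mem (Submodule.smul_mem _ _ (pw_mem_cy e)) h1, fun j => ?_⟩
    rw [map_add n, map_smul, ← pw_succ, ← add_assoc, h2]
    by_cases h4 : j < k
    · rw [if_pos h4, if_pos (by omega)]
    rw [if_neg h4, map_add, map_smul, Q_add, Q_smul, B_smul_right, ← pw_add, hq _ (by omega)]
    split_ifs with h5
    · obtain rfl : j = k := by omega
      rw [h.t1' hz (by omega), hc]; ring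
    · rw [h.t0' hz (by omega)]; ring

end UI

/-- invariant non-degenerate subspaces -/
structure Good (Q : QuadraticForm F V) (n : Module.End F V) (W : Submodule F V) : Prop where
  inv : ∀ w ∈ W, n w ∈ W
  nd : ∀ w ∈ W, w ∈ perp Q W → w = 0

/-- block types: pair or cyclic, size, sign -/
abbrev Blk := Bool × ℕ × Bool

def Blk.sz (b : Blk) : ℕ := if b.1 then 2 * b.2.1 else b.2.1

def Blk.qx (α : F) (b : Blk) (j : ℕ) : F :=
  if b.1 then if b.2.2 ∧ 2 * j + 1 = b.2.1 then 1 else 0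
  else if 2 * j + 1 = b.2.1 then if b.2.2 then α else 1
  else if 2 * j = b.2.1 then 1 else if b.2.2 ∧ 2 * j + 2 = b.2.1 then α else 0

def Blk.qy (α : F) (b : Blk) (j : ℕ) : F := if b.1 ∧ b.2.2 ∧ 2 * j + 1 = b.2.1 then α else 0

structure IsBlk (Q : QuadraticForm F V) (n : Module.End F V) (α : F) (b : Blk) (U : Submodule F V)
    (x y : V) : Prop where
  eq : U = cy n x ⊔ cy n y
  kx : (n ^ b.2.1) x = 0
  ky : (n ^ b.2.1) y = 0
  qx : ∀ j, Q ((n ^ j) x) = b.qx α j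
  qy : ∀ j, Q ((n ^ j) y) = b.qy α j
  bxy : ∀ j, polar Q ((n ^ j) x) y = if b.1 ∧ j + 1 = b.2.1 then 1 else 0
  y0 : b.1 = false → y = 0
  dim : finrank F U = b.sz

/-- orthogonal decompositions into standard blocks -/
inductive Dec (Q : QuadraticForm F V) (n : Module.End F V) (α : F) :
    Submodule F V → Multiset Blk → Prop
  | nil : Dec Q n α ⊥ 0
  | cons {b U x y W D} : IsBlk Q n α b U x y → Dec Q n α W D → W ≤ perp Q U →
      Dec Q n α (U ⊔ W) (b ::ₘ D)

variable {α : F} {b : Blk} {D : Multiset Blk}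

theorem IsBlk.x_mem (h : IsBlk Q n α b U x y) : x ∈ U := h.eq ▸ Submodule.mem_sup_left self_mem_cy
theorem IsBlk.y_mem (h : IsBlk Q n α b U x y) : y ∈ U := h.eq ▸ Submodule.mem_sup_right self_mem_cy
theorem IsBlk.inv (h : IsBlk Q n α b U x y) : ∀ w ∈ U, n w ∈ U := by
  rw [h.eq]
  intro w hw
  obtain ⟨a, ha, b, hb, rfl⟩ := Submodule.mem_sup.1 hw
  rw [map_add]
  exact Submodule.add_mem_sup (cy_inv _ ha) (cy_inv _ hb)

theorem Dec.inv (h : Dec Q n α W D) (hb : b ∈ D) : ∃ U x y W', IsBlk Q n α b U x y ∧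
    Dec Q n α W' (D.erase b) ∧ W' ≤ perp Q U ∧ W = U ⊔ W' := by
  induction h with
  | nil => simp at hb
  | @cons b' U x y W D h1 h2 h3 ih =>
    by_cases e : b' = b
    · subst e
      exact ⟨U, x, y, W, h1, by rwa [Multiset.erase_cons_head], h3, rfl⟩
    obtain ⟨U', x', y', W', h4, h5, h6, rfl⟩ := ih ((Multiset.mem_cons.1 hb).resolve_left (Ne.symm e))
    refine ⟨U', x', y', U ⊔ W', h4, ?_, sup_le (perp_symm (le_sup_left.trans h3)) h6, sup_left_comm ..⟩
    rw [Multiset.erase_cons_tail _ e]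
    exact h5.cons h1 (le_sup_right.trans h3)

theorem nd_of_sup {W' : Submodule F V} (h : ∀ w ∈ U ⊔ W', w ∈ perp Q (U ⊔ W') → w = 0)
    (h' : W' ≤ perp Q U) : ∀ w ∈ W', w ∈ perp Q W' → w = 0 := fun w h1 h2 =>
  h w (Submodule.mem_sup_right h1) (by rw [perp_sup]; exact ⟨h' h1, h2⟩)

variable [FiniteDimensional F V]

theorem finrank_sup_perp {W' : Submodule F V} (h : ∀ w ∈ U ⊔ W', w ∈ perp Q (U ⊔ W') → w = 0)
    (h' : W' ≤ perp Q U) : finrank F ↥(U ⊔ W') = finrank F U + finrank F W' := by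
  rw [← Submodule.finrank_sup_add_finrank_inf_eq, (Submodule.eq_bot_iff (U ⊓ W')).2 fun w hw =>
    nd_of_sup h h' w hw.2 (perp_symm h' hw.1), finrank_bot, add_zero]

theorem Dec.finrank_eq (h : Dec Q n α W D) (nd : ∀ w ∈ W, w ∈ perp Q W → w = 0) :
    finrank F W = (D.map Blk.sz).sum := by
  induction h with
  | nil => simp
  | cons h1 h2 h3 ih => simp [finrank_sup_perp nd h3, h1.dim, ih (nd_of_sup nd h3)]

omit [FiniteDimensional F V] in
theorem dual_split {ι : Type} [Fintype ι] {e : ι → V} (hU : U = Submodule.span F (Set.range e))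
    (hs : ∀ c : ι → F, ∃ z ∈ U, ∀ i, polar Q (e i) z = c i) :
    finrank F U = Fintype.card ι ∧ ∀ w, ∃ z ∈ U, w - z ∈ perp Q U := by
  refine ⟨le_antisymm (hU ▸ finrank_range_le_card e) ?_, fun w => ?_⟩
  · have : Module.Finite F U := hU ▸ Module.Finite.span_of_finite _ (Set.finite_range e)
    simpa using LinearMap.finrank_le_finrank_of_surjective
      (f := (LinearMap.pi fun i => polarBilin Q (e i)) ∘ₗ U.subtype) fun c =>
        let ⟨z, h1, h2⟩ := hs c; ⟨⟨z, h1⟩, funext h2⟩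
  · obtain ⟨z, h1, h2⟩ := hs fun i => polar Q (e i) w
    exact ⟨z, h1, by rw [hU, mem_perp_span, Set.forall_mem_range]; simp [h2]⟩

/-- the result of splitting off a block -/
def Splits (Q : QuadraticForm F V) (n : Module.End F V) (α : F) (b : Blk) (W : Submodule F V)
    (x y : V) : Prop := ∃ U W', IsBlk Q n α b U x y ∧ Good Q n W' ∧ W' ≤ perp Q U ∧ W = U ⊔ W'

omit [FiniteDimensional F V] in
theorem splits_of (h : UI Q n) (hW : Good Q n W) (B : IsBlk Q n α b U x y) (hx : x ∈ W) (hy : y ∈ W)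
    (hp : ∀ w, ∃ z ∈ U, w - z ∈ perp Q U) : Splits Q n α b W x y := by
  have h1 : U ≤ W := B.eq ▸ sup_le (cy_le hW.inv hx) (cy_le hW.inv hy)
  have h2 : W = U ⊔ W ⊓ perp Q U := le_antisymm (fun w hw => by
    obtain ⟨z, h2, h3⟩ := hp w
    exact Submodule.mem_sup.2 ⟨z, h2, _, ⟨sub_mem hw (h1 h2), h3⟩, by simp⟩) (sup_le h1 inf_le_left)
  refine ⟨U, W ⊓ perp Q U, B, ⟨fun w hw => ⟨hW.inv w hw.1, ?_⟩, nd_of_sup (h2 ▸ hW.nd) inf_le_right⟩,
    inf_le_right, h2⟩
  have := hw.2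
  rw [B.eq, SetLike.mem_coe, perp_sup] at this ⊢
  exact ⟨h.perp_inv B.kx _ this.1, h.perp_inv B.ky _ this.2⟩

omit [FiniteDimensional F V] in
theorem cy_split (h : UI Q n) (hx : (n ^ (m + 1)) x = 0) (hb : polar Q x ((n ^ m) x) ≠ 0) :
    finrank F (cy n x) = m + 1 ∧ ∀ w, ∃ z ∈ cy n x, w - z ∈ perp Q (cy n x) := by
  simpa using dual_split (cy_eq_span hx) fun c => by
    obtain ⟨z, h1, h2⟩ := h.exists_dual hx hb fun i => if h : i < m + 1 then c ⟨i, h⟩ else 0
    exact ⟨z, h1, fun i => by rw [h2 i (by omega), dif_pos i.2]⟩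

omit [FiniteDimensional F V] in
theorem splits_cyc (h : UI Q n) (hW : Good Q n W) (hm : ∀ w ∈ W, (n ^ (m + 1)) w = 0) (hx : x ∈ W)
    (hb : polar Q x ((n ^ m) x) ≠ 0) {s : Bool} (hq : ∀ j, m ≤ 2 * j + 1 →
      Q ((n ^ j) x) = Blk.qx α (false, m + 1, s) j) : ∃ x, Splits Q n α (false, m + 1, s) W x 0 := by
  obtain ⟨v, h1, h2⟩ := h.exists_kill (hm x hx) (k := m / 2) (by omega)
    (fun i hi => h.q_zero (hm x hx) (by omega)) hb
  have h3 := cy_le hW.inv hx h1
  have h4 := add_mem hx (hW.inv v h3)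
  obtain ⟨h5, h6⟩ := cy_split h (hm _ h4) (by
    rwa [map_add, ← pw_succ', hm v h3, add_zero, polar_add_left, ← pow_one n, ← pow_mul, one_mul,
      h.t0' (hm x hx) (by omega), add_zero])
  refine ⟨_, splits_of h hW ⟨by simp [cy_zero], hm _ h4, by simp, fun j => ?_, by simp [Blk.qy],
    by simp, fun _ => rfl, h5⟩ h4 (zero_mem _) h6⟩
  rw [h2]
  split_ifs with h7
  · simp only [Blk.qx]
    rw [if_neg (by simp), if_neg (by omega), if_neg (by omega), if_neg (by omega)]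
  · exact hq j (by omega)

omit [FiniteDimensional F V] in
theorem splits_pair (h : UI Q n) (hW : Good Q n W) (hm : ∀ w ∈ W, (n ^ (m + 1)) w = 0) (hx : x ∈ W)
    (hy : y ∈ W) (hb : polar Q ((n ^ m) x) y = 1) (hxx : polar Q ((n ^ m) x) x = 0) {s : Bool}
    (hq : ∀ j, m ≤ 2 * j → Q ((n ^ j) x) = Blk.qx α (true, m + 1, s) j ∧
      Q ((n ^ j) y) = Blk.qy α (true, m + 1, s) j) :
    ∃ x y, Splits Q n α (true, m + 1, s) W x y := by
  have sw : ∀ {x y}, y ∈ W → polar Q ((n ^ m) x) y = 1 → polar Q x ((n ^ m) y) ≠ 0 :=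
    fun {x y} hy e e' => by rw [h.t1 m (hm y hy), e'] at e; simp at e
  have z1 : ∀ j, 2 * j ≠ m → Blk.qx α (true, m + 1, s) j = 0 ∧ Blk.qy α (true, m + 1, s) j = 0 :=
    fun j hj => by simp [Blk.qx, Blk.qy, hj]
  have tp : ∀ {x v}, v ∈ W → (n ^ m) (x + n v) = (n ^ m) x := fun {x v} hv => by
    rw [map_add, ← pw_succ', hm v hv, add_zero]
  have tq : ∀ x {v}, v ∈ W → polar Q ((n ^ m) x) (n v) = 0 := fun x v hv =>
    h.t0' (hm v hv) (j := 1) le_rfl x
  have z0 : ∀ {x y}, x ∈ W → y ∈ W → polar Q ((n ^ m) x) y = 1 → polar Q ((n ^ m) x) x = 0 →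
      ∃ v ∈ cy n y, x + n v ∈ perp Q (cy n x) := fun {x y} hx hy hb hxx => by
    obtain ⟨v, h1, h2⟩ := h.exists_dual' (hm x hx) (hm y hy) (sw hy hb)
      (fun i => -polar Q ((n ^ i) x) x) fun i hi => by
        rcases hi.eq_or_lt with rfl | hi
        · rw [hxx, neg_zero]
        · rw [pw_le (hm x hx) hi, polar_zero_left, neg_zero]
    exact ⟨v, h1, mem_perp_cy.2 fun j => by rw [polar_add_right, h2, add_neg_cancel]⟩
  obtain ⟨v, h1, h2⟩ := h.exists_kill (hm y hy) (k := (m + 1) / 2) (by omega)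
    (fun i hi => (hq i (by omega)).2.trans (z1 i (by omega)).2) (sw hy hb)
  have h3 := cy_le hW.inv hy h1
  have hx1 := add_mem hx (hW.inv v h3)
  have hb1 : polar Q ((n ^ m) (x + n v)) y = 1 := by rwa [tp h3]
  have hxx1 : polar Q ((n ^ m) (x + n v)) (x + n v) = 0 := by
    rw [polar_add_right, tq _ h3, tp h3, hxx, add_zero]
  have hq1 : ∀ j, Q ((n ^ j) (x + n v)) = Blk.qx α (true, m + 1, s) j := fun j => by
    rw [h2]
    split_ifs with h7
    exacts [(z1 j (by omega)).1.symm, (hq j (by omega)).1]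
  generalize x + n v = x₁ at hx1 hb1 hxx1 hq1
  obtain ⟨v₁, h4, h5⟩ := h.exists_dual' (hm _ hx1) (hm y hy) (sw hy hb1)
    (fun i => (if i = m then 1 else 0) - polar Q ((n ^ i) x₁) y) fun i hi => by
      rcases hi.eq_or_lt with rfl | hi
      · rw [hb1, if_pos rfl, sub_self]
      · rw [pw_le (hm _ hx1) hi, polar_zero_left, if_neg hi.ne', sub_self]
  have h6 := cy_le hW.inv hy h4
  have hy1 := add_mem hy (hW.inv _ h6)
  have h7 : ∀ i, polar Q ((n ^ i) x₁) (y + n v₁) = if i = m then 1 else 0 := fun i => by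
    rw [polar_add_right, h5]; ring
  obtain ⟨v₂, h8, h9⟩ := z0 hx1 hy1 (by simp [h7]) hxx1
  have h10 := cy_le hW.inv hy1 h8
  have hz := add_mem hx1 (hW.inv _ h10)
  obtain ⟨v₃, h11, h12⟩ := h.exists_kill (hm _ hz) (k := (m + 1) / 2) (by omega)
    (fun i hi => by rw [h.q_top (hm _ h10) (by omega), hq1, (z1 i (by omega)).1]) (y := y + n v₁)
    (by rw [tp h10, B_comm, h7]; simp)
  have h13 := cy_le hW.inv hz h11
  have hy2 := add_mem hy1 (hW.inv _ h13)
  have h14 : ∀ i, polar Q ((n ^ i) x₁) (y + n v₁ + n v₃) = if i = m then 1 else 0 := fun i => by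
    rw [polar_add_right, h7, mem_perp_cy.1 (cy_le (h.perp_inv (hm _ hx1)) h9 (cy_inv _ h11)), add_zero]
  have hq2 : ∀ j, Q ((n ^ j) (y + n v₁ + n v₃)) = Blk.qy α (true, m + 1, s) j := fun j => by
    rw [h12]
    split_ifs with h7
    exacts [(z1 j (by omega)).2.symm, (h.q_top (hm _ h6) (by omega) _).trans (hq j (by omega)).2]
  generalize y + n v₁ + n v₃ = y₂ at hy2 h14 hq2
  obtain ⟨v₄, h15, h16⟩ := z0 hx1 hy2 (by simp [h14]) hxx1
  have h17 := cy_le hW.inv hy2 h15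
  obtain ⟨h18, h19⟩ := dual_split (Q := Q) (U := cy n x₁ ⊔ cy n y₂)
    (e := Sum.elim (fun j : Fin (m + 1) => (n ^ (j : ℕ)) x₁) fun j : Fin (m + 1) => (n ^ (j : ℕ)) y₂)
    (by rw [Set.Sum.elim_range, Submodule.span_union, ← cy_eq_span (hm _ hx1),
      ← cy_eq_span (hm _ hy2)]) fun c => by
    obtain ⟨z, a1, a2⟩ := h.exists_dual (hm _ hy2) (sw hy2 (x := x₁) (by simp [h14]))
      fun i => if h : i < m + 1 then c (.inl ⟨i, h⟩) else 0
    obtain ⟨z', a3, a4⟩ := h.exists_dual (hm _ (add_mem hx1 (hW.inv _ h17))) (x := y₂)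
      (by rw [tp h17, B_comm, h14]; simp)
      fun i => (if h : i < m + 1 then c (.inr ⟨i, h⟩) else 0) - polar Q ((n ^ i) y₂) z
    refine ⟨z + z', add_mem (Submodule.mem_sup_right a1) (cy_le (fun w hw => ?_)
      (Submodule.add_mem_sup self_mem_cy (cy_inv _ h15)) a3), ?_⟩
    · obtain ⟨a, ha, b, hb, rfl⟩ := Submodule.mem_sup.1 hw
      rw [map_add]
      exact Submodule.add_mem_sup (cy_inv _ ha) (cy_inv _ hb)
    rintro (i | i)
    · rw [Sum.elim_inl, polar_add_right, a2 i (by omega), dif_pos i.2,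
        mem_perp_cy.1 (cy_le (h.perp_inv (hm _ hx1)) h16 a3), add_zero]
    · rw [Sum.elim_inr, polar_add_right, a4 i (by omega), dif_pos i.2]; ring
  exact ⟨_, _, splits_of h hW ⟨rfl, hm _ hx1, hm _ hy2, hq1, hq2, by simp [h14], by simp,
    by simp [h18, Blk.sz, two_mul]⟩ hx1 hy2 h19⟩

end Cfsg.Agent.H6N
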