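import Cfsg.Agent.H6.Nf1

/-!
Normal forms of unipotent isometries of quadratic spaces over finite fields.
-/

set_option autoImplicit false

namespace Cfsg.Agent.H6N

open QuadraticMap Module H7

variable {F V : Type*} [Field F] [AddCommGroup V] [Module F V] {Q : QuadraticForm F V}
  {n : Module.End F V} {x y z v w : V} {m : ℕ} {U W W' : Submodule F V} {α : F} {b : Blk}
  {D : Multiset Blk}

theorem Dec.nInv (h : Dec Q n α W D) : ∀ w ∈ W, n w ∈ W := by
  induction h with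
  | nil => simp
  | cons h1 _ _ ih =>
    intro w hw
    obtain ⟨a, ha, b, hb, rfl⟩ := Submodule.mem_sup.1 hw
    rw [map_add]
    exact Submodule.add_mem_sup (h1.inv _ ha) (ih _ hb)

theorem Dec.mem (h : Dec Q n α W D) (hb : b ∈ D) : ∃ U x y, IsBlk Q n α b U x y ∧ x ∈ W ∧ y ∈ W :=
  let ⟨U, x, y, _, h1, _, _, h2⟩ := h.inv hb
  ⟨U, x, y, h1, h2 ▸ Submodule.mem_sup_left h1.x_mem, h2 ▸ Submodule.mem_sup_left h1.y_mem⟩

theorem pol_perp (h1 : ∀ w ∈ U, n w ∈ U) (h2 : ∀ w ∈ W, n w ∈ W) (h : W ≤ perp Q U) (hx : x ∈ U)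
    (hy : y ∈ W) (i j : ℕ) : polar Q ((n ^ i) x) ((n ^ j) y) = 0 :=
  mem_perp.1 (h (pw_mem h2 hy j)) _ (pw_mem h1 hx i)

theorem q_comb (a c : F) (j : ℕ) : Q ((n ^ j) (a • x + c • y)) = a ^ 2 * Q ((n ^ j) x) +
    c ^ 2 * Q ((n ^ j) y) + a * c * polar Q ((n ^ j) x) ((n ^ j) y) := by
  simp only [map_add, map_smul]; qsimp; ring

theorem q_comb' (c : F) (j : ℕ) : Q ((n ^ j) (x + c • y)) = Q ((n ^ j) x) +
    c ^ 2 * Q ((n ^ j) y) + c * polar Q ((n ^ j) x) ((n ^ j) y) := by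
  simpa using q_comb (Q := Q) (x := x) (y := y) 1 c j

theorem q_smul (a : F) (j : ℕ) : Q ((n ^ j) (a • x)) = a ^ 2 * Q ((n ^ j) x) := by
  rw [map_smul, Q_smul]

variable [FiniteDimensional F V]

theorem nf_ind (P : ℕ → Multiset Blk → Prop) (P0 : P 0 0) (mono : ∀ m D, P m D → P (m + 1) D)
    (step : ∀ m W, Good Q n W → (∀ w ∈ W, (n ^ (m + 1)) w = 0) →
      (∃ x ∈ W, ∃ y ∈ W, polar Q ((n ^ m) x) y ≠ 0) → ∃ b x y, Splits Q n α b W x y ∧ b.2.1 = m + 1 ∧
      ∀ U W' D, IsBlk Q n α b U x y → W' ≤ perp Q U → W = U ⊔ W' → Dec Q n α W' D → P (m + 1) D →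
        P (m + 1) (b ::ₘ D)) (m : ℕ) (W : Submodule F V) (hW : Good Q n W)
    (hm : ∀ w ∈ W, (n ^ m) w = 0) : ∃ D, Dec Q n α W D ∧ P m D := by
  induction m generalizing W with
  | zero =>
    rw [(Submodule.eq_bot_iff W).2 hm]
    exact ⟨0, .nil, P0⟩
  | succ m ih =>
    induction h : finrank F W using Nat.strong_induction_on generalizing W with
    | _ k ih2 =>
      by_cases h1 : ∀ w ∈ W, (n ^ m) w = 0
      · obtain ⟨D, h2, h3⟩ := ih W hW h1
        exact ⟨D, h2, mono _ _ h3⟩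
      obtain ⟨b, x, y, ⟨U, W', h2, h3, h4, rfl⟩, h5, h6⟩ := step m W hW hm (by
        by_contra! h2
        exact h1 fun w hw => hW.nd _ (pw_mem hW.inv hw m) (mem_perp.2 fun u hu => by
          rw [B_comm, h2 w hw u hu]))
      obtain ⟨D, h7, h8⟩ := ih2 _ (by
        rw [← h, finrank_sup_perp hW.nd h4, h2.dim, Blk.sz]
        split_ifs <;> omega) W' h3 (fun w hw => hm w (Submodule.mem_sup_right hw)) rfl
      exact ⟨_, h7.cons h2 h4, h6 U W' D h2 h4 rfl h7 h8⟩

/-- normal forms in odd characteristic -/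
structure NFo (m : ℕ) (D : Multiset Blk) : Prop where
  le : ∀ b ∈ D, 1 ≤ b.2.1 ∧ b.2.1 ≤ m
  par : ∀ b ∈ D, if b.1 then Even b.2.1 ∧ b.2.2 = false else Odd b.2.1
  cnt : ∀ k, D.count (false, k, true) ≤ 1

theorem nf_odd [Finite F] (h : UI Q n) (two : (2 : F) ≠ 0) (hα : ¬ IsSquare α) (hW : Good Q n W)
    (hm : ∀ w ∈ W, (n ^ m) w = 0) : ∃ D, Dec Q n α W D ∧ NFo m D := by
  have a0 : α ≠ 0 := fun e => hα (e ▸ IsSquare.zero)
  refine nf_ind NFo ⟨by simp, by simp, by simp⟩ (fun m D h => ⟨fun b hb =>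
    ⟨(h.le b hb).1, (h.le b hb).2.trans (Nat.le_succ m)⟩, h.par, h.cnt⟩) ?_ m W hW hm
  rintro m W hW hm ⟨x, hx, y, hy, hb⟩
  have key : ∀ (b : Blk) D, b.2.1 = m + 1 → (if b.1 then Even b.2.1 ∧ b.2.2 = false else Odd b.2.1) →
      (b = (false, m + 1, true) → b ∉ D) → NFo (m + 1) D → NFo (m + 1) (b ::ₘ D) :=
    fun b D h1 h2 h3 h4 => ⟨by
      simp only [Multiset.forall_mem_cons]; exact ⟨by omega, h4.le⟩, by
      simp only [Multiset.forall_mem_cons]; exact ⟨h2, h4.par⟩, fun k => by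
      rw [Multiset.count_cons]
      split_ifs with h5
      · subst h5
        obtain rfl : k = m + 1 := h1
        rw [Multiset.count_eq_zero.2 (h3 rfl)]
      · exact h4.cnt k⟩
  rcases Nat.even_or_odd' m with ⟨l, rfl | rfl⟩
  · have sp : ∀ x ∈ W, ∀ s : Bool, Q ((n ^ l) x) = (if s then α else 1) →
        ∃ x, Splits Q n α (false, 2 * l + 1, s) W x 0 := fun x hx s e => by
      refine splits_cyc h hW hm hx (fun e' => ?_) fun j hj => ?_
      · have := h.t1' (hm x hx) (two_mul l).symm x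
        rw [e', B_self, e] at this
        cases s <;> simp [two, a0] at this
      · by_cases h1 : j = l
        · simp [Blk.qx, h1, e]
        have : Q ((n ^ j) x) = 0 ∨ j + 1 = l := by
          by_cases h2 : j + 1 = l
          exacts [Or.inr h2, Or.inl (h.q_zero (hm x hx) (by omega))]
        rcases this with e' | e'
        · simp only [Blk.qx, e']
          rw [if_neg (by simp), if_neg (by omega), if_neg (by omega), if_neg (by omega)]
        · omega
    by_cases h1 : ∃ x ∈ W, Q ((n ^ l) x) = 1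
    · obtain ⟨x, hx, e⟩ := h1
      obtain ⟨x, h2⟩ := sp x hx false e
      exact ⟨_, _, _, h2, rfl, fun U W' D _ _ _ _ => key _ _ rfl (by simp) (by simp)⟩
    obtain ⟨v, hv, e⟩ : ∃ v ∈ W, Q ((n ^ l) v) ≠ 0 := by
      by_contra! h2
      have := h2 _ (add_mem hx hy)
      rw [map_add, Q_add, h2 x hx, h2 y hy, h.t1' (hm y hy) (two_mul l).symm] at this
      rw [h.t1 _ (hm y hy)] at hb
      simp_all
    obtain ⟨c, -, hc⟩ := exists_sq_mul_of_chi_eq e (b := α) (by
      rw [chi_eq_neg_one_iff.2 hα, chi_eq_neg_one_iff]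
      rintro ⟨r, hr⟩
      have : r ≠ 0 := by rintro rfl; simp_all
      exact h1 ⟨r⁻¹ • v, W.smul_mem _ hv, by rw [q_smul, hr]; field_simp⟩)
    obtain ⟨x, h2⟩ := sp _ (W.smul_mem c hv) true (by rw [q_smul, ← hc]; rfl)
    refine ⟨_, _, _, h2, rfl, fun U W' D B h3 h4 h5 => key _ _ rfl (by simp) fun _ h6 => ?_⟩
    obtain ⟨U', x', y', B', h7, -⟩ := h5.mem h6
    obtain ⟨a, c, h8⟩ := exists_sq_comb two a0 a0 1
    refine h1 ⟨a • x + c • x', h4 ▸ Submodule.add_mem_sup (U.smul_mem _ B.x_mem) (W'.smul_mem _ h7), ?_⟩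
    rw [q_comb, pol_perp B.inv h5.nInv h3 B.x_mem h7, B.qx, B'.qx]
    simpa [Blk.qx] using h8
  · have h1 : ∀ v ∈ W, polar Q v ((n ^ (2 * l + 1)) v) = 0 := fun v hv => by
      have h1 := h.t1' (hm v hv) (show l + (l + 1) = _ by omega) v
      have h2 := h.t1' (hm v hv) (show (l + 1) + l = _ by omega) v
      rw [B_comm, h1, pow_succ (-1 : F)] at h2
      have : 2 * ((-1) ^ l * polar Q v ((n ^ (2 * l + 1)) v)) = 0 := by linear_combination h2
      simpa [two] using this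
    have h2 : ∀ v ∈ W, ∀ j, 2 * l + 1 ≤ 2 * j → Q ((n ^ j) v) = 0 := fun v hv j hj => by
      by_cases h2 : j = l + 1
      · rw [h2, h.q_succ, h.t1' (hm v hv) (by omega), h1 v hv]; simp
      · exact h.q_zero (hm v hv) (by omega)
    obtain ⟨x, y, h3⟩ := splits_pair (α := α) (s := false) h hW hm hx
      (W.smul_mem (polar Q ((n ^ (2 * l + 1)) x) y)⁻¹ hy) (by rw [B_smul_right, inv_mul_cancel₀ hb])
      (by rw [B_comm, h1 x hx]) fun j hj => by
        simp [Blk.qx, Blk.qy, h2 x hx j hj, h2 y hy j hj, Q_smul]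
    exact ⟨_, _, _, h3, rfl, fun U W' D _ _ _ _ => key _ _ rfl (by simp [parity_simps]) (by simp)⟩

/-- normal forms in characteristic two -/
structure NFe (m : ℕ) (D : Multiset Blk) : Prop where
  le : ∀ b ∈ D, 1 ≤ b.2.1 ∧ b.2.1 ≤ m
  par : ∀ b ∈ D, if b.1 then b.2.2 = true → Odd b.2.1 else Even b.2.1
  cnt : ∀ p k, D.count (p, k, true) ≤ 1
  two : ∀ k, D.count (false, k, false) + D.count (false, k, true) ≤ 2
  lk1 : ∀ k s, (false, k + 1, true) ∈ D → (true, k, s) ∉ D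
  lk2 : ∀ k s, (false, k + 2, true) ∈ D → (false, k, s) ∉ D
  lk3 : ∀ k s, (true, k + 1, true) ∈ D → (false, k, s) ∉ D

theorem NFe.cons (h4 : NFe (m + 1) D) (h1 : b.2.1 = m + 1)
    (h2 : if b.1 then b.2.2 = true → Odd b.2.1 else Even b.2.1) (h3 : b.2.2 = true → b ∉ D)
    (h5 : b.1 = false → D.count (false, m + 1, false) + D.count (false, m + 1, true) ≤ 1)
    (h6 : b.2.2 = true → ∀ s, (!b.1, m, s) ∉ D)
    (h7 : b = (false, m + 1, true) → ∀ k s, m = k + 1 → (false, k, s) ∉ D) :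
    NFe (m + 1) (b ::ₘ D) := by
  obtain ⟨p, _, s, rfl⟩ : ∃ p k s, b = (p, k, s) := ⟨_, _, _, rfl⟩
  obtain rfl := h1
  refine ⟨by simp only [Multiset.forall_mem_cons]; exact ⟨by omega, h4.le⟩,
    by simp only [Multiset.forall_mem_cons]; exact ⟨h2, h4.par⟩, fun p' k => ?_, fun k => ?_,
    fun k s' a b => ?_, fun k s' a b => ?_, fun k s' a b => ?_⟩
  · rw [Multiset.count_cons]
    split_ifs with h5
    · cases h5
      rw [Multiset.count_eq_zero.2 (h3 rfl)]
    · exact h4.cnt _ k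
  · have := h4.two k
    by_cases e : p = false ∧ k = m + 1
    · obtain ⟨rfl, rfl⟩ := e
      have := h5 rfl
      cases s <;> simp <;> omega
    · rwa [Multiset.count_cons_of_ne (by rintro ⟨⟩; simp at e),
        Multiset.count_cons_of_ne (by rintro ⟨⟩; simp at e)]
  all_goals
    rw [Multiset.mem_cons] at a b
    rcases b with b | b
    · cases b
      rcases a with a | a
      · simp at a
      · have := (h4.le _ a).2; simp at this
    rcases a with a | a
  · cases a; exact h6 rfl _ b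
  · exact h4.lk1 _ _ a b
  · cases a; exact h7 rfl _ _ rfl b
  · exact h4.lk2 _ _ a b
  · cases a; exact h6 rfl _ b
  · exact h4.lk3 _ _ a b

theorem nf_even [Finite F] (h : UI Q n) (two : (2 : F) = 0) (hα : ∀ t, t ^ 2 + t + α ≠ 0)
    (hW : Good Q n W) (hm : ∀ w ∈ W, (n ^ m) w = 0) : ∃ D, Dec Q n α W D ∧ NFe m D := by
  refine nf_ind NFe ⟨by simp, by simp, by simp, by simp, by simp, by simp, by simp⟩
    (fun m D h => ⟨fun b hb => ⟨(h.le b hb).1, (h.le b hb).2.trans (Nat.le_succ m)⟩, h.par, h.cnt,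
      h.two, h.lk1, h.lk2, h.lk3⟩) ?_ m W hW hm
  rintro m W hW hm ⟨x, hx, y, hy, hb⟩
  have neg : (-1 : F) = 1 := by linear_combination -two
  have sq : ∀ a b : F, b ≠ 0 → ∃ c, c ^ 2 * b = a := fun a b hb => by
    obtain ⟨c, hc⟩ := isSquare_of_two two (a / b)
    exact ⟨c, by rw [pow_two, ← hc, div_mul_cancel₀ _ hb]⟩
  have tp : ∀ x y, y ∈ W → ∀ i j, i + j = m → polar Q ((n ^ i) x) ((n ^ j) y) =
      polar Q ((n ^ m) x) y := fun x y hy i j e => by
    rw [h.t1' (hm y hy) e, h.t1 m (hm y hy), neg, one_pow, one_pow]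
  rcases Nat.even_or_odd' m with ⟨l, rfl | rfl⟩
  · have al : ∀ v ∈ W, polar Q ((n ^ (2 * l)) v) v = 0 := fun v hv => by
      rw [← tp v v hv l l (by omega), B_self, two, zero_mul]
    have sp : ∀ x ∈ W, ∀ y ∈ W, ∀ s : Bool, polar Q ((n ^ (2 * l)) x) y = 1 →
        Q ((n ^ l) x) = (if s then 1 else 0) → Q ((n ^ l) y) = (if s then α else 0) →
        ∃ x y, Splits Q n α (true, 2 * l + 1, s) W x y := fun x hx y hy s e1 e2 e3 =>
      splits_pair h hW hm hx hy e1 (al x hx) fun j hj => by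
        by_cases h1 : j = l
        · simp [Blk.qx, Blk.qy, h1, e2, e3]
        · simp [Blk.qx, Blk.qy, h1, h.q_zero (hm x hx) (show _ < 2 * j by omega),
            h.q_zero (hm y hy) (show _ < 2 * j by omega)]
    by_cases h1 : ∃ x ∈ W, ∃ y ∈ W, Q ((n ^ l) x) = 0 ∧ polar Q ((n ^ (2 * l)) x) y = 1
    · obtain ⟨x, hx, y, hy, e1, e2⟩ := h1
      obtain ⟨x, y, h2⟩ := sp x hx _ (add_mem hy (W.smul_mem (Q ((n ^ l) y)) hx)) false
        (by rw [polar_add_right, B_smul_right, al x hx, e2]; ring) e1 (by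
          rw [q_comb', e1, B_comm, tp x y hy l l (by omega), e2]; simp; linear_combination two * _)
      exact ⟨_, _, _, h2, rfl, fun U W' D _ _ _ _ h3 =>
        h3.cons rfl (by simp) (by simp) (by simp) (by simp) (by simp)⟩
    have h1' : ∀ x ∈ W, ∀ y ∈ W, polar Q ((n ^ (2 * l)) x) y ≠ 0 → Q ((n ^ l) x) ≠ 0 :=
      fun x hx y hy e e' => h1 ⟨x, hx, _, W.smul_mem (polar Q ((n ^ (2 * l)) x) y)⁻¹ hy, e', by
        rw [B_smul_right, inv_mul_cancel₀ e]⟩
    obtain ⟨c, hc⟩ := sq 1 _ (h1' x hx y hy hb)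
    have c0 : c ≠ 0 := by rintro rfl; simp at hc
    rw [← q_smul] at hc
    replace hb : polar Q ((n ^ (2 * l)) (c • x)) y ≠ 0 := by
      rw [map_smul, B_smul_left]; exact mul_ne_zero c0 hb
    replace hx := W.smul_mem c hx
    generalize c • x = x at hx hc hb
    replace hy := W.smul_mem (polar Q ((n ^ (2 * l)) x) y)⁻¹ hy
    replace hb : polar Q ((n ^ (2 * l)) x) ((polar Q ((n ^ (2 * l)) x) y)⁻¹ • y) = 1 := by
      rw [B_smul_right, inv_mul_cancel₀ hb]
    generalize (polar Q ((n ^ (2 * l)) x) y)⁻¹ • y = y at hy hb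
    have h2 : ∀ t : F, Q ((n ^ l) (y + t • x)) = t ^ 2 + t + Q ((n ^ l) y) := fun t => by
      rw [q_comb', hc, B_comm, tp x y hy l l (by omega), hb]; ring
    obtain ⟨t, ht⟩ := exists_artin_schreier two (ζ := Q ((n ^ l) y)) (fun t => h2 t ▸
      h1' _ (add_mem hy (W.smul_mem t hx)) x hx (by
        rw [← tp _ x hx 0 _ (zero_add _), B_comm, pow_zero, Module.End.one_apply, polar_add_right,
          B_smul_right, al x hx, hb]; simp)) hα
    obtain ⟨x, y, h3⟩ := sp x hx _ (add_mem hy (W.smul_mem t hx)) true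
      (by rw [polar_add_right, B_smul_right, al x hx, hb]; ring) hc (by rw [h2, ← ht]; rfl)
    refine ⟨_, _, _, h3, rfl, fun U W' D B h4 h5 h6 h7 => ?_⟩
    have h8 : ∀ b ∈ D, b.qx α l = 0 := fun b hb => by
      obtain ⟨U', x', y', B', h7, -⟩ := h6.mem hb
      by_contra e
      obtain ⟨c, hc⟩ := sq 1 _ e
      refine h1 ⟨x + c • x', h5 ▸ Submodule.add_mem_sup B.x_mem (W'.smul_mem _ h7), y,
        h5 ▸ Submodule.mem_sup_left B.y_mem, ?_, ?_⟩
      · rw [q_comb', pol_perp B.inv h6.nInv h4 B.x_mem h7, B.qx, B'.qx, hc]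
        simpa [Blk.qx, one_add_one_eq_two] using two
      · have := pol_perp B.inv h6.nInv h4 B.y_mem h7 0 (2 * l)
        rw [pow_zero, Module.End.one_apply, B_comm] at this
        rw [map_add, map_smul, polar_add_left, B_smul_left, this, B.bxy]; simp
    exact h7.cons rfl (by simp) (fun _ e => by simpa [Blk.qx] using h8 _ e) (by simp)
      (fun _ s e => by simpa [Blk.qx] using h8 _ e) (by simp)
  · have al : ∀ v ∈ W, polar Q ((n ^ (2 * l + 1)) v) v = Q ((n ^ (l + 1)) v) := fun v hv => by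
      rw [h.q_succ, tp v v hv _ _ (by omega), ← neg_one_mul, neg, one_mul]
    have ad : ∀ x, ∀ y ∈ W, polar Q ((n ^ (l + 1)) x) ((n ^ (l + 1)) y) = 0 := fun x y hy =>
      h.t0' (hm y hy) (by omega) x
    by_cases h1 : ∃ x ∈ W, ∃ y ∈ W, Q ((n ^ (l + 1)) x) = 0 ∧ Q ((n ^ (l + 1)) y) = 0 ∧
        polar Q ((n ^ (2 * l + 1)) x) y ≠ 0
    · obtain ⟨x, hx, y, hy, e1, e2, e3⟩ := h1
      have h2 : ∀ v ∈ W, Q ((n ^ (l + 1)) v) = 0 → ∀ j, 2 * l + 1 ≤ 2 * j → Q ((n ^ j) v) = 0 :=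
        fun v hv e j hj => by
          by_cases h2 : j = l + 1
          exacts [h2 ▸ e, h.q_zero (hm v hv) (by omega)]
      obtain ⟨x, y, h3⟩ := splits_pair (α := α) (s := false) h hW hm hx
        (W.smul_mem (polar Q ((n ^ (2 * l + 1)) x) y)⁻¹ hy) (by rw [B_smul_right, inv_mul_cancel₀ e3])
        (by rw [al x hx, e1]) fun j hj => by
          simp [Blk.qx, Blk.qy, h2 x hx e1 j hj, h2 y hy e2 j hj, Q_smul]
      exact ⟨_, _, _, h3, rfl, fun U W' D _ _ _ _ h3 =>
        h3.cons rfl (by simp) (by simp) (by simp) (by simp) (by simp)⟩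
    have sp : ∀ x ∈ W, ∀ s : Bool, Q ((n ^ (l + 1)) x) = 1 → Q ((n ^ l) x) = (if s then α else 0) →
        ∃ x, Splits Q n α (false, 2 * l + 1 + 1, s) W x 0 := fun x hx s e e' => by
      refine splits_cyc h hW hm hx (by rw [B_comm, al x hx, e]; simp) fun j hj => ?_
      simp only [Blk.qx]
      rw [if_neg (by simp), if_neg (by omega)]
      by_cases h1 : j = l + 1
      · rw [if_pos (by omega), h1, e]
      rw [if_neg (by omega)]
      by_cases h2 : j = l
      · simp [h2, e']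
      · rw [if_neg (by omega), h.q_zero (hm x hx) (by omega)]
    have mu : ∀ {s U x W' D}, IsBlk Q n α (false, 2 * l + 1 + 1, s) U x 0 → W' ≤ perp Q U →
        W = U ⊔ W' → Dec Q n α W' D →
        D.count (false, 2 * l + 1 + 1, false) + D.count (false, 2 * l + 1 + 1, true) ≤ 1 := by
      intro s U x W' D B h4 h5 h6
      by_contra! h7
      obtain ⟨s₁, s₂, a1, a2⟩ : ∃ s₁ s₂, (false, 2 * l + 1 + 1, s₁) ∈ D ∧
          (false, 2 * l + 1 + 1, s₂) ∈ D.erase (false, 2 * l + 1 + 1, s₁) := by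
        simp only [Bool.exists_bool, ← Multiset.one_le_count_iff_mem, Multiset.count_erase_self]
        rw [Multiset.count_erase_of_ne (by simp), Multiset.count_erase_of_ne (by simp)]
        omega
      obtain ⟨U₁, x₁, y₁, W₁, B₁, a3, a4, rfl⟩ := h6.inv a1
      obtain ⟨U₂, x₂, y₂, B₂, a5, -⟩ := a3.mem a2
      have m1 := Submodule.mem_sup_left (T := W₁) B₁.x_mem
      have m2 := Submodule.mem_sup_right (S := U₁) a5
      have m0 : x ∈ W := h5 ▸ Submodule.mem_sup_left B.x_mem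
      have q1 : ∀ s, Blk.qx α (false, 2 * l + 1 + 1, s) (l + 1) = 1 := fun s => by
        simp only [Blk.qx]; rw [if_neg (by simp), if_neg (by omega), if_pos (by omega)]
      refine h1 ⟨x + x₁, h5 ▸ Submodule.add_mem_sup B.x_mem m1, x + x₂,
        h5 ▸ Submodule.add_mem_sup B.x_mem m2, ?_, ?_, ?_⟩
      · rw [map_add, Q_add, pol_perp B.inv h6.nInv h4 B.x_mem m1, B.qx, B₁.qx, q1, q1]
        linear_combination two
      · rw [map_add, Q_add, pol_perp B.inv h6.nInv h4 B.x_mem m2, B.qx, B₂.qx, q1, q1]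
        linear_combination two
      · have b1 := pol_perp B.inv h6.nInv h4 B.x_mem m1 0 (2 * l + 1)
        have b2 := pol_perp B.inv h6.nInv h4 B.x_mem m2 (2 * l + 1) 0
        have b3 := pol_perp B₁.inv a3.nInv a4 B₁.x_mem a5 (2 * l + 1) 0
        rw [pow_zero, Module.End.one_apply] at b1 b2 b3
        rw [map_add, polar_add_left, polar_add_right, polar_add_right, al x m0, b2, b3, B_comm, b1,
          B.qx, q1]
        simp
    by_cases h2 : ∃ v ∈ W, Q ((n ^ (l + 1)) v) = 1 ∧ Q ((n ^ l) v) = 0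
    · obtain ⟨v, hv, e1, e2⟩ := h2
      obtain ⟨x, h3⟩ := sp v hv false e1 e2
      exact ⟨_, _, _, h3, rfl, fun U W' D B h4 h5 h6 h7 => h7.cons rfl (by simp [parity_simps])
        (by simp) (fun _ => mu B h4 h5 h6) (by simp) (by simp)⟩
    obtain ⟨v, hv, e⟩ : ∃ v ∈ W, Q ((n ^ (l + 1)) v) = 1 := by
      obtain ⟨v, hv, e⟩ : ∃ v ∈ W, Q ((n ^ (l + 1)) v) ≠ 0 := by
        by_contra! h3
        exact h1 ⟨x, hx, y, hy, h3 x hx, h3 y hy, hb⟩
      obtain ⟨c, hc⟩ := sq 1 _ e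
      exact ⟨_, W.smul_mem c hv, by rwa [q_smul]⟩
    have h3 : ∀ t : F, Q ((n ^ l) (v + t • n v)) = t ^ 2 + t + Q ((n ^ l) v) := fun t => by
      rw [q_comb', ← pw_succ', e, tp v v hv _ _ (by omega), al v hv, e]; ring
    have h3' : ∀ t : F, Q ((n ^ (l + 1)) (v + t • n v)) = 1 := fun t => by
      rw [← map_smul, h.q_top (hm _ (W.smul_mem t hv)) (by omega), e]
    have h3'' := fun t : F => add_mem hv (W.smul_mem t (hW.inv v hv))
    obtain ⟨t, ht⟩ := exists_artin_schreier two (ζ := Q ((n ^ l) v))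
      (fun t e' => h2 ⟨_, h3'' t, h3' t, (h3 t).trans e'⟩) hα
    obtain ⟨x, h3⟩ := sp _ (h3'' t) true (h3' t) (by rw [h3, ← ht]; rfl)
    refine ⟨_, _, _, h3, rfl, fun U W' D B h4 h5 h6 h7 => ?_⟩
    have h8 : ∀ w ∈ W', Q ((n ^ (l + 1)) w) = 0 → Q ((n ^ l) w) = 0 := fun w hw e => by
      by_contra e'
      obtain ⟨c, hc⟩ := sq α _ e'
      refine h2 ⟨x + c • w, h5 ▸ Submodule.add_mem_sup B.x_mem (W'.smul_mem _ hw), ?_, ?_⟩ <;>
        rw [q_comb', pol_perp B.inv h6.nInv h4 B.x_mem hw, B.qx] <;> simp only [Blk.qx]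
      · rw [if_neg (by simp), if_neg (by omega), if_pos (by omega), e]; ring
      · rw [if_neg (by simp), if_neg (by omega), if_neg (by omega), if_pos (by simp), hc]
        linear_combination α * two
    have h9 : ∀ w ∈ W', w ∈ W := fun w hw => h5 ▸ Submodule.mem_sup_right hw
    refine h7.cons rfl (by simp [parity_simps]) (fun _ e => ?_) (fun _ => mu B h4 h5 h6)
      (fun _ s e => ?_) fun _ k s e e' => ?_
    · obtain ⟨U', x', y', B', a, -⟩ := h6.mem e
      have := h8 _ (h6.nInv _ a) (by rw [← pw_succ']; exact h.q_zero B'.kx (by simp; omega))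
      rw [← pw_succ', B'.qx] at this
      simp only [Blk.qx] at this
      rw [if_neg (by simp), if_neg (by omega), if_pos (by omega)] at this
      exact one_ne_zero this
    · obtain ⟨U', x', y', B', a, a'⟩ := h6.mem e
      have b1 := h8 _ a (h.q_zero B'.kx (by simp; omega))
      have b2 := h8 _ a' (h.q_zero B'.ky (by simp; omega))
      have b3 := h8 _ (add_mem a a') (h.q_zero (m := 2 * l + 1)
        (by rw [map_add]; exact (congrArg₂ _ B'.kx B'.ky).trans (add_zero _)) (by omega))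
      have b4 := B'.bxy (2 * l)
      rw [h.t1 _ B'.ky] at b4
      rw [map_add, Q_add, b1, b2, h.t1' B'.ky (two_mul l).symm] at b3
      simp_all
    · obtain ⟨U', x', y', B', a, -⟩ := h6.mem e'
      have := h8 _ a (h.q_zero B'.kx (by simp; omega))
      rw [B'.qx] at this
      simp only [Blk.qx] at this
      rw [if_neg (by simp), if_neg (by omega), if_pos (by omega)] at this
      exact one_ne_zero this

end Cfsg.Agent.H6N
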