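import Cfsg.Agent.H6.UE
import Cfsg.Agent.H7.Disc

/-!
Quadratic forms and Gram matrices.
-/

set_option autoImplicit false

namespace Cfsg.Agent.H6

open Matrix Module QuadraticMap

variable {F : Type*} [Field F] {ι : Type*} [Fintype ι] [DecidableEq ι]

/-- Gram matrix of the polar form -/
noncomputable def pG (Q : QuadraticForm F (ι → F)) : Matrix ι ι F :=
  LinearMap.BilinForm.toMatrix' (polarBilin Q)

variable {Q : QuadraticForm F (ι → F)} {A G : Matrix ι ι F}

theorem bf_pG (u v : ι → F) : bf (pG Q) u v = polar Q u v := by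
  rw [bf_eq, ← toBilin'_apply', pG, toBilin'_toMatrix', polarBilin_apply_apply]

theorem pG_eq_iff : pG Q = G ↔ ∀ u v, polar Q u v = bf G u v :=
  ⟨fun h u v => by rw [← h, bf_pG], fun h => sf_ext fun u v => (bf_pG u v).trans (h u v)⟩

theorem pG_symm : (pG Q)ᵀ = pG Q := by
  ext i j
  rw [transpose_apply, ← sf_single (RingHom.id F) (pG Q) i, ← sf_single (RingHom.id F) (pG Q) j,
    bf_pG, bf_pG, polar_comm]

theorem det_pG : (pG Q).det ≠ 0 ↔ H7.ND Q := by
  rw [← LinearMap.BilinForm.nondegenerate_toBilin'_iff_det_ne_zero, pG, toBilin'_toMatrix']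

theorem pG_isom (h : ∀ v, Q (A *ᵥ v) = Q v) : Aᵀ * pG Q * A = pG Q :=
  gram_of_isom fun u v => by rw [bf_pG, bf_pG, polar, polar, ← mulVec_add, h, h, h]

theorem isom_of_pG (two : (2 : F) ≠ 0) (h : Aᵀ * pG Q * A = pG Q) (v : ι → F) :
    Q (A *ᵥ v) = Q v := mul_left_cancel₀ two (by
  rw [← H7.B_self, ← H7.B_self, ← bf_pG, ← bf_pG, bf_mulVec, h])

theorem isAlt_pG [CharP F 2] : IsAlt (pG Q) := fun v => by
  rw [bf_pG, H7.B_self, CharTwo.two_eq_zero, zero_mul]

theorem qf_apply (G : Matrix ι ι F) (v : ι → F) : G.toQuadraticForm' v = bf G v v :=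
  toBilin'_apply' G v v

omit [DecidableEq ι] in
theorem bf_transpose (G : Matrix ι ι F) (u v : ι → F) : bf Gᵀ u v = bf G v u := by
  rw [bf_eq, bf_eq, mulVec_transpose, dotProduct_comm, dotProduct_mulVec]

theorem pG_qf (G : Matrix ι ι F) : pG G.toQuadraticForm' = G + Gᵀ := pG_eq_iff.2 fun u v => by
  rw [polar, qf_apply, qf_apply, qf_apply, bf_eq (_ + _), add_mulVec, dotProduct_add, ← bf_eq,
    ← bf_eq, bf_transpose, sf_add_left, sf_add_right, sf_add_right]
  ring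

theorem exists_pG_eq (two : (2 : F) ≠ 0) (h : Gᵀ = G) :
    ∃ Q : QuadraticForm F (ι → F), pG Q = G :=
  ⟨((2 : F)⁻¹ • G).toQuadraticForm', by
    rw [pG_qf, transpose_smul, h, ← two_smul F, smul_smul, mul_inv_cancel₀ two, one_smul]⟩

theorem exists_pG_eq_of_alt [CharP F 2] (h : IsAlt G) :
    ∃ Q : QuadraticForm F (ι → F), pG Q = G := by
  let _ := LinearOrder.lift' _ (Fintype.equivFin ι).injective
  obtain ⟨h1, h2⟩ := isAlt_iff.1 h
  refine ⟨(of fun i j => if i < j then G i j else 0).toQuadraticForm', ?_⟩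
  rw [pG_qf]
  ext i j
  rcases lt_trichotomy i j with h | rfl | h
  · simp [h, h.not_gt]
  · simp [h2]
  · simpa [h, h.not_gt, CharTwo.neg_eq] using congrFun (congrFun h1 i) j

theorem dye [Finite F] [CharP F 2] (h : Aᵀ * pG Q * A = pG Q) :
    ∃ Q' : QuadraticForm F (ι → F), pG Q' = pG Q ∧ ∀ v, Q' (A *ᵥ v) = Q' v := by
  have := Fact.mk Nat.prime_two
  let φ := frobeniusEquiv F 2
  have h0 : ∀ x, φ x = x ^ 2 := fun _ => rfl
  let l : Dual F (ι → F) :=
    { toFun := fun v => φ.symm (Q (A *ᵥ v) - Q v)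
      map_add' := fun u v => by
        rw [← map_add, mulVec_add, H7.Q_add, H7.Q_add, ← bf_pG, ← bf_pG, bf_mulVec, h]
        congr 1
        ring
      map_smul' := fun c v => φ.injective (by
        rw [mulVec_smul, H7.Q_smul, H7.Q_smul, smul_eq_mul, map_mul, φ.apply_symm_apply,
          φ.apply_symm_apply, h0, mul_sub]
        rfl) }
  obtain ⟨m, hm⟩ : l ∈ LinearMap.range (A - 1).mulVecLin.dualMap := by
    rw [LinearMap.range_dualMap_eq_dualAnnihilator_ker, Submodule.mem_dualAnnihilator]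
    intro v hv
    rw [LinearMap.mem_ker, mulVecLin_apply, sub_mulVec, one_mulVec, sub_eq_zero] at hv
    simp [l, hv]
  refine ⟨Q + linMulLin m m, pG_eq_iff.2 fun u v => ?_, fun v => ?_⟩
  · rw [bf_pG]
    simp only [polar, _root_.add_apply, linMulLin_apply, map_add]
    linear_combination (m u * m v) * CharTwo.two_eq_zero (R := F)
  · have h1 : φ (m ((A - 1) *ᵥ v)) = Q (A *ᵥ v) - Q v :=
      (congrArg φ (LinearMap.congr_fun hm v)).trans (φ.apply_symm_apply _)
    rw [sub_mulVec, one_mulVec, map_sub m, h0] at h1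
    simp only [_root_.add_apply, linMulLin_apply]
    linear_combination -h1 + (m (A *ᵥ v) ^ 2 - m (A *ᵥ v) * m v) * CharTwo.two_eq_zero (R := F)

theorem alt_cong {B : Matrix ι ι F} (hA : IsAlt A) (hB : IsAlt B) (hA' : A.det ≠ 0)
    (hB' : B.det ≠ 0) : ∃ P : Matrix ι ι F, Pᵀ * A * P = B := by
  obtain ⟨k, hk⟩ := even_card_of_isAlt hA hA'
  let σ : ι ≃ Fin k ⊕ Fin k := Fintype.equivOfCardEq (by simp [hk])
  have key : ∀ {A : Matrix ι ι F}, IsAlt A → A.det ≠ 0 →
      ∃ P : GL ι F, P.1ᵀ * A * P.1 = (J (Fin k) F).submatrix σ σ := fun hA hA' => by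
    obtain ⟨e, -, he⟩ := exists_hyp_ext hA hA' (κ := Fin k) (by simp [hk, two_mul]) ∅ 0 (by simp)
    obtain ⟨P, -, hP⟩ := exists_gl_of_gram (σ := RingHom.id F) (G := (J (Fin k) F).submatrix σ σ)
      (by simpa using det_J_ne_zero) (e := e ∘ σ) fun i j => he _ _
    exact ⟨P, hP⟩
  obtain ⟨P, hP⟩ := key hA hA'
  obtain ⟨R, hR⟩ := key hB hB'
  refine ⟨P.1 * R⁻¹.1, (gram_mul (σ := RingHom.id F) _ _).trans ?_⟩
  erw [hP, ← hR, ← gram_mul (σ := RingHom.id F), R.mul_inv]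
  simp

theorem sym_cong [Finite F] (two : (2 : F) ≠ 0) {B : Matrix ι ι F} (hA : Aᵀ = A) (hB : Bᵀ = B)
    (hA' : A.det ≠ 0) (hB' : B.det ≠ 0) (h : IsSquare A.det ↔ IsSquare B.det) :
    ∃ P : Matrix ι ι F, Pᵀ * A * P = B := by
  obtain ⟨Q, rfl⟩ := exists_pG_eq two hA
  obtain ⟨Q', rfl⟩ := exists_pG_eq two hB
  rw [det_pG] at hA' hB'
  have h1 : ∀ Q : QuadraticForm F (ι → F), H7.ND Q → (IsSquare (pG Q).det ↔ H7.disc Q = 1) :=
    fun Q hQ => by
      rw [← H7.isSquare_gram_iff hQ (Pi.basisFun F ι), H7.gram_eq_toMatrix,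
        LinearMap.BilinForm.toMatrix_basisFun, pG]
  rw [h1 _ hA', h1 _ hB'] at h
  obtain ⟨φ, hφ⟩ := H7.exists_isometry_of_disc two hB' hA' rfl (by
    rcases H7.disc_dichotomy hA' with h1 | h1 <;> rcases H7.disc_dichotomy hB' with h2 | h2 <;>
      simp_all)
  refine ⟨LinearMap.toMatrix' φ.toLinearMap, sf_ext (σ := RingHom.id F) fun u v => ?_⟩
  rw [← bf_mulVec, bf_pG, bf_pG, LinearMap.toMatrix'_mulVec, LinearMap.toMatrix'_mulVec]
  exact H7.polar_equiv φ hφ u v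

omit [DecidableEq ι] in
theorem isSquare_det_of_cong [DecidableEq ι] {B P : Matrix ι ι F} (hB : B.det ≠ 0)
    (h : Pᵀ * A * P = B) : IsSquare A.det ↔ IsSquare B.det := by
  have h1 : B.det = P.det * P.det * A.det := by
    rw [← h, det_mul, det_mul, det_transpose]; ring
  have h2 : P.det ≠ 0 := fun h0 => hB (by simp [h1, h0])
  refine ⟨fun h => h1 ▸ (IsSquare.mul_self _).mul h, fun h => ?_⟩
  rw [show A.det = P.det⁻¹ * P.det⁻¹ * B.det by rw [h1]; field_simp]
  exact (IsSquare.mul_self _).mul h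

end Cfsg.Agent.H6
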