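import Cfsg.Agent.H6.Nf2
import Cfsg.Agent.H6.QF

/-!
Isomorphisms of quadratic spaces with an isometry.
-/

set_option autoImplicit false

namespace Cfsg.Agent.H6N

open QuadraticMap Module H7 Matrix
open H6 hiding perp mem_perp finrank_perp

variable {F V V₂ : Type*} [Field F] [AddCommGroup V] [Module F V] [AddCommGroup V₂] [Module F V₂]
  {Q : QuadraticForm F V} {Q₂ : QuadraticForm F V₂} {n g : Module.End F V} {n₂ g₂ : Module.End F V₂}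
  {x y : V} {x₂ y₂ : V₂} {U W W' : Submodule F V} {U₂ W₂ W₂' : Submodule F V₂} {α : F} {b b₂ : Blk}
  {D D₂ : Multiset Blk} {o : Prop}

/-- a correspondence between `(W, Q, g)` and `(W₂, Q₂, g₂)` -/
def Lnk (o : Prop) (Q : QuadraticForm F V) (Q₂ : QuadraticForm F V₂) (g : Module.End F V)
    (g₂ : Module.End F V₂) (W : Submodule F V) (W₂ : Submodule F V₂) : Prop :=
  ∃ Γ : Submodule F (V × V₂), (∀ p ∈ Γ, (g p.1, g₂ p.2) ∈ Γ) ∧
    (∀ p ∈ Γ, ∀ q ∈ Γ, polar Q p.1 q.1 = polar Q₂ p.2 q.2) ∧ (o → ∀ p ∈ Γ, Q p.1 = Q₂ p.2) ∧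
    Γ.map (LinearMap.fst F V V₂) = W ∧ Γ.map (LinearMap.snd F V V₂) = W₂

theorem Lnk.bot : Lnk o Q Q₂ g g₂ ⊥ ⊥ := ⟨⊥, by simp, by simp, by simp, by simp, by simp⟩

theorem Lnk.sup (h : Lnk o Q Q₂ g g₂ W W₂) (h' : Lnk o Q Q₂ g g₂ W' W₂') (p : W' ≤ perp Q W)
    (p₂ : W₂' ≤ perp Q₂ W₂) : Lnk o Q Q₂ g g₂ (W ⊔ W') (W₂ ⊔ W₂') := by
  obtain ⟨Γ, a1, a2, a3, rfl, rfl⟩ := h
  obtain ⟨Γ', b1, b2, b3, rfl, rfl⟩ := h'
  have c : ∀ a ∈ Γ, ∀ b ∈ Γ', polar Q a.1 b.1 = 0 ∧ polar Q₂ a.2 b.2 = 0 := fun a ha b hb =>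
    ⟨mem_perp.1 (p ⟨b, hb, rfl⟩) _ ⟨a, ha, rfl⟩, mem_perp.1 (p₂ ⟨b, hb, rfl⟩) _ ⟨a, ha, rfl⟩⟩
  refine ⟨Γ ⊔ Γ', fun v hv => ?_, fun v hv w hw => ?_, fun ho v hv => ?_, Submodule.map_sup ..,
    Submodule.map_sup ..⟩ <;> obtain ⟨a, ha, b, hb, rfl⟩ := Submodule.mem_sup.1 hv
  · simpa using Submodule.add_mem_sup (a1 a ha) (b1 b hb)
  · obtain ⟨a', ha', b', hb', rfl⟩ := Submodule.mem_sup.1 hw
    simp only [Prod.fst_add, Prod.snd_add, polar_add_left, polar_add_right]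
    rw [a2 a ha a' ha', b2 b hb b' hb', (c a ha b' hb').1, (c a ha b' hb').2, B_comm Q b.1,
      B_comm Q₂ b.2 a'.2, (c a' ha' b hb).1, (c a' ha' b hb).2]
  · simp only [Prod.fst_add, Prod.snd_add, Q_add]
    rw [a3 ho a ha, b3 ho b hb, (c a ha b hb).1, (c a ha b hb).2]

theorem Lnk.aff {c : F} (hc : c * c = 1) (h : Lnk o Q Q₂ (c • g - 1) (c • g₂ - 1) W W₂) :
    Lnk o Q Q₂ g g₂ W W₂ := by
  obtain ⟨Γ, a1, a2⟩ := h
  refine ⟨Γ, fun p hp => ?_, a2⟩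
  convert Γ.smul_mem c (add_mem (a1 p hp) hp) using 1
  ext <;> simp [smul_sub, smul_smul, hc]

theorem Lnk.mono {o' : Prop} (ho : o' → o) (h : Lnk o Q Q₂ g g₂ W W₂) : Lnk o' Q Q₂ g g₂ W W₂ :=
  let ⟨Γ, a1, a2, a3, a4⟩ := h; ⟨Γ, a1, a2, fun h => a3 (ho h), a4⟩

theorem pw_prod (j : ℕ) (x : V) (x₂ : V₂) :
    ((n.prodMap n₂ : Module.End F (V × V₂)) ^ j) (x, x₂) = ((n ^ j) x, (n₂ ^ j) x₂) := by
  induction j with
  | zero => rfl
  | succ j ih => simp only [pw_succ, ih]; rfl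

/-- the two block types have the same Gram data -/
def Blk.Eqv (o : Prop) (α : F) (b b₂ : Blk) : Prop := b.1 = b₂.1 ∧ b.2.1 = b₂.2.1 ∧
  ∀ j, o ∨ j ≠ 0 → b.qx α j = b₂.qx α j ∧ b.qy α j = b₂.qy α j

theorem IsBlk.lnk (h : UI Q n) (h₂ : UI Q₂ n₂) (B : IsBlk Q n α b U x y)
    (B₂ : IsBlk Q₂ n₂ α b₂ U₂ x₂ y₂) (e : Blk.Eqv o α b b₂) (ho : o ∨ (2 : F) = 0) :
    Lnk o Q Q₂ n n₂ U U₂ := by
  let Q' : QuadraticForm F (V × V₂) := Q.prod (-Q₂)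
  let n' : Module.End F (V × V₂) := n.prodMap n₂
  have hq : ∀ p, Q' p = Q p.1 - Q₂ p.2 := fun p => by simp [Q', sub_eq_add_neg]
  have hp : ∀ p q, polar Q' p q = polar Q p.1 q.1 - polar Q₂ p.2 q.2 := fun p q => by
    simp only [polar, hq, Prod.fst_add, Prod.snd_add]; ring
  have h' : UI Q' n' := fun v => by
    rw [hq, hp]; exact (by linear_combination h v.1 - h₂ v.2 : Q (n v.1) - Q₂ (n₂ v.2) +
      (polar Q (n v.1) v.1 - polar Q₂ (n₂ v.2) v.2) = 0)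
  have q1 : ∀ j, o ∨ j ≠ 0 → Q' ((n' ^ j) (x, x₂)) = 0 ∧ Q' ((n' ^ j) (y, y₂)) = 0 := fun j hj => by
    simp only [n', pw_prod, hq, B.qx, B.qy, B₂.qx, B₂.qy, e.2.2 j hj, sub_self, and_self]
  have i1 : cy n' (x, x₂) ≤ perp Q' (cy n' (x, x₂)) := h'.cy_iso (fun j => ho.elim
    (fun ho => by rw [(q1 j (.inl ho)).1, mul_zero]) fun t => by rw [t, zero_mul])
    fun j => (q1 _ (.inr j.succ_ne_zero)).1
  have i2 : cy n' (y, y₂) ≤ perp Q' (cy n' (y, y₂)) := h'.cy_iso (fun j => ho.elim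
    (fun ho => by rw [(q1 j (.inl ho)).2, mul_zero]) fun t => by rw [t, zero_mul])
    fun j => (q1 _ (.inr j.succ_ne_zero)).2
  have i3 : cy n' (y, y₂) ≤ perp Q' (cy n' (x, x₂)) := h'.cy_perp (m := b.2.1)
    (by rw [pw_prod, B.kx, e.2.1, B₂.kx]; rfl) fun j => by
      simp only [n', pw_prod, hp, B.bxy, B₂.bxy, e.1, e.2.1, sub_self]
  have i4 : cy n' (x, x₂) ⊔ cy n' (y, y₂) ≤ perp Q' (cy n' (x, x₂) ⊔ cy n' (y, y₂)) := by
    rw [perp_sup]; exact sup_le (le_inf i1 (perp_symm i3)) (le_inf i3 i2)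
  refine ⟨cy n' (x, x₂) ⊔ cy n' (y, y₂), fun p hp => ?_, fun p h1 q h2 => sub_eq_zero.1
    ((hp p q).symm.trans (mem_perp.1 (i4 h2) p h1)), fun ho p hp => ?_, ?_, ?_⟩
  · obtain ⟨a, ha, b, hb, rfl⟩ := Submodule.mem_sup.1 hp
    change n' (a + b) ∈ _
    exact map_add n' a b ▸ Submodule.add_mem_sup (cy_inv _ ha) (cy_inv _ hb)
  · rw [← sub_eq_zero, ← hq]
    rw [cy, cy, ← Submodule.span_union] at hp i4
    refine ts_span ?_ (fun a ha b hb =>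
      mem_perp.1 (i4 (Submodule.subset_span hb)) a (Submodule.subset_span ha)) p hp
    rintro _ (⟨j, rfl⟩ | ⟨j, rfl⟩)
    exacts [(q1 j (.inl ho)).1, (q1 j (.inl ho)).2]
  · simp [B.eq, cy, Submodule.map_span, ← Set.range_comp', n', pw_prod]
  · simp [B₂.eq, cy, Submodule.map_span, ← Set.range_comp', n', pw_prod]

theorem Dec.lnk (h : UI Q n) (h₂ : UI Q₂ n₂) (d : Dec Q n α W D) (d₂ : Dec Q₂ n₂ α W₂ D₂)
    (e : Multiset.Rel (Blk.Eqv o α) D D₂) (ho : o ∨ (2 : F) = 0) : Lnk o Q Q₂ n n₂ W W₂ := by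
  induction d generalizing W₂ D₂ with
  | nil =>
    rw [Multiset.rel_zero_left] at e
    subst e
    generalize hD : (0 : Multiset Blk) = D at d₂
    cases d₂ with
    | nil => exact .bot
    | cons => exact absurd hD.symm Multiset.cons_ne_zero
  | cons B _ p ih =>
    obtain ⟨b₂, D', h1, h2, rfl⟩ := Multiset.rel_cons_left.1 e
    obtain ⟨U₂, x₂, y₂, W', B₂, h3, h4, rfl⟩ := d₂.inv (Multiset.mem_cons_self _ _)
    rw [Multiset.erase_cons_head] at h3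
    exact (B.lnk h h₂ B₂ h1 ho).sup (ih h3 h2) p h4

theorem Dec.lnk' (h : UI Q n) (h₂ : UI Q₂ n₂) (d : Dec Q n α W D) (d₂ : Dec Q₂ n₂ α W₂ D) :
    Lnk True Q Q₂ n n₂ W W₂ :=
  d.lnk h h₂ d₂ (Multiset.rel_refl_of_refl_on fun _ _ => ⟨rfl, rfl, fun _ _ => ⟨rfl, rfl⟩⟩) (.inl trivial)

theorem Lnk.inj {Γ : Submodule F (V × V₂)} (h : ∀ p ∈ Γ, ∀ q ∈ Γ, polar Q p.1 q.1 = polar Q₂ p.2 q.2)
    (nd : ∀ w ∈ Γ.map (LinearMap.fst F V V₂), w ∈ perp Q (Γ.map (LinearMap.fst F V V₂)) → w = 0)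
    (nd₂ : ∀ w ∈ Γ.map (LinearMap.snd F V V₂), w ∈ perp Q₂ (Γ.map (LinearMap.snd F V V₂)) → w = 0) :
    Function.Injective (LinearMap.fst F V V₂ ∘ₗ Γ.subtype) ∧
      Function.Injective (LinearMap.snd F V V₂ ∘ₗ Γ.subtype) := by
  constructor <;> refine (injective_iff_map_eq_zero _).2 fun p hp => Subtype.ext ?_
  · refine Prod.ext hp (nd₂ _ ⟨_, p.2, rfl⟩ (mem_perp.2 ?_))
    rintro _ ⟨q, hq, rfl⟩
    exact (h q hq _ p.2).symm.trans (by rw [show p.1.1 = 0 from hp, polar_zero_right])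
  · refine Prod.ext (nd _ ⟨_, p.2, rfl⟩ (mem_perp.2 ?_)) hp
    rintro _ ⟨q, hq, rfl⟩
    exact (h q hq _ p.2).trans (by rw [show p.1.2 = 0 from hp, polar_zero_right])

theorem ND.nd_top (h : ND Q) : ∀ w ∈ (⊤ : Submodule F V), w ∈ perp Q ⊤ → w = 0 := fun w _ hw =>
  h.eq_zero fun y => by rw [B_comm]; exact mem_perp.1 hw y trivial

theorem Lnk.equiv (h : Lnk o Q Q₂ g g₂ ⊤ ⊤) (hQ : ND Q) (hQ₂ : ND Q₂) : ∃ e : V ≃ₗ[F] V₂,
    (∀ v, e (g v) = g₂ (e v)) ∧ (∀ v w, polar Q₂ (e v) (e w) = polar Q v w) ∧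
      (o → ∀ v, Q₂ (e v) = Q v) := by
  obtain ⟨Γ, a1, a2, a3, a4, a5⟩ := h
  obtain ⟨i1, i2⟩ := Lnk.inj a2 (a4 ▸ ND.nd_top hQ) (a5 ▸ ND.nd_top hQ₂)
  let e₁ := LinearEquiv.ofBijective _ ⟨i1, fun v =>
    let ⟨p, h1, h2⟩ := (a4.ge trivial : v ∈ _); ⟨⟨p, h1⟩, h2⟩⟩
  let e₂ := LinearEquiv.ofBijective _ ⟨i2, fun v =>
    let ⟨p, h1, h2⟩ := (a5.ge trivial : v ∈ _); ⟨⟨p, h1⟩, h2⟩⟩
  refine ⟨e₁.symm.trans e₂, fun v => ?_, fun v w => ?_, fun ho v => ?_⟩ <;>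
    obtain ⟨p, rfl⟩ := e₁.surjective v
  · rw [show g (e₁ p) = e₁ ⟨_, a1 p p.2⟩ from rfl]
    simp only [LinearEquiv.trans_apply, LinearEquiv.symm_apply_apply]
    rfl
  · obtain ⟨q, rfl⟩ := e₁.surjective w
    simp only [LinearEquiv.trans_apply, LinearEquiv.symm_apply_apply]
    exact (a2 _ p.2 _ q.2).symm
  · simp only [LinearEquiv.trans_apply, LinearEquiv.symm_apply_apply]
    exact (a3 ho _ p.2).symm

theorem Lnk.isConj {a b : OG Q} (h : Lnk True Q Q a.1.toLinearMap b.1.toLinearMap ⊤ ⊤) (hQ : ND Q) :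
    IsConj a b := by
  obtain ⟨e, h1, -, h2⟩ := h.equiv hQ hQ
  exact isConj_iff.2 ⟨⟨e, h2 trivial⟩, mul_inv_eq_iff_eq_mul.2 (OG.ext' h1)⟩

variable [FiniteDimensional F V]

theorem Lnk.witt {g₂ : Module.End F V} {U₂ W₂ : Submodule F V} (h : Lnk True Q Q g g₂ W W₂)
    (hQ : ND Q) (h1 : ⊤ = U ⊔ W) (h2 : ⊤ = U₂ ⊔ W₂) (p : W ≤ perp Q U) (p₂ : W₂ ≤ perp Q U₂) :
    ∃ σ : OG Q, ∀ v ∈ U, σ.1 v ∈ U₂ := by
  obtain ⟨Γ, -, a2, a3, rfl, rfl⟩ := h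
  have n2 := nd_of_sup (h2 ▸ ND.nd_top hQ) p₂
  obtain ⟨i1, i2⟩ := Lnk.inj a2 (nd_of_sup (h1 ▸ ND.nd_top hQ) p) n2
  obtain ⟨σ, -, hσ⟩ := witt_maps hQ gen_top _ _ i1 i2 fun p => a3 trivial _ p.2
  refine ⟨σ, fun v hv => ?_⟩
  obtain ⟨a, ha, b, hb, e⟩ := Submodule.mem_sup.1 (h2.le (Submodule.mem_top (x := σ.1 v)))
  rw [← e, n2 b hb (mem_perp.2 ?_), add_zero]
  · exact ha
  rintro _ ⟨q, hq, rfl⟩
  rw [eq_sub_of_add_eq' e, polar_sub_right, mem_perp.1 (perp_symm p₂ ha) _ ⟨q, hq, rfl⟩, sub_zero]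
  exact ((congrArg (polar Q · (σ.1 v)) (hσ ⟨q, hq⟩)).symm.trans (OG.map_B σ _ _)).trans
    (mem_perp.1 (perp_symm p hv) _ ⟨q, hq, rfl⟩)

omit [FiniteDimensional F V] in
theorem Good.aff (h : Good Q g W) (c : F) : Good Q (c • g - 1) W :=
  ⟨fun w hw => sub_mem (W.smul_mem c (h.inv w hw)) hw, h.nd⟩

omit [FiniteDimensional F V] in
theorem Good.of_aff {c : F} (hc : c * c = 1) (h : Good Q (c • g - 1) W) : Good Q g W :=
  ⟨fun w hw => by simpa [smul_smul, hc] using W.smul_mem c (add_mem (h.inv w hw) hw), h.nd⟩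

omit [FiniteDimensional F V] in
theorem uI_of (h : ∀ v, Q (g v) = Q v) {c : F} (hc : c * c = 1) : UI Q (c • g - 1) := fun v => by
  simp only [LinearMap.sub_apply, LinearMap.smul_apply, Module.End.one_apply]
  qsimp
  rw [h]
  linear_combination hc * Q v

theorem fitting_split [Finite F] (h : UI Q n) (hW : Good Q n W) : ∃ K R m, Good Q n K ∧ Good Q n R ∧
    R ≤ perp Q K ∧ W = K ⊔ R ∧ (∀ w ∈ K, (n ^ m) w = 0) ∧ ∀ w ∈ R, n w = 0 → w = 0 := by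
  have : Finite V := Module.finite_of_finite F
  have : Finite (Module.End F V) := Finite.of_injective _ DFunLike.coe_injective
  obtain ⟨k, hk⟩ := exists_idem_pow n
  have h1 : W.map (n ^ (k + 1)) ≤ perp Q (W ⊓ LinearMap.ker (n ^ (k + 1))) := by
    rintro _ ⟨w, -, rfl⟩
    exact mem_perp.2 fun u hu => by rw [B_comm]; exact h.t0 _ hu.2 w
  have h2 : W = W ⊓ LinearMap.ker (n ^ (k + 1)) ⊔ W.map (n ^ (k + 1)) := le_antisymm
    (fun w hw => sub_add_cancel w ((n ^ (k + 1)) w) ▸ Submodule.add_mem_sup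
      (Submodule.mem_inf.2 ⟨sub_mem hw (pw_mem hW.inv hw _), by
      simp [← Module.End.mul_apply, hk]⟩) (Submodule.mem_map_of_mem hw))
    (sup_le inf_le_left (by rintro _ ⟨w, hw, rfl⟩; exact pw_mem hW.inv hw _))
  have h3 := nd_of_sup (h2 ▸ hW.nd) h1
  refine ⟨W ⊓ LinearMap.ker (n ^ (k + 1)), _, k + 1, ⟨fun w hw => ⟨hW.inv w hw.1, ?_⟩, nd_of_sup ((h2.trans (sup_comm _ _)) ▸ hW.nd)
    (perp_symm h1)⟩, ⟨?_, h3⟩, h1, h2, fun w hw => hw.2, fun w hw e => h3 w hw (perp_symm h1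
      ⟨h2.ge (Submodule.mem_sup_right hw), ?_⟩)⟩
  · rw [SetLike.mem_coe, LinearMap.mem_ker, ← pw_succ', pw_succ, (show _ = _ from hw.2), map_zero]
  · rintro _ ⟨w, hw, rfl⟩
    exact ⟨n w, hW.inv w hw, by rw [← pw_succ', ← pw_succ]⟩
  · rw [SetLike.mem_coe, LinearMap.mem_ker, pw_succ', e, map_zero]

omit [FiniteDimensional F V] in
theorem polar_of_isom (h : ∀ v, Q (g v) = Q v) (v w : V) : polar Q (g v) (g w) = polar Q v w :=
  polar_map_of g h v w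

theorem lnk_of_kd [Finite F] [FiniteDimensional F V₂] (h : ∀ v, Q (g v) = Q v)
    (h₂ : ∀ v, Q₂ (g₂ v) = Q₂ v) (hW : Good Q g W) (hW₂ : Good Q₂ g₂ W₂)
    (i1 : ∀ w ∈ W, g w = w → w = 0) (i2 : ∀ w ∈ W, g w = -w → w = 0)
    (e : ∀ f, kd (g.restrict hW.inv) f = kd (g₂.restrict hW₂.inv) f) : Lnk True Q Q₂ g g₂ W W₂ := by
  obtain ⟨e, he⟩ := exists_equiv_of_kd (by rw [← kd_zero, e, kd_zero]) fun p k _ => e (p ^ k)
  let e₁ := (finBasis F W).equivFun.symm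
  obtain ⟨A, hA⟩ : ∃ A : Matrix _ _ F, ∀ v, e₁ (A *ᵥ v) = g.restrict hW.inv (e₁ v) :=
    ⟨LinearMap.toMatrix' (e₁.symm.toLinearMap ∘ₗ g.restrict hW.inv ∘ₗ e₁.toLinearMap), fun v => by
      rw [LinearMap.toMatrix'_mulVec]; simp⟩
  let a := W.subtype ∘ₗ e₁.toLinearMap
  let b := W₂.subtype ∘ₗ e.toLinearMap ∘ₗ e₁.toLinearMap
  have ha : ∀ v, a (A *ᵥ v) = g (a v) := fun v => congrArg Subtype.val (hA v)
  have hb : ∀ v, b (A *ᵥ v) = g₂ (b v) := fun v =>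
    congrArg Subtype.val ((congrArg e (hA v)).trans (he _))
  have ia : ∀ v, a v = 0 → v = 0 := fun v hv => e₁.map_eq_zero_iff.1 (Subtype.ext hv)
  have d1 : (pG (Q.comp a)).det ≠ 0 := det_pG.2 ((nd_restrict fun w hw h =>
    hW.nd w hw (mem_perp.2 fun u hu => by rw [B_comm, h u hu])).congr e₁.symm fun x => by
      simp [a, QuadraticMap.comp_apply])
  have d2 : (pG (Q₂.comp b)).det ≠ 0 := det_pG.2 ((nd_restrict fun w hw h =>
    hW₂.nd w hw (mem_perp.2 fun u hu => by rw [B_comm, h u hu])).congr (e₁.trans e).symm fun x => by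
      simp [b, QuadraticMap.comp_apply])
  have u1 : IsUnit (A - 1) := mulVec_injective_iff_isUnit.1 ((injective_iff_map_eq_zero
    (mulVecLin _)).2 fun v hv => ia v (i1 _ (e₁ v).2 (by
      rw [mulVecLin_apply, sub_mulVec, one_mulVec, sub_eq_zero] at hv
      exact (ha v).symm.trans (congrArg a hv))))
  have u2 : IsUnit (A + 1) := mulVec_injective_iff_isUnit.1 ((injective_iff_map_eq_zero
    (mulVecLin _)).2 fun v hv => ia v (i2 _ (e₁ v).2 (by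
      rw [mulVecLin_apply, add_mulVec, one_mulVec, add_eq_zero_iff_eq_neg] at hv
      exact (ha v).symm.trans ((congrArg a hv).trans (map_neg a v)))))
  obtain ⟨Y, h1, h2⟩ := wall_cong (σ := RingHom.id F) (A := A) (fun _ => rfl) d1 d2
    (eh_of_symm pG_symm) (eh_of_symm pG_symm)
    (pG_isom fun v => by rw [QuadraticMap.comp_apply, ha, h]; rfl)
    (pG_isom fun v => by rw [QuadraticMap.comp_apply, hb, h₂]; rfl)
    (.inr (by convert u1.mul u2 using 1; simp [mul_add, sub_mul]))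
  have h3 : ∀ u v, polar Q (a (Y *ᵥ u)) (a (Y *ᵥ v)) = polar Q₂ (b u) (b v) := fun u v => by
    rw [polar_map_of (Q := Q.comp a) a fun _ => rfl, polar_map_of (Q := Q₂.comp b) b fun _ => rfl,
      ← bf_pG, ← bf_pG, sf_mulVec, h2]
  have h4 : ∀ v, Y *ᵥ (A *ᵥ v) = A *ᵥ (Y *ᵥ v) := fun v => by rw [mulVec_mulVec, h1, mulVec_mulVec]
  refine ⟨LinearMap.range ((a ∘ₗ Y.mulVecLin).prod b), ?_, ?_, fun _ => ?_, ?_, ?_⟩
  · rintro _ ⟨v, rfl⟩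
    exact ⟨A *ᵥ v, Prod.ext ((congrArg a (h4 v)).trans (ha _)) (hb v)⟩
  · rintro _ ⟨u, rfl⟩ _ ⟨v, rfl⟩
    exact h3 u v
  · rintro _ ⟨v, rfl⟩
    obtain ⟨w, rfl⟩ := mulVec_surjective_iff_isUnit.2 u1 v
    change Q (a (Y *ᵥ _)) = Q₂ (b _)
    have h5 := h3 w w
    have h6 := h3 (A *ᵥ w) w
    rw [h4, ha, hb] at h6
    rw [B_self, B_self] at h5
    rw [sub_mulVec, one_mulVec, mulVec_sub, map_sub a, map_sub b, h4, ha, hb, Q_sub, Q_sub, h, h₂]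
    linear_combination h5 - h6
  · rw [← LinearMap.range_comp, LinearMap.fst_prod, LinearMap.range_comp, LinearMap.range_eq_top.2
      (mulVec_surjective_iff_isUnit.2 ((isUnit_iff_isUnit_det _).2 (isUnit_iff_ne_zero.2
      (det_ne_zero_of_isom (κ := Unit) d2 h2)))), Submodule.map_top, LinearMap.range_comp]
    simp
  · rw [← LinearMap.range_comp, LinearMap.snd_prod, LinearMap.range_comp, LinearMap.range_comp]
    simp

end Cfsg.Agent.H6N
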