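import Cfsg.Agent.H6.Nf3

/-!
Complete invariants of isometries of quadratic spaces over finite fields.
-/

set_option autoImplicit false

namespace Cfsg.Agent.H6N

open QuadraticMap Module H7 Polynomial UniqueFactorizationMonoid
open H6 hiding perp mem_perp finrank_perp
open scoped Classical

theorem multiset_ext_of_sum_min {μ ν : Multiset ℕ} (h : ∀ m, (μ.map (min · m)).sum = (ν.map (min · m)).sum)
    (a : ℕ) : μ.count (a + 1) = ν.count (a + 1) := by
  have h1 : ∀ (μ : Multiset ℕ), (μ.map (min · a)).sum + (μ.map (min · (a + 2))).sum +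
      μ.count (a + 1) = 2 * (μ.map (min · (a + 1))).sum := fun μ => by
    induction μ using Multiset.induction_on with
    | empty => simp
    | cons b s ih =>
      simp only [Multiset.map_cons, Multiset.sum_cons, Multiset.count_cons]
      split_ifs <;> omega
  have := h1 μ
  have := h1 ν
  have := h a
  have := h (a + 1)
  have := h (a + 2)
  omega

variable {F V V₂ : Type*} [Field F] [AddCommGroup V] [Module F V] [AddCommGroup V₂] [Module F V₂]
  {Q : QuadraticForm F V} {Q₂ : QuadraticForm F V₂} {g : Module.End F V} {g₂ : Module.End F V₂}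
  {W : Submodule F V} {W₂ : Submodule F V₂} {α : F} {b : Blk} {o : Prop} {p p' : F[X]}

/-- monic palindromic polynomials of even degree -/
structure Pal (p : F[X]) : Prop where
  monic : p.Monic
  even : Even p.natDegree
  mir : p.mirror = p
  ne : p.eval 0 ≠ 0

theorem mirror_one' : (1 : F[X]).mirror = 1 := mirror_C 1

theorem pal_one : Pal (1 : F[X]) := ⟨monic_one, by simp, mirror_one', by simp⟩

theorem Pal.mul (h : Pal p) (h' : Pal p') : Pal (p * p') :=
  ⟨h.monic.mul h'.monic, by rw [h.monic.natDegree_mul h'.monic]; exact h.even.add h'.even,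
    by rw [mirror_mul_of_domain, h.mir, h'.mir], by simp [h.ne, h'.ne]⟩

theorem Pal.pow (h : Pal p) (k : ℕ) : Pal (p ^ k) := by
  induction k with
  | zero => simpa using pal_one
  | succ k ih => rw [pow_succ]; exact ih.mul h

theorem coeff_mirror' (h : p.eval 0 ≠ 0) {i : ℕ} (hi : i ≤ p.natDegree) :
    p.mirror.coeff i = p.coeff (p.natDegree - i) := by
  rw [coeff_mirror, natTrailingDegree_eq_zero.2 (.inr (by rwa [coeff_zero_eq_eval_zero])), add_zero,
    revAt_le hi]

theorem Pal.coeff (h : Pal p) {i j : ℕ} (hi : i + j = p.natDegree) : p.coeff i = p.coeff j := by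
  rw [← h.mir, coeff_mirror' h.ne (by omega), h.mir, show p.natDegree - i = j by omega]

theorem pal_sq {c : F} (hc : c * c = 1) : Pal ((X - C c) ^ 2) := by
  have c0 : c ≠ 0 := left_ne_zero_of_mul_eq_one hc
  have h1 : (X - C c).mirror = -C c * (X - C c) := by
    ext i
    by_cases hi : i ≤ 1
    · rw [coeff_mirror' (by simp [c0]) (by simpa using hi), natDegree_X_sub_C]
      interval_cases i <;> simp [coeff_X, coeff_C, hc]
    · rw [coeff_eq_zero_of_natDegree_lt (by rw [mirror_natDegree, natDegree_X_sub_C]; omega),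
        neg_mul, coeff_neg, coeff_C_mul, coeff_eq_zero_of_natDegree_lt (by
          rw [natDegree_X_sub_C]; omega), mul_zero, neg_zero]
  refine ⟨(monic_X_sub_C c).pow 2, by simp [natDegree_pow], ?_, by simp [c0]⟩
  rw [pow_two, mirror_mul_of_domain, h1]
  linear_combination (X - C c) * (X - C c) * (C_mul.symm.trans (congrArg C hc) : C c * C c = 1)

theorem even_of_mirror (h : p.mirror = p) (h0 : p.eval 0 ≠ 0) (h1 : p.eval (-1) ≠ 0) :
    Even p.natDegree := by
  by_contra! e
  refine h1 ?_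
  rw [Nat.not_even_iff_odd] at e
  rw [eval_eq_sum_range]
  refine Finset.sum_involution (fun i _ => p.natDegree - i) (fun i hi => ?_) (fun i hi _ e' => ?_)
    (fun i _ => by simp) fun i hi => by simp at hi; omega
  · have hi := Nat.lt_succ_iff.1 (Finset.mem_range.1 hi)
    rw [← coeff_mirror' h0 hi, h, ← mul_add]
    rcases Nat.even_or_odd i with a | a
    · rw [a.neg_one_pow, (Nat.Odd.sub_even hi e a).neg_one_pow]; simp
    · rw [a.neg_one_pow, (Nat.Odd.sub_odd e a).neg_one_pow]; simp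
  · have hi := Nat.lt_succ_iff.1 (Finset.mem_range.1 hi)
    obtain ⟨k, hk⟩ := e
    omega

theorem irreducible_mirror (h : Irreducible p) : Irreducible p.mirror :=
  (MulEquiv.irreducible_iff (f := ({ mirror_involutive.toPerm with
    map_mul' := fun p q => mirror_mul_of_domain p q } : F[X] ≃* F[X]))).2 h

theorem assoc_mirror (h : Associated p p') : Associated p.mirror p'.mirror :=
  h.map ({ mirror_involutive.toPerm with map_mul' := fun p q => mirror_mul_of_domain p q } : F[X] ≃* F[X])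

theorem nm_nm (h : p.Monic) : normalize (normalize p.mirror).mirror = p := by
  rw [normalize_eq_normalize_iff_associated.2 (assoc_mirror (normalize_associated _)), mirror_mirror,
    h.normalize_eq_self]

variable [FiniteDimensional F V]

theorem kd_mirror (hQ : ND Q) (h : ∀ v, Q (g v) = Q v) (f : F[X]) : kd g f.mirror = kd g f := by
  have h1 : ∀ i v w, polar Q ((g ^ i) v) ((g ^ i) w) = polar Q v w := fun i v w => by
    induction i with
    | zero => rfl
    | succ i ih => rw [pw_succ, pw_succ, polar_of_isom h, ih]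
  have key : ∀ f : F[X], kd g f.mirror ≤ kd g f := fun f => by
    set N := f.natDegree + f.natTrailingDegree
    have h2 : ∀ v w, polar Q (aeval g f v) ((g ^ N) w) = polar Q v (aeval g f.mirror w) := by
      intro v w
      rw [aeval_eq_sum_range' (n := N + 1) (by omega), aeval_eq_sum_range' (n := N + 1)
        (by rw [mirror_natDegree]; omega), LinearMap.sum_apply, LinearMap.sum_apply, B_sum_left,
        B_sum_right, ← Finset.sum_flip]
      refine Finset.sum_congr rfl fun i hi => ?_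
      have hi := Nat.lt_succ_iff.1 (Finset.mem_range.1 hi)
      rw [LinearMap.smul_apply, LinearMap.smul_apply, B_smul_left, B_smul_right, coeff_mirror,
        revAt_le hi, ← h1 (N - i) v, ← pw_add, Nat.sub_add_cancel hi]
    have h3 := finrank_perp hQ (LinearMap.range (aeval g f))
    have h4 := (aeval g f).finrank_range_add_finrank_ker
    have h5 := LinearMap.finrank_le_finrank_of_injective (f := (g ^ N).restrict
      (p := LinearMap.ker (aeval g f.mirror)) (q := perp Q (LinearMap.range (aeval g f))) fun w hw =>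
        mem_perp.2 (by rintro _ ⟨v, rfl⟩; rw [h2, (show _ = _ from hw), polar_zero_right]))
      ((injective_iff_map_eq_zero _).2 fun w hw => Subtype.ext (hQ.eq_zero fun y => by
        rw [← h1 N, show (g ^ N) w.1 = 0 from congrArg Subtype.val hw, polar_zero_left]))
    unfold kd; omega
  exact le_antisymm (key f) (by simpa [mirror_mirror] using key f.mirror)

/-- the module structure given by polynomials -/
def Fr (g : Module.End F V) (W : Submodule F V) (L : ℕ) (h : ℕ → F[X]) : Prop :=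
  ∃ hW : ∀ w ∈ W, g w ∈ W, ∀ f, kd (g.restrict hW) f =
    ∑ i ∈ Finset.range L, ((normalizedFactors (h i)).map fun p => kd (cyc (p ^ i)) f).sum

/-- admissible polynomial data -/
structure PD (L : ℕ) (h : ℕ → F[X]) : Prop where
  pal : ∀ i, Pal (h i)
  one : ∀ i, (h i).eval 1 ≠ 0
  neg : ∀ i, (h i).eval (-1) ≠ 0
  zero : h 0 = 1
  big : ∀ i, L ≤ i → h i = 1

theorem exists_fr [Finite F] (h : ∀ v, Q (g v) = Q v) (hW : Good Q g W)
    (i1 : ∀ w ∈ W, g w = w → w = 0) (i2 : ∀ w ∈ W, g w = -w → w = 0) {L : ℕ} (hL : finrank F V < L) :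
    ∃ h, Fr g W L h ∧ PD L h ∧ finrank F W = ∑ i ∈ Finset.range L, i * (h i).natDegree := by
  obtain ⟨t, p, e, h1, h2⟩ := exists_decomp (g.restrict hW.inv)
  have nd : ND (Q.restrict W) := nd_restrict fun w hw h =>
    hW.nd w hw (mem_perp.2 fun u hu => by rw [B_comm, h u hu])
  have h3 : finrank F W = ∑ k, e k * (p k).natDegree := by
    simp only [← kd_zero (g.restrict hW.inv), h2, kd_cyc_dvd (pow_ne_zero _ (h1 _).1.ne_zero)
      (dvd_zero _), natDegree_pow]
  have h4 : ∀ k, e k < L := fun k => by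
    have := Finset.single_le_sum (f := fun k => e k * (p k).natDegree) (fun _ _ => Nat.zero_le _)
      (Finset.mem_univ k)
    have := Nat.le_mul_of_pos_right (e k) (h1 k).1.natDegree_pos
    have := W.finrank_le
    omega
  have h5 : ∀ P j, Irreducible P → P.Monic → kd (g.restrict hW.inv) (P ^ j) =
      (((Finset.univ.filter fun k => p k = P).val.map e).map (min · j)).sum * P.natDegree := by
    intro P j a1 a2
    rw [h2, Multiset.map_map, ← Finset.sum_eq_multiset_sum, Finset.sum_mul, Finset.sum_filter]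
    refine Finset.sum_congr rfl fun k _ => ?_
    split_ifs with e'
    · rw [← e', kd_cyc_pow (h1 k).1.ne_zero]; rfl
    · exact kd_cyc_coprime (pow_ne_zero _ (h1 k).1.ne_zero) (((h1 k).1.coprime_iff_not_dvd.2 fun d =>
        e' (eq_of_monic_of_associated (h1 k).2.1 a2 ((h1 k).1.associated_of_dvd a1 d))).pow)
  have h6 : ∀ c : F, (∀ w ∈ W, g w = c • w → w = 0) → ∀ k, (p k).eval c ≠ 0 := fun c hc k e' => by
    have a1 : p k = X - C c := (eq_of_monic_of_associated (monic_X_sub_C c) (h1 k).2.1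
      ((irreducible_X_sub_C c).associated_of_dvd (h1 k).1 (dvd_iff_isRoot.2 e'))).symm
    have a2 : kd (g.restrict hW.inv) (X - C c) = 0 := by
      rw [kd, Submodule.finrank_eq_zero, LinearMap.ker_eq_bot']
      intro w hw
      exact Subtype.ext (hc _ w.2 (sub_eq_zero.1 (by simpa using congrArg Subtype.val hw)))
    have := Finset.sum_eq_zero_iff.1 ((h2 _).symm.trans a2) k (Finset.mem_univ k)
    rw [← pow_one (X - C c), a1, kd_cyc_pow (X_sub_C_ne_zero c), min_eq_right (h1 k).2.2] at this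
    simp at this
  have m1 : ∀ P : F[X], Irreducible P → Irreducible (normalize P.mirror) ∧ (normalize P.mirror).Monic :=
    fun P hP => ⟨(associated_normalize _).irreducible (irreducible_mirror hP),
      monic_normalize (irreducible_mirror hP).ne_zero⟩
  have h7 : ∀ i, ((Finset.univ.filter fun k => e k = i).val.map fun k => normalize (p k).mirror) =
      (Finset.univ.filter fun k => e k = i).val.map p := fun i => by
    ext P
    by_cases hP : Irreducible P ∧ P.Monic
    swap
    · rw [Multiset.count_eq_zero.2, Multiset.count_eq_zero.2] <;> intro a <;>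
        obtain ⟨k, -, rfl⟩ := Multiset.mem_map.1 a
      exacts [hP ⟨(h1 k).1, (h1 k).2.1⟩, hP (m1 _ (h1 k).1)]
    cases i with
    | zero => rw [Finset.filter_eq_empty_iff.2 fun k _ => by have := (h1 k).2.2; omega]; simp
    | succ i =>
      have := multiset_ext_of_sum_min (μ := (Finset.univ.filter fun k => p k = P).val.map e)
        (ν := (Finset.univ.filter fun k => p k = normalize P.mirror).val.map e)
        (fun j => Nat.eq_of_mul_eq_mul_right hP.1.natDegree_pos (by
        rw [← h5 P j hP.1 hP.2, ← kd_mirror nd (fun v => h v.1), ← mirror_natDegree,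
          ← natDegree_eq_of_degree_eq (degree_eq_degree_of_associated (normalize_associated _)),
          ← h5 _ j (m1 P hP.1).1 (m1 P hP.1).2]
        refine kd_assoc _ ?_
        induction j with
        | zero => simp [mirror_one']
        | succ j ih =>
          rw [pow_succ, pow_succ, mirror_mul_of_domain]; exact ih.mul_mul (associated_normalize _))) i
      simp only [Multiset.count_map, ← Finset.filter_val, Finset.filter_filter,
        ← Finset.card_def] at this ⊢
      convert this.symm using 2 <;> ext k <;> simp only [Finset.mem_filter, Finset.mem_univ, true_and]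
      · exact ⟨fun a => ⟨by rw [a.2, nm_nm (h1 k).2.1], a.1.symm⟩,
          fun a => ⟨a.2.symm, by rw [a.1, nm_nm hP.2]⟩⟩
      · exact ⟨fun a => ⟨a.2.symm, a.1.symm⟩, fun a => ⟨a.2.symm, a.1.symm⟩⟩
  have h8 : ∀ c : F, (∀ w ∈ W, g w = c • w → w = 0) → ∀ i,
      (∏ k ∈ Finset.univ.filter fun k => e k = i, p k).eval c ≠ 0 := fun c hc i => by
    rw [eval_prod]; exact Finset.prod_ne_zero_iff.2 fun k _ => h6 c hc k
  have e0 := h8 0 fun w hw e' => hW.nd w hw (mem_perp.2 fun u _ => by
    rw [← polar_of_isom h, e', zero_smul, polar_zero_right])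
  have e1 := h8 1 (by simpa using i1)
  have e2 := h8 (-1) (by simpa using i2)
  have h9 : ∀ i, (∏ k ∈ Finset.univ.filter fun k => e k = i, p k).mirror =
      ∏ k ∈ Finset.univ.filter fun k => e k = i, p k := fun i => by
    obtain ⟨u, hu⟩ : Associated (∏ k ∈ Finset.univ.filter fun k => e k = i, p k).mirror
        (∏ k ∈ Finset.univ.filter fun k => e k = i, p k) := by
      conv_rhs => rw [Finset.prod_eq_multiset_prod, ← h7, ← Finset.prod_eq_multiset_prod]
      induction (Finset.univ.filter fun k => e k = i) using Finset.induction_on with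
      | empty => simp [mirror_one']
      | insert a s ha ih =>
        rw [Finset.prod_insert ha, Finset.prod_insert ha, mirror_mul_of_domain]
        exact (associated_normalize _).mul_mul ih
    obtain ⟨r, -, hr⟩ := Polynomial.isUnit_iff.1 u.isUnit
    have := congrArg (eval 1) hu
    rw [eval_mul, mirror_eval_one, ← hr, eval_C, mul_eq_left₀ (e1 i)] at this
    rwa [← hr, this, C_1, mul_one] at hu
  refine ⟨fun i => ∏ k ∈ Finset.univ.filter fun k => e k = i, p k, ⟨hW.inv, fun f => ?_⟩,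
    ⟨fun i => ⟨monic_prod_of_monic _ _ fun k _ => (h1 k).2.1, even_of_mirror (h9 i) (e0 i) (e2 i),
      h9 i, e0 i⟩, e1, e2, ?_, fun i hi => ?_⟩, ?_⟩
  · rw [h2, ← Finset.sum_fiberwise_of_maps_to (g := e) (t := Finset.range L) (by simp [h4])]
    refine Finset.sum_congr rfl fun i _ => ?_
    beta_reduce
    rw [Finset.prod_eq_multiset_prod, normalizedFactors_prod_eq _ (by
      simpa using fun k _ => (h1 k).1), Multiset.map_map, Multiset.map_map]
    exact Finset.sum_congr rfl fun k hk => by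
      rw [Function.comp_apply, Function.comp_apply, (h1 k).2.1.normalize_eq_self,
        (Finset.mem_filter.1 hk).2]
  · rw [Finset.filter_eq_empty_iff.2 fun k _ => by have := (h1 k).2.2; omega, Finset.prod_empty]
  · rw [Finset.filter_eq_empty_iff.2 fun k _ => by have := h4 k; omega, Finset.prod_empty]
  · rw [h3, ← Finset.sum_fiberwise_of_maps_to (g := e) (t := Finset.range L) (by simp [h4])]
    refine Finset.sum_congr rfl fun i _ => ?_
    rw [natDegree_prod_of_monic _ _ fun k _ => (h1 k).2.1, Finset.mul_sum]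
    exact Finset.sum_congr rfl fun k hk => by rw [(Finset.mem_filter.1 hk).2]

/-- a complete decomposition -/
def Full (Q : QuadraticForm F V) (g : Module.End F V) (α : F) (L : ℕ) (W : Submodule F V)
    (D₁ D₂ : Multiset Blk) (h : ℕ → F[X]) : Prop :=
  ∃ K₁ K₂ R, Dec Q ((1 : F) • g - 1) α K₁ D₁ ∧ Dec Q ((-1 : F) • g - 1) α K₂ D₂ ∧ Good Q g R ∧
    (∀ w ∈ R, g w = w → w = 0) ∧ (∀ w ∈ R, g w = -w → w = 0) ∧ Fr g R L h ∧
    K₂ ⊔ R ≤ perp Q K₁ ∧ R ≤ perp Q K₂ ∧ W = K₁ ⊔ (K₂ ⊔ R)

variable {L : ℕ} {D₁ D₂ D₁' D₂' : Multiset Blk} {h : ℕ → F[X]}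

theorem Full.lnk [Finite F] [FiniteDimensional F V₂] (hg : ∀ v, Q (g v) = Q v)
    (hg₂ : ∀ v, Q₂ (g₂ v) = Q₂ v) (a : Full Q g α L W D₁ D₂ h) (b : Full Q₂ g₂ α L W₂ D₁' D₂' h)
    (e₁ : Multiset.Rel (Blk.Eqv o α) D₁ D₁') (e₂ : Multiset.Rel (Blk.Eqv o α) D₂ D₂')
    (ho : o ∨ (2 : F) = 0) : Lnk o Q Q₂ g g₂ W W₂ := by
  obtain ⟨K₁, K₂, R, a1, a2, a3, a4, a5, ⟨_, a6⟩, a7, a8, rfl⟩ := a
  obtain ⟨K₁', K₂', R', b1, b2, b3, -, -, ⟨_, b6⟩, b7, b8, rfl⟩ := b
  have c : (-1 : F) * -1 = 1 := by simp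
  exact ((a1.lnk (uI_of hg (mul_one _)) (uI_of hg₂ (mul_one _)) b1 e₁ ho).aff (mul_one _)).sup
    (((a2.lnk (uI_of hg c) (uI_of hg₂ c) b2 e₂ ho).aff c).sup
      ((lnk_of_kd hg hg₂ a3 b3 a4 a5 fun f => (a6 f).trans (b6 f).symm).mono fun _ => trivial)
      a8 b8) a7 b7

theorem Full.lnk' [Finite F] [FiniteDimensional F V₂] (hg : ∀ v, Q (g v) = Q v)
    (hg₂ : ∀ v, Q₂ (g₂ v) = Q₂ v) (a : Full Q g α L W D₁ D₂ h) (b : Full Q₂ g₂ α L W₂ D₁ D₂ h) :
    Lnk True Q Q₂ g g₂ W W₂ :=
  a.lnk hg hg₂ b (Multiset.rel_refl_of_refl_on fun _ _ => ⟨rfl, rfl, fun _ _ => ⟨rfl, rfl⟩⟩)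
    (Multiset.rel_refl_of_refl_on fun _ _ => ⟨rfl, rfl, fun _ _ => ⟨rfl, rfl⟩⟩) (.inl trivial)

omit [FiniteDimensional F V] in
theorem Full.inv₁ (a : Full Q g α L W D₁ D₂ h) (hb : b ∈ D₁) : ∃ U x y W',
    IsBlk Q ((1 : F) • g - 1) α b U x y ∧ Full Q g α L W' (D₁.erase b) D₂ h ∧ W' ≤ perp Q U ∧
      W = U ⊔ W' := by
  obtain ⟨K₁, K₂, R, a1, a2, a3, a4, a5, a6, a7, a8, rfl⟩ := a
  obtain ⟨U, x, y, W', B, b1, b2, rfl⟩ := a1.inv hb
  exact ⟨U, x, y, _, B, ⟨W', K₂, R, b1, a2, a3, a4, a5, a6, a7.trans (perp_anti le_sup_right), a8,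
    rfl⟩, sup_le b2 (a7.trans (perp_anti le_sup_left)), sup_assoc ..⟩

omit [FiniteDimensional F V] in
theorem Full.inv₂ (a : Full Q g α L W D₁ D₂ h) (hb : b ∈ D₂) : ∃ U x y W',
    IsBlk Q ((-1 : F) • g - 1) α b U x y ∧ Full Q g α L W' D₁ (D₂.erase b) h ∧ W' ≤ perp Q U ∧
      W = U ⊔ W' := by
  obtain ⟨K₁, K₂, R, a1, a2, a3, a4, a5, a6, a7, a8, rfl⟩ := a
  obtain ⟨U, x, y, W', B, b1, b2, rfl⟩ := a2.inv hb
  exact ⟨U, x, y, _, B, ⟨K₁, W', R, a1, b1, a3, a4, a5, a6, (sup_le_sup_right le_sup_right _).trans a7,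
    a8.trans (perp_anti le_sup_right), rfl⟩, sup_le (perp_symm ((le_sup_left.trans le_sup_left).trans
    a7)) (sup_le b2 (a8.trans (perp_anti le_sup_left))), by rw [sup_assoc, sup_left_comm]⟩

theorem exists_full [Finite F] (hQ : ND Q) (hg : ∀ v, Q (g v) = Q v) (P : Multiset Blk → Prop)
    (hP : ∀ c : F, c * c = 1 → ∀ W m, Good Q (c • g - 1) W → (∀ w ∈ W, ((c • g - 1 : Module.End F V) ^ m) w = 0) →
      ∃ D, Dec Q (c • g - 1) α W D ∧ P D) (hP' : ∀ D, P D → ∀ b ∈ D, 1 ≤ b.2.1) (hL : finrank F V < L) :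
    ∃ D₁ D₂ h, Full Q g α L ⊤ D₁ D₂ h ∧ P D₁ ∧ P D₂ ∧ ((2 : F) = 0 → D₂ = 0) ∧ PD L h ∧
      finrank F V = (D₁.map Blk.sz).sum + (D₂.map Blk.sz).sum +
        ∑ i ∈ Finset.range L, i * (h i).natDegree := by
  have c : (-1 : F) * -1 = 1 := by simp
  obtain ⟨K₁, R₁, m₁, a1, a2, a3, a4, a5, a6⟩ := fitting_split (uI_of hg (mul_one _))
    (Good.aff (W := ⊤) ⟨by simp, ND.nd_top hQ⟩ 1)
  obtain ⟨K₂, R, m₂, b1, b2, b3, rfl, b5, b6⟩ := fitting_split (uI_of hg c)
    ((a2.of_aff (mul_one _)).aff (-1))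
  obtain ⟨D₁, d1, d2⟩ := hP 1 (mul_one _) _ _ a1 a5
  obtain ⟨D₂, d3, d4⟩ := hP _ c _ _ b1 b5
  have i1 : ∀ w ∈ R, g w = w → w = 0 := fun w hw e => a6 w (Submodule.mem_sup_right hw) (by simp [e])
  have i2 : ∀ w ∈ R, g w = -w → w = 0 := fun w hw e => b6 w hw (by simp [e])
  obtain ⟨h, h1, h2, h3⟩ := exists_fr hg (b2.of_aff c) i1 i2 hL
  refine ⟨D₁, D₂, h, ⟨K₁, K₂, R, d1, d3, b2.of_aff c, i1, i2, h1, a3, b3, a4⟩, d2, d4, fun t => ?_,
    h2, ?_⟩
  · refine Multiset.eq_zero_of_forall_notMem fun b hb => ?_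
    have k : K₂ = ⊥ := (Submodule.eq_bot_iff _).2 fun w hw => by
      have := b5 w hw
      rw [show (-1 : F) = 1 by linear_combination -t] at this
      replace hw : w ∈ K₂ ⊔ R := Submodule.mem_sup_left hw
      clear b5
      induction m₂ generalizing w with
      | zero => exact this
      | succ m ih => exact a6 w hw (ih _ (by rwa [← pw_succ']) (a2.inv w hw))
    have h4 := d3.finrank_eq b1.nd
    rw [k, finrank_bot, eq_comm, Multiset.sum_eq_zero_iff] at h4
    have := h4 _ (Multiset.mem_map_of_mem _ hb)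
    have := hP' _ d4 b hb
    unfold Blk.sz at *
    split_ifs at * <;> omega
  · rw [← finrank_top, a4, finrank_sup_perp (a4 ▸ ND.nd_top hQ) a3, finrank_sup_perp a2.nd b3,
      d1.finrank_eq a1.nd, d3.finrank_eq b1.nd, h3, add_assoc]

end Cfsg.Agent.H6N
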