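import Cfsg.Agent.H6.Pot

/-!
Codes of conjugacy classes of orthogonal groups in odd characteristic.
-/

set_option autoImplicit false

namespace Cfsg.Agent.H6N

open QuadraticMap Module H7 Polynomial Finset
open scoped Classical

variable {D D' : Multiset Blk} {m m' : ℕ}

theorem sz_sum {M : ℕ} (h : (∀ b ∈ D, b.2.1 < M)) : (D.map Blk.sz).sum = ∑ i ∈ range M,
    i * (2 * (D.count (true, i, false) + D.count (true, i, true)) +
      (D.count (false, i, false) + D.count (false, i, true))) := by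
  rw [sum_multiset_map_count, sum_subset (s₂ := univ ×ˢ range M ×ˢ univ)
    (fun b hb => by simpa using h b (Multiset.mem_toFinset.1 hb)) fun b _ hb => by
      rw [Multiset.count_eq_zero.2 (mt Multiset.mem_toFinset.2 hb), zero_smul]]
  simp only [sum_product, Fintype.sum_bool, Blk.sz, ← sum_add_distrib]
  exact sum_congr rfl fun i _ => by simp; ring

theorem lt_of_sz {M : ℕ} (h : (D.map Blk.sz).sum < M) : ∀ b ∈ D, b.2.1 < M := fun b hb => by
  have := Multiset.single_le_sum (by simp) _ (Multiset.mem_map_of_mem Blk.sz hb)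
  unfold Blk.sz at this h
  split_ifs at this <;> omega

theorem sum_two_mul (f : ℕ → ℕ) (L : ℕ) :
    ∑ i ∈ range (2 * L), f i = ∑ j ∈ range L, (f (2 * j) + f (2 * j + 1)) := by
  induction L with
  | zero => rfl
  | succ L ih => rw [mul_add_one, sum_range_succ, sum_range_succ, sum_range_succ, ih, add_assoc]

theorem near {p₀ : Bool} {k₀ : ℕ} (t : ∀ p k, D.count (p, k, false) + D.count (p, k, true) =
    D'.count (p, k, false) + D'.count (p, k, true)) (c : D.count (p₀, k₀, true) ≤ 1)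
    (c' : D'.count (p₀, k₀, true) ≤ 1)
    (e : ∀ p k, (p, k) ≠ (p₀, k₀) → D.count (p, k, true) = D'.count (p, k, true)) :
    D = D' ∨ ∃ s, (p₀, k₀, s) ∈ D ∧ (p₀, k₀, !s) ∈ D' ∧ D.erase (p₀, k₀, s) = D'.erase (p₀, k₀, !s) := by
  have t₀ := t p₀ k₀
  have key : ∀ {E E' : Multiset Blk}, (∀ b, (b.1, b.2.1) ≠ (p₀, k₀) →
      E.count b = D.count b ∧ E'.count b = D'.count b) →
      (∀ s, E.count (p₀, k₀, s) = E'.count (p₀, k₀, s)) → E = E' := fun h1 h2 =>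
    Multiset.ext' fun ⟨p, k, s⟩ => by
      by_cases h : (p, k) = (p₀, k₀)
      · cases h; exact h2 s
      have := t p k
      have := e p k h
      have := h1 (p, k, s) h
      cases s <;> omega
  by_cases h : D.count (p₀, k₀, true) = D'.count (p₀, k₀, true)
  · exact .inl (key (by simp) fun s => by cases s <;> omega)
  refine .inr ⟨D.count (p₀, k₀, true) = 1, ?_, ?_, key (fun b hb => ⟨Multiset.count_erase_of_ne
    (by rintro rfl; simp at hb) _, Multiset.count_erase_of_ne (by rintro rfl; simp at hb) _⟩) fun s => ?_⟩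
  all_goals by_cases h' : D.count (p₀, k₀, true) = 1
  any_goals simp only [h', decide_true, decide_false, Bool.not_true, Bool.not_false,
    ← Multiset.one_le_count_iff_mem]
  any_goals omega
  all_goals cases s <;> simp [Multiset.count_erase_of_ne] <;> omega

def cF (f : Bool) (D : Multiset Blk) (i : ℕ) : ℕ :=
  D.count (false, i, false) + if f then D.count (false, i, true) else 0

def cA (f : Bool) (D : Multiset Blk) (i : ℕ) : ℕ := D.count (true, i, false) + cF f D i / 2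

def bt (f : Bool) (D : Multiset Blk) (i : ℕ) : Bool × Bool :=
  (decide (cF f D i % 2 = 1), !f && decide (D.count (false, i, true) = 1))

theorem NFo.cts (h : NFo m D) (i : ℕ) : D.count (true, i, true) = 0 ∧ D.count (false, i, true) ≤ 1 ∧
    (i % 2 = 0 → D.count (false, i, false) = 0 ∧ D.count (false, i, true) = 0) ∧
    (i % 2 = 1 → D.count (true, i, false) = 0) ∧ (i = 0 → D.count (true, i, false) = 0) := by
  refine ⟨?_, h.cnt i, fun e => ⟨?_, ?_⟩, fun e => ?_, fun e => ?_⟩ <;>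
    refine Multiset.count_eq_zero.2 fun a => ?_ <;> have := h.par _ a <;> have := h.le _ a <;>
    simp_all [Nat.even_iff, Nat.odd_iff]

theorem NFo.nb_bt (h : NFo m D) (f : Bool) (i : ℕ) : 2 * cA f D i + nb (bt f D i) =
    2 * (D.count (true, i, false) + D.count (true, i, true)) +
      (D.count (false, i, false) + D.count (false, i, true)) := by
  have := h.cts i
  by_cases h1 : cF f D i % 2 = 1 <;> by_cases h2 : D.count (false, i, true) = 1 <;> cases f <;>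
    simp only [cA, nb, bt, h1, h2] <;> simp [cF] at h1 ⊢ <;> omega

theorem NFo.recover (h : NFo m D) (h' : NFo m' D') (f : ℕ → Bool)
    (hA : ∀ i, cA (f i) D i = cA (f i) D' i)
    (hb : ∀ j, bt (f (2 * j + 1)) D (2 * j + 1) = bt (f (2 * j + 1)) D' (2 * j + 1)) (p : Bool) (k : ℕ) :
    D.count (p, k, false) + D.count (p, k, true) = D'.count (p, k, false) + D'.count (p, k, true) ∧
    ((p = false → f k = false) → D.count (p, k, true) = D'.count (p, k, true)) := by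
  have a1 := h.cts k
  have a2 := h'.cts k
  have a3 := hA k
  obtain ⟨j, rfl | rfl⟩ := Nat.even_or_odd' k
  · cases p <;> cases hf : f (2 * j) <;> simp [cA, cF, hf] at a3 ⊢ <;> omega
  · have a4 := hb j
    cases p <;> cases hf : f (2 * j + 1) <;> simp [cA, cF, bt, hf] at a3 a4 ⊢ <;> omega

theorem NFo.sz (h : NFo m D) {L : ℕ} (hL : (D.map Blk.sz).sum < 2 * L) (f : ℕ → Bool) :
    (D.map Blk.sz).sum = ∑ i ∈ range (2 * L), i * (2 * cA (f i) D i) +
      ∑ j ∈ range L, (2 * j + 1) * nb (bt (f (2 * j + 1)) D (2 * j + 1)) := by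
  rw [sz_sum (lt_of_sz hL), sum_two_mul, sum_two_mul, ← sum_add_distrib]
  refine sum_congr rfl fun j _ => ?_
  have := h.cts (2 * j)
  rw [← h.nb_bt (f (2 * j + 1)) (2 * j + 1), show cA (f (2 * j)) D (2 * j) = D.count (true, 2 * j, false) by
    simp [cA, cF, this], this.1, (this.2.2.1 (by omega)).1, (this.2.2.1 (by omega)).2]
  ring

theorem count_big {M i : ℕ} (h : (D.map Blk.sz).sum < M) (hi : M ≤ i) (p s : Bool) :
    D.count (p, i, s) = 0 := Multiset.count_eq_zero.2 fun a => (lt_of_sz h _ a).not_ge hi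

def wO (f₁ f₂ : ℕ → Bool) (D₁ D₂ : Multiset Blk) (j : ℕ) : Let :=
  (bt (f₁ (2 * j + 1)) D₁ (2 * j + 1), bt (f₂ (2 * j + 1)) D₂ (2 * j + 1))

variable {F : Type*} [Field F]

noncomputable def hO (a b : ℕ) (h : F[X]) : F[X] := (X - C 1) ^ (2 * a) * ((X - C (-1)) ^ (2 * b) * h)

theorem Pal.hO {h : F[X]} (hp : Pal h) (a b : ℕ) : Pal (hO a b h) := by
  rw [H6N.hO, pow_mul, pow_mul]
  exact ((pal_sq (by simp)).pow a).mul (((pal_sq (by simp)).pow b).mul hp)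

theorem Pal.natDegree_hO {h : F[X]} (hp : Pal h) (a b : ℕ) :
    (H6N.hO a b h).natDegree = 2 * a + 2 * b + h.natDegree := by
  rw [H6N.hO, ((monic_X_sub_C _).pow _).natDegree_mul (((monic_X_sub_C _).pow _).mul hp.monic),
    ((monic_X_sub_C _).pow _).natDegree_mul hp.monic, natDegree_pow, natDegree_pow, natDegree_X_sub_C,
    natDegree_X_sub_C]
  ring

theorem odd_count [Fintype F] (two : (2 : F) ≠ 0) {ι : Type*} [Finite ι] {n τ L : ℕ} (hτ : τ ≤ 1)
    (hL : 2 * n + τ < 2 * (L + 1)) {R : ℕ → Let → Bool} {K : ℝ} (N : ℕ → ℝ) (P : F[X] → Prop)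
    (hN : ∀ e, Bd {p | P p ∧ p.natDegree = 2 * e} (fun _ => 1) (N e))
    (hK : Bd {b | b ∈ OW R τ (L + 1) ×ˢ PolW F (2 * L) ∧ tO (L + 1) b.1 / 2 + sP (2 * L) b.2 ≤ n}
      (fun b => N (n - (tO (L + 1) b.1 / 2 + sP (2 * L) b.2))) K)
    (D₁ D₂ : ι → Multiset Blk) (h : ι → ℕ → F[X]) (f₁ f₂ : ι → ℕ → Bool)
    (nf : ∀ c, (∃ m, NFo m (D₁ c)) ∧ (∃ m, NFo m (D₂ c)) ∧ PD (2 * (L + 1)) (h c) ∧
      2 * n + τ = ((D₁ c).map Blk.sz).sum + ((D₂ c).map Blk.sz).sum +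
        ∑ i ∈ range (2 * (L + 1)), i * (h c i).natDegree)
    (hR : ∀ c j, R j (wO (f₁ c) (f₂ c) (D₁ c) (D₂ c) j))
    (hP : ∀ c, P (hO (cA (f₁ c 1) (D₁ c) 1) (cA (f₂ c 1) (D₂ c) 1) (h c 1)))
    (inj : ∀ c c', wO (f₁ c) (f₂ c) (D₁ c) (D₂ c) = wO (f₁ c') (f₂ c') (D₁ c') (D₂ c') →
      (∀ i, cA (f₁ c i) (D₁ c) i = cA (f₁ c' i) (D₁ c') i) →
      (∀ i, cA (f₂ c i) (D₂ c) i = cA (f₂ c' i) (D₂ c') i) → h c = h c' → c = c') :
    (Nat.card ι : ℝ) ≤ K := by
  have sz : ∀ c, tO (L + 1) (wO (f₁ c) (f₂ c) (D₁ c) (D₂ c)) + ∑ i ∈ range (2 * L + 2),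
      i * (hO (cA (f₁ c i) (D₁ c) i) (cA (f₂ c i) (D₂ c) i) (h c i)).natDegree = 2 * n + τ := by
    intro c
    obtain ⟨⟨_, a1⟩, ⟨_, a2⟩, a3, a4⟩ := nf c
    rw [a4, a1.sz (L := L + 1) (by omega) (f₁ c), a2.sz (L := L + 1) (by omega) (f₂ c)]
    simp only [tO, wO, (a3.pal _).natDegree_hO, mul_add _ (_ + _), mul_add _ (nb _),
      mul_add _ (2 * cA _ _ _), sum_add_distrib, mul_add_one 2 L]
    ring
  have ev : ∀ c, Even (∑ i ∈ range (2 * L + 2),
      i * (hO (cA (f₁ c i) (D₁ c) i) (cA (f₂ c i) (D₂ c) i) (h c i)).natDegree) := fun c =>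
    even_sum _ fun i _ => (((nf c).2.2.1.pal i).hO _ _).even.mul_left i
  have bg : ∀ c i, 2 * L + 2 ≤ i → ∀ p s, (D₁ c).count (p, i, s) = 0 ∧ (D₂ c).count (p, i, s) = 0 :=
    fun c i hi p s => by
      have := (nf c).2.2.2
      exact ⟨count_big (by omega) hi p s, count_big (by omega) hi p s⟩
  have z : ∀ c, cA (f₁ c 0) (D₁ c) 0 = 0 ∧ cA (f₂ c 0) (D₂ c) 0 = 0 := fun c => by
    obtain ⟨⟨_, a1⟩, ⟨_, a2⟩, -⟩ := nf c
    simp [cA, cF, a1.cts 0, a2.cts 0]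
  refine card_le_code (sA := fun w => tO (L + 1) w / 2) N P hN hK _
    (fun c i => hO (cA (f₁ c i) (D₁ c) i) (cA (f₂ c i) (D₂ c) i) (h c i))
    (fun c => ⟨hR c, fun j hj => by simp [wO, bt, cF, bg c (2 * j + 1) (by omega)], ?_⟩)
    (fun c i => ((nf c).2.2.1.pal i).hO _ _)
    (fun c i hi => by simp [hO, cA, cF, bg c i hi, (nf c).2.2.1.big i hi]) hP (fun c => ?_)
    fun c c' e1 e2 => ?_
  · have := sz c
    have := Nat.even_iff.1 (ev c)
    omega
  · have := sz c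
    have := Nat.even_iff.1 (ev c)
    omega
  have e3 : ∀ i, cA (f₁ c i) (D₁ c) i = cA (f₁ c' i) (D₁ c') i ∧
      cA (f₂ c i) (D₂ c) i = cA (f₂ c' i) (D₂ c') i ∧ h c i = h c' i := fun i => by
    cases i with
    | zero => simp [z, (nf _).2.2.1.zero]
    | succ i =>
      have t : (1 : F) + 1 ≠ 0 := by rwa [one_add_one_eq_two]
      obtain ⟨a1, a2⟩ := pow_mul_cancel (by simp [t, (nf c).2.2.1.one])
        (by simp [t, (nf c').2.2.1.one]) (e2 i)
      obtain ⟨a3, a4⟩ := pow_mul_cancel ((nf c).2.2.1.neg _) ((nf c').2.2.1.neg _) a2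
      exact ⟨by omega, by omega, a4⟩
  exact inj c c' e1 (fun i => (e3 i).1) (fun i => (e3 i).2.1) (funext fun i => (e3 i).2.2)

variable {V : Type*} [AddCommGroup V] [Module F V] {Q : QuadraticForm F V} {g g' n : Module.End F V}
  {α : F} {b b' : Blk} {L : ℕ} {D₁ D₂ D₁' D₂' : Multiset Blk} {h : ℕ → F[X]}

theorem IsBlk.coord {p s : Bool} {U : Submodule F V} {x y v : V} (B : IsBlk Q n α (p, m, s) U x y)
    (hv : v ∈ U) : ∃ a c : Fin m → F, ∑ j, a j • (n ^ (j : ℕ)) x + ∑ j, c j • (n ^ (j : ℕ)) y = v := by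
  rw [B.eq, cy_eq_span B.kx, cy_eq_span B.ky] at hv
  obtain ⟨_, h1, _, h2, rfl⟩ := Submodule.mem_sup.1 hv
  obtain ⟨a, rfl⟩ := (Submodule.mem_span_range_iff_exists_fun _).1 h1
  obtain ⟨c, rfl⟩ := (Submodule.mem_span_range_iff_exists_fun _).1 h2
  exact ⟨a, c, rfl⟩

/-- a block of one type can be moved into a block of another type -/
def Mv (Q : QuadraticForm F V) (α : F) (b b' : Blk) : Prop := ∃ n n' U x y U' x' y', ∃ σ : OG Q,
  UI Q n ∧ UI Q n' ∧ IsBlk Q n α b U x y ∧ IsBlk Q n' α b' U' x' y' ∧ ∀ v ∈ U, σ.1 v ∈ U'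

variable [FiniteDimensional F V] [Finite F]

theorem Full.mv₁ (hQ : ND Q) (hg : ∀ v, Q (g v) = Q v) (hg' : ∀ v, Q (g' v) = Q v)
    (a : Full Q g α L ⊤ D₁ D₂ h) (a' : Full Q g' α L ⊤ D₁' D₂ h) (hb : b ∈ D₁) (hb' : b' ∈ D₁')
    (e : D₁.erase b = D₁'.erase b') : Mv Q α b b' := by
  obtain ⟨U, x, y, W, B, a1, a2, a3⟩ := a.inv₁ hb
  obtain ⟨U', x', y', W', B', b1, b2, b3⟩ := a'.inv₁ hb'
  obtain ⟨σ, hσ⟩ := (a1.lnk' hg hg' (e ▸ b1)).witt hQ a3 b3 a2 b2
  exact ⟨_, _, U, x, y, U', x', y', σ, uI_of hg (mul_one _), uI_of hg' (mul_one _), B, B', hσ⟩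

theorem Full.mv₂ (hQ : ND Q) (hg : ∀ v, Q (g v) = Q v) (hg' : ∀ v, Q (g' v) = Q v)
    (a : Full Q g α L ⊤ D₁ D₂ h) (a' : Full Q g' α L ⊤ D₁ D₂' h) (hb : b ∈ D₂) (hb' : b' ∈ D₂')
    (e : D₂.erase b = D₂'.erase b') : Mv Q α b b' := by
  obtain ⟨U, x, y, W, B, a1, a2, a3⟩ := a.inv₂ hb
  obtain ⟨U', x', y', W', B', b1, b2, b3⟩ := a'.inv₂ hb'
  obtain ⟨σ, hσ⟩ := (a1.lnk' hg hg' (e ▸ b1)).witt hQ a3 b3 a2 b2
  exact ⟨_, _, U, x, y, U', x', y', σ, uI_of hg (by simp), uI_of hg' (by simp), B, B', hσ⟩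

omit [FiniteDimensional F V] [Finite F] in
theorem not_mv_one (hα : ¬ IsSquare α) (s : Bool) : ¬ Mv Q α (false, 1, s) (false, 1, !s) := by
  rintro ⟨n, n', U, x, y, U', x', y', σ, -, -, B, B', hσ⟩
  obtain ⟨a, c, e⟩ := B'.coord (hσ x B.x_mem)
  have h1 := B.qx 0
  have h2 := B'.qx 0
  have h3 := congrArg Q e
  cases s <;> simp [Blk.qx, B'.y0 rfl, Q_smul] at h1 h2 h3 <;> rw [h1, h2] at h3
  · have : a 0 ≠ 0 := by rintro e; simp [e] at h3
    exact hα ⟨(a 0)⁻¹, by field_simp; linear_combination h3⟩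
  · exact hα ⟨a 0, by linear_combination -h3⟩

end Cfsg.Agent.H6N
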