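import Cfsg.Agent.H6.Od
import Cfsg.Agent.H7.Ext

/-!
Upper bounds for class numbers of orthogonal groups in odd characteristic.
-/

set_option autoImplicit false

namespace Cfsg.Agent.H6N

open QuadraticMap Module H7 Polynomial Finset
open scoped Classical

variable {F V : Type*} [Field F] [Fintype F] [AddCommGroup V] [Module F V] [FiniteDimensional F V]
  {Q : QuadraticForm F V} {n : ℕ} {α : F}

local notation "q" => (Fintype.card F : ℝ)

instance finite_OG : Finite (OG Q) :=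
  have : Finite V := Module.finite_of_finite F
  have : Finite (V ≃ₗ[F] V) := Finite.of_injective _ DFunLike.coe_injective
  inferInstance

instance finite_cc {G : Type*} [Monoid G] [Finite G] : Finite (ConjClasses G) := Quotient.finite _

theorem cc_eq {G : Type*} [Monoid G] {c c' : ConjClasses G} (h : IsConj c.out c'.out) : c = c' :=
  (Quotient.out_eq c).symm.trans ((ConjClasses.mk_eq_mk_iff_isConj.2 h).trans (Quotient.out_eq c'))

theorem three_le_q (two : (2 : F) ≠ 0) : 3 ≤ q := by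
  have := card_odd_of_two_ne_zero two
  have := Fintype.one_lt_card (α := F)
  exact_mod_cast (by omega : 3 ≤ Fintype.card F)

theorem exists_nonsq (two : (2 : F) ≠ 0) : ∃ α : F, ¬ IsSquare α :=
  FiniteField.exists_nonsquare (mt FiniteField.even_card_iff_char_two.1
    (by have := card_odd_of_two_ne_zero two; omega))

theorem odd_data (two : (2 : F) ≠ 0) (hα : ¬ IsSquare α) (hQ : ND Q) {g : Module.End F V}
    (hg : ∀ v, Q (g v) = Q v) {N L : ℕ} (hV : finrank F V = N) (hL : N < L) :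
    ∃ D₁ D₂ h, Full Q g α L ⊤ D₁ D₂ h ∧ (∃ m, NFo m D₁) ∧ (∃ m, NFo m D₂) ∧ PD L h ∧
      N = (D₁.map Blk.sz).sum + (D₂.map Blk.sz).sum + ∑ i ∈ range L, i * (h i).natDegree := by
  obtain ⟨D₁, D₂, h, a1, a2, a3, -, a4⟩ := exists_full (α := α) hQ hg (fun D => ∃ m, NFo m D)
    (fun c hc W m hW hm => let ⟨D, h1, h2⟩ := nf_odd (uI_of hg hc) two hα hW hm; ⟨D, h1, m, h2⟩)
    (fun D ⟨_, h⟩ b hb => (h.le b hb).1) (hV ▸ hL)
  exact ⟨D₁, D₂, h, a1, a2, a3, hV ▸ a4⟩

theorem ext_of_counts {D D' : Multiset Blk} (t : ∀ p k, D.count (p, k, false) + D.count (p, k, true) =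
    D'.count (p, k, false) + D'.count (p, k, true) ∧ D.count (p, k, true) = D'.count (p, k, true)) :
    D = D' := Multiset.ext' fun ⟨p, k, s⟩ => by have := t p k; cases s <;> omega

theorem upper_even_dim (two : (2 : F) ≠ 0) (hQ : ND Q) (hV : finrank F V = 2 * n) :
    (Nat.card (ConjClasses (OG Q)) : ℝ) ≤ 9.5 * q ^ n := by
  obtain ⟨α, hα⟩ := exists_nonsq two
  choose D₁ D₂ h a1 a2 using fun c : ConjClasses (OG Q) => odd_data two hα hQ
    (g := (Quotient.out c : OG Q).1.toLinearMap) (OG.map_Q _) hV (show _ < 2 * (n + 1) by omega)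
  have q3 := three_le_q two
  let r : ConjClasses (OG Q) → Prop := fun c => cF true (D₁ c) 1 % 2 = 0 ∧ cF true (D₂ c) 1 % 2 = 1
  have hr : ∀ c f₁ f₂, r c ↔ nb (bt f₁ (D₁ c) 1) % 2 = 0 ∧ nb (bt f₂ (D₂ c) 1) % 2 = 1 := by
    intro c f₁ f₂
    obtain ⟨⟨_, b1⟩, ⟨_, b2⟩, -⟩ := a2 c
    have := b1.nb_bt f₁ 1
    have := b2.nb_bt f₂ 1
    simp only [r, cF, if_true]; omega
  refine (odd_count two (τ := 0) (L := n) zero_le_one (by omega) (q ^ ·) Pal bd_pal
    (bd_comb (inv_anti₀ three_pos q3) (bdO_even _) (bd_pol3 q3 _) n) D₁ D₂ h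
    (fun c i => decide (i = 1 ∧ ¬ r c)) (fun c i => decide (i = 1 ∧ r c)) a2 (fun c j => ?_)
    (fun c => ((a2 c).2.2.1.pal 1).hO _ _) fun c c' e1 e2 e3 e4 => ?_).trans ?_
  · rcases eq_or_ne j 0 with rfl | hj
    · simp only [R0, wO, mul_zero, zero_add, ← hr]
      by_cases h : r c <;> simp [h, bt]
    · simp [R0, hj]
  swap
  · rw [mul_comm]; gcongr; norm_num
  have e5 : r c ↔ r c' := by
    have := congrFun e1 0
    simp only [wO, mul_zero, zero_add, Prod.mk.injEq] at this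
    rw [hr c, this.1, this.2, ← hr]
  obtain ⟨⟨_, b1⟩, ⟨_, b2⟩, -⟩ := a2 c
  obtain ⟨⟨_, b3⟩, ⟨_, b4⟩, -⟩ := a2 c'
  simp only [e5] at e1 e2 e3
  have k1 := b1.recover b3 _ e2 fun j => congrArg Prod.fst (congrFun e1 j)
  have k2 := b2.recover b4 _ e3 fun j => congrArg Prod.snd (congrFun e1 j)
  have c1 := a1 c
  rw [e4] at c1
  have : D₁ c = D₁ c' ∧ D₂ c = D₂ c' := by
    by_cases hc : r c'
    · have e6 := ext_of_counts fun p k => ⟨(k1 p k).1, (k1 p k).2 (by simp [hc])⟩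
      refine ⟨e6, (near (fun p k => (k2 p k).1) (b2.cnt 1) (b4.cnt 1) fun p k e =>
        (k2 p k).2 (by rintro rfl; simp_all)).resolve_right fun ⟨s, h1, h2, h3⟩ => not_mv_one hα s
        ((e6 ▸ c1).mv₂ hQ (OG.map_Q _) (OG.map_Q _) (a1 c') h1 h2 h3)⟩
    · have e6 := ext_of_counts fun p k => ⟨(k2 p k).1, (k2 p k).2 (by simp [hc])⟩
      refine ⟨(near (fun p k => (k1 p k).1) (b1.cnt 1) (b3.cnt 1) fun p k e =>
        (k1 p k).2 (by rintro rfl; simp_all)).resolve_right fun ⟨s, h1, h2, h3⟩ => not_mv_one hα s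
        ((e6 ▸ c1).mv₁ hQ (OG.map_Q _) (OG.map_Q _) (a1 c') h1 h2 h3), e6⟩
  rw [this.1, this.2] at c1
  exact cc_eq ((c1.lnk' (OG.map_Q _) (OG.map_Q _) (a1 c')).isConj hQ)

theorem upper_odd_dim (two : (2 : F) ≠ 0) (hQ : ND Q) (hV : finrank F V = 2 * n + 1) {x C : ℝ}
    (hx : q⁻¹ ≤ x) (hC : Bd (OW (fun _ _ => true) 1 (n + 1)) (fun w => x ^ (tO (n + 1) w / 2)) C) :
    2 * (Nat.card (ConjClasses (OG Q)) : ℝ) ≤ q ^ n * (1.78575 * C) := by
  obtain ⟨α, hα⟩ := exists_nonsq two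
  have a0 : α ≠ 0 := fun e => hα (e ▸ IsSquare.zero)
  let a : Bool → F := fun t => if t then α else 1
  have ha : ∀ t, a t ≠ 0 := fun t => by cases t <;> simp [a, a0]
  have nd : ∀ t, ND (a t • Q) := fun t => ND.sim hQ (.refl F V) (ha t) fun _ => rfl
  have iso : ∀ t (g : OG Q) v, (a t • Q) (g.1.toLinearMap v) = (a t • Q) v := fun t g v => by simp
  choose D₁ D₂ h a1 a2 using fun c : ConjClasses (OG Q) × Bool => odd_data two hα (nd c.2)
    (iso _ c.1.out) hV (show _ < 2 * (n + 1) by omega)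
  have := odd_count two (τ := 1) (L := n) le_rfl (by omega) (q ^ ·) Pal bd_pal
    (bd_comb hx hC (bd_pol3 (three_le_q two) _) n) D₁ D₂ h (fun _ _ => false) (fun _ _ => false) a2
    (by simp) (fun c => ((a2 c).2.2.1.pal 1).hO _ _) fun c c' e1 e2 e3 e4 => by
    obtain ⟨⟨_, b1⟩, ⟨_, b2⟩, -⟩ := a2 c
    obtain ⟨⟨_, b3⟩, ⟨_, b4⟩, -⟩ := a2 c'
    have k1 := b1.recover b3 (fun _ => false) e2 fun j => congrArg Prod.fst (congrFun e1 j)
    have k2 := b2.recover b4 (fun _ => false) e3 fun j => congrArg Prod.snd (congrFun e1 j)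
    have c1 := a1 c
    rw [e4, ext_of_counts fun p k => ⟨(k1 p k).1, (k1 p k).2 fun _ => rfl⟩,
      ext_of_counts fun p k => ⟨(k2 p k).1, (k2 p k).2 fun _ => rfl⟩] at c1
    obtain ⟨e, h1, -, h2⟩ := (c1.lnk' (iso _ _) (iso _ _) (a1 c')).equiv (nd _) (nd _)
    have h3 : ∀ v, Q (e v) = (a c.2 / a c'.2) * Q v := fun v => by
      have := h2 trivial v
      have := ha c'.2
      field_simp
      simpa [mul_comm] using h2 trivial v
    have h4 := congrArg chi (det_sq_of_similarity hQ e.toLinearMap _ h3)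
    rw [chi_sq e.isUnit_det'.ne_zero, hV, pow_succ, pow_mul', map_mul,
      chi_sq (pow_ne_zero _ (div_ne_zero (ha _) (ha _))), one_mul, eq_comm,
      chi_eq_one_iff (div_ne_zero (ha _) (ha _))] at h4
    have h5 : c.2 = c'.2 := by
      revert h4
      cases c.2 <;> cases c'.2 <;> simp [a, hα]
    rw [h5, div_self (ha _)] at h3
    exact Prod.ext (cc_eq (isConj_iff.2 ⟨⟨e, fun v => by simpa using h3 v⟩,
      mul_inv_eq_iff_eq_mul.2 (OG.ext' h1)⟩)) h5
  simpa [mul_comm] using this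

end Cfsg.Agent.H6N
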