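import Cfsg.Agent.H6.Idx

/-!
Class numbers of the groups `Ω(2n+1,q)`.
-/

set_option autoImplicit false

namespace Cfsg.Agent.H6N

open QuadraticMap Module H7 Polynomial Finset
open scoped Classical

variable {F V : Type*} [Field F] [Fintype F] [AddCommGroup V] [Module F V] [FiniteDimensional F V]
  {Q : QuadraticForm F V} {n : ℕ} {α : F}

local notation "q" => (Fintype.card F : ℝ)

theorem theta_cyc (two : (2 : F) ≠ 0) (hQ : ND Q) (l : ℕ) : ∃ κ : ℤ, κ * κ = 1 ∧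
    ∀ (n : Module.End F V) x, UI Q n → (n ^ (2 * l + 1)) x = 0 → Q ((n ^ l) x) ≠ 0 → ∃ ρ : OG Q,
      (∀ v, ρ.1 (n v) = n (ρ.1 v)) ∧ rk ρ = 2 * l + 1 ∧ theta ρ = κ * chi (Q ((n ^ l) x)) := by
  let σ : F := (Equiv.Perm.sign (Fin.revPerm (n := 2 * l + 1)) : ℤ)
  have σ2 : σ * σ = 1 := by rw [← Int.cast_mul, ← Units.val_mul, Int.units_mul_self]; simp
  let κ : F := σ * ∏ i : Fin (2 * l + 1), (2 * (-1) ^ (i : ℕ) * (-1) ^ l * 2)
  refine ⟨chi κ, chi_mul_self (mul_ne_zero (left_ne_zero_of_mul_eq_one σ2)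
    (prod_ne_zero_iff.2 fun i _ => by simp [two])), fun n x u hx d => ?_⟩
  have h0 : polar Q x ((n ^ (2 * l)) x) = (-1) ^ l * 2 * Q ((n ^ l) x) := by
    rw [mul_assoc, ← B_self, u.t1' hx (two_mul l).symm, ← mul_assoc, ← mul_pow]; simp
  obtain ⟨h1, h2⟩ := cy_split u hx (by simp [h0, two, d])
  have h3 : IsCompl (cy n x) (perp Q (cy n x)) := ⟨Submodule.disjoint_def.2 fun v a b =>
    hQ.eq_zero fun w => by
      obtain ⟨z, c1, c2⟩ := h2 w
      rw [← sub_add_cancel w z, polar_add_right, mem_perp.1 c2 v a, B_comm, mem_perp.1 b z c1, add_zero],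
    codisjoint_iff_le_sup.2 fun w _ => let ⟨z, c1, c2⟩ := h2 w
      Submodule.mem_sup.2 ⟨z, c1, _, c2, by simp⟩⟩
  obtain ⟨ρ, hρ⟩ : ∃ ρ : OG Q, ∀ a ∈ cy n x, ∀ b ∈ perp Q (cy n x), ρ.1 (a + b) = -a + b :=
    ⟨OG.congr _ (Q_prodEquivOfIsCompl h3) (sumHom _ _ (negOne _, 1)), fun a ha b hb => by
      rw [OG.congr_apply, show a + b = Submodule.prodEquivOfIsCompl _ _ h3 (⟨a, ha⟩, ⟨b, hb⟩) from rfl,
        LinearEquiv.symm_apply_apply]; rfl⟩
  have dc : ∀ v, ∃ a ∈ cy n x, ∃ b ∈ perp Q (cy n x), a + b = v := fun v =>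
    Submodule.mem_sup.1 (h3.sup_eq_top.ge trivial)
  have h4 : fixS ρ = perp Q (cy n x) := Submodule.ext fun v => by
    obtain ⟨a, ha, b, hb, rfl⟩ := dc v
    rw [mem_fixS, hρ a ha b hb, add_left_inj, neg_eq_iff_add_eq_zero, ← two_smul F, smul_eq_zero,
      or_iff_right two, Submodule.add_mem_iff_left _ hb]
    exact ⟨fun e => e ▸ zero_mem _, Submodule.disjoint_def.1 h3.1 a ha⟩
  have h5 : IsQB (fixS ρ) fun i : Fin (2 * l + 1) => (n ^ (i : ℕ)) x := h4 ▸ ⟨fun c hc => funext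
    (Fintype.linearIndependent_iff.1 (linearIndependent_iff_card_eq_finrank_span.2 (by
      rw [Set.finrank, ← cy_eq_span hx, h1, Fintype.card_fin])) c (Submodule.disjoint_def.1 h3.1 _
      (sum_mem fun i _ => Submodule.smul_mem _ _ (pw_mem_cy _)) hc)), fun v => by
      obtain ⟨z, c1, c2⟩ := h2 v
      rw [cy_eq_span hx] at c1
      obtain ⟨c, rfl⟩ := (Submodule.mem_span_range_iff_exists_fun _).1 c1
      exact ⟨c, c2⟩⟩
  refine ⟨ρ, fun v => ?_, by rw [rk_eq, ← h5.card_eq], ?_⟩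
  · obtain ⟨a, ha, b, hb, rfl⟩ := dc v
    rw [map_add n, hρ a ha b hb, hρ _ (cy_inv a ha) _ (u.perp_inv hx b hb), map_add, map_neg]
  have h6 : ∀ i j : Fin (2 * l + 1), gram (wall ρ) (fun i : Fin (2 * l + 1) => (n ^ (i : ℕ)) x) i j =
      2 * polar Q ((n ^ (i : ℕ)) x) ((n ^ (j : ℕ)) x) := fun i j => by
    have := hρ _ (pw_mem_cy i) 0 (zero_mem _)
    rw [add_zero, add_zero] at this
    rw [gram, Matrix.of_apply, wall_apply, this, sub_neg_eq_add, polar_add_left, ← two_mul]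
  have h7 := Matrix.det_permute' Fin.revPerm
    (gram (wall ρ) fun i : Fin (2 * l + 1) => (n ^ (i : ℕ)) x)
  rw [Matrix.det_of_isUpperTriangular fun i j hij => by
    rw [Matrix.submatrix_apply, h6, u.t0' hx (by have : (j : ℕ) < i := hij; simp; omega), mul_zero]]
    at h7
  replace h7 : ∏ i : Fin (2 * l + 1), 2 * (-1) ^ (i : ℕ) * (-1) ^ l * 2 * Q ((n ^ l) x) = _ :=
    Eq.trans (prod_congr rfl fun i _ => by
      rw [Matrix.submatrix_apply, h6, u.t1' hx (by simp; omega), h0]; simp; ring) h7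
  rw [prod_mul_distrib, prod_const, card_fin] at h7
  rw [theta_eq ρ h5, ← one_mul (Matrix.det _), ← σ2, mul_assoc, ← h7, ← mul_assoc, map_mul, pow_succ,
    pow_mul', map_mul _ _ (Q _), chi_sq (pow_ne_zero _ d), one_mul]

theorem bd_pal3 (two : (2 : F) ≠ 0) (h3 : Fintype.card F = 3) (e : ℕ) :
    Bd {p : F[X] | (Pal p ∧ p.eval 1 ≠ 0 ∧ p.eval (-1) ≠ 0) ∧ p.natDegree = 2 * e} (fun _ => 1)
      (if e = 0 then 1 else 4 / 9 * q ^ e) := by
  rcases e with _ | _ | e
  · exact (bd_pal 0).mono (fun p hp => ⟨hp.1.1, hp.2⟩) (fun _ _ => le_rfl) (by simp)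
  · have t : (2 : F) ≠ -2 := fun e => mul_ne_zero two two (by linear_combination e)
    have h1 : ∀ c : F, c ∈ ({0, 2, -2} : Finset F) := fun c => eq_univ_of_card _ (by
      rw [h3, card_eq_three]; exact ⟨_, _, _, two.symm, by simpa using two, t, rfl⟩) ▸ mem_univ c
    have h2 : ∀ p : F[X], (Pal p ∧ p.eval 1 ≠ 0 ∧ p.eval (-1) ≠ 0) ∧ p.natDegree = 2 * (0 + 1) →
        p.coeff 1 = 0 := fun p ⟨⟨a, b, c⟩, d⟩ => by
      have h4 := a.monic.coeff_natDegree
      have h5 := (a.coeff (zero_add _)).trans h4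
      rw [eval_eq_sum_range] at b c
      rw [d] at h4 b c
      simp [sum_range_succ, h4, h5] at b c
      have := h1 (p.coeff 1)
      simp only [mem_insert, mem_singleton] at this
      rcases this with e | e | e
      exacts [e, absurd (by rw [e]; ring) c, absurd (by rw [e]; ring) b]
    refine (bd_card (fun _ => ()) fun p hp p' hp' _ => hp.1.1.ext hp'.1.1 hp.2 hp'.2 fun i a b => by
      rw [show i = 1 by omega, h2 p hp, h2 p' hp']).mono le_rfl (fun _ _ => le_rfl) (by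
      norm_num [h3])
  refine Bd.map (v := fun _ => 1) (.of_finset ((univ : Finset (Fin e → F)) ×ˢ (univ.erase (0 : F)) ×ˢ
    (univ.erase (0 : F))) le_rfl (by simp) (by simp [h3]; linarith [pow_add (3 : ℝ) e 2]))
    (fun p => (fun i => p.coeff (i + 1), p.eval 1, p.eval (-1))) (fun p hp p' hp' h => ?_)
    (fun p hp => by simp [hp.1.2]) fun _ _ => le_rfl
  simp only [Prod.mk.injEq] at h
  have c' : ∀ i ≤ e, p.coeff i = p'.coeff i := fun i hi => by
    rcases i with _ | i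
    · rw [hp.1.1.coeff (zero_add _), hp'.1.1.coeff (zero_add _), hp.1.1.monic.coeff_natDegree,
        hp'.1.1.monic.coeff_natDegree]
    · exact congrFun h.1 ⟨i, hi⟩
  have := hp.2
  have := hp'.2
  have h1 : p - p' = monomial (e + 1) (p.coeff (e + 1) - p'.coeff (e + 1)) + monomial (e + 2)
      (p.coeff (e + 2) - p'.coeff (e + 2)) + monomial (e + 3) (p.coeff (e + 1) - p'.coeff (e + 1)) := by
    ext i
    simp only [coeff_sub, coeff_add, coeff_monomial]
    split_ifs <;> try omega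
    · simp [*]
    · simp [*]
    · rw [hp.1.1.coeff (j := e + 1) (by omega), hp'.1.1.coeff (j := e + 1) (by omega)]; simp
    by_cases h1 : i ≤ e
    · simp [c' i h1]
    by_cases h2 : i ≤ 2 * e + 4
    · rw [hp.1.1.coeff (j := 2 * e + 4 - i) (by omega), hp'.1.1.coeff (j := 2 * e + 4 - i) (by omega),
        c' _ (by omega)]; simp
    · rw [coeff_eq_zero_of_natDegree_lt (by omega), coeff_eq_zero_of_natDegree_lt (by omega)]; simp
  have h2 := congrArg (eval 1) h1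
  have h4 := congrArg (eval (-1)) h1
  simp only [eval_sub, eval_add, eval_monomial, h.2.1, h.2.2, sub_self, one_pow, pow_succ] at h2 h4
  have h5 : (2 * 2 * (-1) ^ e : F) * (p.coeff (e + 1) - p'.coeff (e + 1)) = 0 := by
    linear_combination h4 - (-1) ^ e * h2
  replace h5 := (mul_eq_zero.1 h5).resolve_left (by simp [two])
  rw [← sub_eq_zero, h1, h5, show p.coeff (e + 2) - p'.coeff (e + 2) = 0 by
    linear_combination -h2 - 2 * h5]; simp

theorem bd_ref (h3 : Fintype.card F = 3) (hn : 2 ≤ n) :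
    Bd {b | b ∈ OW (fun _ a => !a.1.2 && !a.2.2) 1 (n + 1) ×ˢ PolW F (2 * n) ∧
      tO (n + 1) b.1 / 2 + sP (2 * n) b.2 ≤ n} (fun b => if n - (tO (n + 1) b.1 / 2 + sP (2 * n) b.2) = 0
      then 1 else 4 / 9 * q ^ (n - (tO (n + 1) b.1 / 2 + sP (2 * n) b.2))) (q ^ n * 4.983) := by
  have q3 : q = 3 := by rw [h3]; rfl
  have h1 := (bdO_two (n + 1)).prod (bd_pol3 q3.ge (2 * n)) fun _ => by positivity
  let f : Fin 2 × Bool → (ℕ → Let) × (ℕ → F[X]) := fun p =>
    (Function.update (fun _ => ((false, false), (false, false))) p.1 ((p.2, false), (!p.2, false)), 1)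
  have h2 : ∀ p, tO (n + 1) (f p).1 = 2 * p.1 + 1 ∧ sP (2 * n) (f p).2 = 0 := fun p => ⟨by
    rw [tO, sum_eq_single (p.1 : ℕ) (fun j _ e => by simp [f, e, nb]) (by simp; omega)]
    cases h : p.2 <;> simp [f, h, nb], by simp [f, sP]⟩
  have h4 := h1.ite (univ.image f) (by
    simp only [coe_image, coe_univ, Set.image_univ, Set.range_subset_iff]
    refine fun p => ⟨⟨fun j => ?_, fun j hj => by simp [f, show j ≠ p.1 by omega], by
      rw [(h2 p).1]; omega⟩, fun _ => pal_one, fun _ _ => rfl⟩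
    by_cases e : j = p.1 <;> simp [f, e]) (fun b => tO (n + 1) b.1 / 2 + sP (2 * n) b.2 = n) (by
    simp only [mem_image, mem_univ, true_and]
    rintro _ ⟨p, rfl⟩
    rw [(h2 p).1, (h2 p).2]; omega)
  rw [sum_image fun a _ b _ e => by
    have := congrArg (tO (n + 1) ·.1) e
    simp only [h2] at this
    have h5 : a.1 = b.1 := Fin.ext (by omega)
    exact Prod.ext h5 (by simpa [f, h5] using congrArg (·.1 b.1) e)] at h4
  simp only [h2, Fintype.sum_prod_type, Fin.sum_univ_two] at h4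
  refine (((h1.smul (c := 4 / 9) (by norm_num)).add (h4.smul (c := 5 / 9) (by norm_num))).smul
    (c := q ^ n) (by positivity)).mono (fun _ h => h.1) (fun b hb => ?_) (by gcongr; norm_num)
  rw [q3, ← pow_add]
  by_cases e : tO (n + 1) b.1 / 2 + sP (2 * n) b.2 = n
  · rw [e, if_pos rfl, if_pos n.sub_self, inv_pow]; field_simp; norm_num
  · rw [if_neg e, if_neg (by have := hb.2; omega), pow_sub₀ _ (by norm_num) hb.2, inv_pow]
    linarith

theorem upper_split (two : (2 : F) ≠ 0) (h3 : Fintype.card F = 3) (hn : 2 ≤ n) (hQ : ND Q)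
    (hV : finrank F V = 2 * n + 1) (ψ : OG Q →* ℤˣ) (ε : ℤ)
    (hψ : ∀ ρ, ψ ρ = 1 → Odd (rk ρ) → theta ρ = ε) : (Nat.card {C // Spl ψ C} : ℝ) ≤ q ^ n * 4.983 := by
  obtain ⟨α, hα⟩ := exists_nonsq two
  have a0 : α ≠ 0 := fun e => hα (e ▸ IsSquare.zero)
  choose κ hκ using theta_cyc two hQ
  let g : {C // Spl ψ C} → OG Q := fun c => c.1.out
  have sg : ∀ c (a : F), a * a = 1 → ∀ l x, ((a • (g c).1.toLinearMap - 1 : Module.End F V) ^
      (2 * l + 1)) x = 0 → ∀ d, Q (((a • (g c).1.toLinearMap - 1 : Module.End F V) ^ l) x) = d →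
      d ≠ 0 → κ l * chi d = ε := by
    rintro c a ha l x hx _ rfl hd
    obtain ⟨ρ, h1, h2, h4⟩ := (hκ l).2 _ x (uI_of (OG.map_Q _) ha) hx hd
    refine h4 ▸ hψ ρ (c.2 _ _ (Quotient.out_eq _) (OG.ext' fun v => ?_)) (by simp [h2])
    simpa [left_ne_zero_of_mul_eq_one ha, eq_comm] using h1 v
  have sg' : ∀ c (a : F), a * a = 1 → ∀ K D m, Dec Q (a • (g c).1.toLinearMap - 1) α K D → NFo m D →
      (∀ k s, (false, k, s) ∈ D → κ (k / 2) * (if s then -1 else 1) = ε) ∧ cA true D 1 = 0 := by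
    intro c a ha K D m d nf
    have h1 : ∀ s : Bool, (if s then α else 1) ≠ 0 := fun s => by cases s <;> simp [a0]
    refine ⟨fun k s hk => ?_, ?_⟩
    · obtain ⟨U, x, y, B, -⟩ := d.mem hk
      obtain ⟨l, rfl⟩ : Odd k := by simpa using nf.par _ hk
      have := sg c a ha l x B.kx _ (B.qx l) (by simpa [Blk.qx] using h1 s)
      rw [show (2 * l + 1) / 2 = l by omega, ← this]
      cases s <;> simp [Blk.qx, chi_eq_neg_one_iff.2 hα]
    rw [cA, (nf.cts 1).2.2.2.1 rfl, zero_add, Nat.div_eq_zero_iff, or_iff_right two_ne_zero]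
    by_contra! h7
    obtain ⟨s₁, s₂, a1, a2⟩ : ∃ s₁ s₂, (false, 1, s₁) ∈ D ∧ (false, 1, s₂) ∈ D.erase (false, 1, s₁) := by
      simp only [Bool.exists_bool, ← Multiset.one_le_count_iff_mem, Multiset.count_erase_self]
      rw [Multiset.count_erase_of_ne (by simp), Multiset.count_erase_of_ne (by simp)]
      simp only [cF, if_true] at h7
      omega
    obtain ⟨U₁, x₁, y₁, W₁, B₁, a3, a4, rfl⟩ := d.inv a1
    obtain ⟨U₂, x₂, y₂, B₂, a5, -⟩ := a3.mem a2
    obtain ⟨u, v, e⟩ := exists_sq_comb two (h1 s₁) (h1 s₂) (α * if s₁ then α else 1)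
    have b1 := sg c a ha 0 x₁ B₁.kx _ (B₁.qx 0) (by simpa [Blk.qx] using h1 s₁)
    have b2 := sg c a ha 0 (u • x₁ + v • x₂) (by
      rw [map_add, map_smul, map_smul, B₁.kx, B₂.kx]; simp) _ (by
      rw [q_comb, pol_perp B₁.inv a3.nInv a4 B₁.x_mem a5, B₁.qx, B₂.qx, mul_zero, add_zero]
      exact e) (mul_ne_zero a0 (h1 s₁))
    rw [map_mul, chi_eq_neg_one_iff.2 hα, ← b1] at b2
    have b3 := (hκ 0).1
    have b4 := chi_mul_self (h1 s₁)
    change _ = _ * chi (if s₁ then α else 1) at b2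
    have : (2 : ℤ) = 0 := by
      linear_combination -κ 0 * chi (if s₁ then α else 1) * b2 - 2 * chi (if s₁ then α else 1) ^ 2 * b3
        - 2 * b4
    simp at this
  choose D₁ D₂ h a1 a2 using fun c => odd_data two hα hQ (g := (g c).1.toLinearMap) (OG.map_Q _) hV
    (show _ < 2 * (n + 1) by omega)
  have k : ∀ c, ((∀ k s, (false, k, s) ∈ D₁ c → κ (k / 2) * (if s then -1 else 1) = ε) ∧
      cA true (D₁ c) 1 = 0) ∧ (∀ k s, (false, k, s) ∈ D₂ c → κ (k / 2) * (if s then -1 else 1) = ε) ∧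
      cA true (D₂ c) 1 = 0 := fun c => by
    obtain ⟨_, _, _, d1, d2, -⟩ := a1 c
    obtain ⟨⟨_, b1⟩, ⟨_, b2⟩, -⟩ := a2 c
    exact ⟨sg' c _ (mul_one _) _ _ _ d1 b1, sg' c _ (by simp) _ _ _ d2 b2⟩
  have key : ∀ {m m' D D'}, NFo m D → NFo m' D' →
      (∀ k s, (false, k, s) ∈ D → κ (k / 2) * (if s then -1 else 1) = ε) →
      (∀ k s, (false, k, s) ∈ D' → κ (k / 2) * (if s then -1 else 1) = ε) →
      (∀ i, cA true D i = cA true D' i) →
      (∀ j, bt true D (2 * j + 1) = bt true D' (2 * j + 1)) → D = D' := fun {m m' D D'} b b' s s' e e' =>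
    ext_of_counts fun p k => by
      have h1 := b.recover b' (fun _ => true) e e' p k
      refine ⟨h1.1, ?_⟩
      cases p
      swap; · exact h1.2 (by simp)
      have h2 : ∀ {D D' : Multiset Blk}, (∀ k s, (false, k, s) ∈ D → κ (k / 2) * (if s then -1 else 1)
          = ε) → (∀ k s, (false, k, s) ∈ D' → κ (k / 2) * (if s then -1 else 1) = ε) →
          D.count (false, k, true) = 0 ∨ D'.count (false, k, false) = 0 := fun s s' => by
        simp only [Multiset.count_eq_zero, ← not_and_or]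
        rintro ⟨a, a'⟩
        have := (s _ _ a).trans (s' _ _ a').symm
        have := (hκ (k / 2)).1
        simp at *
        nlinarith
      have := h1.1
      have := h2 s s'
      have := h2 s' s
      have := h2 s s
      have := h2 s' s'
      omega
  refine odd_count two (τ := 1) (L := n) le_rfl (by omega) _ _ (bd_pal3 two h3) (bd_ref h3 hn) D₁ D₂ h
    (fun _ _ => true) (fun _ _ => true) a2 (by simp [wO, bt]) (fun c => ?_) fun c c' e1 e2 e3 e4 => ?_
  · simpa [k c, hO] using ⟨(a2 c).2.2.1.pal 1, (a2 c).2.2.1.one 1, (a2 c).2.2.1.neg 1⟩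
  obtain ⟨⟨_, b1⟩, ⟨_, b2⟩, -⟩ := a2 c
  obtain ⟨⟨_, b3⟩, ⟨_, b4⟩, -⟩ := a2 c'
  have c1 := a1 c
  rw [e4, key b1 b3 (k c).1.1 (k c').1.1 e2 fun j => congrArg Prod.fst (congrFun e1 j),
    key b2 b4 (k c).2.1 (k c').2.1 e3 fun j => congrArg Prod.snd (congrFun e1 j)] at c1
  exact Subtype.ext (cc_eq ((c1.lnk' (OG.map_Q _) (OG.map_Q _) (a1 c')).isConj hQ))

theorem omega_bounds (two : (2 : F) ≠ 0) (hn : 2 ≤ n) (hQ : ND Q) (hV : finrank F V = 2 * n + 1)
    {N : Type*} [Group N] (j : N →* OG Q) (inj : Function.Injective j)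
    (hj : ∀ g, g ∈ j.range ↔ g ∈ commutator (OG Q)) :
    Fintype.card F ^ n ≤ 2 * Nat.card (ConjClasses N) ∧
      10 * Nat.card (ConjClasses N) ≤ 73 * Fintype.card F ^ n := by
  have hE := nonExc_of_two hQ two
  have d1 : dickHom hQ hE (negOne Q) = -1 := by
    rw [dickHom_apply, rk_negOne two, hV]; exact Odd.neg_one_pow (by simp)
  obtain ⟨ψ, h1, h2, h3⟩ : ∃ ψ : OG Q →* ℤˣ, ψ (negOne Q) = 1 ∧
      (∀ g, dickHom hQ hE g = 1 → ψ g = thetaHom hQ hE g) ∧
      ∀ ρ, ψ ρ = 1 → Odd (rk ρ) → theta ρ = theta (negOne Q) := by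
    rcases Int.units_eq_one_or (thetaHom hQ hE (negOne Q)) with e | e
    · exact ⟨_, e, fun _ _ => rfl, fun ρ a _ => by
        rw [← thetaHom_apply hQ hE, ← thetaHom_apply hQ hE, a, e]⟩
    · exact ⟨thetaHom hQ hE * dickHom hQ hE, by simp [e, d1], fun g a => by simp [a], fun ρ a b => by
        rw [MonoidHom.mul_apply, dickHom_apply, b.neg_one_pow, mul_neg_one, neg_eq_iff_eq_neg] at a
        rw [← thetaHom_apply hQ hE, ← thetaHom_apply hQ hE, a, e]⟩
  have h4 : ∀ g, g ∈ commutator (OG Q) ↔ dickHom hQ hE g = 1 ∧ ψ g = 1 := fun g => by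
    rw [mem_commutator_iff hQ hE, ← dickHom_eq_one_iff hQ hE, ← thetaHom_apply hQ hE, Units.val_eq_one]
    exact and_congr_right fun a => by rw [h2 g a]
  obtain ⟨δ, hδ⟩ := exists_nonsq two
  obtain ⟨u, hu⟩ := exists_Q_eq hQ (by omega) 1
  obtain ⟨v, hv⟩ := exists_Q_eq hQ (by omega) δ
  have u0 : Q u ≠ 0 := hu ▸ one_ne_zero
  have v0 : Q v ≠ 0 := fun e => hδ (hv ▸ e ▸ IsSquare.zero)
  have a := idx2 ψ.ker.subtype ψ.ker.subtype_injective ψ (by simp) (x₀ := refl Q u * refl Q v) (by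
    rw [h2 _ (by rw [map_mul]; simp [dickHom_apply, rk_refl hQ, u0, v0]), Ne, ← Units.val_eq_one, thetaHom_apply,
      theta_mul hQ hE, theta_refl hQ u0, theta_refl hQ v0, hu, hv, chi_eq_neg_one_iff.2 hδ]; simp)
  have b := idx2 (j.codRestrict ψ.ker fun x => ((h4 _).1 ((hj _).1 ⟨x, rfl⟩)).2)
    (fun x y e => inj (congrArg Subtype.val e)) ((dickHom hQ hE).comp ψ.ker.subtype)
    (fun x => ⟨fun e => let ⟨y, hy⟩ := (hj _).2 ((h4 x.1).2 ⟨e, x.2⟩); ⟨y, Subtype.ext hy⟩,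
      by rintro ⟨y, rfl⟩; exact ((h4 _).1 ((hj _).1 ⟨y, rfl⟩)).1⟩) (x₀ := ⟨negOne Q, h1⟩) (by simp [d1])
  rw [(Nat.card_eq_zero (α := {C // Spl _ C})).2 (.inl ⟨fun c => by
    simpa [d1] using c.2 c.1.out ⟨negOne Q, h1⟩ (Quotient.out_eq _)
      (Subtype.ext (OG.ext' fun v => by simp))⟩)] at b
  have c := lower_odd two hQ hV
  refine ⟨by omega, ?_⟩
  rify at a b ⊢
  by_cases h : Fintype.card F = 3
  · have := upper_split two h hn hQ hV ψ _ h3
    have := upper_odd_dim two hQ hV (by simp [h]) (bdO_full _)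
    have : 0 ≤ q ^ n := by positivity
    linarith
  · have h5 : 5 ≤ q := by
      have := card_odd_of_two_ne_zero two
      have := Fintype.one_lt_card (α := F)
      exact_mod_cast (by omega : 5 ≤ Fintype.card F)
    have := upper_odd_dim two hQ hV (inv_anti₀ (by norm_num) h5) (bdO_five _)
    have : (Nat.card {C // Spl ψ C} : ℝ) ≤ Nat.card (ConjClasses (OG Q)) :=
      Nat.cast_le.2 (Finite.card_subtype_le _)
    have : 0 ≤ q ^ n := by positivity
    linarith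

end Cfsg.Agent.H6N
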