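import Cfsg.Agent.H6.GUc

/-!
Witt's lemma for alternating forms; orders of symplectic and unitary groups.
-/

set_option autoImplicit false

namespace Cfsg.Agent.H6

open Matrix Module

variable {ι : Type*} [Fintype ι] [DecidableEq ι] {F : Type*} [Field F]
  {H : Type*} [Group H] {ρ : H →* Matrix ι ι F} {A : Matrix ι ι F}

variable (ρ) in
/-- pointwise stabiliser of a set of vectors -/
def fixW (W : Set (ι → F)) : Subgroup H where
  carrier := {g | ∀ w ∈ W, ρ g *ᵥ w = w}
  one_mem' := by simp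
  mul_mem' {a b} ha hb w hw := by rw [map_mul, ← mulVec_mulVec, hb w hw, ha w hw]
  inv_mem' {a} ha w hw := by
    nth_rw 1 [← ha w hw]
    rw [mulVec_mulVec, ← map_mul, inv_mul_cancel, map_one, one_mulVec]

theorem mem_fixW {W : Set (ι → F)} {g : H} : g ∈ fixW ρ W ↔ ∀ w ∈ W, ρ g *ᵥ w = w := Iff.rfl

theorem fixW_span (W : Set (ι → F)) : fixW ρ (Submodule.span F W : Submodule F _) = fixW ρ W := by
  ext g
  refine ⟨fun h w hw => h w (Submodule.subset_span hw), fun h w hw => ?_⟩
  exact LinearMap.eqOn_span (f := (ρ g).mulVecLin) (g := LinearMap.id) h hw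

theorem fixW_insert (W : Set (ι → F)) (x : ι → F) :
    fixW ρ (insert x W) = fixW ρ W ⊓ fixW ρ {x} := by
  ext g
  simp [mem_fixW, and_comm]

theorem fixW_sup (W : Submodule F (ι → F)) (x : ι → F) :
    fixW ρ (W ⊔ F ∙ x : Submodule F _) = fixW ρ W ⊓ fixW ρ {x} := by
  rw [← fixW_insert, ← fixW_span (insert x _), Submodule.span_insert, Submodule.span_eq, sup_comm]

theorem card_eq_orbit_mul (S : Subgroup H) (x : ι → F) (P : (ι → F) → Prop)
    (h : ∀ y, P y ↔ ∃ g ∈ S, ρ g *ᵥ x = y) :
    Nat.card S = Nat.card {y // P y} * Nat.card ↥(S ⊓ fixW ρ {x}) := by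
  let _ := MulAction.compHom (ι → F) ρ
  have h1 : MulAction.stabilizer S x = (S ⊓ fixW ρ {x}).subgroupOf S := by
    ext g
    simp only [Subgroup.mem_subgroupOf, Subgroup.mem_inf, g.2, true_and, mem_fixW,
      Set.mem_singleton_iff, forall_eq]
    rfl
  rw [← (MulAction.stabilizer S x).index_mul_card, MulAction.index_stabilizer, h1,
    Nat.card_congr (Subgroup.subgroupOfEquivOfLe inf_le_left).toEquiv, ← Nat.card_coe_set_eq]
  congr 1
  exact Nat.card_congr (Equiv.subtypeEquivRight fun y => by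
    rw [h]
    exact ⟨fun ⟨g, hg⟩ => ⟨g.1, g.2, hg⟩, fun ⟨g, h1, h2⟩ => ⟨⟨g, h1⟩, h2⟩⟩)

/-- orthogonal complement -/
abbrev perp (A : Matrix ι ι F) (W : Submodule F (ι → F)) : Submodule F (ι → F) :=
  (toBilin' A).orthogonal W

theorem mem_perp {W : Submodule F (ι → F)} {y : ι → F} :
    y ∈ perp A W ↔ ∀ w ∈ W, bf A w y = 0 := by
  simp only [LinearMap.BilinForm.mem_orthogonal_iff, toBilin'_apply']
  rfl

theorem finrank_perp (hA : A.det ≠ 0) (W : Submodule F (ι → F)) :
    finrank F (perp A W) = Fintype.card ι - finrank F W := by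
  rw [LinearMap.BilinForm.finrank_orthogonal
    (LinearMap.BilinForm.nondegenerate_toBilin'_of_det_ne_zero' A hA), finrank_fintype_fun_eq_card]

theorem card_affine_perp [Finite F] (hA : A.det ≠ 0) (W : Submodule F (ι → F)) (x : ι → F) :
    Nat.card {y // ∀ w ∈ W, bf A w y = bf A w x} =
      Nat.card F ^ (Fintype.card ι - finrank F W) := by
  rw [← finrank_perp hA, ← Module.natCard_eq_pow_finrank]
  exact Nat.card_congr ((Equiv.subRight x).subtypeEquiv fun y => by
    simp only [mem_perp, Equiv.subRight_apply, sf_sub_right, sub_eq_zero])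

theorem exists_bf_of_notMem (hA : A.det ≠ 0) {W : Submodule F (ι → F)} {x : ι → F} (hx : x ∉ W) :
    ∃ a, bf A x a = 1 ∧ ∀ w ∈ W, bf A w a = 0 := by
  obtain ⟨v, h1, h2⟩ := exists_dot_of_notMem W hx
  refine ⟨A⁻¹ *ᵥ v, ?_⟩
  simp only [bf_eq, mulVec_mulVec, mul_nonsing_inv _ hA.isUnit, one_mulVec]
  exact ⟨h1, h2⟩

omit [DecidableEq ι] in
theorem bf_eq_of_span {S : Set (ι → F)} {x y : ι → F} (h : ∀ w ∈ S, bf A w y = bf A w x) :
    ∀ w ∈ Submodule.span F S, bf A w y = bf A w x := fun w hw => by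
  induction hw using Submodule.span_induction with
  | mem w hw => exact h w hw
  | zero => simp [sf_zero_left]
  | add a b _ _ ha hb => rw [sf_add_left, sf_add_left, ha, hb]
  | smul c a _ ha => rw [sf_smul_left, sf_smul_left, ha]

omit [DecidableEq ι] in
theorem finrank_sup_span {W : Submodule F (ι → F)} {x : ι → F} (hx : x ∉ W) :
    finrank F (W ⊔ F ∙ x : Submodule F _) = finrank F W + 1 := by
  have := Submodule.finrank_sup_add_finrank_inf_eq W (F ∙ x)
  have h0 : x ≠ 0 := fun h => hx (h ▸ W.zero_mem)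
  rw [((Submodule.disjoint_span_singleton' h0).2 hx).eq_bot, finrank_bot,
    finrank_span_singleton h0] at this
  exact this

/-- order of the symplectic group of dimension `2 * k` -/
def spO (q k : ℕ) : ℕ := q ^ k ^ 2 * ∏ i : Fin k, (q ^ (2 * ((i : ℕ) + 1)) - 1)

theorem spO_succ (q k : ℕ) : spO q (k + 1) = q ^ (2 * k + 1) * (q ^ (2 * (k + 1)) - 1) * spO q k := by
  simp only [spO, Fin.prod_univ_castSucc, Fin.val_castSucc, Fin.val_last]
  ring

namespace Splike

variable (U : Splike ρ A)
include U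

theorem witt_step_aux {W : Submodule F (ι → F)} {x y : ι → F} (h : ∀ w ∈ W, bf A w y = bf A w x)
    (h0 : bf A x y ≠ 0) : ∃ g ∈ fixW ρ W, ρ g *ᵥ x = y := by
  obtain ⟨t, ht⟩ := U.exists_tv (x - y) (bf A x y)⁻¹
  refine ⟨t, fun w hw => ?_, ?_⟩ <;> rw [ht, tv_mulVec, smul_dotProduct, pb_dot, sf_sub_right]
  · simp [h w hw]
  · rw [U.alt x, zero_sub, smul_neg, smul_eq_mul, inv_mul_cancel₀ h0]
    module

theorem witt_step {W : Submodule F (ι → F)} {x y : ι → F} (hx : x ∉ W) (hy : y ∉ W)
    (h : ∀ w ∈ W, bf A w y = bf A w x) : ∃ g ∈ fixW ρ W, ρ g *ᵥ x = y := by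
  by_cases h0 : bf A x y = 0
  swap
  · exact U.witt_step_aux h h0
  obtain ⟨c, h1, h2, h3⟩ : ∃ c, bf A x c ≠ 0 ∧ bf A y c ≠ 0 ∧ ∀ w ∈ W, bf A w c = 0 := by
    obtain ⟨a, ha, ha'⟩ := exists_bf_of_notMem U.det hx
    obtain ⟨b, hb, hb'⟩ := exists_bf_of_notMem U.det hy
    by_cases h1 : bf A y a = 0
    · by_cases h2 : bf A x b = 0
      · exact ⟨a + b, by simp [sf_add_right, ha, h2], by simp [sf_add_right, hb, h1],
          fun w hw => by simp [sf_add_right, ha' w hw, hb' w hw]⟩
      · exact ⟨b, h2, hb ▸ one_ne_zero, hb'⟩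
    · exact ⟨a, ha ▸ one_ne_zero, h1, ha'⟩
  obtain ⟨g, hg, e⟩ := U.witt_step_aux (W := W) (x := x) (y := x + c)
    (fun w hw => by simp [sf_add_right, h3 w hw]) (by simpa [sf_add_right, U.alt x] using h1)
  obtain ⟨g', hg', e'⟩ := U.witt_step_aux (W := W) (x := x + c) (y := y)
    (fun w hw => by simp [sf_add_right, h3 w hw, h w hw])
    (by rw [sf_add_left, h0, zero_add, U.alt.swap]; simpa using h2)
  exact ⟨g' * g, mul_mem hg' hg, by rw [map_mul, ← mulVec_mulVec, e, e']⟩

omit U in
theorem mulVec_inj (g : H) : Function.Injective (ρ g *ᵥ ·) := fun u v h => by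
  simpa [← map_mul] using congrArg (ρ g⁻¹ *ᵥ ·) h

/-- Witt's lemma -/
theorem witt {κ : Type*} [Finite κ] {u v : κ → ι → F} (hu : LinearIndependent F u)
    (hv : LinearIndependent F v) (h : ∀ i j, bf A (u i) (u j) = bf A (v i) (v j)) :
    ∃ g, ∀ i, ρ g *ᵥ u i = v i := by
  classical
  have := Fintype.ofFinite κ
  suffices ∀ s : Finset κ, ∃ g, ∀ i ∈ s, ρ g *ᵥ u i = v i by simpa using this Finset.univ
  intro s
  induction s using Finset.induction_on with
  | empty => exact ⟨1, by simp⟩
  | insert a s ha ih =>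
    obtain ⟨g, hg⟩ := ih
    have h1 : LinearIndependent F fun i => ρ g *ᵥ u i :=
      hu.map' (ρ g).mulVecLin (LinearMap.ker_eq_bot.2 (mulVec_inj g))
    obtain ⟨g', h2, h3⟩ := U.witt_step (W := Submodule.span F (v '' s)) (x := ρ g *ᵥ u a) (y := v a)
      (by
        rw [← Set.image_congr hg]
        exact h1.notMem_span_image ha) (hv.notMem_span_image ha) (bf_eq_of_span <| by
        rintro _ ⟨i, hi, rfl⟩
        rw [← h, ← hg i hi, U.isom])
    refine ⟨g' * g, fun i hi => ?_⟩
    rw [map_mul, ← mulVec_mulVec]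
    rcases Finset.mem_insert.1 hi with rfl | hi
    · exact h3
    · rw [hg i hi, h2 _ (Submodule.subset_span ⟨i, hi, rfl⟩)]

theorem card_fixW_step {W : Submodule F (ι → F)} {x : ι → F} (hx : x ∉ W) :
    Nat.card (fixW ρ W) = Nat.card {y // (∀ w ∈ W, bf A w y = bf A w x) ∧ y ∉ W} *
      Nat.card (fixW ρ (W ⊔ F ∙ x : Submodule F _)) := by
  rw [fixW_sup, ← card_eq_orbit_mul _ x _ fun y => ⟨fun h => U.witt_step hx h.2 h.1, ?_⟩]
  rintro ⟨g, hg, rfl⟩
  refine ⟨fun w hw => by nth_rw 1 [← hg w hw, U.isom], fun h => hx ?_⟩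
  exact (mulVec_inj g (hg _ h) : ρ g *ᵥ x = x) ▸ h

variable [Finite F]

theorem card_fixW_of_perp_le (c : ℕ) (W : Submodule F (ι → F)) (hW : perp A W ≤ W)
    (hc : finrank F W + c = Fintype.card ι) :
    Nat.card (fixW ρ W) = Nat.card F ^ (c + 1).choose 2 := by
  induction c generalizing W with
  | zero =>
    obtain rfl := Submodule.eq_top_of_finrank_eq (S := W) (by simpa using hc)
    rw [show fixW ρ (⊤ : Submodule F (ι → F)) = ⊥ from eq_bot_iff.2 fun g hg =>
      U.inj (ext_mulVec fun v => by simpa using hg v trivial)]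
    simp
  | succ c ih =>
    obtain ⟨x, hx⟩ : ∃ x, x ∉ W := by
      by_contra! h
      rw [show W = ⊤ from eq_top_iff.2 fun x _ => h x] at hc
      simp at hc
    rw [U.card_fixW_step hx, ih _ ((LinearMap.BilinForm.orthogonal_le le_sup_left).trans
      (hW.trans le_sup_left)) (by rw [finrank_sup_span hx]; omega),
      Nat.card_congr (Equiv.subtypeEquivRight (q := fun y => ∀ w ∈ W, bf A w y = bf A w x)
        fun y => and_iff_left_of_imp (b := y ∉ W) fun h hy => hx ?_),
      card_affine_perp U.det, ← pow_add, Nat.choose_succ_succ' (c + 1), Nat.choose_one_right,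
      show Fintype.card ι - finrank F W = c + 1 by omega]
    have := hW ((mem_perp (y := y - x)).2 fun w hw => by rw [sf_sub_right, h w hw, sub_self])
    simpa using W.sub_mem hy this

theorem card_fixW (j : ℕ) (W : Submodule F (ι → F)) (hW : W ≤ perp A W) {k : ℕ}
    (hk : finrank F W = k) (hc : 2 * (k + j) = Fintype.card ι) :
    Nat.card (fixW ρ W) = Nat.card F ^ (2 * k * j + (k + 1).choose 2) * spO (Nat.card F) j := by
  have hp := finrank_perp U.det W
  induction j generalizing W k with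
  | zero =>
    rw [U.card_fixW_of_perp_le k W (Submodule.eq_of_le_of_finrank_le hW (by omega)).ge (by omega)]
    simp [spO]
  | succ j ih =>
    obtain ⟨x, h1, hx⟩ := SetLike.exists_of_lt (lt_of_le_of_ne hW fun h => by
      rw [← h] at hp; omega)
    have h2 : Nat.card {y // (∀ w ∈ W, bf A w y = bf A w x) ∧ y ∉ W} =
        Nat.card F ^ k * (Nat.card F ^ (2 * (j + 1)) - 1) := by
      have := Set.ncard_sdiff (show (W : Set (ι → F)) ⊆ perp A W from hW)
      rw [← Nat.card_coe_set_eq, ← Nat.card_coe_set_eq, ← Nat.card_coe_set_eq, SetLike.coe_sort_coe,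
        SetLike.coe_sort_coe, Module.natCard_eq_pow_finrank (K := F) (V := W),
        Module.natCard_eq_pow_finrank (K := F) (V := perp A W), hp, hk] at this
      rw [Nat.mul_sub, ← pow_add, mul_one, show k + 2 * (j + 1) = Fintype.card ι - k by omega,
        ← this]
      refine Nat.card_congr (Equiv.subtypeEquivRight fun y => and_congr_left' ?_)
      simp only [SetLike.mem_coe, mem_perp]
      exact forall₂_congr fun w hw => by rw [mem_perp.1 h1 w hw]
    rw [U.card_fixW_step hx, h2, ih _ ?_ (k := k + 1) (by rw [finrank_sup_span hx, hk]) (by omega)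
      (finrank_perp U.det _), spO_succ, Nat.choose_succ_succ' (k + 1), Nat.choose_one_right]
    · ring
    intro a ha
    obtain ⟨a, ha', _, h3, rfl⟩ := Submodule.mem_sup.1 ha
    obtain ⟨c, rfl⟩ := Submodule.mem_span_singleton.1 h3
    refine mem_perp.2 fun b hb => ?_
    obtain ⟨b, hb', _, h3, rfl⟩ := Submodule.mem_sup.1 hb
    obtain ⟨d, rfl⟩ := Submodule.mem_span_singleton.1 h3
    simp [sf_add_left, sf_add_right, sf_smul_left, sf_smul_right, U.alt x, mem_perp.1 h1 b hb',
      mem_perp.1 (hW ha') b hb', U.comm (mem_perp.1 h1 a ha')]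

theorem card_eq {m : ℕ} (hm : 2 * m = Fintype.card ι) : Nat.card H = spO (Nat.card F) m := by
  have := U.card_fixW m ⊥ bot_le (finrank_bot _ _) (by simpa using hm)
  rw [show fixW ρ (⊥ : Submodule F (ι → F)) = ⊤ from eq_top_iff.2 fun g _ w hw => by
    rw [(Submodule.mem_bot _).1 hw, mulVec_zero]] at this
  simpa using this

end Splike

section unitary

variable {τ : F ≃+* F} {q : ℕ}

theorem hf_single_right (w : ι → F) (a : ι) (x : F) : hf τ w (Pi.single a x) = w a * τ x := by
  simp [hf, sf, dotProduct, Pi.single_apply, apply_ite τ]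

theorem hf_single_left (w : ι → F) (a : ι) (x : F) : hf τ (Pi.single a x) w = x * τ (w a) := by
  simp [hf, sf]

variable (τ) in
/-- number of vectors with given support and norm -/
noncomputable def nv (s : Finset ι) (c : F) : ℕ :=
  Nat.card {w : ι → F // (∀ i ∉ s, w i = 0) ∧ hf τ w w = c}

theorem nv_insert [Fintype F] {s : Finset ι} {a : ι} (ha : a ∉ s) (c : F) :
    nv τ (insert a s) c = ∑ x, nv τ s (c - x * τ x) := by
  simp only [nv]
  rw [← Nat.card_sigma]
  refine (Nat.card_congr (Equiv.ofBijective (fun w => ⟨w.2.1 + Pi.single a w.1, fun i hi => by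
    rw [Finset.mem_insert, not_or] at hi
    simp [hi.1, w.2.2.1 i hi.2], by
    simp [hf_add_left, hf_add_right, hf_single_left, hf_single_right, w.2.2.1 a ha, w.2.2.2]⟩)
    ⟨?_, ?_⟩)).symm
  · rintro ⟨x, w, hw⟩ ⟨y, v, hv⟩ h
    have h1 : w + Pi.single a x = v + Pi.single a y := congrArg Subtype.val h
    obtain rfl : x = y := by simpa [hw.1 a ha, hv.1 a ha] using congrFun h1 a
    obtain rfl := add_right_cancel h1
    rfl
  · rintro ⟨w, h1, h2⟩
    refine ⟨⟨w a, w - Pi.single a (w a), fun i hi => ?_, ?_⟩, by simp⟩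
    · by_cases h : i = a
      · simp [h]
      · simp [h, h1 i (by simp [h, hi])]
    · simp [hf_sub_left, hf_sub_right, hf_single_left, hf_single_right, h2]

theorem nv_eq [Finite F] (hσ : orderOf τ = 2) (s : Finset ι) {c : F} (h0 : c ≠ 0) (hc : τ c = c) :
    nv τ s c = nv τ s 1 := by
  obtain ⟨l, h1, rfl⟩ := exists_norm_eq hσ h0 hc
  refine (Nat.card_congr ((MulAction.toPerm (Units.mk0 l h1)).subtypeEquiv fun w => ?_)).symm
  simp [Units.smul_def, h1, hf_smul_left, hf_smul_right, ← mul_assoc, mul_comm (τ l)]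

theorem nv_formula [Fintype F] (hF : Fintype.card F = q ^ 2) (hσ : orderOf τ = 2)
    (hτ : ∀ x, τ x = x ^ q) (s : Finset ι) :
    (q * nv τ s 1 : ℤ) = q ^ s.card * (q ^ s.card - (-1) ^ s.card) ∧
      (q * nv τ s 0 : ℤ) = q ^ s.card * (q ^ s.card + (-1) ^ s.card * (q - 1)) := by
  classical
  induction s using Finset.induction_on with
  | empty =>
    have h1 : nv τ (∅ : Finset ι) 1 = 0 := Nat.card_eq_zero.2 (Or.inl ⟨fun ⟨w, h1, h2⟩ => by
      rw [show w = 0 from funext fun i => h1 i (by simp), hf_zero_left] at h2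
      exact zero_ne_one h2⟩)
    have h2 : nv τ (∅ : Finset ι) 0 = 1 := Nat.card_eq_one_iff_unique.2 ⟨⟨fun a b => Subtype.ext
      (funext fun i => (a.2.1 i (by simp)).trans (b.2.1 i (by simp)).symm)⟩,
      ⟨0, by simp, hf_zero_left _⟩⟩
    simp [h1, h2]
  | insert a s ha ih =>
    have key : ∀ (c : F) (k : ℕ), τ c = c → (Finset.univ.filter fun x => x * τ x = c).card = k →
        (nv τ (insert a s) c : ℤ) = k * nv τ s 0 + (q ^ 2 - k) * nv τ s 1 := fun c k hc hk => by
      rw [nv_insert ha, ← Finset.sum_filter_add_sum_filter_not _ fun x => x * τ x = c,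
        Finset.sum_congr rfl (g := fun _ => nv τ s 0) fun x hx => by
          rw [(Finset.mem_filter.1 hx).2, sub_self],
        Finset.sum_congr rfl (f := fun x => nv τ s (c - x * τ x)) (g := fun _ => nv τ s 1)
          fun x hx => nv_eq hσ s (sub_ne_zero.2 (Ne.symm (Finset.mem_filter.1 hx).2)) (by
            rw [map_sub, map_mul, hc, sq_of_orderOf_two hσ, mul_comm])]
      have := Finset.card_filter_add_card_filter_not (s := Finset.univ) fun x => x * τ x = c
      rw [hk, Finset.card_univ, hF] at this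
      simp only [Finset.sum_const, smul_eq_mul, hk]
      push_cast
      rw [← Nat.cast_pow, ← this]
      push_cast
      ring
    rw [key 0 1 (map_zero _) (Finset.card_eq_one.2 ⟨0, by ext; simp⟩), key 1 (q + 1) (map_one _) ?_,
      Finset.card_insert_of_notMem ha]
    · push_cast
      constructor
      · linear_combination (q + 1) * ih.2 + (q ^ 2 - (q + 1)) * ih.1
      · linear_combination ih.2 + (q ^ 2 - 1) * ih.1
    rw [← card_normOne hF, ← Fintype.card_subtype, ← Nat.card_eq_fintype_card]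
    refine (Nat.card_congr (Equiv.ofBijective (fun u : normOne F q => (⟨u.1.1, by
      rw [hτ, ← pow_succ']
      exact congrArg Units.val u.2⟩ : {x // x * τ x = 1})) ⟨fun u v h =>
      Subtype.ext (Units.ext (Subtype.ext_iff.1 h)), fun ⟨x, hx⟩ =>
        ⟨⟨Units.mk0 x (left_ne_zero_of_mul_eq_one hx), Units.ext ?_⟩, rfl⟩⟩)).symm
    simpa [hτ, pow_succ'] using hx

/-- order of the unitary group -/
def guO (q n : ℕ) : ℤ :=
  (q : ℤ) ^ (n * (n - 1) / 2) * ∏ i : Fin n, ((q : ℤ) ^ ((i : ℕ) + 1) - (-1) ^ ((i : ℕ) + 1))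

theorem guO_succ (q n : ℕ) : guO q (n + 1) = q ^ n * (q ^ (n + 1) - (-1) ^ (n + 1)) * guO q n := by
  simp only [guO, Fin.prod_univ_castSucc, Fin.val_castSucc, Fin.val_last, ← Nat.choose_two_right,
    Nat.choose_succ_succ' n 1, Nat.choose_one_right]
  ring

theorem GUlike.card_eq [Fintype F] (U : GUlike τ ρ) (hF : Fintype.card F = q ^ 2) :
    (Nat.card H : ℤ) = guO q (Fintype.card ι) := by
  have hσ := U.ord
  have hτ := eq_pow_of_orderOf_two hF hσ
  suffices ∀ s : Finset ι, (Nat.card (fixW ρ ((Pi.single · 1) '' {i | i ∉ s})) : ℤ) = guO q s.card by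
    have := this Finset.univ
    rwa [show fixW ρ ((Pi.single · 1) '' {i | i ∉ Finset.univ}) = ⊤ from
      eq_top_iff.2 fun g _ => by simp [mem_fixW], Subgroup.card_top] at this
  intro s
  induction s using Finset.induction_on with
  | empty =>
    rw [show fixW ρ ((Pi.single · 1) '' {i | i ∉ (∅ : Finset ι)}) = ⊥ from
      eq_bot_iff.2 fun g hg => U.inj (Matrix.ext fun i j => by
        simpa [one_apply, Pi.single_apply] using congrFun (hg _ ⟨j, by simp, rfl⟩) i),
      Finset.card_empty]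
    simp [guO]
  | insert a s ha ih =>
    rw [card_eq_orbit_mul _ (Pi.single a 1) (fun w => (∀ i ∉ insert a s, w i = 0) ∧ hf τ w w = 1),
      ← fixW_insert, ← Set.image_insert_eq (f := (Pi.single · 1)),
      show insert a {i | i ∉ insert a s} = {i | i ∉ s} by
        ext i
        by_cases h : i = a <;> simp [h, ha], Nat.cast_mul, ih, Finset.card_insert_of_notMem ha,
      guO_succ]
    · congr 1
      have := (nv_formula hF hσ hτ (insert a s)).1
      rw [Finset.card_insert_of_notMem ha, pow_succ' (q : ℤ), mul_assoc] at this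
      rw [pow_succ' (q : ℤ)]
      exact mul_left_cancel₀ (by have := two_le_of_card_sq hF; positivity) this
    intro w
    constructor
    · rintro ⟨h1, h2⟩
      obtain ⟨e, h3, h4⟩ := exists_orthonormal_ext hσ herm_one (by simp) (insert a (insert a s)ᶜ)
        (Function.update (Pi.single · 1) a w) fun i hi j hj => by
        rw [Finset.mem_insert, Finset.mem_compl] at hi hj
        rw [← hf_def]
        by_cases h : i = a <;> by_cases h' : j = a
        · simp [h, h', h2, one_apply]
        · simp [h, h', hf_single_right, h1 j (hj.resolve_left h'), Ne.symm h']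
        · simp [h, h', hf_single_left, h1 i (hi.resolve_left h)]
        · simpa [h, h'] using onb_std (τ := τ) i j
      obtain ⟨g, hg⟩ := U.surj (fm e) (ONB.hf_fm h4)
      refine ⟨g, ?_, by rw [hg, fm_single, h3 a (by simp), Function.update_self]⟩
      rintro _ ⟨i, hi, rfl⟩
      rw [hg, fm_single, h3 i (Finset.mem_insert_of_mem (Finset.mem_compl.2 hi)),
        Function.update_of_ne fun h => hi (by simp [h])]
    · rintro ⟨g, hg, rfl⟩
      refine ⟨fun i hi => ?_, by rw [U.isom, hf_single_left]; simp⟩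
      have := U.isom g (Pi.single a 1) (Pi.single i 1)
      rw [hg _ ⟨i, hi, rfl⟩, hf_single_right, hf_single_right, map_one, mul_one, mul_one] at this
      rw [this, Pi.single_eq_of_ne fun h => hi (by simp [h])]

end unitary

end Cfsg.Agent.H6
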