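import Cfsg.Agent.H6.Bd

/-!
Numerical bounds for the generating functions of the codes.
-/

set_option autoImplicit false

namespace Cfsg.Agent.H6N

open Polynomial Finset
open scoped Classical

section

variable {F : Type*} [Field F] [Fintype F]

local notation "q" => (Fintype.card F : ℝ)

theorem bd_pol' {x : ℝ} (hx : q⁻¹ ≤ x) (x1 : x < 1) (p : ℝ → ℝ)
    (h : ∀ y, 0 ≤ y → y ≤ x ^ 2 → 1 ≤ p y ∧ p (y * x) ≤ (1 - y) * p y) (L : ℕ) :
    Bd (PolW F L) (fun H => q⁻¹ ^ sP L H) (p (x ^ 2) / (1 - x)) := by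
  have x0 : 0 ≤ x := le_trans (by positivity) hx
  have h1 : ∀ k, 0 ≤ x ^ (k + 1 + 1) ∧ x ^ (k + 1 + 1) ≤ x ^ 2 := fun k =>
    ⟨by positivity, pow_le_pow_of_le_one x0 x1.le (by omega)⟩
  refine bd_pol hx (fun k => if k = 0 then p (x ^ 2) / (1 - x) else p (x ^ (k + 1))) (fun k => ?_)
    (fun k => ?_) L <;> rcases k with _ | k
  · exact (one_le_div (by linarith)).2 (by linarith [(h _ (h1 0).1 le_rfl).1])
  · exact (h _ (h1 k).1 (h1 k).2).1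
  · rw [if_pos rfl, zero_add, pow_one, mul_div_cancel₀ _ (by linarith)]; rfl
  · exact (h _ (h1 k).1 (h1 k).2).2

theorem bd_pol2 (L : ℕ) : Bd (PolW F L) (fun H => q⁻¹ ^ sP L H) 3.46422 :=
  (bd_pol' (x := 2⁻¹) (inv_anti₀ two_pos two_le_q) (by norm_num)
    (fun y => 1 + 2 * y + 2.67 * y ^ 2 + 3.06 * y ^ 3 + 4.46 * y ^ 4) (fun y h0 h1 =>
      ⟨by linarith [pow_nonneg h0 2, pow_nonneg h0 3, pow_nonneg h0 4], by
      linarith [pow_nonneg h0 2, pow_nonneg h0 3, pow_nonneg h0 4,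
        mul_le_mul_of_nonneg_left h1 (pow_nonneg h0 4)]⟩) L).mono le_rfl (fun _ _ => le_rfl)
    (by norm_num)

theorem bd_pol3 (h : 3 ≤ q) (L : ℕ) : Bd (PolW F L) (fun H => q⁻¹ ^ sP L H) 1.78575 :=
  (bd_pol' (x := 3⁻¹) (inv_anti₀ three_pos h) (by norm_num)
    (fun y => 1 + 1.5 * y + 1.93 * y ^ 2) (fun y h0 h1 =>
      ⟨by linarith [pow_nonneg h0 2], by
      linarith [pow_nonneg h0 2, mul_le_mul_of_nonneg_left h1 (pow_nonneg h0 2)]⟩) L).mono le_rfl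
    (fun _ _ => le_rfl) (by norm_num)

end

/-- letters in odd characteristic -/
abbrev Let := (Bool × Bool) × (Bool × Bool)

def nb (a : Bool × Bool) : ℕ := a.1.toNat + a.2.toNat

def tO (L : ℕ) (w : ℕ → Let) : ℕ := ∑ j ∈ range L, (2 * j + 1) * (nb (w j).1 + nb (w j).2)

def OW (R : ℕ → Let → Bool) (τ L : ℕ) : Set (ℕ → Let) :=
  {w | (∀ j, R j (w j)) ∧ (∀ j, L ≤ j → w j = ((false, false), (false, false))) ∧ tO L w % 2 = τ}

theorem bd_odd {x : ℝ} (hx : 0 ≤ x) (R : ℕ → Let → Bool) (τ : Bool) (φ : ℕ → ℕ → ℝ)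
    (h0 : ∀ j s, 0 ≤ φ j s) (h1 : ∀ j, 1 ≤ φ j τ.toNat)
    (h : ∀ j (s : Bool), ∑ a : Let, (if R j a then (x ^ j) ^ (nb a.1 + nb a.2) *
      x ^ ((s.toNat + (nb a.1 + nb a.2)) / 2) * φ (j + 1) ((s.toNat + (nb a.1 + nb a.2)) % 2) else 0)
      ≤ φ j s.toNat) (L : ℕ) : Bd (OW R τ.toNat L) (fun w => x ^ (tO L w / 2)) (φ 0 0) := by
  have e : ∀ k, (decide (k % 2 = 1)).toNat = k % 2 := fun k => by
    rcases Nat.mod_two_eq_zero_or_one k with e | e <;> simp [e]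
  let δ : ℕ → Bool → Let → Bool := fun _ s a => decide ((s.toNat + (nb a.1 + nb a.2)) % 2 = 1)
  have h2 : ∀ w L, 2 * ∑ j ∈ range L, (j * (nb (w j).1 + nb (w j).2) + ((run δ false w j).toNat +
      (nb (w j).1 + nb (w j).2)) / 2) + (run δ false w L).toNat = tO L w := fun w L => by
    induction L with
    | zero => rfl
    | succ L ih =>
      rw [tO, sum_range_succ, sum_range_succ, ← tO, ← ih, run, e, add_mul, mul_assoc]; omega
  refine (Bd.chain' hx ((false, false), (false, false)) (fun j _ => {a | R j a})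
    (fun j s a => j * (nb a.1 + nb a.2) + (s.toNat + (nb a.1 + nb a.2)) / 2) δ
    (fun j s => φ j s.toNat) (fun j s => .of_finset (univ.filter (R j ·)) (by simp)
      (fun a => mul_nonneg (pow_nonneg hx _) (h0 _ _)) ?_) false L).mono
    (fun w hw => ⟨⟨fun j _ => hw.1 j, hw.2.1⟩, ?_⟩) (fun w hw => ?_) le_rfl
  · simpa only [sum_filter, δ, e, pow_add x, pow_mul] using h j s
  · have := h2 w L
    have := hw.2.2
    have := (run δ false w L).toNat_le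
    rw [show (run δ false w L).toNat = τ.toNat by omega]; exact h1 L
  · have := h2 w L
    have := (run δ false w L).toNat_le
    exact (congrArg _ (by omega)).le

theorem pw01 {x : ℝ} (h0 : 0 ≤ x) (h1 : x ≤ 1) (j : ℕ) : 0 ≤ x ^ j ∧ x ^ j ≤ 1 :=
  ⟨pow_nonneg h0 j, pow_le_one₀ h0 h1⟩

theorem pws {y c : ℝ} (h : 0 ≤ y ∧ y ≤ c) (k : ℕ) : 0 ≤ y ^ k ∧ y ^ k * y ≤ y ^ k * c :=
  ⟨pow_nonneg h.1 k, mul_le_mul_of_nonneg_left h.2 (pow_nonneg h.1 k)⟩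

noncomputable def u3 (y : ℝ) : ℝ := 1 + 5.25 * y ^ 2 + 2.6 * y ^ 4 + 0.29 * y ^ 5
noncomputable def v3 (y : ℝ) : ℝ := 6 * y + 7.97 * y ^ 3 + 1.83 * y ^ 5

theorem uv3 {y : ℝ} (h : 0 ≤ y ∧ y ≤ 1) : 1 ≤ u3 y ∧ 0 ≤ v3 y ∧
    (1 + 2 * y ^ 2 + y ^ 4 / 9) * u3 (y * 3⁻¹) + (4 * y / 3 + 4 * y ^ 3 / 9) * v3 (y * 3⁻¹) ≤ u3 y ∧
    (1 + 2 * y ^ 2 + y ^ 4 / 9) * v3 (y * 3⁻¹) + (4 * y + 4 * y ^ 3 / 3) * u3 (y * 3⁻¹) ≤ v3 y := by
  unfold u3 v3
  refine ⟨?_, ?_, ?_, ?_⟩ <;> linarith [h.1, (pws h 2).1, (pws h 3).1, (pws h 4).1, (pws h 5).1,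
    (pws h 5).2, (pws h 6).2, (pws h 7).2, (pws h 8).2]

theorem bdO_full (L : ℕ) : Bd (OW (fun _ _ => true) 1 L) (fun w => (3⁻¹ : ℝ) ^ (tO L w / 2)) 15.8 := by
  have p := fun j => uv3 (pw01 (x := 3⁻¹) (by norm_num) (by norm_num) j)
  refine (bd_odd (by norm_num) _ true (fun j s => if s = 0 then v3 (3⁻¹ ^ j) else u3 (3⁻¹ ^ j))
    (fun j s => ?_) (fun j => (p j).1) (fun j s => ?_) L).mono le_rfl (fun _ _ => le_rfl)
    (by norm_num [v3])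
  · split_ifs <;> linarith [(p j).1, (p j).2.1]
  · have := p j
    rw [pow_succ]
    generalize (3⁻¹ : ℝ) ^ j = y at *
    cases s <;> simp [Fintype.sum_prod_type, nb] <;> linarith

/-- the rule on the lowest level in even dimension -/
def R0 (j : ℕ) (a : Let) : Bool :=
  j != 0 || if nb a.1 % 2 = 0 ∧ nb a.2 % 2 = 1 then !a.2.2 else !a.1.2

theorem bdO_even (L : ℕ) : Bd (OW R0 0 L) (fun w => (3⁻¹ : ℝ) ^ (tO L w / 2)) 5.2802 := by
  have p := fun j => uv3 (pw01 (x := 3⁻¹) (by norm_num) (by norm_num) j)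
  refine bd_odd (by norm_num) _ false (fun j s => if s = 0 then if j = 0 then 5.2802 else
    u3 (3⁻¹ ^ j) else 3⁻¹ * v3 (3⁻¹ ^ j)) (fun j s => ?_) (fun j => ?_) (fun j s => ?_) L
  · split_ifs <;> linarith [(p j).1, (p j).2.1]
  · rw [if_pos Bool.toNat_false]; split_ifs <;> linarith [(p j).1]
  · rcases eq_or_ne j 0 with rfl | hj
    · cases s <;> simp [Fintype.sum_prod_type, nb, R0, u3, v3] <;> norm_num
    have := p j
    rw [pow_succ]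
    generalize (3⁻¹ : ℝ) ^ j = y at *
    cases s <;> simp [Fintype.sum_prod_type, nb, R0, hj] <;> linarith

theorem bdO_gen {x : ℝ} (h0 : 0 ≤ x) (h1 : x ≤ 1) (R : Let → Bool) (u v : ℝ → ℝ)
    (h : ∀ y, 0 ≤ y ∧ y ≤ 1 → 1 ≤ u y ∧ 0 ≤ v y ∧ ∀ s : Bool, ∑ a : Let, (if R a then
      y ^ (nb a.1 + nb a.2) * x ^ ((s.toNat + (nb a.1 + nb a.2)) / 2) *
      (if (s.toNat + (nb a.1 + nb a.2)) % 2 = 0 then v (y * x) else u (y * x)) else 0)
      ≤ if s.toNat = 0 then v y else u y) (L : ℕ) :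
    Bd (OW (fun _ => R) 1 L) (fun w => x ^ (tO L w / 2)) (v 1) := by
  have p := fun j => h _ (pw01 h0 h1 j)
  simpa using bd_odd h0 _ true (fun j s => if s = 0 then v (x ^ j) else u (x ^ j))
    (fun j s => by split_ifs <;> linarith [(p j).1, (p j).2.1]) (fun j => (p j).1)
    (fun j s => by simpa only [pow_succ] using (p j).2.2 s) L

theorem bdO_five (L : ℕ) : Bd (OW (fun _ _ => true) 1 L) (fun w => (5⁻¹ : ℝ) ^ (tO L w / 2)) 7.6 :=
  (bdO_gen (by norm_num) (by norm_num) _ (fun y => 1 + 2.1 * y ^ 2 + 0.4 * y ^ 3)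
    (fun y => 5 * y + 2.6 * y ^ 3) (fun y h => ⟨by linarith [(pws h 2).1, (pws h 3).1],
      by linarith [h.1, (pws h 3).1], fun s => by
      cases s <;> simp [Fintype.sum_prod_type, nb] <;> linarith [h.1, (pws h 2).1, (pws h 3).1,
        (pws h 3).2, (pws h 4).2, (pws h 5).2, (pws h 6).2]⟩) L).mono le_rfl (fun _ _ => le_rfl)
    (by norm_num)

theorem bdO_two (L : ℕ) :
    Bd (OW (fun _ a => !a.1.2 && !a.2.2) 1 L) (fun w => (3⁻¹ : ℝ) ^ (tO L w / 2)) 3.62 :=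
  (bdO_gen (by norm_num) (by norm_num) _ (fun y => 1 + 1.13 * y ^ 2 + 0.06 * y ^ 4)
    (fun y => 3 * y + 0.61 * y ^ 3 + 0.01 * y ^ 4) (fun y h => ⟨by linarith [(pws h 2).1, (pws h 4).1],
      by linarith [h.1, (pws h 3).1, (pws h 4).1], fun s => by
      cases s <;> simp [Fintype.sum_prod_type, nb] <;> linarith [h.1, (pws h 2).1, (pws h 3).1,
        (pws h 4).1, (pws h 4).2, (pws h 5).2]⟩) L).mono le_rfl (fun _ _ => le_rfl)
    (by norm_num)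

/-- sizes of letters in characteristic two -/
def zE (o : Bool) (j : ℕ) (a : ℕ × Bool) : ℕ :=
  (j + 1) * a.1 + if a.2 then if a.1 = 0 then 2 * j + 1 else if o ∧ j = 1 then 1 else 0 else 0

def EW (L : ℕ) : Set (ℕ → ℕ × Bool) := {w | (∀ j, (w j).1 ≤ 2) ∧ (w 0).2 = false ∧
  (∀ j, (w j).1 ≠ 0 → (w (j + 1)).2 = false) ∧ ∀ j, L ≤ j → w j = (0, false)}

noncomputable def u2 (y : ℝ) : ℝ :=
  1 + 4 * y + 9.34 * y ^ 2 + 10.77 * y ^ 3 + 8.65 * y ^ 4 + 4.95 * y ^ 5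
noncomputable def v2 (y : ℝ) : ℝ :=
  1 + 3 * y + 4.84 * y ^ 2 + 4.06 * y ^ 3 + 2.26 * y ^ 4 + 0.9 * y ^ 5

theorem uv2 {y : ℝ} (h : 0 ≤ y ∧ y ≤ 2⁻¹) : 1 ≤ u2 y ∧ 1 ≤ v2 y ∧
    (1 + 2 * y ^ 2) * u2 (y * 2⁻¹) + 2 * (y + y ^ 2) * v2 (y * 2⁻¹) ≤ u2 y ∧
    u2 (y * 2⁻¹) + (y + y ^ 2) * v2 (y * 2⁻¹) ≤ v2 y := by
  unfold u2 v2
  refine ⟨?_, ?_, ?_, ?_⟩ <;> linarith [h.1, (pws h 2).1, (pws h 3).1, (pws h 4).1, (pws h 5).1,
    (pws h 5).2, (pws h 6).2]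

theorem bd_even (o : Bool) (L : ℕ) : Bd (EW L) (fun w => (2⁻¹ : ℝ) ^ ∑ j ∈ range L, zE o j (w j))
    (if o then 4.2 else 4.386875) := by
  have p := fun j => uv2 (y := 2⁻¹ ^ (j + 1)) ⟨by positivity,
    pow_le_of_le_one (by norm_num) (by norm_num) (by omega)⟩
  let φ : ℕ → Bool → ℝ := fun j s => if o ∧ j = 0 then (if s then 4.2 else 8) else
    if s then v2 (2⁻¹ ^ (j + 1)) else if o ∧ j = 1 then 2.6 else u2 (2⁻¹ ^ (j + 1))
  have h1 : ∀ j s, 1 ≤ φ j s := fun j s => by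
    simp only [φ]; split_ifs <;> linarith [(p j).1, (p j).2.1]
  refine (Bd.chain' (by norm_num) (0, false) (fun j (s : Bool) => {a | a.1 ≤ 2 ∧ (s → a.2 = false)})
    (fun j _ => zE o j) (fun _ _ a => decide (a.1 ≠ 0)) φ (fun j s => .of_finset
      (range 3 ×ˢ if s then {false} else univ) (fun a ha => ?_)
      (fun a => mul_nonneg (by positivity) (by linarith [h1 (j + 1) (decide (a.1 ≠ 0))])) ?_)
      true L).mono
    (fun w hw => ⟨⟨fun j _ => ⟨hw.1 j, ?_⟩, hw.2.2.2⟩, h1 _ _⟩) (fun w hw => le_rfl) ?_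
  · rw [coe_product]
    exact ⟨by simpa [Nat.lt_succ_iff] using ha.1, by cases s <;> simp [ha.2]⟩
  · by_cases h : o ∧ j < 2
    · obtain ⟨rfl, h⟩ := h
      interval_cases j <;> cases s <;> simp [sum_product, sum_range_succ, zE, φ, u2, v2] <;> norm_num
    have h2 : ¬ (o ∧ j = 0) ∧ ¬ (o ∧ j = 1) ∧ ¬ (o ∧ j + 1 = 1) := by
      refine ⟨?_, ?_, ?_⟩ <;> exact fun e => h ⟨e.1, by omega⟩
    have := p j
    have h3 : (2⁻¹ : ℝ) ^ (2 * j + 1) = 2 * (2⁻¹ ^ (j + 1)) ^ 2 := by ring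
    cases s <;> simp only [sum_product, sum_range_succ, zE, φ, h2, pow_add _ (_ * _), pow_mul,
      pow_succ _ (j + 1)] <;> simp [h3, -inv_pow] <;> linarith
  · cases j
    exacts [fun _ => hw.2.1, fun e => hw.2.2.1 _ (by simpa [run] using e)]
  · cases o <;> norm_num [φ, v2]

end Cfsg.Agent.H6N
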