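import Mathlib

/-!
Similarity of matrices over a finite field is decided by the dimensions of the kernels of
polynomials in them.
-/

set_option autoImplicit false

namespace Cfsg.Agent.H6

open Polynomial Module
open scoped DirectSum

section lovasz

variable {R X M N : Type*} [Ring R] [AddCommGroup X] [Module R X] [AddCommGroup M] [Module R M]
  [AddCommGroup N] [Module R N]

theorem card_le_ker [Finite X] [Finite M] (K : Submodule R X) [Fintype (Submodule R X)]
    [DecidablePred (K < ·)] :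
    Nat.card {f : X →ₗ[R] M // K ≤ LinearMap.ker f} =
      Nat.card {f : X →ₗ[R] M // LinearMap.ker f = K} +
      ∑ L ∈ Finset.univ.filter (K < ·), Nat.card {f : X →ₗ[R] M // LinearMap.ker f = L} := by
  classical
  have : Finite (X →ₗ[R] M) := DFunLike.finite _
  have := Fintype.ofFinite (X →ₗ[R] M)
  simp only [Nat.card_eq_fintype_card, Fintype.card_subtype]
  rw [Finset.card_eq_sum_card_fiberwise (f := fun f : X →ₗ[R] M => LinearMap.ker f)
    (t := insert K (Finset.univ.filter (K < ·))) (fun f hf => by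
      have : K ≤ LinearMap.ker f := by simpa using hf
      simpa [eq_comm] using this.eq_or_lt), Finset.sum_insert (by simp)]
  congr 1
  · congr 1
    ext f
    simp +contextual [le_of_eq, Eq.ge]
  · refine Finset.sum_congr rfl fun L hL => ?_
    congr 1
    ext f
    have : K < L := by simpa using hL
    simp only [Finset.mem_filter, Finset.mem_univ, true_and, and_iff_right_iff_imp]
    exact fun h => h ▸ this.le

theorem card_ker_eq [Finite X] [Finite M] [Finite N]
    (h : ∀ K : Submodule R X, Nat.card {f : X →ₗ[R] M // K ≤ LinearMap.ker f} =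
      Nat.card {f : X →ₗ[R] N // K ≤ LinearMap.ker f}) (K : Submodule R X) :
    Nat.card {f : X →ₗ[R] M // LinearMap.ker f = K} =
      Nat.card {f : X →ₗ[R] N // LinearMap.ker f = K} := by
  classical
  have : Finite (Submodule R X) := Finite.of_injective _ SetLike.coe_injective
  have := Fintype.ofFinite (Submodule R X)
  induction K using WellFoundedGT.induction with
  | ind K ih =>
    have := h K
    rw [card_le_ker, card_le_ker, Finset.sum_congr rfl fun L hL => ih L (by simpa using hL)] at this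
    exact Nat.add_right_cancel this

/-- maps killing a submodule -/
def liftQEquiv' (K : Submodule R X) : {f : X →ₗ[R] M // K ≤ LinearMap.ker f} ≃ (X ⧸ K →ₗ[R] M) where
  toFun f := K.liftQ f.1 f.2
  invFun g := ⟨g ∘ₗ K.mkQ, fun x hx => by simp [(Submodule.Quotient.mk_eq_zero K).2 hx]⟩
  left_inv f := by ext; rfl
  right_inv g := by ext; rfl

theorem nonempty_equiv_of_card_hom [Finite M] [Finite N] (hc : Nat.card M = Nat.card N)
    (h : ∀ K : Submodule R M, Nat.card (M ⧸ K →ₗ[R] M) = Nat.card (M ⧸ K →ₗ[R] N)) :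
    Nonempty (M ≃ₗ[R] N) := by
  have h1 := card_ker_eq (X := M) (M := M) (N := N) (R := R) (fun K => by
    rw [Nat.card_congr (liftQEquiv' K), Nat.card_congr (liftQEquiv' K), h]) ⊥
  have : Finite (M →ₗ[R] M) := DFunLike.finite _
  have : Nonempty {f : M →ₗ[R] M // LinearMap.ker f = ⊥} := ⟨⟨LinearMap.id, rfl⟩⟩
  obtain ⟨⟨f, hf⟩⟩ := (Nat.card_pos_iff.1 (h1 ▸ Nat.card_pos)).1
  exact ⟨LinearEquiv.ofBijective f ((Nat.bijective_iff_injective_and_card f).2
    ⟨LinearMap.ker_eq_bot.1 hf, hc⟩)⟩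

end lovasz

section pid

variable {R X M N : Type*} [CommRing R] [AddCommGroup X] [Module R X] [AddCommGroup M] [Module R M]
  [AddCommGroup N] [Module R N]

/-- maps out of a cyclic module -/
def cycHomEquiv (a : R) : ((R ⧸ R ∙ a) →ₗ[R] M) ≃ Submodule.torsionBy R M a where
  toFun f := ⟨f (Submodule.Quotient.mk 1), by
    rw [Submodule.mem_torsionBy_iff, ← map_smul, ← Submodule.Quotient.mk_smul, smul_eq_mul, mul_one,
      (Submodule.Quotient.mk_eq_zero _).2 (Submodule.mem_span_singleton_self a), map_zero]⟩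
  invFun x := Submodule.liftQSpanSingleton a (LinearMap.toSpanSingleton R M x.1) x.2
  left_inv f := by
    refine Submodule.linearMap_qext _ (LinearMap.ext_ring ?_)
    exact one_smul R _
  right_inv x := Subtype.ext (one_smul R _)

theorem isTorsion_of_finite [IsDomain R] [Infinite R] [Finite X] : Module.IsTorsion R X := by
  intro x
  obtain ⟨a, b, hab, h⟩ := Finite.exists_ne_map_eq_of_infinite fun a : R => a • x
  exact ⟨⟨a - b, mem_nonZeroDivisors_of_ne_zero (sub_ne_zero.2 hab)⟩, by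
    change (a - b) • x = 0
    rw [sub_smul, h, sub_self]⟩

theorem card_hom_eq [IsDomain R] [IsPrincipalIdealRing R] [Infinite R] [Finite X]
    (h : ∀ (p : R) (e : ℕ), Irreducible p → Nat.card (Submodule.torsionBy R M (p ^ e)) =
      Nat.card (Submodule.torsionBy R N (p ^ e))) :
    Nat.card (X →ₗ[R] M) = Nat.card (X →ₗ[R] N) := by
  classical
  obtain ⟨ι, _, p, hp, e, ⟨φ⟩⟩ := Module.equiv_directSum_of_isTorsion (R := R) (M := X)
    isTorsion_of_finite
  have ψ := φ.trans (DirectSum.linearEquivFunOnFintype R ι _)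
  rw [Nat.card_congr (ψ.congrLeft M R).toEquiv, Nat.card_congr (ψ.congrLeft N R).toEquiv,
    ← Nat.card_congr (LinearMap.lsum R _ R).toEquiv, ← Nat.card_congr (LinearMap.lsum R _ R).toEquiv,
    Nat.card_pi, Nat.card_pi]
  refine Finset.prod_congr rfl fun i _ => ?_
  rw [Nat.card_congr (cycHomEquiv _), Nat.card_congr (cycHomEquiv _), h _ _ (hp i)]

theorem nonempty_equiv_of_torsionBy [IsDomain R] [IsPrincipalIdealRing R] [Infinite R] [Finite M]
    [Finite N] (hc : Nat.card M = Nat.card N)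
    (h : ∀ (p : R) (e : ℕ), Irreducible p → Nat.card (Submodule.torsionBy R M (p ^ e)) =
      Nat.card (Submodule.torsionBy R N (p ^ e))) : Nonempty (M ≃ₗ[R] N) :=
  nonempty_equiv_of_card_hom hc fun K =>
    have : Finite (M ⧸ K) := Finite.of_surjective _ K.mkQ_surjective
    card_hom_eq h

end pid

variable {F V W : Type*} [Field F] [AddCommGroup V] [Module F V] [AddCommGroup W] [Module F W]

/-- the dimension of the kernel of a polynomial in an endomorphism -/
noncomputable def kd (φ : V →ₗ[F] V) (f : F[X]) : ℕ := finrank F (LinearMap.ker (aeval φ f))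

theorem aeval_semiconj {φ : V →ₗ[F] V} {ψ : W →ₗ[F] W} (e : V →ₗ[F] W)
    (h : ∀ v, e (φ v) = ψ (e v)) (f : F[X]) (v : V) : e (aeval φ f v) = aeval ψ f (e v) := by
  induction f using Polynomial.induction_on generalizing v with
  | C a => simp
  | add p q hp hq => simp [hp, hq]
  | monomial n a ih =>
    rw [pow_succ, ← mul_assoc, map_mul, map_mul _ _ X, aeval_X, aeval_X, Module.End.mul_apply,
      Module.End.mul_apply, ih, h]

theorem kd_congr {φ : V →ₗ[F] V} {ψ : W →ₗ[F] W} (e : V ≃ₗ[F] W) (h : ∀ v, e (φ v) = ψ (e v))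
    (f : F[X]) : kd φ f = kd ψ f := by
  refine LinearEquiv.finrank_eq (e.ofSubmodules _ _ ?_)
  ext w
  obtain ⟨v, rfl⟩ := e.surjective w
  have := aeval_semiconj e.toLinearMap h f v
  simp only [LinearEquiv.coe_coe] at this
  simp [← this]

theorem card_torsionBy_aeval [Finite F] [FiniteDimensional F V] (φ : V →ₗ[F] V) (f : F[X]) :
    Nat.card (Submodule.torsionBy F[X] (AEval' φ) f) = Nat.card F ^ kd φ f := by
  rw [kd, ← Module.natCard_eq_pow_finrank]
  exact Nat.card_congr (Equiv.refl _)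

theorem exists_equiv_of_kd [Finite F] [FiniteDimensional F V] [FiniteDimensional F W]
    {φ : V →ₗ[F] V} {ψ : W →ₗ[F] W} (hd : finrank F V = finrank F W)
    (h : ∀ (p : F[X]) (e : ℕ), Irreducible p → kd φ (p ^ e) = kd ψ (p ^ e)) :
    ∃ e : V ≃ₗ[F] W, ∀ v, e (φ v) = ψ (e v) := by
  have : Finite V := Module.finite_of_finite F
  have : Finite W := Module.finite_of_finite F
  have : Finite (AEval' φ) := ‹Finite V›
  have : Finite (AEval' ψ) := ‹Finite W›
  obtain ⟨e⟩ := nonempty_equiv_of_torsionBy (R := F[X]) (M := AEval' φ) (N := AEval' ψ)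
    (by
      change Nat.card V = Nat.card W
      rw [Module.natCard_eq_pow_finrank (K := F) (V := V),
        Module.natCard_eq_pow_finrank (K := F) (V := W), hd])
    fun p k hp => by rw [card_torsionBy_aeval, card_torsionBy_aeval, h p k hp]
  refine ⟨(AEval'.of φ).trans ((e.restrictScalars F).trans (AEval'.of ψ).symm), fun v => ?_⟩
  simp only [LinearEquiv.trans_apply, LinearEquiv.restrictScalars_apply]
  rw [← AEval'.X_smul_of, map_smul, AEval'.of_symm_X_smul]

theorem kd_pi {κ : Type*} [Fintype κ] {U : κ → Type*} [∀ k, AddCommGroup (U k)]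
    [∀ k, Module F (U k)] [∀ k, FiniteDimensional F (U k)] (φ : ∀ k, U k →ₗ[F] U k) (f : F[X]) :
    kd (LinearMap.piMap φ) f = ∑ k, kd (φ k) f := by
  have h : ∀ v k, aeval (LinearMap.piMap φ) f v k = aeval (φ k) f (v k) := fun v k =>
    aeval_semiconj (φ := LinearMap.piMap φ) (ψ := φ k) (LinearMap.proj k) (fun _ => rfl) f v
  simp only [kd]
  rw [← Module.finrank_pi_fintype]
  refine LinearEquiv.finrank_eq
    { toFun := fun v k => ⟨v.1 k, by
        rw [LinearMap.mem_ker, ← h, LinearMap.mem_ker.1 v.2]; rfl⟩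
      invFun := fun v => ⟨fun k => (v k).1, funext fun k => by
        rw [h]; exact (v k).2⟩
      map_add' := fun _ _ => rfl
      map_smul' := fun _ _ => rfl
      left_inv := fun _ => rfl
      right_inv := fun _ => rfl }

/-- multiplication by `X` on `F[X] / (g)` -/
noncomputable def cyc (g : F[X]) : AdjoinRoot g →ₗ[F] AdjoinRoot g :=
  LinearMap.mulLeft F (AdjoinRoot.root g)

theorem aeval_cyc (g f : F[X]) (x : AdjoinRoot g) :
    aeval (cyc g) f x = AdjoinRoot.mk g f * x := by
  have : cyc g = Algebra.lmul F _ (AdjoinRoot.root g) := rfl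
  rw [this, aeval_algHom_apply, AdjoinRoot.aeval_eq]
  rfl

theorem finrank_adjoinRoot (g : F[X]) : finrank F (AdjoinRoot g) = g.natDegree :=
  finrank_quotient_span_eq_natDegree

theorem kd_cyc {g f d : F[X]} (hg : g ≠ 0) (h : Ideal.span {g} ⊔ Ideal.span {f} = Ideal.span {d}) :
    kd (cyc g) f = d.natDegree := by
  have : Module.Finite F (AdjoinRoot g) := (AdjoinRoot.powerBasis hg).finite
  have hd : d ∣ g := Ideal.mem_span_singleton.1
    (h ▸ Ideal.mem_sup_left (Ideal.mem_span_singleton_self g))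
  let π : AdjoinRoot g →ₐ[F] AdjoinRoot d := AdjoinRoot.algHomOfDvd F g d hd
  have hπ : ∀ x, π (AdjoinRoot.mk g x) = AdjoinRoot.mk d x := fun x => by
    rw [← AdjoinRoot.aeval_eq, ← aeval_algHom_apply, AdjoinRoot.algHomOfDvd_root,
      AdjoinRoot.aeval_eq]
  have h1 : LinearMap.range (aeval (cyc g) f) = LinearMap.ker π.toLinearMap := by
    ext x
    obtain ⟨x, rfl⟩ := AdjoinRoot.mk_surjective x
    rw [LinearMap.mem_ker, AlgHom.toLinearMap_apply, hπ, AdjoinRoot.mk_eq_zero,
      ← Ideal.mem_span_singleton, ← h, Submodule.mem_sup]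
    constructor
    · rintro ⟨y, hy⟩
      obtain ⟨y, rfl⟩ := AdjoinRoot.mk_surjective y
      rw [aeval_cyc, ← map_mul, eq_comm, AdjoinRoot.mk_eq_mk] at hy
      exact ⟨_, Ideal.mem_span_singleton.2 hy, f * y,
        Ideal.mem_span_singleton.2 (dvd_mul_right _ _), by ring⟩
    · rintro ⟨a, ha, b, hb, rfl⟩
      obtain ⟨y, rfl⟩ := Ideal.mem_span_singleton.1 hb
      refine ⟨AdjoinRoot.mk g y, ?_⟩
      rw [aeval_cyc, map_add, AdjoinRoot.mk_eq_zero.2 (Ideal.mem_span_singleton.1 ha), zero_add,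
        map_mul]
  have h2 : LinearMap.range π.toLinearMap = ⊤ := LinearMap.range_eq_top.2 fun x => by
    obtain ⟨x, rfl⟩ := AdjoinRoot.mk_surjective x
    exact ⟨AdjoinRoot.mk g x, hπ x⟩
  have h3 := LinearMap.finrank_range_add_finrank_ker (aeval (cyc g) f)
  have h4 := LinearMap.finrank_range_add_finrank_ker π.toLinearMap
  rw [h2, finrank_top, finrank_adjoinRoot, ← h1] at h4
  rw [kd]
  omega

theorem kd_cyc_pow {p : F[X]} (hp : p ≠ 0) (e k : ℕ) :
    kd (cyc (p ^ e)) (p ^ k) = min e k * p.natDegree := by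
  rw [kd_cyc (d := p ^ min e k) (pow_ne_zero _ hp), natDegree_pow]
  rcases le_total e k with h | h
  · rw [min_eq_left h, sup_eq_left, Ideal.span_singleton_le_span_singleton]
    exact pow_dvd_pow p h
  · rw [min_eq_right h, sup_eq_right, Ideal.span_singleton_le_span_singleton]
    exact pow_dvd_pow p h

theorem kd_cyc_coprime {g f : F[X]} (hg : g ≠ 0) (h : IsCoprime g f) : kd (cyc g) f = 0 := by
  rw [kd_cyc (d := 1) hg, natDegree_one]
  rw [Ideal.span_singleton_one, ← Ideal.isCoprime_iff_sup_eq, Ideal.isCoprime_span_singleton_iff]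
  exact h

theorem kd_cyc_dvd {g f : F[X]} (hg : g ≠ 0) (h : g ∣ f) : kd (cyc g) f = g.natDegree :=
  kd_cyc hg (sup_eq_left.2 (Ideal.span_singleton_le_span_singleton.2 h))

theorem exists_decomp [Finite F] [FiniteDimensional F V] (φ : V →ₗ[F] V) :
    ∃ (t : ℕ) (p : Fin t → F[X]) (e : Fin t → ℕ), (∀ k, Irreducible (p k) ∧ (p k).Monic ∧ 1 ≤ e k) ∧
      ∀ f, kd φ f = ∑ k, kd (cyc (p k ^ e k)) f := by
  classical
  have : Finite V := Module.finite_of_finite F
  have : Finite (AEval' φ) := ‹Finite V›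
  obtain ⟨ι, _, p, hp, e, ⟨ψ⟩⟩ := Module.equiv_directSum_of_isTorsion (R := F[X]) (M := AEval' φ)
    isTorsion_of_finite
  have hfin : ∀ k, FiniteDimensional F (AdjoinRoot (p k ^ e k)) := fun k =>
    (AdjoinRoot.powerBasis (pow_ne_zero _ (hp k).ne_zero)).finite
  let χ : AEval' φ ≃ₗ[F[X]] ∀ k, F[X] ⧸ F[X] ∙ p k ^ e k :=
    ψ.trans (DirectSum.linearEquivFunOnFintype F[X] ι _)
  let χ' : V ≃ₗ[F] ∀ k, AdjoinRoot (p k ^ e k) := (AEval'.of φ).trans (χ.restrictScalars F)
  have h1 : ∀ f, kd φ f = ∑ k, kd (cyc (p k ^ e k)) f := fun f => by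
    rw [← kd_pi]
    refine kd_congr χ' (fun v => ?_) f
    change χ (AEval'.of φ (φ v)) = _
    rw [← AEval'.X_smul_of, map_smul]
    rfl
  let q : ι → F[X] := fun k => normalize (p k)
  have h2 : ∀ k f, kd (cyc (p k ^ e k)) f = kd (cyc (q k ^ e k)) f := fun k f => by
    have h3 : Ideal.span {q k ^ e k} = Ideal.span {p k ^ e k} :=
      Ideal.span_singleton_eq_span_singleton.2 ((normalize_associated (p k)).pow_pow)
    obtain ⟨d, hd⟩ := (IsPrincipalIdealRing.principal
      (Ideal.span {p k ^ e k} ⊔ Ideal.span {f})).principal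
    rw [kd_cyc (pow_ne_zero _ (hp k).ne_zero) hd, kd_cyc (pow_ne_zero _ (by
      simpa [q] using (hp k).ne_zero)) (h3 ▸ hd)]
  let σ := (Fintype.equivFin {k // 1 ≤ e k}).symm
  refine ⟨_, fun k => q (σ k), fun k => e (σ k), fun k => ⟨(normalize_associated _).symm.irreducible
    (hp _), monic_normalize (hp _).ne_zero, (σ k).2⟩, fun f => ?_⟩
  rw [h1, Equiv.sum_comp σ fun k => kd (cyc (q k ^ e k)) f,
    ← Fintype.sum_subtype_add_sum_subtype (fun k => 1 ≤ e k)]
  rw [Finset.sum_eq_zero (s := Finset.univ) (f := fun k : {k // ¬ 1 ≤ e k} =>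
    kd (cyc (p k ^ e k)) f) fun k _ => ?_, add_zero]
  · exact Finset.sum_congr rfl fun k _ => h2 k f
  · have : e k = 0 := by have := k.2; omega
    exact kd_cyc_coprime (pow_ne_zero _ (hp k).ne_zero) (by rw [this, pow_zero]; exact isCoprime_one_left)

theorem kd_zero [FiniteDimensional F V] (φ : V →ₗ[F] V) : kd φ 0 = finrank F V := by
  rw [kd, map_zero, LinearMap.ker_zero, finrank_top]

theorem kd_eq_finrank_iff [FiniteDimensional F V] (φ : V →ₗ[F] V) (f : F[X]) :
    kd φ f = finrank F V ↔ aeval φ f = 0 := by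
  rw [kd, ← LinearMap.ker_eq_top]
  exact ⟨Submodule.eq_top_of_finrank_eq, fun h => by rw [h, finrank_top]⟩

theorem kd_le [FiniteDimensional F V] (φ : V →ₗ[F] V) (f : F[X]) : kd φ f ≤ finrank F V :=
  Submodule.finrank_le _

theorem kd_eq_zero_of_coprime [FiniteDimensional F V] {φ : V →ₗ[F] V} {f g : F[X]}
    (hg : aeval φ g = 0) (h : IsCoprime f g) : kd φ f = 0 := by
  obtain ⟨a, b, hab⟩ := h
  rw [kd, Submodule.finrank_eq_zero, LinearMap.ker_eq_bot']
  intro v hv
  have := congrArg (fun x => aeval φ x v) hab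
  simpa [hg, hv] using this.symm

section matrix

open Matrix

variable {ι κ : Type*} [Fintype ι] [DecidableEq ι] [Fintype κ] [DecidableEq κ]

/-- the dimension of the kernel of a polynomial in a matrix -/
noncomputable abbrev mkd (A : Matrix ι ι F) (f : F[X]) : ℕ := kd (Matrix.toLin' A) f

theorem aeval_toLin' (A : Matrix ι ι F) (f : F[X]) :
    aeval (Matrix.toLin' A) f = Matrix.toLin' (aeval A f) :=
  aeval_algHom_apply (Matrix.toLinAlgEquiv' : Matrix ι ι F ≃ₐ[F] _) A f

theorem mkd_add_rank (A : Matrix ι ι F) (f : F[X]) :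
    mkd A f + (aeval A f).rank = Fintype.card ι := by
  rw [mkd, kd, aeval_toLin', add_comm, Matrix.rank, ← Matrix.toLin'_apply',
    LinearMap.finrank_range_add_finrank_ker, finrank_fintype_fun_eq_card]

theorem mkd_eq_card_iff (A : Matrix ι ι F) (f : F[X]) :
    mkd A f = Fintype.card ι ↔ aeval A f = 0 := by
  rw [← finrank_fintype_fun_eq_card F, kd_eq_finrank_iff, aeval_toLin', LinearEquiv.map_eq_zero_iff]

theorem isConj_iff_exists_equiv {A B : Matrix ι ι F} :
    IsConj A B ↔ ∃ e : (ι → F) ≃ₗ[F] (ι → F), ∀ v, e (A *ᵥ v) = B *ᵥ e v := by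
  constructor
  · rintro ⟨c, hc⟩
    refine ⟨(GeneralLinearGroup.toLin c).toLinearEquiv, fun v => ?_⟩
    change c.1 *ᵥ (A *ᵥ v) = B *ᵥ (c.1 *ᵥ v)
    rw [mulVec_mulVec, mulVec_mulVec, hc.eq]
  · rintro ⟨e, he⟩
    refine ⟨⟨LinearMap.toMatrix' e.toLinearMap, LinearMap.toMatrix' e.symm.toLinearMap, ?_, ?_⟩, ?_⟩
    · rw [← LinearMap.toMatrix'_comp]; simp
    · rw [← LinearMap.toMatrix'_comp]; simp
    refine Matrix.toLin'.injective (LinearMap.ext fun v => ?_)
    simpa [← mulVec_mulVec, LinearMap.toMatrix'_mulVec] using he v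

theorem IsConj.mkd_eq {A B : Matrix ι ι F} (h : IsConj A B) (f : F[X]) : mkd A f = mkd B f := by
  obtain ⟨e, he⟩ := isConj_iff_exists_equiv.1 h
  exact kd_congr e he f

theorem isConj_of_mkd [Finite F] {A B : Matrix ι ι F}
    (h : ∀ (p : F[X]) (e : ℕ), Irreducible p → mkd A (p ^ e) = mkd B (p ^ e)) : IsConj A B :=
  isConj_iff_exists_equiv.2 (exists_equiv_of_kd rfl h)

theorem isConj_of_rank [Finite F] {A B : Matrix ι ι F}
    (h : ∀ f : F[X], (aeval A f).rank = (aeval B f).rank) : IsConj A B :=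
  isConj_of_mkd fun p e _ => by
    have h1 := mkd_add_rank A (p ^ e)
    have h2 := mkd_add_rank B (p ^ e)
    rw [h] at h1
    omega

theorem isConj_transpose [Finite F] (A : Matrix ι ι F) : IsConj A Aᵀ :=
  isConj_of_rank fun f => by
    rw [← rank_transpose]
    congr 1
    induction f using Polynomial.induction_on with
    | C a => simp [Algebra.algebraMap_eq_smul_one]
    | add p q hp hq => simp [hp, hq]
    | monomial n a ih => simp [Algebra.algebraMap_eq_smul_one, transpose_pow]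

theorem mkd_reindex (e : ι ≃ κ) (A : Matrix ι ι F) (f : F[X]) :
    mkd (reindex e e A) f = mkd A f :=
  (kd_congr (LinearEquiv.funCongrLeft F F e.symm) (fun v => by
    ext i
    simp [mulVec, dotProduct, ← e.sum_comp]) f).symm

theorem exists_matrix_of_end [FiniteDimensional F V] (φ : V →ₗ[F] V)
    (h : finrank F V = Fintype.card ι) : ∃ A : Matrix ι ι F, ∀ f, mkd A f = kd φ f := by
  let e : V ≃ₗ[F] (ι → F) := LinearEquiv.ofFinrankEq _ _ (by rw [h, finrank_fintype_fun_eq_card])
  refine ⟨LinearMap.toMatrix' (e.conj φ), fun f => (kd_congr e (fun v => ?_) f).symm⟩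
  simp

theorem exists_matrix_of_family {t : Type*} [Fintype t] (g : t → F[X]) (hg : ∀ k, g k ≠ 0)
    (h : ∑ k, (g k).natDegree = Fintype.card ι) :
    ∃ A : Matrix ι ι F, ∀ f, mkd A f = ∑ k, kd (cyc (g k)) f := by
  have hfin : ∀ k, FiniteDimensional F (AdjoinRoot (g k)) := fun k =>
    (AdjoinRoot.powerBasis (hg k)).finite
  obtain ⟨A, hA⟩ := exists_matrix_of_end (ι := ι) (LinearMap.piMap fun k => cyc (g k)) (by
    rw [Module.finrank_pi_fintype, ← h]
    exact Finset.sum_congr rfl fun k _ => finrank_adjoinRoot _)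
  exact ⟨A, fun f => by rw [hA, kd_pi]⟩

theorem isUnit_of_mkd_X {A : Matrix ι ι F} (h : mkd A X = 0) : IsUnit A := by
  rw [mkd, kd, aeval_X, Submodule.finrank_eq_zero, LinearMap.ker_eq_bot] at h
  exact Matrix.mulVec_injective_iff_isUnit.1 h

theorem isConj_units_iff {g h : GL ι F} : IsConj g h ↔ IsConj g.1 h.1 := by
  constructor
  · rintro ⟨c, hc⟩
    exact ⟨c.1, congrArg Units.val hc.eq⟩
  · rintro ⟨c, hc⟩
    exact ⟨toUnits c, Units.ext hc.eq⟩

end matrix

theorem card_classes {G T : Type*} [Group G] (P : G → Prop) (Rl : G → T → Prop)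
    (h1 : ∀ g, P g → ∃ t, Rl g t) (h2 : ∀ t, ∃ g, P g ∧ Rl g t)
    (h3 : ∀ g g' t t', P g → P g' → Rl g t → Rl g' t' → (IsConj g g' ↔ t = t')) :
    Nat.card {C : ConjClasses G // ∃ g, ConjClasses.mk g = C ∧ P g} = Nat.card T := by
  choose g hg hg' using h2
  refine (Nat.card_congr (Equiv.ofBijective (fun t => ⟨ConjClasses.mk (g t), g t, rfl, hg t⟩)
    ⟨fun t t' h => ?_, ?_⟩)).symm
  · exact (h3 _ _ _ _ (hg t) (hg t') (hg' t) (hg' t')).1
      (ConjClasses.mk_eq_mk_iff_isConj.1 (congrArg Subtype.val h))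
  · rintro ⟨_, x, rfl, hx⟩
    obtain ⟨t, ht⟩ := h1 x hx
    exact ⟨t, Subtype.ext (ConjClasses.mk_eq_mk_iff_isConj.2
      ((h3 _ _ _ _ (hg t) hx (hg' t) ht).2 rfl))⟩

end Cfsg.Agent.H6
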