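import Cfsg.Agent.H8.TC

/-! Time-stamped coset tables: a checker for complete coset enumerations. -/

set_option autoImplicit false

namespace Cfsg.Agent.H6.TT

open Cfsg.Agent.H5 Cfsg.Agent.H8.TC

def ent (row c : ℕ) : ℕ := fld row (nat_lit 48) (nat_lit 0xFFFFFFFFFFFF) c
def tg (e : ℕ) : ℕ := Nat.land e (nat_lit 0xFFFFF)
def tm (e : ℕ) : ℕ := Nat.land (Nat.shiftRight e (nat_lit 20)) (nat_lit 0xFFFFF)
def kd (e : ℕ) : ℕ := Nat.shiftRight e (nat_lit 40)
def lr (e : ℕ) : ℕ := Nat.land (Nat.shiftRight e (nat_lit 20)) (nat_lit 15)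
def ol (e : ℕ) : ℕ := Nat.land (Nat.shiftRight e (nat_lit 24)) (nat_lit 15)
def dp (e : ℕ) : ℕ := Nat.land (Nat.shiftRight e (nat_lit 28)) (nat_lit 4095)

theorem force_eq' (n : ℕ) (k : ℕ → ℕ) : force n k = k n := by cases n <;> rfl

theorem tm_lt (e : ℕ) : tm e < 1048576 := Nat.lt_succ_of_le Nat.and_le_right

theorem kd_lt (row c : ℕ) : kd (ent row c) < 256 := by
  have h : ent row c ≤ 0xFFFFFFFFFFFF := fld_le _ _ _ _
  have e : kd (ent row c) = ent row c / 2 ^ 40 := Nat.shiftRight_eq_div_pow _ _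
  rw [e]; omega

noncomputable def walk (T : ℕ → ℕ) (m τ goal fuel : ℕ) : ℕ → ℕ → ℕ → ℕ :=
  Nat.rec (motive := fun _ => ℕ → ℕ → ℕ → ℕ) (fun _ _ _ => nat_lit 1)
    (fun _ ih W cur row => force (Nat.land W (nat_lit 15)) fun c =>
      ifz c (Nat.add W (Nat.xor cur goal))
        (force row fun row => force (ent row c) fun e => force (tg e) fun j =>
          Nat.add (Nat.add (lz (tm e) τ) (Nat.sub c m))
            (force (Nat.shiftRight W (nat_lit 4)) fun W' => ih W' j (T j)))) fuel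

noncomputable def chkE (T iv WT : ℕ → ℕ) (nc ns n i row c : ℕ) : ℕ :=
  force (ent row c) fun e => force (tg e) fun j => force (tm e) fun τ => force (kd e) fun k =>
    force (T j) fun rj => force (ent rj (iv c)) fun e' =>
      Nat.add (Nat.add (lz j n) (Nat.xor (tg e') i))
        (ifz k (lz (tm e') τ)
          (ifz (Nat.pred k) (force (ent rj (nat_lit 0)) fun e0 =>
              Nat.add (Nat.add (Nat.xor (tg e0) i) (Nat.xor (lr e0) c)) (lz i j))
            (ifz (Nat.sub k (nat_lit 2)) (Nat.add (Nat.add i j) (Nat.sub c ns))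
              (force (WT k) fun W => Nat.add (Nat.xor (Nat.land W (nat_lit 15)) c)
                (force (Nat.shiftRight W (nat_lit 4)) fun W' => walk T nc τ i (nat_lit 64) W' j rj)))))

noncomputable def chkR (T iv WT : ℕ → ℕ) (nc ns n i : ℕ) : ℕ :=
  force (T i) fun row => sumTo (fun c => force (Nat.succ c) fun c => chkE T iv WT nc ns n i row c) nc

/-- the table -/
def nx (T : ℕ → ℕ) (i c : ℕ) : ℕ := tg (ent (T i) c)

variable {Γ : Type*} [Group Γ]

noncomputable def rep (lt : ℕ → Γ) (T : ℕ → ℕ) (j : ℕ) : Γ :=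
  if tg (ent (T j) 0) < j then rep lt T (tg (ent (T j) 0)) * lt (lr (ent (T j) 0)) else 1
termination_by j

theorem rep_zero (lt : ℕ → Γ) (T : ℕ → ℕ) : rep lt T 0 = 1 := by rw [rep]; simp

structure Set1 (lt : ℕ → Γ) (K : Subgroup Γ) (iv WT : ℕ → ℕ) (nc ns : ℕ) : Prop where
  zero : lt 0 = 1
  iv_mem : ∀ c, 1 ≤ c → c ≤ nc → 1 ≤ iv c ∧ iv c ≤ nc
  lt_iv : ∀ c, 1 ≤ c → c ≤ nc → lt (iv c) = (lt c)⁻¹
  rel : ∀ k < 256, val lt (WT k) = 1
  sub : ∀ c, 1 ≤ c → c ≤ ns → lt c ∈ K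

theorem rel_of_rot {lt : ℕ → Γ} (h0 : lt 0 = 1) {RL : List ℕ} (h : ∀ w ∈ RL, val lt w = 1)
    {WT A B : ℕ → ℕ} (hc : sumTo (fun k => Nat.xor (WT k) (rot (nth RL (A k)) (B k))) 256 = 0) :
    ∀ k < 256, val lt (WT k) = 1 := fun k hk => by
  rw [xor_eq_zero' (sumTo_zero hc k hk)]
  refine val_rot h0 ?_ _
  rcases nth_mem RL (A k) with e | e
  · rw [e, val_zero]
  · exact h _ e

variable {lt : ℕ → Γ} {K : Subgroup Γ} {iv WT T : ℕ → ℕ} {nc ns n : ℕ}

theorem walk_step {m τ goal fuel W cur : ℕ} (h : walk T m τ goal (fuel + 1) W cur (T cur) = 0) :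
    (W = 0 ∧ cur = goal) ∨ (1 ≤ W % 16 ∧ W % 16 ≤ m ∧ tm (ent (T cur) (W % 16)) < τ ∧
      walk T m τ goal fuel (W / 16) (nx T cur (W % 16)) (T (nx T cur (W % 16))) = 0) := by
  have e1 : Nat.land W 15 = W % 16 := Nat.and_two_pow_sub_one_eq_mod W 4
  have e2 : Nat.shiftRight W 4 = W / 16 := Nat.shiftRight_eq_div_pow W 4
  change ifz (Nat.land W 15) (Nat.add W (Nat.xor cur goal))
    (Nat.add (Nat.add (lz (tm (ent (T cur) (Nat.land W 15))) τ) (Nat.sub (Nat.land W 15) m))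
      (walk T m τ goal fuel (Nat.shiftRight W 4) (tg (ent (T cur) (Nat.land W 15)))
        (T (tg (ent (T cur) (Nat.land W 15)))))) = 0 at h
  rw [ifz_eq, e1, e2] at h
  split_ifs at h with h1
  · obtain ⟨h2, h3⟩ := add_eq_zero' h
    exact Or.inl ⟨h2, xor_eq_zero' h3⟩
  · obtain ⟨h2, h3⟩ := add_eq_zero' h
    obtain ⟨h4, h5⟩ := add_eq_zero' h2
    have h6 : W % 16 - m = 0 := h5
    exact Or.inr ⟨by omega, by omega, lt_of_lz h4, h3⟩

theorem walk_sound (h0 : lt 0 = 1) {φ : ℕ → Γ} {m τ goal : ℕ}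
    (hb : ∀ i < n, ∀ c, 1 ≤ c → c ≤ m → nx T i c < n)
    (hF : ∀ i < n, ∀ c, 1 ≤ c → c ≤ m → tm (ent (T i) c) < τ → Holds lt K φ i c (nx T i c))
    (fuel : ℕ) : ∀ W cur, cur < n → walk T m τ goal fuel W cur (T cur) = 0 →
      φ cur * val lt W * (φ goal)⁻¹ ∈ K ∧ goal < n := by
  induction fuel with
  | zero => intro W cur _ h; exact absurd h one_ne_zero
  | succ fuel ih =>
    intro W cur hc h
    rcases walk_step h with ⟨rfl, rfl⟩ | ⟨h1, h2, h3, h4⟩
    · exact ⟨by simp [val_zero], hc⟩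
    · obtain ⟨h5, h6⟩ := ih _ _ (hb _ hc _ h1 h2) h4
      refine ⟨?_, h6⟩
      have h7 := K.mul_mem (hF _ hc _ h1 h2 h3) h5
      rw [val_step h0 W]
      convert h7 using 1; group

theorem walk_mem (h0 : lt 0 = 1) {m τ goal : ℕ} (hm : ∀ c, 1 ≤ c → c ≤ m → lt c ∈ K)
    (fuel : ℕ) : ∀ W cur, walk T m τ goal fuel W cur (T cur) = 0 → val lt W ∈ K := by
  induction fuel with
  | zero => intro W cur h; exact absurd h one_ne_zero
  | succ fuel ih =>
    intro W cur h
    rcases walk_step h with ⟨rfl, rfl⟩ | ⟨h1, h2, -, h4⟩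
    · simp [val_zero]
    · rw [val_step h0 W]; exact K.mul_mem (hm _ h1 h2) (ih _ _ h4)

theorem chkE_of (h : ∀ i < n, chkR T iv WT nc ns n i = 0) {i c : ℕ} (hi : i < n) (h1 : 1 ≤ c)
    (h2 : c ≤ nc) : chkE T iv WT nc ns n i (T i) c = 0 := by
  have e : chkR T iv WT nc ns n i =
      sumTo (fun c => chkE T iv WT nc ns n i (T i) (Nat.succ c)) nc := by
    unfold chkR
    rw [force_eq']
    exact congrArg (fun f => sumTo f nc) (funext fun c => force_eq' _ _)
  have h3 := h i hi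
  rw [e] at h3
  have := sumTo_zero h3 (c - 1) (by omega)
  obtain ⟨d, rfl⟩ : ∃ d, c = d + 1 := ⟨c - 1, by omega⟩
  exact this

/-- the combinatorial and group-theoretic content of a checked table -/
structure Tab (lt : ℕ → Γ) (K : Subgroup Γ) (iv T : ℕ → ℕ) (nc n : ℕ) : Prop where
  zero : lt 0 = 1
  iv_mem : ∀ c, 1 ≤ c → c ≤ nc → 1 ≤ iv c ∧ iv c ≤ nc
  lt_iv : ∀ c, 1 ≤ c → c ≤ nc → lt (iv c) = (lt c)⁻¹
  lt_n : ∀ i < n, ∀ c, 1 ≤ c → c ≤ nc → nx T i c < n
  inv : ∀ i < n, ∀ c, 1 ≤ c → c ≤ nc → nx T (nx T i c) (iv c) = i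
  holds : ∀ i < n, ∀ c, 1 ≤ c → c ≤ nc → Holds lt K (rep lt T) i c (nx T i c)

theorem tab_of (H : Set1 lt K iv WT nc ns) (h : ∀ i < n, chkR T iv WT nc ns n i = 0) :
    Tab lt K iv T nc n := by
  have hb : ∀ i < n, ∀ c, 1 ≤ c → c ≤ nc → nx T i c < n ∧ nx T (nx T i c) (iv c) = i := by
    intro i hi c h1 h2
    have h3 := chkE_of h hi h1 h2
    simp only [chkE, force_eq'] at h3
    obtain ⟨h4, h5⟩ := add_eq_zero' (add_eq_zero' h3).1
    exact ⟨lt_of_lz h4, xor_eq_zero' h5⟩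
  refine ⟨H.zero, H.iv_mem, H.lt_iv, fun i hi c h1 h2 => (hb i hi c h1 h2).1,
    fun i hi c h1 h2 => (hb i hi c h1 h2).2, ?_⟩
  suffices key : ∀ τ, ∀ i < n, ∀ c, 1 ≤ c → c ≤ nc → tm (ent (T i) c) = τ →
      Holds lt K (rep lt T) i c (nx T i c) from fun i hi c h1 h2 => key _ i hi c h1 h2 rfl
  intro τ
  induction τ using Nat.strong_induction_on with
  | _ τ ih =>
    intro i hi c h1 h2 hτ
    have h3 := chkE_of h hi h1 h2
    simp only [chkE, force_eq', ifz_eq] at h3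
    have h4 := (add_eq_zero' h3).2
    obtain ⟨b1, b2⟩ := hb i hi c h1 h2
    split_ifs at h4
    · have h5 := ih _ (hτ ▸ lt_of_lz h4) _ b1 _ (H.iv_mem c h1 h2).1 (H.iv_mem c h1 h2).2 rfl
      rw [b2] at h5
      have h6 := K.inv_mem h5
      unfold Holds at h6 ⊢
      rw [H.lt_iv c h1 h2] at h6
      convert h6 using 1; group
    · obtain ⟨h5, h6⟩ := add_eq_zero' h4
      obtain ⟨h7, h8⟩ := add_eq_zero' h5
      have e1 : tg (ent (T (nx T i c)) 0) = i := xor_eq_zero' h7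
      have e2 : lr (ent (T (nx T i c)) 0) = c := xor_eq_zero' h8
      have e3 : i < nx T i c := lt_of_lz h6
      unfold Holds
      rw [rep.eq_1 lt T (nx T i c), e1, e2, if_pos e3, mul_inv_cancel]
      exact K.one_mem
    · obtain ⟨h5, h6⟩ := add_eq_zero' h4
      obtain ⟨h7, h8⟩ := add_eq_zero' h5
      have h9 : c - ns = 0 := h6
      have e1 : nx T i c = 0 := h8
      unfold Holds
      rw [e1, h7, rep_zero]
      simpa using H.sub c h1 (by omega)
    · obtain ⟨h5, h6⟩ := add_eq_zero' h4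
      have e1 : WT (kd (ent (T i) c)) % 16 = c :=
        (Nat.and_two_pow_sub_one_eq_mod _ 4).symm.trans (xor_eq_zero' h5)
      have e2 : Nat.shiftRight (WT (kd (ent (T i) c))) 4 = WT (kd (ent (T i) c)) / 16 :=
        Nat.shiftRight_eq_div_pow _ 4
      rw [e2] at h6
      have h7 := (walk_sound (K := K) (φ := rep lt T) H.zero (fun i hi c h1 h2 => (hb i hi c h1 h2).1)
        (fun i' hi' c' h1' h2' ht => ih _ (hτ ▸ ht) i' hi' c' h1' h2' rfl) 64 _ _ b1 h6).1
      have h8 := H.rel _ (kd_lt (T i) c)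
      rw [val_step H.zero, e1] at h8
      rw [eq_inv_of_mul_eq_one_right h8] at h7
      have h9 := K.inv_mem h7
      unfold Holds
      convert h9 using 1; group

/-- follow a word through a complete table -/
noncomputable def tr (T : ℕ → ℕ) (m W cur goal : ℕ) : ℕ :=
  walk T m (nat_lit 1048576) goal (nat_lit 100) W cur (T cur)

theorem Tab.tr (H : Tab lt K iv T nc n) {m W cur goal : ℕ} (hm : m ≤ nc) (hc : cur < n)
    (h : tr T m W cur goal = 0) : rep lt T cur * val lt W * (rep lt T goal)⁻¹ ∈ K ∧ goal < n :=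
  walk_sound H.zero (fun i hi c h1 h2 => H.lt_n i hi c h1 (h2.trans hm))
    (fun i hi c h1 h2 _ => H.holds i hi c h1 (h2.trans hm)) _ _ _ hc h

theorem tr_mem (h0 : lt 0 = 1) {m W cur goal : ℕ} (hm : ∀ c, 1 ≤ c → c ≤ m → lt c ∈ K)
    (h : tr T m W cur goal = 0) : val lt W ∈ K := walk_mem h0 hm _ _ _ h

/-- the subgroup generated by the letters -/
def gen (lt : ℕ → Γ) (nc : ℕ) : Subgroup Γ := Subgroup.closure {g | ∃ c, 1 ≤ c ∧ c ≤ nc ∧ lt c = g}

theorem lt_mem_gen {c : ℕ} (h1 : 1 ≤ c) (h2 : c ≤ nc) : lt c ∈ gen lt nc :=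
  Subgroup.subset_closure ⟨c, h1, h2, rfl⟩

theorem Tab.induction (H : Tab lt K iv T nc n) {P : Γ → Prop} (h1 : P 1)
    (h2 : ∀ g, P g → ∀ c, 1 ≤ c → c ≤ nc → P (g * lt c)) : ∀ g ∈ gen lt nc, P g := by
  intro g hg
  induction hg using Subgroup.closure_induction_right with
  | one => exact h1
  | mul_right x _ y hy ih =>
    obtain ⟨c, a, b, rfl⟩ := hy
    exact h2 x ih c a b
  | mul_inv_cancel x _ y hy ih =>
    obtain ⟨c, a, b, rfl⟩ := hy
    rw [← H.lt_iv c a b]
    exact h2 x ih _ (H.iv_mem c a b).1 (H.iv_mem c a b).2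

theorem Tab.cover (H : Tab lt K iv T nc n) (hn : 0 < n) :
    ∀ g ∈ gen lt nc, ∃ i < n, g * (rep lt T i)⁻¹ ∈ K := by
  refine H.induction ⟨0, hn, by simp [rep_zero]⟩ ?_
  rintro g ⟨i, hi, hg⟩ c h1 h2
  refine ⟨_, H.lt_n i hi c h1 h2, ?_⟩
  have := K.mul_mem hg (H.holds i hi c h1 h2)
  convert this using 1; group

theorem Tab.rep_mem (H : Tab lt K iv T nc n) (hK : K ≤ gen lt nc)
    (hc : ∀ i < n, ∃ g ∈ gen lt nc, g * (rep lt T i)⁻¹ ∈ K) : ∀ i < n, rep lt T i ∈ gen lt nc := by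
  intro i hi
  obtain ⟨g, hg, h⟩ := hc i hi
  have := mul_mem (inv_mem (hK h)) hg
  simpa using this

open Classical in
/-- the fibre over a coset -/
noncomputable def fib (lt : ℕ → Γ) (K : Subgroup Γ) (T : ℕ → ℕ) (n : ℕ) (g : Γ) : Finset ℕ :=
  (Finset.range n).filter fun i => g * (rep lt T i)⁻¹ ∈ K

theorem mem_fib {g : Γ} {i : ℕ} : i ∈ fib lt K T n g ↔ i < n ∧ g * (rep lt T i)⁻¹ ∈ K := by
  simp [fib]

theorem Tab.fib_le (H : Tab lt K iv T nc n) (g : Γ) {c : ℕ} (h1 : 1 ≤ c) (h2 : c ≤ nc) :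
    (fib lt K T n g).card ≤ (fib lt K T n (g * lt c)).card := by
  refine Finset.card_le_card_of_injOn (fun i => nx T i c) ?_ ?_
  · intro i hi
    obtain ⟨a, b⟩ := mem_fib.1 hi
    refine mem_fib.2 ⟨H.lt_n i a c h1 h2, ?_⟩
    have := K.mul_mem b (H.holds i a c h1 h2)
    convert this using 1; group
  · intro i hi j hj e
    have e' : nx T i c = nx T j c := e
    rw [← H.inv i (mem_fib.1 hi).1 c h1 h2, e', H.inv j (mem_fib.1 hj).1 c h1 h2]

theorem Tab.fib_eq (H : Tab lt K iv T nc n) :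
    ∀ g ∈ gen lt nc, (fib lt K T n g).card = (fib lt K T n 1).card := by
  refine H.induction rfl fun g hg c h1 h2 => ?_
  rw [← hg]
  refine le_antisymm ?_ (H.fib_le g h1 h2)
  have := H.fib_le (g * lt c) (H.iv_mem c h1 h2).1 (H.iv_mem c h1 h2).2
  rwa [H.lt_iv c h1 h2, mul_inv_cancel_right] at this

theorem Tab.card [Finite Γ] (H : Tab lt K iv T nc n) (hK : K ≤ gen lt nc)
    (hr : ∀ i < n, rep lt T i ∈ gen lt nc) :
    Nat.card (gen lt nc) * (fib lt K T n 1).card = n * Nat.card K := by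
  classical
  have := Fintype.ofFinite Γ
  let L : Finset Γ := Finset.univ.filter fun g => g ∈ gen lt nc
  have e1 : ∑ g ∈ L, (fib lt K T n g).card = Nat.card (gen lt nc) * (fib lt K T n 1).card := by
    rw [Finset.sum_congr rfl fun g hg => H.fib_eq g (Finset.mem_filter.1 hg).2, Finset.sum_const,
      smul_eq_mul, Nat.card_eq_fintype_card, Fintype.card_subtype]
  have e2 : ∑ g ∈ L, (fib lt K T n g).card =
      ∑ i ∈ Finset.range n, (L.filter fun g => g * (rep lt T i)⁻¹ ∈ K).card := by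
    simp only [fib, Finset.card_filter]
    rw [Finset.sum_comm]
  rw [← e1, e2, Finset.sum_congr rfl (g := fun _ => Nat.card K), Finset.sum_const, Finset.card_range,
    smul_eq_mul]
  intro i hi
  rw [Nat.card_eq_fintype_card, Fintype.card_subtype]
  refine Finset.card_bij (fun g _ => g * (rep lt T i)⁻¹) (fun g hg => ?_)
    (fun a _ b _ e => mul_right_cancel e) fun k hk => ?_
  · simpa using (Finset.mem_filter.1 hg).2
  · have hk' : k ∈ K := by simpa using hk
    refine ⟨k * rep lt T i, ?_, by simp⟩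
    simp only [L, Finset.mem_filter, Finset.mem_univ, true_and, mul_inv_cancel_right]
    exact ⟨mul_mem (hK hk') (hr i (Finset.mem_range.1 hi)), hk'⟩

/-- every row has a parent: the representatives are words in the letters -/
noncomputable def chkP (T : ℕ → ℕ) (nc i : ℕ) : ℕ :=
  force (lr (ent (T i) (nat_lit 0))) fun c => Nat.sub c nc

theorem rep_mem_gen (h0 : lt 0 = 1) (h : ∀ i < n, lr (ent (T i) 0) ≤ nc) :
    ∀ i < n, rep lt T i ∈ gen lt nc := by
  intro i
  induction i using Nat.strong_induction_on with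
  | _ i ih =>
    intro hi
    rw [rep]
    split_ifs with h1
    · refine mul_mem (ih _ h1 (h1.trans hi)) ?_
      rcases Nat.eq_zero_or_pos (lr (ent (T i) 0)) with e | e
      · rw [e, h0]; exact one_mem _
      · exact lt_mem_gen e (h i hi)
    · exact one_mem _

/-! ### The fibre over the trivial coset -/

/-- alternately apply `u` and the words of the list -/
noncomputable def chain (T : ℕ → ℕ) (nc ns u fin : ℕ) (l : List (ℕ × ℕ × ℕ)) : ℕ → ℕ :=
  List.rec (motive := fun _ => ℕ → ℕ) (fun cur => Nat.xor cur fin)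
    (fun a _ ih cur => Nat.add (Nat.add (tr T nc u cur a.1) (tr T ns a.2.1 a.1 a.2.2)) (ih a.2.2)) l

theorem Tab.chain (H : Tab lt K iv T nc n) (hs : ∀ c, 1 ≤ c → c ≤ ns → lt c ∈ K) (hns : ns ≤ nc)
    {u fin : ℕ} (hu : val lt u ∈ K) (l : List (ℕ × ℕ × ℕ)) :
    ∀ cur < n, chain T nc ns u fin l cur = 0 → rep lt T cur ∈ K → rep lt T fin ∈ K := by
  induction l with
  | nil => intro cur _ h hc; rwa [← xor_eq_zero' h]
  | cons a l ih =>
    intro cur hn h hc
    obtain ⟨h1, h2⟩ := add_eq_zero' h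
    obtain ⟨h3, h4⟩ := add_eq_zero' h1
    obtain ⟨h5, h6⟩ := H.tr le_rfl hn h3
    obtain ⟨h7, h8⟩ := H.tr hns h6 h4
    refine ih _ h8 h2 ?_
    have h9 : rep lt T a.1 ∈ K := by
      have := mul_mem (inv_mem h5) (mul_mem hc hu)
      convert this using 1; group
    have := mul_mem (inv_mem h7) (mul_mem h9 (tr_mem H.zero hs h4))
    convert this using 1; group

/-- root data: the coset, a word leading to it, the chain -/
abbrev Root := ℕ × ℕ × List (ℕ × ℕ × ℕ)

noncomputable def chkRoots (T : ℕ → ℕ) (nc ns fin : ℕ) (l : List Root) : ℕ :=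
  List.rec (motive := fun _ => ℕ) (nat_lit 0)
    (fun a _ ih => Nat.add (Nat.add (tr T nc a.2.1 (nat_lit 0) a.1)
      (chain T nc ns a.2.1 fin a.2.2 (nat_lit 0))) ih) l

theorem Tab.roots (H : Tab lt K iv T nc n) (hs : ∀ c, 1 ≤ c → c ≤ ns → lt c ∈ K) (hns : ns ≤ nc)
    (hn : 0 < n) {fin : ℕ} (hf : rep lt T fin ∉ K) (l : List Root)
    (h : chkRoots T nc ns fin l = 0) : ∀ a ∈ l, rep lt T a.1 ∉ K := by
  induction l with
  | nil => simp
  | cons b l ih =>
    obtain ⟨h1, h2⟩ := add_eq_zero' h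
    obtain ⟨h3, h4⟩ := add_eq_zero' h1
    intro a ha
    rcases List.mem_cons.1 ha with rfl | ha
    · intro hk
      have h5 := (H.tr le_rfl hn h3).1
      refine hf (H.chain hs hns ?_ _ 0 hn h4 (by rw [rep_zero]; exact one_mem _))
      have := mul_mem h5 hk
      simpa [rep_zero] using this
    · exact ih h2 a ha

/-- descent to the roots (depth `0`); depth `4095` marks the exceptional cosets -/
noncomputable def chkO (T : ℕ → ℕ) (nc ns : ℕ) (RT BT : List ℕ) (i : ℕ) : ℕ :=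
  force (T i) fun row => force (ent row (nat_lit 0)) fun e => force (dp e) fun d =>
    Nat.add (Nat.sub (lr e) nc)
    (ifz d (Nat.add (Nat.xor (nth RT (kd e)) i) (lz (nat_lit 0) i))
      (ifz (Nat.xor d (nat_lit 4095)) (Nat.xor (nth BT (kd e)) i)
        (force (ol e) fun c => Nat.add (Nat.add (lz (nat_lit 0) c) (Nat.sub c ns))
          (lz (dp (ent (T (tg (ent row c))) (nat_lit 0))) d))))

theorem Tab.fib_sub (H : Tab lt K iv T nc n) (hs : ∀ c, 1 ≤ c → c ≤ ns → lt c ∈ K) (hns : ns ≤ nc)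
    {RT BT : List ℕ} (hR : ∀ a ∈ RT, rep lt T a ∉ K) (h : ∀ i < n, chkO T nc ns RT BT i = 0) :
    (∀ i < n, rep lt T i ∈ gen lt nc) ∧ ∀ i < n, rep lt T i ∈ K → i = 0 ∨ i ∈ BT := by
  refine ⟨rep_mem_gen H.zero fun i hi => ?_, ?_⟩
  · have h1 := h i hi
    simp only [chkO, force_eq'] at h1
    have : lr (ent (T i) 0) - nc = 0 := (add_eq_zero' h1).1
    omega
  have key : ∀ d, ∀ i < n, dp (ent (T i) 0) = d → d ≠ 4095 → rep lt T i ∉ K := by
    intro d
    induction d using Nat.strong_induction_on with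
    | _ d ih =>
      intro i hi hd hd2 hk
      have h1 := h i hi
      simp only [chkO, force_eq', ifz_eq] at h1
      have h2 := (add_eq_zero' h1).2
      split_ifs at h2 with a b
      · obtain ⟨h3, h4⟩ := add_eq_zero' h2
        have h5 := lt_of_lz h4
        rcases nth_mem RT (kd (ent (T i) 0)) with e | e
        · have := xor_eq_zero' h3; omega
        · exact hR _ (xor_eq_zero' h3 ▸ e) hk
      · exact hd2 (hd ▸ xor_eq_zero' b)
      · obtain ⟨h3, h4⟩ := add_eq_zero' h2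
        obtain ⟨h5, h6⟩ := add_eq_zero' h3
        have h7 : 0 < ol (ent (T i) 0) := lt_of_lz h5
        have h8 : ol (ent (T i) 0) - ns = 0 := h6
        have h9 : dp (ent (T (nx T i (ol (ent (T i) 0)))) 0) < dp (ent (T i) 0) := lt_of_lz h4
        have h10 : dp (ent (T i) 0) ≤ 4095 := Nat.and_le_right
        refine ih _ (hd ▸ h9) _ (H.lt_n i hi _ h7 (by omega)) rfl (by omega) ?_
        have := mul_mem (inv_mem (H.holds i hi _ h7 (by omega)))
          (mul_mem hk (hs _ h7 (by omega)))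
        convert this using 1; group
  intro i hi hk
  by_cases hd : dp (ent (T i) 0) = 4095
  · have h1 := h i hi
    simp only [chkO, force_eq', ifz_eq] at h1
    have h2 := (add_eq_zero' h1).2
    rw [if_neg (by rw [hd]; decide), if_pos (by rw [hd]; rfl)] at h2
    rcases nth_mem BT (kd (ent (T i) 0)) with e | e
    · left; rw [← xor_eq_zero' h2, e]
    · right; rwa [← xor_eq_zero' h2]
  · exact absurd hk (key _ i hi rfl hd)

/-- a coset fixed by the letters of the subgroup -/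
theorem Tab.norm_of_fix (H : Tab lt K iv T nc n) (hns : ns ≤ nc) {a : ℕ} (ha : a < n)
    (h : ∀ c, 1 ≤ c → c ≤ ns → nx T a c = a) (hi : ∀ c, 1 ≤ c → c ≤ ns → iv c ≤ ns) :
    ∀ k ∈ gen lt ns, rep lt T a * k * (rep lt T a)⁻¹ ∈ K := by
  have key : ∀ c, 1 ≤ c → c ≤ ns → rep lt T a * lt c * (rep lt T a)⁻¹ ∈ K := fun c h1 h2 => by
    have := H.holds a ha c h1 (h2.trans hns)
    rwa [h c h1 h2] at this
  intro k hk
  induction hk using Subgroup.closure_induction with
  | mem x hx => obtain ⟨c, h1, h2, rfl⟩ := hx; exact key c h1 h2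
  | one => simp
  | mul x y _ _ h1 h2 => convert mul_mem h1 h2 using 1; group
  | inv x _ h1 => convert inv_mem h1 using 1; group

/-! ### Homomorphisms from a finite model -/

theorem Tab.hom {M : Type*} [Group M] (H : Tab lt ⊥ iv T nc n) (g : ℕ → M) (idx : M → ℕ)
    (hidx : ∀ m, idx m < n) (h1 : idx 1 = 0)
    (hT : ∀ m c, 1 ≤ c → c ≤ nc → nx T (idx m) c = idx (m * g c))
    (hgen : ∀ P : M → Prop, P 1 → (∀ m, P m → ∀ c, 1 ≤ c → c ≤ nc → P (m * g c)) → ∀ m, P m) :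
    ∃ ι : M →* Γ, ∀ c, 1 ≤ c → c ≤ nc → ι (g c) = lt c := by
  have key : ∀ m c, 1 ≤ c → c ≤ nc → rep lt T (idx (m * g c)) = rep lt T (idx m) * lt c := by
    intro m c a b
    have := H.holds _ (hidx m) c a b
    unfold Holds at this
    rw [hT m c a b, Subgroup.mem_bot, mul_inv_eq_one] at this
    exact this.symm
  refine ⟨MonoidHom.mk' (fun m => rep lt T (idx m)) fun a b => ?_, fun c a b => ?_⟩
  · refine hgen (fun b => rep lt T (idx (a * b)) = rep lt T (idx a) * rep lt T (idx b)) ?_ ?_ b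
    · simp only [mul_one, h1, rep_zero]
    · intro m hm c h2 h3
      rw [← mul_assoc, key _ c h2 h3, key _ c h2 h3, hm, mul_assoc]
  · have := key 1 c a b
    rw [one_mul, h1, rep_zero, one_mul] at this
    exact this

end Cfsg.Agent.H6.TT
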