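import Cfsg.Agent.H7.OutTri
import Cfsg.Agent.H7.Cnt
import Cfsg.Agent.H6.Bal
import Cfsg.Agent.H3.BaerSuzuki
import Cfsg.Agent.L.Core

/-!
Triality automorphisms of order three: abstract lemmas.
-/

set_option autoImplicit false

namespace Cfsg.Agent.H6.Tq

open Subgroup H7 QuadraticMap Module

section ring
variable {R : Type*} [Ring R] {A B : R}

theorem isPGroup_of_rel {G : Type*} [Group G] {r : ℕ} [Fact r.Prime] [CharP R r]
    (Γ : G → R → Prop) (one : Γ 1 1) (mul : ∀ x g y h, Γ x g → Γ y h → Γ (x * y) (g * h))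
    (inj : ∀ x, Γ x 1 → x = 1) (hA : A * A = 0) (hB : B * B = 0) (hABA : A * B * A = 0)
    (hBAB : B * A * B = 0) {u v : G} (hu : Γ u (1 + A)) (hv : Γ v (1 + B)) :
    IsPGroup r (closure ({u, v} : Set G)) := by
  have hr : r.Prime := Fact.out
  have a1 : ∀ x, x * A * A = 0 := fun x => by rw [mul_assoc, hA, mul_zero]
  have a2 : ∀ x, x * B * B = 0 := fun x => by rw [mul_assoc, hB, mul_zero]
  have a3 : ∀ x, x * A * B * A = 0 := fun x => by rw [mul_assoc, mul_assoc, ← mul_assoc A, hABA, mul_zero]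
  have a4 : ∀ x, x * B * A * B = 0 := fun x => by rw [mul_assoc, mul_assoc, ← mul_assoc B, hBAB, mul_zero]
  let J : ℤ → ℤ → ℤ → ℤ → R := fun a b c d => a • A + b • B + c • (A * B) + d • (B * A)
  let P : G → Prop := fun x => ∃ a b c d, Γ x (1 + J a b c d)
  have hm : ∀ x y, P x → P y → P (x * y) := by
    rintro x y ⟨a, b, c, d, h⟩ ⟨a', b', c', d', h'⟩
    refine ⟨a + a', b + b', c + c' + a * b', d + d' + b * a', ?_⟩
    convert mul _ _ _ _ h h' using 1
    simp only [J, mul_add, add_mul, mul_one, one_mul, smul_mul_assoc, mul_smul_comm, ← mul_assoc,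
      hA, hB, hABA, hBAB, a1, a2, a3, a4, zero_mul, smul_zero, add_zero]
    module
  have hp : ∀ x g, Γ x g → ∀ n : ℕ, Γ (x ^ n) (g ^ n) := fun x g h n => by
    induction n with
    | zero => simpa using one
    | succ n ih => rw [pow_succ, pow_succ]; exact mul _ _ _ _ ih h
  have h3 : ∀ x, P x → x ^ r ^ 2 = 1 := by
    rintro x ⟨a, b, c, d, h⟩
    have h1 := hp _ _ h (r ^ 2)
    have h2 : J a b c d ^ 3 = 0 := by
      simp only [J, pow_succ, pow_zero, mul_add, add_mul, one_mul, smul_mul_assoc, mul_smul_comm,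
        ← mul_assoc, hA, hB, hABA, hBAB, a1, a2, a3, a4, zero_mul, smul_zero, add_zero]
    rw [add_pow_char_pow_of_commute _ _ (Commute.one_left _), one_pow,
      pow_eq_zero_of_le (by nlinarith [hr.two_le]) h2, add_zero] at h1
    exact inj _ h1
  have hq : ∀ x, P x → ∀ n : ℕ, P (x ^ n) := fun x h n => by
    induction n with
    | zero => exact ⟨0, 0, 0, 0, by simpa [J] using one⟩
    | succ n ih => rw [pow_succ]; exact hm _ _ ih h
  rintro ⟨x, hx⟩
  refine ⟨2, Subtype.ext (h3 x ?_)⟩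
  induction hx using closure_induction with
  | mem y hy =>
    rcases hy with rfl | rfl
    · exact ⟨1, 0, 0, 0, by simpa [J] using hu⟩
    · exact ⟨0, 1, 0, 0, by simpa [J] using hv⟩
  | one => simpa using hq 1 ⟨0, 0, 0, 0, by simpa [J] using one⟩ 0
  | mul y z _ _ h1 h2 => exact hm _ _ h1 h2
  | inv y _ h1 =>
    have : y⁻¹ = y ^ (r ^ 2 - 1) := inv_eq_of_mul_eq_one_right (by
      rw [← pow_succ', Nat.sub_add_cancel (Nat.one_le_pow _ _ hr.pos), h3 y h1])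
    exact this ▸ hq y h1 _

theorem cube_eq_one {K : Type*} [CommRing K] [Algebra K R] (hA : A * A = 0) (hB : B * B = 0)
    (hABA : A * B * A = (-3 : K) • A) (hBAB : B * A * B = (-3 : K) • B) :
    ((1 + A) * (1 + B)) ^ 3 = 1 := by
  have a1 : ∀ x, x * A * A = 0 := fun x => by rw [mul_assoc, hA, mul_zero]
  have a2 : ∀ x, x * B * B = 0 := fun x => by rw [mul_assoc, hB, mul_zero]
  have a3 : ∀ x, x * A * B * A = (-3 : K) • (x * A) := fun x => by
    rw [mul_assoc, mul_assoc, ← mul_assoc A, hABA, mul_smul_comm]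
  have a4 : ∀ x, x * B * A * B = (-3 : K) • (x * B) := fun x => by
    rw [mul_assoc, mul_assoc, ← mul_assoc B, hBAB, mul_smul_comm]
  simp only [pow_succ, pow_zero, mul_add, add_mul, one_mul, mul_one, smul_mul_assoc,
    ← mul_assoc, hA, hB, hABA, hBAB, a1, a2, a3, a4, zero_mul, smul_zero, add_zero]
  module

theorem cube_sandwich {K : Type*} [CommRing K] [Algebra K R] {β : K} (t : K) (hA : A * A = 0)
    (hB : B * B = 0) (hABA : A * B * A = β • A) (hBAB : B * A * B = β • B) :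
    A * ((1 + t • A) * (1 + B)) ^ 3 * A = ((1 + t * β) * (3 + t * β) * β) • A := by
  have a1 : ∀ x, x * A * A = 0 := fun x => by rw [mul_assoc, hA, mul_zero]
  have a2 : ∀ x, x * B * B = 0 := fun x => by rw [mul_assoc, hB, mul_zero]
  have a3 : ∀ x, x * A * B * A = β • (x * A) := fun x => by
    rw [mul_assoc, mul_assoc, ← mul_assoc A, hABA, mul_smul_comm]
  have a4 : ∀ x, x * B * A * B = β • (x * B) := fun x => by
    rw [mul_assoc, mul_assoc, ← mul_assoc B, hBAB, mul_smul_comm]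
  simp only [pow_succ, pow_zero, mul_add, add_mul, one_mul, mul_one, smul_mul_assoc, mul_smul_comm,
    ← mul_assoc, hA, hB, hABA, hBAB, a1, a2, a3, a4, zero_mul, smul_zero, add_zero, zero_add]
  module

end ring

section grp
variable {A : Type*} [Group A] {N C : Subgroup A}

theorem exists_R [Finite A] {I : Subgroup A} [hI : I.Normal] (hCI : C ≤ I)
    (hC : ∀ c ∈ C, ∀ n ∈ N, c * n * c⁻¹ ∈ N) (r : ℕ) [Fact r.Prime] :
    ∃ R : Subgroup A, R ≤ I ∧ IsPGroup r R ∧ (∀ c ∈ C, ∀ x ∈ R, c * x * c⁻¹ ∈ R) ∧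
      ∀ u ∈ C, (∀ n ∈ N, IsPGroup r (closure ({u, n * u * n⁻¹} : Set A))) →
        ∀ n ∈ N, n * u * n⁻¹ * u⁻¹ ∈ R := by
  refine ⟨(L.pClass r).radOf N ⊓ I, inf_le_right,
    IsPGroup.to_le ((L.pClass r).radOf_mem N) inf_le_left, fun c hc x hx => ⟨?_, hI.conj_mem _ hx.2 c⟩,
    fun u hu h n hn => ⟨?_, I.mul_mem (hI.conj_mem _ (hCI hu) n) (I.inv_mem (hCI hu))⟩⟩
  · exact (mem_normalizer_iff.1 ((L.pClass r).normalizer_le_normalizer_radOf N
      (mem_normalizer_fintype (hC c hc))) x).1 hx.1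
  let H : Subgroup A :=
    { carrier := {g | ∃ n ∈ N, ∃ k : ℤ, g = n * u ^ k}
      one_mem' := ⟨1, one_mem _, 0, by simp⟩
      mul_mem' := by
        rintro _ _ ⟨n, hn, k, rfl⟩ ⟨m, hm, l, rfl⟩
        exact ⟨_, N.mul_mem hn (hC _ (C.zpow_mem hu k) m hm), k + l, by group⟩
      inv_mem' := by
        rintro _ ⟨n, hn, k, rfl⟩
        exact ⟨_, hC _ (C.zpow_mem hu (-k)) _ (N.inv_mem hn), -k, by group⟩ }
  have hN : ∀ n ∈ N, n ∈ H := fun n hn => ⟨n, hn, 0, by simp⟩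
  obtain ⟨M, hM, h1, h2⟩ := H3.baer_suzuki_elem (G := H) (p := r)
    (x := ⟨u, 1, one_mem _, 1, by simp⟩) (by
      rintro ⟨_, m, hm, k, rfl⟩
      refine IsPGroup.to_le ((h m hm).comap_subtype (K := H)) ((closure_le _).2 ?_)
      rintro _ (rfl | rfl)
      · exact subset_closure (Or.inl rfl)
      · refine subset_closure (Or.inr ?_)
        change m * u ^ k * u * (m * u ^ k)⁻¹ = _
        group)
  refine (L.pClass r).le_radOf (N := M.map H.subtype ⊓ N) inf_le_right (fun m hm => ?_)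
    ((h1.map _).to_le inf_le_left) ⟨⟨⟨n, hN n hn⟩ * _ * ⟨n, hN n hn⟩⁻¹ * _⁻¹,
      M.mul_mem (hM.conj_mem _ h2 _) (M.inv_mem h2), rfl⟩, ?_⟩
  · refine mem_normalizer_fintype ?_
    rintro _ ⟨⟨y, hy, rfl⟩, h3⟩
    exact ⟨⟨_, hM.conj_mem _ hy ⟨m, hN m hm⟩, rfl⟩, N.mul_mem (N.mul_mem hm h3) (N.inv_mem hm)⟩
  · rw [mul_assoc, mul_assoc, ← mul_assoc u]
    exact N.mul_mem hn (hC u hu _ (N.inv_mem hn))

theorem eq_inv_of_cube [Finite A] (hC : ∀ c ∈ C, ∀ n ∈ N, c * n * c⁻¹ ∈ N) (hN : (Nat.card N).Coprime 3)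
    {r : ℕ} (hr : r.Coprime 3) {u v n : A} (hu : u ∈ C) (hv : v ∈ C) (hn : n ∈ N)
    (h1 : (v * u) ^ r = 1) (h2 : (v * (n * u * n⁻¹)) ^ 3 = 1) : n * u * n⁻¹ = v⁻¹ := by
  have h3 : ∀ k : ℕ, (v * (n * u * n⁻¹)) ^ k * ((v * u) ^ k)⁻¹ ∈ N := fun k => by
    induction k with
    | zero => simp
    | succ k ih =>
      have h4 := hC _ (C.pow_mem (C.mul_mem hv hu) k) _
        (hC _ hv _ (N.mul_mem hn (hC u hu _ (N.inv_mem hn))))
      convert N.mul_mem ih h4 using 1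
      rw [pow_succ, pow_succ]; group
  have h4 := h3 r
  rw [h1, inv_one, mul_one] at h4
  have h5 : (v * (n * u * n⁻¹)) ^ r = 1 := eq_one_of_pow_of_coprime
    (Nat.Coprime.coprime_dvd_left (N.orderOf_dvd_natCard h4) hN) (pow_orderOf_eq_one _)
    (by rw [← pow_mul, mul_comm, pow_mul, h2, one_pow])
  exact eq_inv_of_mul_eq_one_right (eq_one_of_pow_of_coprime hr h5 h2)

end grp

variable {F : Type*} [Field F] [Finite F]

local notation "Q8" => QP F 4

theorem eq_one_of_fix {g : SS Q8} (hg : g ∈ DS Q8) (h : ∀ x, polar Q8 e8 x = 0 → g.γ x = x) :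
    g = 1 := by
  have h0 : g.σ = 1 := DS_le_GO hg
  have hc : (g.c : F) = 1 := by
    have := g.map_B (Pi.single (.inl 1) 1) (Pi.single (.inr 1) 1)
    rw [h _ (by simp [polar_QP, e8, Fin.sum_univ_four]),
      h _ (by simp [polar_QP, e8, Fin.sum_univ_four])] at this
    simpa [polar_QP, Fin.sum_univ_four] using this.symm
  have hB : ∀ x y, polar Q8 (g.γ x) (g.γ y) = polar Q8 x y := fun x y => by simp [g.map_B, h0, hc]
  obtain ⟨c, h1⟩ := Submodule.mem_span_singleton.1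
    (show g.γ (Pi.single (.inl 0) 1) - Pi.single (.inl 0) 1 ∈ F ∙ (e8 : V8 F) by
      rw [← perp_perp (nd_QP 4) (F ∙ e8), mem_perp]
      intro w hw
      have h2 := h w (mem_perp.1 hw e8 (Submodule.mem_span_singleton_self _))
      rw [polar_sub_right]
      nth_rewrite 1 [← h2]
      rw [hB, sub_self])
  have h2 : polar Q8 e8 (Pi.single (.inl 0) 1) = 1 := by
    rw [polar_QP]; simp [e8, Fin.sum_univ_four]
  have h3 : ∀ x, g.γ x = x + (c * polar Q8 e8 x) • e8 := fun x => by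
    have := h (x - polar Q8 e8 x • Pi.single (.inl 0) 1) (by qsimp; rw [h2]; ring)
    rw [map_sub, g.map_smul, h0, eq_add_of_sub_eq h1.symm] at this
    change _ - polar Q8 e8 x • _ = _ at this
    linear_combination (norm := module) this
  have h4 := g.map_Q (Pi.single (.inl 0) 1)
  rw [h3, h2, Q_add, Q_smul, Q_e8, B_smul_right, B_comm, h2, (hypSys_QP 4).Qe] at h4
  have h5 : c * (c + 1) = 0 := by simp at h4; linear_combination h4
  rcases mul_eq_zero.1 h5 with h5 | h5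
  · exact SS.ext_of_apply (nd_QP 4) fun x => by simp [h3, h5]
  · refine absurd ((?_ : g = r8 F) ▸ hg) (refl_notMem_DS (nd_QP 4) nonExc8 Q_e8_ne)
    refine SS.ext_of_apply (nd_QP 4) fun x => ?_
    rw [h3, SS.ofO_apply, refl_apply, Q_e8, eq_neg_of_add_eq_zero_left h5, B_comm]
    module

theorem dvd_card_sing (r : ℕ) [Fact r.Prime] [CharP F r] : r ∣ Nat.card {v // Q8 v = 0} := by
  have h := nQ_QP (F := F) 4 0
  have := Fintype.ofFinite F
  obtain ⟨n, -, hn⟩ := FiniteField.card F r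
  have h1 : (r : ℤ) ∣ Nat.card F := by
    rw [Nat.card_eq_fintype_card, hn]; exact_mod_cast dvd_pow_self r n.ne_zero
  have h2 : (nQ Q8 0 : ℤ) = Nat.card F * (Nat.card F ^ 6 + Nat.card F ^ 2 * (Nat.card F - 1)) :=
    mul_left_cancel₀ (a := (Nat.card F : ℤ)) (by exact_mod_cast Nat.card_pos.ne')
      (by rw [h, if_pos rfl]; ring)
  exact_mod_cast (h2 ▸ h1.mul_right _ : (r : ℤ) ∣ nQ Q8 0)

variable {A : Type*} [Group A] {a : SS (QP F 4) →* A}

theorem eq_bot_of_irr (ha : a.ker = ZS Q8) {r : ℕ} [Fact r.Prime] [CharP F r] {R : Subgroup A}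
    (hR : R ≤ (KS Q8).map a) (hp : IsPGroup r R) (U : Set (Om Q8))
    (hn : ∀ u ∈ U, ∀ x ∈ R, (a (SS.ofO _ u.1))⁻¹ * x * (a (SS.ofO _ u.1))⁻¹⁻¹ ∈ R)
    (irr : ∀ W : Submodule F (V8 F), (∃ v ∈ W, v ≠ 0 ∧ Q8 v = 0) →
      (∀ u ∈ U, ∀ w ∈ W, u.1.1 w ∈ W) → ∀ x, polar Q8 e8 x = 0 → x ∈ W) : R = ⊥ := by
  have : Finite (V8 F ≃ₗ[F] V8 F) := Finite.of_injective _ DFunLike.coe_injective
  let f : Om Q8 →* A := a.comp ((SS.ofO _).comp (Om Q8).subtype)
  let P := R.comap f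
  have hZ : ∀ s : Om Q8, f s = 1 → ∃ l : Fˣ, ∀ v, s.1.1 v = (l : F) • v := fun s hs => by
    obtain ⟨l, hl⟩ := ha.le hs
    exact ⟨l, fun v => (congrArg (·.γ v) hl).symm⟩
  have : Finite R := Finite.of_surjective
    (fun s : P => (⟨f s, s.2⟩ : R)) (by
      rintro ⟨x, hx⟩
      obtain ⟨g, hg, rfl⟩ := hR hx
      obtain ⟨s, hs, l, rfl⟩ := mem_KS.1 hg
      have h1 : a (SS.ofO _ s * SS.sc _ l) = f ⟨s, hs⟩ := by
        rw [map_mul, show a (SS.sc _ l) = 1 from ha.ge ⟨l, rfl⟩, mul_one]; rfl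
      exact ⟨⟨⟨s, hs⟩, by rwa [mem_comap, ← h1]⟩, Subtype.ext h1.symm⟩)
  have hnil : Group.IsNilpotent P := by
    have := hp.isNilpotent
    refine Subgroup.isNilpotent_of_ker_le_center (f.subgroupComap R) fun s hs => ?_
    obtain ⟨l, hl⟩ := hZ s.1 (congrArg Subtype.val hs)
    exact mem_center_iff.2 fun t => Subtype.ext (Subtype.ext (OG.ext' fun v => by simp [hl]))
  obtain ⟨S⟩ : Nonempty (Sylow r P) := inferInstance
  have hS : ∀ s : P, (∃ k, s ^ r ^ k = 1) → s ∈ S := fun s ⟨k, hk⟩ => by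
    obtain ⟨T, hT⟩ := (IsPGroup.of_card (G := zpowers s) (p := r) (n := _) (by
      rw [Nat.card_zpowers]
      exact ((Nat.dvd_prime_pow Fact.out).1 (orderOf_dvd_of_pow_eq_one hk)).choose_spec.2)).exists_le_sylow
    have := Sylow.unique_of_normal S (Sylow.normal_of_normalizerCondition
      Group.normalizerCondition_of_isNilpotent S)
    exact Subsingleton.elim T S ▸ hT (mem_zpowers s)
  letI : MulAction S {v // Q8 v = 0} :=
    { smul := fun s v => ⟨s.1.1.1.1 v, by rw [OG.map_Q, v.2]⟩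
      one_smul := fun v => rfl
      mul_smul := fun s t v => rfl }
  obtain ⟨v, hv, hv0⟩ := S.isPGroup'.exists_fixed_point_of_prime_dvd_card_of_fixed_point
    {v // Q8 v = 0} (dvd_card_sing r) (a := ⟨0, by simp⟩) (fun s => Subtype.ext (map_zero _))
  let W : Submodule F (V8 F) :=
    { carrier := {w | ∀ s ∈ P, (∃ k, s ^ r ^ k = 1) → s.1.1 w = w}
      add_mem' := fun hx hy s hs hk => by rw [map_add, hx s hs hk, hy s hs hk]
      zero_mem' := fun s _ _ => map_zero _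
      smul_mem' := fun c x hx s hs hk => by rw [map_smul, hx s hs hk] }
  have h1 := irr W ⟨v, fun s hs hk => congrArg Subtype.val
      (hv ⟨⟨s, hs⟩, hS _ (hk.imp fun k hk => Subtype.ext hk)⟩), fun h => hv0 (Subtype.ext h.symm), v.2⟩
    fun u hu w hw s hs ⟨k, hk⟩ => by
      have := hw (u⁻¹ * s * u) (by simpa [P, mem_comap, f] using hn u hu _ hs)
        ⟨k, by rw [← inv_inv u, inv_inv u⁻¹, conj_pow, hk]; simp⟩
      exact (OG.inv_apply_eq.1 this)
  refine (eq_bot_iff_forall _).2 fun x hx => ?_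
  obtain ⟨g, hg, rfl⟩ := hR hx
  obtain ⟨s, hs, l, rfl⟩ := mem_KS.1 hg
  have h2 : a (SS.ofO _ s * SS.sc _ l) = f ⟨s, hs⟩ := by
    rw [map_mul, show a (SS.sc _ l) = 1 from ha.ge ⟨l, rfl⟩, mul_one]; rfl
  rw [h2] at hx ⊢
  obtain ⟨k, hk⟩ := hp ⟨_, hx⟩
  replace hk : f ⟨s, hs⟩ ^ r ^ k = 1 := congrArg Subtype.val hk
  obtain ⟨l, hl⟩ := hZ _ ((map_pow _ _ _).trans hk)
  have := Fintype.ofFinite F
  obtain ⟨n, -, hn⟩ := FiniteField.card F r
  have h3 : ((⟨s, hs⟩ : Om Q8) ^ Nat.card Fˣ) ^ r ^ k = 1 := by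
    have h4 : SS.ofO Q8 ((⟨s, hs⟩ : Om Q8) ^ r ^ k).1 = SS.sc _ l :=
      SS.ext_of_apply (nd_QP 4) hl
    refine Subtype.ext (SS.ofO_injective ?_)
    rw [← pow_mul, mul_comm, pow_mul, coe_pow, map_pow, h4, ← map_pow, pow_card_eq_one', map_one]
    rfl
  have h4 := eq_one_of_fix (KS_le_DS (nd_QP 4) nonExc8 even8
    (ofO_mem_KS ((⟨s, hs⟩ : Om Q8) ^ Nat.card Fˣ).2)) fun x hx' => h1 x hx' _ (P.pow_mem hx _) ⟨k, h3⟩
  refine eq_one_of_pow_of_coprime (a := r ^ k) (b := Nat.card Fˣ) ?_ hk ?_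
  · rw [Nat.card_units, Nat.card_eq_fintype_card, hn]
    refine Nat.Coprime.pow_left _ (Nat.Coprime.coprime_dvd_left (dvd_pow_self r n.ne_zero) ?_)
    exact (Nat.coprime_self_sub_right (Nat.one_le_pow _ _ (Fact.out : r.Prime).pos)).2 (by simp)
  · rw [← map_pow]
    exact (congrArg a h4).trans (map_one _)

end Cfsg.Agent.H6.Tq
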