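import Cfsg.Agent.H6.Tq1
import Cfsg.Agent.H6.Galois

/-!
Twisted compositions have idempotents.
-/

set_option autoImplicit false

namespace Cfsg.Agent.H6.Tq

open Subgroup H7 QuadraticMap Module

variable {F : Type*} [Field F]

local notation "Q8" => QP F 4

/-- twisted compositions -/
structure TC (σ : F ≃+* F) (γ : F) (m : V8 F →+ V8 F →+ V8 F) : Prop where
  s3 : ∀ t, σ (σ (σ t)) = t
  γ0 : γ ≠ 0
  σγ : σ γ = γ
  sl : ∀ (c : F) x y, m (c • x) y = σ (σ c) • m x y
  sr : ∀ (c : F) x y, m x (c • y) = σ c • m x y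
  cyc : ∀ x y z, polar Q8 (m y z) x = σ (polar Q8 (m x y) z)
  nrm : ∀ x y, Q8 (m x y) = γ * σ (σ (Q8 x)) * σ (Q8 y)

namespace TC
variable {σ : F ≃+* F} {γ : F} {m : V8 F →+ V8 F →+ V8 F} (h : TC σ γ m)
include h

lemma Br (x y z : V8 F) : polar Q8 (m x y) (m x z) = γ * σ (σ (Q8 x)) * σ (polar Q8 y z) := by
  have := h.nrm x (y + z)
  rw [map_add, Q_add, Q_add, h.nrm, h.nrm, map_add, map_add] at this
  linear_combination this

lemma B4 (x y z w : V8 F) : polar Q8 (m x y) (m z w) + polar Q8 (m x w) (m z y) =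
    γ * σ (σ (polar Q8 x z)) * σ (polar Q8 y w) := by
  have := h.Br (x + z) y w
  simp only [map_add, AddMonoidHom.add_apply, polar_add_left, polar_add_right, h.Br, Q_add] at this
  rw [B_comm _ (m z y)] at this
  linear_combination this

lemma Bl (x y z : V8 F) : polar Q8 (m x y) (m z y) = γ * σ (σ (polar Q8 x z)) * σ (Q8 y) := by
  have := h.nrm (x + z) y
  rw [map_add, AddMonoidHom.add_apply, Q_add, Q_add, h.nrm, h.nrm] at this
  simp only [map_add] at this
  linear_combination this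

lemma right (x y : V8 F) : m (m x y) x = (γ * σ (Q8 x)) • y :=
  (nd_QP 4).ext fun z => σ.injective (by
    rw [← h.cyc, h.Br, B_smul_left, map_mul, map_mul, h.σγ, B_comm])

lemma left (x y : V8 F) : m x (m y x) = (γ * σ (σ (Q8 x))) • y :=
  (nd_QP 4).ext fun z => by
    rw [h.cyc, h.Bl, B_smul_left, map_mul, map_mul, h.σγ, h.s3, B_comm]; ring

lemma right' (x y z : V8 F) : m (m x y) z + m (m z y) x = (γ * σ (polar Q8 x z)) • y := by
  have := h.right (x + z) y
  simp only [map_add, AddMonoidHom.add_apply, h.right, Q_add] at this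
  linear_combination (norm := module) this

lemma left' (x y z : V8 F) : m x (m y z) + m z (m y x) = (γ * σ (σ (polar Q8 x z))) • y := by
  have := h.left (x + z) y
  simp only [map_add, AddMonoidHom.add_apply, h.left, Q_add] at this
  linear_combination (norm := module) this

lemma sq_sq {y : V8 F} (hy : polar Q8 (m y y) y = 0) :
    m (m y y) (m y y) = (-(γ * Q8 y)) • m y y := by
  have := h.right' y y (m y y)
  rw [h.right, h.sl, B_comm, hy, map_mul, map_mul, h.σγ, h.σγ, h.s3] at this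
  linear_combination (norm := (simp only [map_zero]; module)) this

lemma exists_of_nil {N : V8 F} (h0 : N ≠ 0) (hN : m N N = 0) :
    ∃ y, Q8 y ≠ 0 ∧ polar Q8 (m y y) y = 0 := by
  obtain ⟨z, -, hz⟩ := (nd_QP 4).exists_polar_eq_one ⊥ (u := N) (by simpa using h0)
  have hz' : polar Q8 z N = 1 := (B_comm _ _ _).trans hz
  have hQ : Q8 N = 0 := by
    have := h.right N N
    rw [hN, map_zero, AddMonoidHom.zero_apply, eq_comm, smul_eq_zero] at this
    simpa [h.γ0] using this.resolve_right h0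
  have a1 : polar Q8 (m N z) (m z N) = γ := by simpa [hN, hz, hz'] using h.B4 N z z N
  have a2 : m (m N z) (m N z) = -m (m (m N z) z) N := by
    have := h.right' N z (m N z)
    rw [B_comm, h.cyc, hN] at this
    exact eq_neg_of_add_eq_zero_left (by simpa using this)
  have a3 : m (m z N) (m z N) = -m N (m z (m z N)) := by
    have h1 : polar Q8 (m z N) N = 0 := by simpa [hN] using (h.cyc z N N).symm
    have := h.left' N z (m z N)
    rw [B_comm, h1] at this
    exact eq_neg_of_add_eq_zero_right (by simpa using this)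
  have a4 : m N (m N z) = γ • N := by simpa [hN, hz] using h.left' N N z
  have a5 : m (m z N) N = γ • N := by simpa [hN, hz'] using h.right' z N N
  have b1 : polar Q8 (m (m N z) (m N z)) (m z N) = 0 := by simp [a2, h.Bl, hQ]
  have b2 : polar Q8 (m (m z N) (m z N)) (m N z) = 0 := by simp [a3, h.Br, hQ]
  have b3 : polar Q8 (m (m N z) (m N z)) (m N z) = -(γ * γ) := by
    have := h.B4 (m (m N z) z) N N z
    rw [h.cyc N (m N z) z, a4] at this
    simpa [a2, hN, hz, h.σγ] using this
  have b4 : polar Q8 (m (m z N) (m z N)) (m z N) = -(γ * γ) := by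
    have := h.B4 N (m z (m z N)) z N
    rw [← h.cyc z (m z N) N, a5] at this
    simpa [a3, hN, hz] using this
  refine ⟨m N z - m z N, by simp [Q_sub, h.nrm, hQ, a1, h.γ0], ?_⟩
  have c1 := h.cyc (m N z) (m N z) (m z N)
  have c2 := h.cyc (m N z) (m z N) (m N z)
  have c3 := h.cyc (m z N) (m z N) (m N z)
  have c4 := h.cyc (m z N) (m N z) (m z N)
  rw [b1, map_zero] at c1
  rw [c1, map_zero] at c2
  rw [b2, map_zero] at c3
  rw [c3, map_zero] at c4
  simp only [map_sub, AddMonoidHom.sub_apply, polar_sub_left, polar_sub_right, b1, b2, b3, b4,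
    c1, c2, c3, c4]
  ring

open MvPolynomial in
lemma exists_zero [Finite F] (h3 : (3 : F) ≠ 0) : ∃ y, y ≠ 0 ∧ polar Q8 (m y y) y = 0 := by
  classical
  obtain ⟨r, hr⟩ := CharP.exists F
  have : Fact r.Prime := ⟨CharP.char_is_prime F r⟩
  have := Fintype.ofFinite (fixF σ)
  let v : Fin 4 → V8 F := fun i => Pi.single (.inl i) 1
  let T : Fin 4 → Fin 4 → Fin 4 → F := fun i j k => polar Q8 (m (v i) (v j)) (v k)
  let c : Fin 4 → Fin 4 → Fin 4 → fixF σ := fun i j k =>
    ⟨T i j k + σ (T i j k) + σ (σ (T i j k)), by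
      rw [mem_fixF, map_add, map_add, h.s3]; ring⟩
  let f : MvPolynomial (Fin 4) (fixF σ) := ∑ i, ∑ j, ∑ k, C (c i j k) * (X i * X j * X k)
  have hf : f.totalDegree < Fintype.card (Fin 4) := by
    refine lt_of_le_of_lt (totalDegree_finsetSum_le fun i _ => totalDegree_finsetSum_le fun j _ =>
      totalDegree_finsetSum_le fun k _ => ?_) (show 3 < _ by simp)
    refine (totalDegree_mul _ _).trans ?_
    rw [totalDegree_C, zero_add]
    have a1 := totalDegree_mul (X i * X j : MvPolynomial (Fin 4) (fixF σ)) (X k)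
    have a2 := totalDegree_mul (X i : MvPolynomial (Fin 4) (fixF σ)) (X j)
    simp only [totalDegree_X] at a1 a2
    omega
  have h1 := char_dvd_card_solutions r hf
  obtain ⟨⟨x, hx⟩, hx0⟩ := Fintype.exists_ne_of_one_lt_card (lt_of_lt_of_le
    (Fact.out : r.Prime).one_lt (Nat.le_of_dvd (Fintype.card_pos_iff.2 ⟨⟨0, by simp [f]⟩⟩) h1))
    ⟨0, by simp [f]⟩
  have hs : ∀ i, σ (x i) = x i := fun i => (x i).2
  refine ⟨∑ i, (x i : F) • v i, fun h0 => hx0 (Subtype.ext (funext fun i => Subtype.ext ?_)), ?_⟩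
  · simpa [v, Pi.single_apply] using congrFun h0 (.inl i)
  have h2 : polar Q8 (m (∑ i, (x i : F) • v i) (∑ i, (x i : F) • v i)) (∑ i, (x i : F) • v i) =
      ∑ i, ∑ j, ∑ k, T i j k * (x i * x j * x k) := by
    simp only [Fin.sum_univ_four, map_add, AddMonoidHom.add_apply, polar_add_left, polar_add_right,
      h.sl, h.sr, hs, B_smul_left, B_smul_right, T]
    ring
  have h4 := h.cyc (∑ i, (x i : F) • v i) (∑ i, (x i : F) • v i) (∑ i, (x i : F) • v i)
  refine (mul_eq_zero.1 ?_).resolve_left h3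
  have h5 := congrArg Subtype.val hx
  simp only [f, map_sum, map_mul, eval_C, eval_X, c] at h5
  push_cast at h5
  rw [show ∀ t : F, 3 * t = t + t + t from fun t => by ring]
  nth_rewrite 3 [h4]
  nth_rewrite 2 3 [h4]
  rw [h2, ← h5]
  simp only [map_sum, map_mul, hs, ← Finset.sum_add_distrib, add_mul]

theorem exists_idem [Finite F] (h3 : (3 : F) ≠ 0) : ∃ v, Q8 v ≠ 0 ∧ ∃ c : F, m v v = c • v := by
  obtain ⟨y, hy, h1⟩ : ∃ y, Q8 y ≠ 0 ∧ polar Q8 (m y y) y = 0 := by
    obtain ⟨y, h0, hy⟩ := h.exists_zero h3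
    by_cases h1 : Q8 y = 0
    · by_cases h2 : m y y = 0
      · exact h.exists_of_nil h0 h2
      · exact h.exists_of_nil h2 (by simp [h.sq_sq hy, h1])
    · exact ⟨y, h1, hy⟩
  exact ⟨m y y, by simp [h.nrm, h.γ0, hy], _, h.sq_sq h1⟩

end TC

end Cfsg.Agent.H6.Tq
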