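import Cfsg.Agent.H6.Tq2

/-!
Normal form of the elements of order three in the triality cosets.
-/

set_option autoImplicit false

namespace Cfsg.Agent.H6.Tq

open Subgroup H7 QuadraticMap Module

variable {F : Type*} [Field F]

local notation "Q8" => QP F 4

variable {g₁ g₂ g₃ ψ : SS (QP F 4)}

lemma st_e8_e8 : st (e8 : V8 F) e8 = e8 := by rw [e8_st, refl_self Q_e8_ne, neg_neg]

lemma e8_ne : (e8 : V8 F) ≠ 0 := fun h => Q_e8_ne (F := F) (by rw [h, map_zero])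

lemma tri_st (g : Tri g₁ g₂ g₃) : ∃ k : F, k ≠ 0 ∧ ∀ x y, st (g₂.γ x) (g₃.γ y) = k • g₁.γ (st x y) := by
  obtain ⟨-, -, l, hl, h⟩ := g
  refine ⟨l / g₁.c, by simp [hl], fun x y => (nd_QP 4).ext fun z => ?_⟩
  obtain ⟨z, rfl⟩ := g₁.γ.surjective z
  have := h z x y
  rw [t3_cyc, t3_cyc z] at this
  rw [B_smul_left, g₁.map_B]
  refine this.trans ?_
  rw [t3]; field_simp

lemma tri_of_st (h2 : g₂.σ = g₁.σ) (h3 : g₃.σ = g₁.σ) {k : F} (hk : k ≠ 0)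
    (h : ∀ x y, st (g₂.γ x) (g₃.γ y) = k • g₁.γ (st x y)) : Tri g₁ g₂ g₃ :=
  ⟨h2, h3, k * g₁.c, by simp [hk], fun x y z => by
    rw [t3_cyc, t3_cyc x, t3, h, B_smul_left, g₁.map_B, t3, mul_assoc]⟩

/-- semilinear automorphisms of the algebra -/
structure Au (ψ : SS (QP F 4)) : Prop where
  e : ψ.γ e8 = e8
  mul : ∀ x y, ψ.γ (st x y) = st (ψ.γ x) (ψ.γ y)

lemma c_of_fix (h : ψ.γ e8 = e8) : ψ.c = 1 := by
  have := ψ.map_Q e8
  rw [h, Q_e8, map_one, mul_one] at this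
  exact Units.ext this.symm

lemma Au.tri (h : Au ψ) : Tri ψ ψ ψ := tri_of_st rfl rfl one_ne_zero fun x y => by simp [h.mul]

lemma Au.B (h : Au ψ) (x y : V8 F) : polar Q8 (ψ.γ x) (ψ.γ y) = ψ.σ (polar Q8 x y) := by
  simp [ψ.map_B, c_of_fix h.e]

lemma Au.Q (h : Au ψ) (x : V8 F) : Q8 (ψ.γ x) = ψ.σ (Q8 x) := by
  simp [ψ.map_Q, c_of_fix h.e]

lemma eq_one_of_sc {k : F} (h : ψ.γ e8 = e8) (h1 : ∀ x, ψ.γ x = k • x) : ψ = 1 := by
  have h2 : k = 1 := smul_left_injective F e8_ne (by simpa [h] using (h1 e8).symm)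
  exact SS.ext_of_apply (nd_QP 4) fun x => by simp [h1, h2]

lemma au_of_fix (g : Tri g₁ g₂ g₃) (h1 : g₁.γ e8 = e8) (h2 : g₂.γ e8 = e8) (h3 : g₃.γ e8 = e8) :
    Au g₁ ∧ g₂ = g₁ ∧ g₃ = g₁ := by
  obtain ⟨k, -, h⟩ := tri_st g
  have hk : k = 1 := smul_left_injective F e8_ne (by
    simpa [h1, h2, h3, st_e8_e8] using (h e8 e8).symm)
  have h4 : ∀ x, g₁.γ ((refl Q8 e8).1 x) = (refl Q8 e8).1 (g₁.γ x) := fun x => by
    rw [← SS.actO_apply', SS.actO_refl, h1]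
  have a2 : g₂ = g₁ := SS.ext_of_apply (nd_QP 4) fun x => by
    have := h x e8
    rw [h3, hk, st_e8, st_e8, one_smul, map_neg, h4, neg_inj] at this
    exact (refl Q8 e8).1.injective this
  have a3 : g₃ = g₁ := SS.ext_of_apply (nd_QP 4) fun x => by
    have := h e8 x
    rw [h2, hk, e8_st, e8_st, one_smul, map_neg, h4, neg_inj] at this
    exact (refl Q8 e8).1.injective this
  exact ⟨⟨h1, fun x y => by simpa [a2, a3, hk] using (h x y).symm⟩, a2, a3⟩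

/-- `g` maps `v` to a multiple of `e` -/
def ToE (g : SS (QP F 4)) (v : V8 F) : Prop := ∃ k : Fˣ, g.γ v = (k : F) • e8

lemma ToE.mul {g h : SS Q8} {v : V8 F} (h1 : ToE g e8) (h2 : ToE h v) : ToE (g * h) v := by
  obtain ⟨k, hk⟩ := h1
  obtain ⟨l, hl⟩ := h2
  exact ⟨Units.map (g.σ : F →* F) l * k, by simp [hl, g.map_smul, hk, smul_smul]⟩

lemma ToE.of_inv {g h : SS Q8} {v : V8 F} (h1 : ToE g v) (h2 : ToE h v) : ToE (g * h⁻¹) e8 := by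
  obtain ⟨k, hk⟩ := h1
  obtain ⟨l, hl⟩ := h2
  have : e8 = h.γ (h.σ.symm (l⁻¹ : Fˣ) • v) := by simp [h.map_smul, hl, smul_smul]
  refine ⟨Units.map (g.σ : F →* F) (Units.map (h.σ.symm : F →* F) l⁻¹) * k, ?_⟩
  rw [SS.mul_apply]
  nth_rewrite 1 [this]
  simp [g.map_smul, hk, smul_smul]

lemma toE_lR {v : V8 F} (hv : Q8 v ≠ 0) : ToE (lR v hv * r8 F) v :=
  ⟨-Units.mk0 _ hv, by
    have := st_left ((refl Q8 e8).1 v) e8
    rw [e8_st, ← OG.mul_apply, refl_mul_self, OG.one_apply, map_neg, OG.map_Q] at this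
    change st ((refl Q8 e8).1 v) v = _
    simp [← this]⟩

lemma toE_refl {v : V8 F} (h : polar Q8 e8 v = 0) : ToE (SS.ofO Q8 (refl Q8 v) * r8 F) e8 :=
  ⟨-1, by simp [refl_self (Q_e8_ne (F := F)), refl_of_perp h]⟩

lemma exists_tri_toE {v w : V8 F} (hv : Q8 v ≠ 0) (hw : Q8 w ≠ 0) :
    ∃ h₁ h₂ h₃, Tri h₁ h₂ h₃ ∧ ToE h₂ v ∧ ToE h₃ w := by
  have h1 : Q8 ((lL v hv * r8 F).γ w) ≠ 0 := by rwa [Ne, SS.Q_eq_zero_iff]
  obtain ⟨a, ha, h2, h3⟩ := exists_nonsing_perp e8 ((r8 F * (lL v hv * r8 F)).γ w)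
  have h4 : Q8 ((lR a ha * r8 F * (lL v hv * r8 F)).γ w) ≠ 0 := by rwa [Ne, SS.Q_eq_zero_iff]
  refine ⟨_, _, _, (tri_refl h4).cyc.cyc.mul ((tri_refl ha).cyc.cyc.mul (tri_refl hv)),
    (toE_refl ?_).mul ((toE_refl h2).mul (toE_lR hv)), toE_lR h4⟩
  change polar Q8 e8 (st ((r8 F * (lL v hv * r8 F)).γ w) a) = 0
  rw [B_comm, st_cyc, st_e8, refl_of_perp ((B_comm _ _ _).trans h2), polar_neg_left, B_comm, h3,
    neg_zero]

/-- the twisted product -/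
def tw (A B : SS (QP F 4)) : V8 F →+ V8 F →+ V8 F :=
  AddMonoidHom.mk' (fun x => AddMonoidHom.mk' (fun y => st (A.γ x) (B.γ y)) fun y z => by simp)
    fun x z => AddMonoidHom.ext fun y => by simp

lemma tw_apply (A B : SS Q8) (x y : V8 F) : tw A B x y = st (A.γ x) (B.γ y) := rfl

lemma exists_tc {A B : SS Q8} (H : Tri B A⁻¹ (A * B⁻¹)) :
    ∃ (d : Fˣ) (γ : F), TC B.σ γ (tw (SS.sc _ d * A) B) := by
  obtain ⟨k, hk, hk'⟩ := tri_st H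
  obtain ⟨h1, h2, κ, hκ, h⟩ := H
  have a1 : A.σ = B.σ⁻¹ := by rw [← h1]; simp
  have a2 : B.σ * B.σ * B.σ = 1 := by
    rw [SS.mul_σ, SS.inv_σ, a1] at h2
    nth_rewrite 3 [← h2]; group
  have s3 : ∀ t, B.σ (B.σ (B.σ t)) = t := fun t => DFunLike.congr_fun a2 t
  have a3 : ∀ t, A.σ t = B.σ (B.σ t) := fun t => B.σ.injective (by rw [s3, a1]; simp)
  have cyc : ∀ x y z, t3 (A.γ y) (B.γ z) x = κ * B.σ (t3 (A.γ x) (B.γ y) z) := fun x y z => by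
    have := h z (A.γ x) (B.γ y)
    rw [SS.inv_apply, SS.mul_apply, SS.inv_apply, t3_cyc z] at this
    rw [← this, t3_cyc]
  have a4 : κ * B.σ κ * B.σ (B.σ κ) = 1 := by
    have h3 : t3 (A.γ (A⁻¹.γ e8)) (B.γ (B⁻¹.γ e8)) (Pi.single (.inl 0) 1) = 1 := by
      rw [SS.apply_inv, SS.apply_inv, t3, st_e8_e8, polar_QP]; simp [e8, Fin.sum_univ_four]
    have h4 := cyc (Pi.single (.inl 0) 1) (A⁻¹.γ e8) (B⁻¹.γ e8)
    rw [h3, cyc, cyc, h3] at h4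
    simpa [mul_assoc] using h4.symm
  have a5 : κ ^ 2 * B.σ (A.c * B.c) = A.c * B.c := by
    have h3 : κ = k * B.c := by
      have := h (Pi.single (.inl 0) 1) e8 e8
      rw [t3_cyc, t3, hk', B_smul_left, B.map_B, t3_cyc, t3, st_e8_e8, polar_QP] at this
      simpa [e8, Fin.sum_univ_four] using this.symm
    have h4 := congrArg Q8 (hk' e8 e8)
    rw [Q_st, Q_smul, SS.map_Q, SS.map_Q, SS.map_Q, st_e8_e8, Q_e8, SS.mul_c, SS.inv_c, SS.inv_c,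
      a3, a1, inv_inv] at h4
    have h5 : B.σ (B.σ (B.σ⁻¹ (B.c : F)⁻¹)) = (B.σ B.c)⁻¹ := by simp
    have h6 : B.σ A.c ≠ 0 := by simp
    have h7 : B.σ B.c ≠ 0 := by simp
    rw [h5, map_inv₀, map_one, map_one, map_one] at h4
    field_simp at h4
    rw [h3, map_mul]
    linear_combination -(B.c : F) * h4
  have a6 : A.c * B.c * B.σ (B.σ κ) / κ ≠ 0 := by simp [hκ]
  have a7 : B.σ (A.c * B.c * B.σ (B.σ κ) / κ) = A.c * B.c * B.σ (B.σ κ) / κ * κ := by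
    have h6 : B.σ κ ≠ 0 := by simp [hκ]
    rw [map_div₀, map_mul, s3]
    field_simp
    linear_combination (norm := (field_simp; ring1)) (a5 - (A.c * B.c : F) * a4) / κ
  generalize A.c * B.c * B.σ (B.σ κ) / κ = d at a6 a7
  refine ⟨Units.mk0 d a6, d ^ 2 * (A.c * B.c), s3, by simp [a6], ?_, fun c x y => ?_,
    fun c x y => ?_, fun x y z => ?_, fun x y => ?_⟩
  · rw [map_mul, map_pow, a7]; linear_combination d ^ 2 * a5
  · simp [tw_apply, A.map_smul, a3, smul_comm d]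
  · simp [tw_apply, B.map_smul]
  · have := cyc x y z
    simp only [t3] at this
    simp [tw_apply, this, a7, mul_assoc]
  · simp [tw_apply, Q_st, Q_smul, SS.map_Q, a3]; ring

lemma exists_normal {A B : SS Q8} (H : Tri B A⁻¹ (A * B⁻¹)) {v : V8 F} (hv : Q8 v ≠ 0) {c : F}
    (hc : st (A.γ v) (B.γ v) = c • v) : ∃ h₁ h₂ h₃ ψ, ∃ l : Fˣ, Tri h₁ h₂ h₃ ∧ Au ψ ∧ ψ ^ 3 = 1 ∧
      h₃ * B * h₁⁻¹ = SS.sc _ l * ψ ∧
      ((∀ y, st (A.γ v) (B.γ y) = st (A.γ y) (B.γ v)) → ψ = 1) := by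
  obtain ⟨h₁, h₂, h₃, H', ⟨k₂, a2⟩, ⟨k₃, a3⟩⟩ := exists_tri_toE (v := A.γ v) (w := B.γ v)
    (by rwa [Ne, SS.Q_eq_zero_iff]) (by rwa [Ne, SS.Q_eq_zero_iff])
  obtain ⟨k, hk, h⟩ := tri_st H'
  have hc0 : c ≠ 0 := by
    rintro rfl
    have := congrArg Q8 hc
    simp [Q_st, SS.Q_eq_zero_iff, hv] at this
  have a1 : ToE h₁ v := ⟨k₂ * k₃ * (Units.mk0 (k * h₁.σ c) (by simp [hk, hc0]))⁻¹, by
    have := h (A.γ v) (B.γ v)
    rw [a2, a3, hc, h₁.map_smul, smul_smul] at this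
    refine smul_right_injective _ (show k * h₁.σ c ≠ 0 by simp [hk, hc0]) ?_
    simp only [← this, map_smul, LinearMap.smul_apply, st_e8_e8, smul_smul]
    congr 1
    have : h₁.σ c ≠ 0 := by simpa using hc0
    simp; field_simp⟩
  obtain ⟨l₁, b1⟩ : ToE (h₃ * B * h₁⁻¹) e8 := ToE.of_inv (v := v) ⟨k₃, a3⟩ a1
  obtain ⟨l₂, b2⟩ : ToE (h₁ * A⁻¹ * h₂⁻¹) e8 :=
    ToE.of_inv (v := A.γ v) (a1.imp fun k hk => by simpa using hk) ⟨k₂, a2⟩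
  obtain ⟨l₃, b3⟩ : ToE (h₂ * (A * B⁻¹) * h₃⁻¹) e8 :=
    ToE.of_inv (v := B.γ v) ⟨k₂, by simpa using a2⟩ ⟨k₃, a3⟩
  obtain ⟨c1, c2, c3⟩ := au_of_fix ((tri_sc l₁⁻¹ l₂⁻¹ l₃⁻¹).mul ((H'.cyc.cyc.mul H).mul H'.inv))
    (by rw [SS.mul_apply, b1, SS.sc_apply]; simp) (by rw [SS.mul_apply, b2, SS.sc_apply]; simp)
    (by rw [SS.mul_apply, b3, SS.sc_apply]; simp)
  generalize hψ : SS.sc Q8 l₁⁻¹ * (h₃ * B * h₁⁻¹) = ψ at c1 c2 c3
  have d1 : h₃ * B * h₁⁻¹ = SS.sc _ l₁ * ψ := by rw [← hψ, map_inv, mul_inv_cancel_left]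
  have d2 : h₁ * A⁻¹ * h₂⁻¹ = SS.sc _ l₂ * ψ := by rw [← c2, map_inv, mul_inv_cancel_left]
  have d3 : h₂ * (A * B⁻¹) * h₃⁻¹ = SS.sc _ l₃ * ψ := by rw [← c3, map_inv, mul_inv_cancel_left]
  have d4 : ψ ^ 3 = 1 := by
    have : SS.sc _ l₂ * ψ * (SS.sc _ l₃ * ψ) * (SS.sc _ l₁ * ψ) = 1 := by
      rw [← d1, ← d2, ← d3]; group
    refine eq_one_of_sc (k := ((l₂ : F) * ψ.σ (l₃ * ψ.σ l₁))⁻¹) (by simp [pow_succ, c1.e])
      fun x => ?_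
    have h5 := congrArg (·.γ x) this
    simp only [SS.mul_apply, SS.sc_apply, ψ.map_smul, smul_smul, SS.one_apply] at h5
    rw [eq_inv_smul_iff₀ (by simp), pow_succ, pow_two]; exact h5
  refine ⟨h₁, h₂, h₃, ψ, l₁, H', c1, d4, d1, fun hy => ?_⟩
  have d5 : ψ * ψ = 1 := by
    refine eq_one_of_sc (k := ((l₂ : F) * ψ.σ (k₂ * l₁))⁻¹ * ψ.σ k₃) (by simp [c1.e]) fun x => ?_
    obtain ⟨x, rfl⟩ := h₁.γ.surjective x
    have e1 := h (A.γ v) (B.γ x)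
    rw [hy, ← h, a2, a3, map_smul, map_smul, LinearMap.smul_apply, e8_st, st_e8, smul_neg, smul_neg,
      neg_inj, ← map_smul (refl Q8 e8).1, ← map_smul (refl Q8 e8).1,
      (refl Q8 e8).1.injective.eq_iff] at e1
    have e2 := congrArg (·.γ (h₁.γ x)) d1
    have e3 := congrArg (·.γ (h₂.γ (A.γ x))) d2
    simp only [SS.mul_apply, SS.inv_apply, SS.sc_apply] at e2 e3
    have e4 := congrArg (fun y => (l₂ : F) • ψ.γ y) e1
    simp only [e2, ψ.map_smul, smul_smul] at e4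
    rw [mul_smul, eq_inv_smul_iff₀ (by simp), SS.mul_apply, e4]
    nth_rewrite 1 [e3]
    rw [smul_smul, mul_comm]
  rw [← d4, pow_succ, pow_two, d5, one_mul]

variable (F) in
/-- first components of related triples -/
def T0 : Subgroup (SS (QP F 4)) where
  carrier := {g | ∃ g₂ g₃, Tri g g₂ g₃}
  one_mem' := ⟨_, _, Tri.one⟩
  mul_mem' := fun ⟨_, _, h⟩ ⟨_, _, h'⟩ => ⟨_, _, h.mul h'⟩
  inv_mem' := fun ⟨_, _, h⟩ => ⟨_, _, h.inv⟩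

variable [Finite F]

lemma mem_T0_or (g : SS Q8) : g ∈ T0 F ∨ g * r8 F ∈ T0 F := by
  have h1 : g * (SS.std g.σ (std_QP 4 g.σ))⁻¹ ∈ GO Q8 := by simp [mem_GO]
  by_cases h : g * (SS.std g.σ (std_QP 4 g.σ))⁻¹ ∈ DS Q8
  · left
    simpa using (T0 F).mul_mem (exists_tri_of_DS h) ⟨_, _, tri_std g.σ⟩
  · right
    have := (T0 F).mul_mem (exists_tri_of_DS ((mul_refl_mem_DS_iff (nd_QP 4) nonExc8 even8 h1
      Q_e8_ne).2 h)) ⟨_, _, (tri_std g.σ).swap⟩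
    convert this using 1
    rw [mul_assoc _ (r8 F), ← mul_assoc (r8 F), ← mul_assoc (r8 F), r8_mul_self]
    group

universe u
variable {G : Type u} [Group G] {a : SS (QP F 4) →* G} {τ : G} (h : TriData a τ)
include h

lemma normal_T0 : ((T0 F).map a).Normal := by
  have h1 : ∀ x ∈ (T0 F).map a, τ * x * τ⁻¹ ∈ (T0 F).map a := by
    rintro _ ⟨g, ⟨g₂, g₃, hg⟩, rfl⟩
    exact ⟨g₂, ⟨_, _, hg.cyc⟩, (h.conj _ _ _ hg).symm⟩
  have h2 : ∀ g, ∀ k ∈ T0 F, g * k * g⁻¹ ∈ T0 F := fun g k hk => by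
    rcases mem_T0_or g with h2 | h2
    · exact mul_mem (mul_mem h2 hk) (inv_mem h2)
    · obtain ⟨k₂, k₃, h3⟩ := hk
      have := mul_mem (mul_mem h2 ⟨_, _, h3.swap⟩) (inv_mem h2)
      convert this using 1
      rw [mul_inv_rev, inv_eq_of_mul_eq_one_right (r8_mul_self (F := F))]
      simp only [mul_assoc, ← mul_assoc (r8 F) (r8 F), r8_mul_self, one_mul]
  refine normalizer_eq_top_iff.1 (h.top _ ?_ (mem_normalizer_iff.2 fun x => ⟨h1 x, fun hx => ?_⟩))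
  · rintro _ ⟨g, rfl⟩
    refine mem_normalizer_iff.2 fun x => ⟨?_, fun hx => ?_⟩
    · rintro ⟨k, hk, rfl⟩
      exact ⟨_, h2 g k hk, by simp⟩
    · obtain ⟨k, hk, h3⟩ := hx
      exact ⟨_, h2 g⁻¹ k hk, by simp [h3, mul_assoc]⟩
  · have h3 : x = τ * (τ * (τ * x * τ⁻¹) * τ⁻¹) * τ⁻¹ := by
      calc x = (τ * τ * τ) * x * (τ * τ * τ)⁻¹ := by rw [h.ttt]; group
        _ = _ := by group
    rw [h3]
    exact h1 _ (h1 _ hx)

lemma exists_quot : ∃ (Z : Type u) (_ : Group Z) (π : G →* Z), π.ker = (T0 F).map a ∧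
    π τ ≠ 1 ∧ π τ ^ 3 = 1 ∧ (∀ i : ℕ, π (a (r8 F)) * π τ ^ i = π τ ^ (2 * i) * π (a (r8 F))) ∧
    ∀ x, ∃ i : ℕ, π x = π τ ^ i ∨ π x = π τ ^ i * π (a (r8 F)) := by
  have := normal_T0 h
  let π := QuotientGroup.mk' ((T0 F).map a)
  have hk : π.ker = (T0 F).map a := QuotientGroup.ker_mk' _
  have h1 : π τ ^ 3 = 1 := by rw [← map_pow, pow_succ, pow_two, h.ttt, map_one]
  have h2 : π (a (r8 F)) * π (a (r8 F)) = 1 := by rw [← map_mul, ← map_mul, r8_mul_self]; simp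
  have h3 : ∀ i : ℕ, π (a (r8 F)) * π τ ^ i = π τ ^ (2 * i) * π (a (r8 F)) := fun i => by
    induction i with
    | zero => simp
    | succ i ih =>
      rw [pow_succ, ← mul_assoc, ih, mul_assoc, ← map_mul, h.rt, map_mul, map_mul, mul_add, pow_add,
        pow_two, mul_assoc, mul_assoc, mul_assoc]
  refine ⟨_, inferInstance, π, hk, fun h4 => h.nm (map_le_range _ _ (hk.le h4)), h1, h3, fun x => ?_⟩
  generalize hρ : π (a (r8 F)) = ρ at h2 h3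
  generalize ht : π τ = t at h1 h3
  have h4 : ∀ i : ℕ, t ^ i * t ^ (2 * i) = 1 := fun i => by
    rw [← pow_add, show i + 2 * i = 3 * i by ring, pow_mul, h1, one_pow]
  let S : Subgroup G :=
    { carrier := {x | ∃ i : ℕ, π x = t ^ i ∨ π x = t ^ i * ρ}
      one_mem' := ⟨0, Or.inl (by simp)⟩
      mul_mem' := by
        rintro x y ⟨i, hi | hi⟩ ⟨j, hj | hj⟩
        · exact ⟨i + j, Or.inl (by rw [map_mul, hi, hj, pow_add])⟩
        · exact ⟨i + j, Or.inr (by rw [map_mul, hi, hj, pow_add, mul_assoc])⟩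
        · exact ⟨i + 2 * j, Or.inr (by rw [map_mul, hi, hj, pow_add, mul_assoc, h3, mul_assoc])⟩
        · exact ⟨i + 2 * j, Or.inl (by
            rw [map_mul, hi, hj, pow_add, mul_assoc, ← mul_assoc ρ, h3, mul_assoc, h2, mul_one])⟩
      inv_mem' := by
        rintro x ⟨i, hi | hi⟩
        · exact ⟨2 * i, Or.inl (by rw [map_inv, hi, inv_eq_of_mul_eq_one_right (h4 i)])⟩
        · exact ⟨i, Or.inr (by
            rw [map_inv, hi, inv_eq_of_mul_eq_one_right]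
            rw [mul_assoc, ← mul_assoc ρ, h3, mul_assoc, h2, mul_one, h4])⟩ }
  refine (h.top S ?_ ⟨1, Or.inl (by simp [ht])⟩).ge (mem_top x)
  rintro _ ⟨g, rfl⟩
  rcases mem_T0_or g with h5 | h5
  · exact ⟨0, Or.inl ((show π (a g) = 1 from hk.ge ⟨g, h5, rfl⟩).trans (pow_zero _).symm)⟩
  · refine ⟨0, Or.inr ?_⟩
    have : π (a g) * ρ = 1 := by rw [← hρ, ← map_mul, ← map_mul]; exact hk.ge ⟨_, h5, rfl⟩
    rw [pow_zero, one_mul, eq_inv_of_mul_eq_one_left this, inv_eq_of_mul_eq_one_right h2]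

theorem conj_cases (x : G) : ∃ α : G, α * x * α⁻¹ ∈ a.range ∨
    ∃ g ∈ T0 F, α * x * α⁻¹ = τ * a g := by
  obtain ⟨Z, _, π, hk, -, h1, h2, h3⟩ := exists_quot h
  have key : ∀ y, π y = π τ → ∃ g ∈ T0 F, y = τ * a g := fun y hy => by
    obtain ⟨g, hg, h4⟩ := hk.le (show π (τ⁻¹ * y) = 1 by simp [hy])
    exact ⟨g, hg, by simp [h4]⟩
  obtain ⟨i, hi | hi⟩ := h3 x
  · rw [pow_eq_pow_mod _ h1] at hi
    have := Nat.mod_lt i (show 0 < 3 by omega)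
    generalize i % 3 = j at *
    interval_cases j
    · exact ⟨1, Or.inl (by simpa using map_le_range _ _ (hk.le (hi.trans (pow_zero _))))⟩
    · exact ⟨1, Or.inr (key _ (by simpa using hi))⟩
    · refine ⟨a (r8 F), Or.inr (key _ ?_)⟩
      rw [map_mul, map_mul, hi, h2, map_inv, mul_inv_cancel_right, pow_eq_pow_mod _ h1, pow_one]
  · refine ⟨τ ^ i, Or.inl ?_⟩
    have h4 := map_le_range _ _ (hk.le (show π (τ ^ i * x * (τ ^ i)⁻¹ * (a (r8 F))⁻¹) = 1 by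
      simp only [map_mul, map_inv, map_pow, hi]
      rw [← mul_assoc, ← pow_add, ← two_mul, ← h2]; group))
    exact (mul_mem_cancel_right (inv_mem (MonoidHom.mem_range.2 ⟨_, rfl⟩))).1 h4

theorem three_dvd {g : SS Q8} (hg : g ∈ T0 F) {p : ℕ} (hp : (τ * a g) ^ p = 1) : 3 ∣ p := by
  obtain ⟨Z, _, π, hk, h0, h1, -⟩ := exists_quot h
  have : Fact (Nat.Prime 3) := ⟨Nat.prime_three⟩
  rw [← orderOf_eq_prime h1 h0, orderOf_dvd_iff_pow_eq_one]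
  have h2 : π (a g) = 1 := hk.ge ⟨g, hg, rfl⟩
  simpa [h2] using congrArg π hp

theorem comm_cases {g : SS Q8} (hg : g ∈ T0 F) {n : G} (hn : Commute n (τ * a g)) :
    ∃ k ∈ T0 F, ∃ i : ℕ, n = a k * (τ * a g) ^ i := by
  obtain ⟨Z, _, π, hk, h0, h1, h2, h3⟩ := exists_quot h
  have h4 : π (τ * a g) = π τ := by rw [map_mul, show π (a g) = 1 from hk.ge ⟨g, hg, rfl⟩, mul_one]
  obtain ⟨i, hi | hi⟩ := h3 n
  · obtain ⟨k, hk', h5⟩ := hk.le (show π (n * ((τ * a g) ^ i)⁻¹) = 1 by simp [hi, h4])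
    exact ⟨k, hk', i, by simp [h5]⟩
  · have h5 := (hn.map π).eq
    have h6 := h2 1
    rw [pow_one] at h6
    rw [h4, hi, mul_assoc, h6, ← mul_assoc, ← mul_assoc, mul_left_inj, ← pow_add, ← pow_succ',
      pow_succ, mul_eq_left] at h5
    exact absurd h5 h0

lemma conj_eq (ha : a.ker = ZS Q8) {h₁ h₂ h₃ B : SS Q8} {l : Fˣ} (H : Tri h₁ h₂ h₃)
    (h1 : h₃ * B * h₁⁻¹ = SS.sc _ l * ψ) : a h₁ * (τ * a B) * (a h₁)⁻¹ = τ * a ψ := by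
  have h2 := congrArg a h1
  rw [map_mul _ (SS.sc _ l), show a (SS.sc _ l) = 1 from ha.ge ⟨l, rfl⟩, one_mul] at h2
  rw [← h2, map_mul, map_mul, map_inv]
  nth_rewrite 1 [← h.conj _ _ _ H.cyc.cyc]
  group

theorem normal_form (ha : a.ker = ZS Q8) (h3 : (3 : F) ≠ 0) {g : SS Q8} (hg : g ∈ T0 F)
    (hx : (τ * a g) ^ 3 = 1) : ∃ α ψ, Au ψ ∧ ψ ^ 3 = 1 ∧ α * (τ * a g) * α⁻¹ = τ * a ψ := by
  obtain ⟨g₂, g₃, H⟩ := hg
  obtain ⟨l, hl⟩ : g₂ * g₃ * g ∈ ZS Q8 := by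
    rw [← ha, MonoidHom.mem_ker, map_mul, map_mul, ← h.conj _ _ _ H.cyc, ← h.conj _ _ _ H]
    have h1 : τ⁻¹ * τ⁻¹ = τ := by
      rw [← mul_inv_rev]; exact inv_eq_of_mul_eq_one_right h.ttt
    calc _ = τ * a g * τ * a g * (τ⁻¹ * τ⁻¹) * a g := by group
      _ = 1 := by rw [h1, ← hx]; simp only [pow_succ, pow_zero, one_mul, mul_assoc]
  have H1 : Tri g g₂⁻¹⁻¹ (g₂⁻¹ * g⁻¹) := by
    have := H.mul (tri_sc 1 1 (Units.map (g.σ : F →* F) l⁻¹))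
    rw [map_one, mul_one, mul_one, ← SS.conj_sc, map_inv, hl] at this
    convert this using 1 <;> group
  obtain ⟨d, γ, H2⟩ := exists_tc H1
  obtain ⟨v, hv, c, hc⟩ := H2.exists_idem h3
  have H3 : Tri g (SS.sc _ d * g₂⁻¹)⁻¹ (SS.sc _ d * g₂⁻¹ * g⁻¹) := by
    have := ((tri_sc 1 1 d).mul H1).mul (tri_sc 1 d⁻¹ 1)
    simpa [mul_assoc] using this
  obtain ⟨h₁, h₂, h₃, ψ, l, H4, h4, h5, h6, -⟩ := exists_normal H3 hv hc
  exact ⟨_, ψ, h4, h5, conj_eq h ha H4 h6⟩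

theorem conj_tau (ha : a.ker = ZS Q8) (hψ : Au ψ) (h3 : ψ ^ 3 = 1) {v : V8 F} (hv : Q8 v ≠ 0)
    (h0 : ψ.γ v = v) {c : F} (hc : st v v = c • v)
    (h1 : ∀ y, st v (ψ.γ y) = st (ψ⁻¹.γ y) v) : ∃ α, α * (τ * a ψ) * α⁻¹ = τ * a 1 := by
  have h2 : ψ⁻¹.γ v = v := by nth_rewrite 1 [← h0]; simp
  have H : Tri ψ ψ⁻¹⁻¹ (ψ⁻¹ * ψ⁻¹) := by
    rw [inv_inv, ← mul_inv_rev,
      inv_eq_of_mul_eq_one_right (b := ψ) (by rw [← pow_two, ← pow_succ, h3])]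
    exact hψ.tri
  obtain ⟨h₁, h₂, h₃, ψ', l, H4, -, -, h6, h7⟩ := exists_normal H hv (c := c) (by rwa [h0, h2])
  exact ⟨_, h7 (by rwa [h0, h2]) ▸ conj_eq h ha H4 h6⟩

end Cfsg.Agent.H6.Tq
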