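import Cfsg.Agent.H6.Tq3
import Cfsg.Agent.H7.Descent2

/-!
Standard bases of the octonions.
-/

set_option autoImplicit false

namespace Cfsg.Agent.H6.Tq

open Subgroup H7 QuadraticMap Module

variable {F : Type*} [Field F]

local notation "Q8" => QP F 4

lemma e_st (x : V8 F) : st e8 x = polar Q8 e8 x • e8 - x := by
  rw [e8_st, refl_apply, Q_e8, B_comm]; module

lemma st_e (x : V8 F) : st x e8 = polar Q8 e8 x • e8 - x := by rw [st_e8, ← e8_st, e_st]

lemma anti {x y : V8 F} (hx : polar Q8 e8 x = 0) (hy : polar Q8 e8 y = 0) :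
    st y x = -polar Q8 x y • e8 - st x y := by
  have := st_right' x y e8
  rw [st_e, st_e, hx, hy] at this
  simp only [zero_smul, zero_sub, map_neg, LinearMap.neg_apply] at this
  linear_combination (norm := module) -this

lemma st_self {x : V8 F} (hx : polar Q8 e8 x = 0) : st x x = -Q8 x • e8 := by
  have := st_right x e8
  rw [st_e, hx] at this
  simp only [zero_smul, zero_sub, map_neg, LinearMap.neg_apply] at this
  linear_combination (norm := module) -this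

lemma tr_st {x : V8 F} (hx : polar Q8 e8 x = 0) (y : V8 F) :
    polar Q8 e8 (st y x) = -polar Q8 x y := by
  rw [B_comm, st_cyc, st_e, hx]; simp

/-- basic triples -/
structure Tr3 (u₁ u₂ u₃ : V8 F) : Prop where
  e1 : polar Q8 e8 u₁ = 0
  e2 : polar Q8 e8 u₂ = 0
  e3 : polar Q8 e8 u₃ = 0
  q1 : Q8 u₁ = 0
  q2 : Q8 u₂ = 0
  q3 : Q8 u₃ = 0
  b12 : polar Q8 u₁ u₂ = 0
  b23 : polar Q8 u₂ u₃ = 0
  b31 : polar Q8 u₃ u₁ = 0
  t : polar Q8 (st u₃ u₂) u₁ = 1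

namespace Tr3
variable {u₁ u₂ u₃ : V8 F} (h : Tr3 u₁ u₂ u₃)
include h

lemma cyc : Tr3 u₂ u₃ u₁ :=
  ⟨h.e2, h.e3, h.e1, h.q2, h.q3, h.q1, h.b23, h.b31, h.b12, (st_cyc _ _ _).trans h.t⟩

lemma ve : polar Q8 e8 (st u₃ u₂) = 0 := by rw [tr_st h.e2, h.b23, neg_zero]
lemma uu : st u₁ u₁ = 0 := by simp [st_self h.e1, h.q1]
lemma u23 : st u₂ u₃ = -st u₃ u₂ := by rw [anti h.e3 h.e2, B_comm, h.b23]; simp
lemma uv3 : st u₁ (st u₂ u₁) = 0 := by simp [st_left, h.q1]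
lemma uv2 : st u₁ (st u₁ u₃) = 0 := by
  rw [← neg_neg (st u₁ u₃), ← h.cyc.u23, map_neg, st_left, h.q1]; simp
lemma v2u : st (st u₁ u₃) u₁ = 0 := by simp [st_right, h.q1]
lemma v3u : st (st u₂ u₁) u₁ = 0 := by
  rw [← neg_neg (st u₂ u₁), ← h.cyc.cyc.u23, map_neg, LinearMap.neg_apply, st_right, h.q1]; simp
lemma uv : st u₂ (st u₁ u₃) = st u₁ (st u₃ u₂) := by
  have := st_left' u₁ u₂ u₃
  rw [h.b12, h.cyc.u23, map_neg] at this
  linear_combination (norm := module) -this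
lemma vu : st (st u₃ u₂) u₁ = -e8 - st u₁ (st u₃ u₂) := by
  rw [anti h.e1 h.ve, B_comm, h.t]; simp
lemma qv : Q8 (st u₃ u₂) = 0 := by simp [Q_st, h.q2]
lemma vv : st (st u₃ u₂) (st u₃ u₂) = 0 := by simp [st_self h.ve, h.qv]
lemma Au1 : st (st u₁ (st u₃ u₂)) u₁ = 0 := by simp [st_right, h.q1]
lemma vA : st (st u₃ u₂) (st u₁ (st u₃ u₂)) = 0 := by simp [st_left, h.qv]
lemma uA : st u₁ (st u₁ (st u₃ u₂)) = u₁ := by
  have := st_left u₁ (st u₃ u₂)
  rw [h.vu, map_sub, map_neg, st_e, h.e1, h.q1] at this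
  linear_combination (norm := module) -this
lemma Av : st (st u₁ (st u₃ u₂)) (st u₃ u₂) = st u₃ u₂ := by
  have := st_right (st u₃ u₂) u₁
  rw [h.vu, map_sub, map_neg, LinearMap.sub_apply, LinearMap.neg_apply, e_st, h.ve, h.qv] at this
  linear_combination (norm := module) -this
lemma eA : polar Q8 e8 (st u₁ (st u₃ u₂)) = -1 := by rw [tr_st h.ve, h.t]
lemma AA : st (st u₁ (st u₃ u₂)) (st u₁ (st u₃ u₂)) = e8 + st u₁ (st u₃ u₂) := by
  have := st_right' u₁ (st (st u₃ u₂) u₁) (st u₃ u₂)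
  rw [st_right, h.qv, B_comm, st_cyc, h.uu, h.vu, map_sub, map_neg, st_e, h.eA] at this
  simp only [zero_smul, map_zero, LinearMap.zero_apply, polar_zero_left] at this
  linear_combination (norm := module) -this
lemma v23 : st (st u₁ u₃) (st u₂ u₁) = -u₁ := by
  have := st_right' u₁ (st u₂ u₁) u₃
  rw [h.cyc.cyc.vu, B_comm, st_cyc, h.uu, h.cyc.cyc.uv.symm, map_sub, map_neg, LinearMap.sub_apply,
    LinearMap.neg_apply, h.Au1, e_st, h.e1] at this
  simp only [zero_smul, polar_zero_left] at this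
  linear_combination (norm := module) this
lemma v32 : st (st u₂ u₁) (st u₁ u₃) = u₁ := by
  rw [anti h.cyc.ve h.cyc.cyc.ve, h.v23, ← neg_neg (st u₂ u₁), ← h.cyc.cyc.u23, polar_neg_right,
    B_st_left, h.q1]
  simp

end Tr3

/-- the linear map attached to a triple -/
def bmap (u₁ u₂ u₃ : V8 F) : V8 F →ₗ[F] V8 F where
  toFun x := x (.inl 0) • -st u₁ (st u₃ u₂) + x (.inl 1) • u₁ + x (.inl 2) • u₂ + x (.inl 3) • u₃
    + x (.inr 0) • (e8 + st u₁ (st u₃ u₂)) + x (.inr 1) • st u₃ u₂ + x (.inr 2) • st u₁ u₃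
    + x (.inr 3) • st u₂ u₁
  map_add' x y := by simp only [Pi.add_apply]; module
  map_smul' c x := by simp only [Pi.smul_apply, smul_eq_mul, RingHom.id_apply]; module

lemma bmap_apply (u₁ u₂ u₃ x : V8 F) : bmap u₁ u₂ u₃ x =
    x (.inl 0) • -st u₁ (st u₃ u₂) + x (.inl 1) • u₁ + x (.inl 2) • u₂ + x (.inl 3) • u₃
    + x (.inr 0) • (e8 + st u₁ (st u₃ u₂)) + x (.inr 1) • st u₃ u₂ + x (.inr 2) • st u₁ u₃
    + x (.inr 3) • st u₂ u₁ := rfl

lemma bmap_e (u₁ u₂ u₃ : V8 F) : bmap u₁ u₂ u₃ e8 = e8 := by simp [bmap_apply, e8]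

lemma Tr3.bmap_mul {u₁ u₂ u₃ : V8 F} (h : Tr3 u₁ u₂ u₃) (x y : V8 F) :
    bmap u₁ u₂ u₃ (st x y) = st (bmap u₁ u₂ u₃ x) (bmap u₁ u₂ u₃ y) := by
  have h2 := h.cyc
  have h3 := h2.cyc
  have a2 := h.uv
  have a3 := h2.uv.trans a2
  have t1 := And.intro h2.Au1 (And.intro h2.vA (And.intro h2.uA (And.intro h2.Av h2.vu)))
  have t2 := And.intro h3.Au1 (And.intro h3.vA (And.intro h3.uA (And.intro h3.Av h3.vu)))
  rw [a2] at t1
  rw [a3] at t2
  have t3 := And.intro (And.intro h.ve (And.intro h2.ve h3.ve)) <|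
    And.intro (And.intro h.uu (And.intro h2.uu h3.uu)) <|
    And.intro (And.intro h.u23 (And.intro h2.u23 h3.u23)) <|
    And.intro (And.intro h.uv3 (And.intro h2.uv3 h3.uv3)) <|
    And.intro (And.intro h.uv2 (And.intro h2.uv2 h3.uv2)) <|
    And.intro (And.intro h.v2u (And.intro h2.v2u h3.v2u)) <|
    And.intro (And.intro h.v3u (And.intro h2.v3u h3.v3u)) <|
    And.intro (And.intro h.vv (And.intro h2.vv h3.vv)) <|
    And.intro (And.intro h.v23 (And.intro h2.v23 h3.v23)) <|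
    And.intro (And.intro h.v32 (And.intro h2.v32 h3.v32)) <|
    And.intro (And.intro h.Au1 (And.intro h.vA (And.intro h.uA (And.intro h.Av h.vu))))
      (And.intro h.eA h.AA)
  rw [bmap_apply, bmap_apply, bmap_apply]
  generalize hA : st u₁ (st u₃ u₂) = A at *
  generalize h1 : st u₃ u₂ = v₁ at *
  generalize h2 : st u₁ u₃ = v₂ at *
  generalize h3 : st u₂ u₁ = v₃ at *
  have h4 : polar Q8 (e8 : V8 F) e8 = 2 := by rw [B_self, Q_e8, mul_one]
  simp only [map_add, map_smul, map_neg, LinearMap.add_apply, LinearMap.smul_apply,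
    LinearMap.neg_apply, e_st, st_e, t1, t2, t3, a2, a3, hA, h1, h2, h3, h4, h.e1, h.e2, h.e3]
  simp only [st_apply, stFun, Sum.elim_inl, Sum.elim_inr, Matrix.cons_val]
  module

theorem Tr3.exists_au {u₁ u₂ u₃ : V8 F} (h : Tr3 u₁ u₂ u₃) :
    ∃ g : SS Q8, Au g ∧ g.σ = 1 ∧ ∀ x, g.γ x = bmap u₁ u₂ u₃ x := by
  have h1 : ∀ x, Q8 (bmap u₁ u₂ u₃ x) = (1 : Fˣ) * Q8 x := fun x => by
    have := h.bmap_mul x (st e8 x)
    rw [st_left, map_smul, h.bmap_mul, bmap_e, st_left] at this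
    simpa using (smul_left_injective F e8_ne this).symm
  refine ⟨SS.ofLin (LinearEquiv.ofInjectiveEndo (bmap u₁ u₂ u₃)
    ((injective_iff_map_eq_zero _).2 fun x hx => (nd_QP 4).eq_zero fun y => ?_)) 1 h1,
    ⟨bmap_e _ _ _, h.bmap_mul⟩, rfl, fun _ => rfl⟩
  have := h1 (x + y)
  rw [map_add, hx, zero_add, h1, Q_add] at this
  have h2 := h1 x
  rw [hx, map_zero] at h2
  simp only [Units.val_one, one_mul] at this h2
  linear_combination -this + h2

lemma notMem_span_e {u : V8 F} (h0 : u ≠ 0) (h : Q8 u = 0) : u ∉ F ∙ (e8 : V8 F) := fun hu => by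
  obtain ⟨c, rfl⟩ := Submodule.mem_span_singleton.1 hu
  rw [Q_smul, Q_e8, mul_one, pow_eq_zero_iff two_ne_zero] at h
  exact h0 (by simp [h])

variable {ψ : SS (QP F 4)}

lemma exists_tr3 (hψ : Au ψ)
    (H1 : ∀ x y, ψ.γ x = x → ψ.γ y = y → ∃ z, z ≠ 0 ∧ ψ.γ z = z ∧ Q8 z = 0 ∧ polar Q8 e8 z = 0 ∧
      polar Q8 x z = 0 ∧ polar Q8 y z = 0)
    (H2 : ∀ p x y, ψ.γ p = p → ψ.γ x = x → ψ.γ y = y → p ∉ Submodule.span F {e8, x, y} →
      ∃ z, ψ.γ z = z ∧ polar Q8 e8 z = 0 ∧ polar Q8 x z = 0 ∧ polar Q8 y z = 0 ∧ polar Q8 p z = 1) :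
    ∃ u₁ u₂ u₃, Tr3 u₁ u₂ u₃ ∧ ψ.γ u₁ = u₁ ∧ ψ.γ u₂ = u₂ ∧ ψ.γ u₃ = u₃ := by
  have fx : ∀ y p, ψ.γ y = y → ψ.γ p = p → ψ.γ (y - Q8 y • p) = y - Q8 y • p := fun y p hy hp => by
    rw [map_sub, ψ.map_smul, ← hψ.Q, hy, hp]
  obtain ⟨u, z, a1, a2, a3, a4, a5, a6, a7, a8⟩ : ∃ u z, ψ.γ u = u ∧ ψ.γ z = z ∧ Q8 u = 0 ∧ Q8 z = 0 ∧
      polar Q8 e8 u = 0 ∧ polar Q8 e8 z = 0 ∧ polar Q8 u z = 0 ∧ st u z ≠ 0 := by
    obtain ⟨u, b1, b2, b3, b4, -⟩ := H1 e8 e8 hψ.e hψ.e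
    obtain ⟨y, b5, b6, -, -, b7⟩ := H2 u e8 e8 b2 hψ.e hψ.e (by simpa using notMem_span_e b1 b3)
    obtain ⟨z, c1, c2, c3, c4, c5, c6⟩ := H1 u _ b2 (fx y u b5 b2)
    by_cases h : st u z = 0
    · refine ⟨_, z, fx y u b5 b2, c2, by qsimp; rw [b3, B_comm _ y, b7]; ring, c3,
        by qsimp; rw [b4, b6]; ring, c4, c6, fun h1 => c1 ?_⟩
      have := st_right' u (y - Q8 y • u) z
      rw [h, h1] at this
      simpa [B_self, b3, b7] using this.symm
    · exact ⟨u, z, b2, c2, b3, c3, b4, c4, c5, h⟩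
  have b1 : ψ.γ (st u z) = st u z := by rw [hψ.mul, a1, a2]
  have b2 : st z u = -st u z := by rw [anti a5 a6, a7]; simp
  have b3 : Q8 (st u z) = 0 := by simp [Q_st, a3]
  have b4 : st u u = 0 := by simp [st_self a5, a3]
  have b5 : st z z = 0 := by simp [st_self a6, a4]
  obtain ⟨y, c1, c2, c3, c4, c5⟩ := H2 _ u z b1 a1 a2 fun h => by
    obtain ⟨α, w, hw, h1⟩ := Submodule.mem_span_insert.1 h
    obtain ⟨β, γ, rfl⟩ := Submodule.mem_span_pair.1 hw
    have h2 : α = 0 := by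
      rw [h1] at b3
      simpa [Q_add, Q_smul, Q_e8, a3, a4, a5, a6, a7] using b3
    have h3 := congrArg (st u) h1
    have h4 := congrArg (st · z) h1
    rw [← neg_neg (st u z), ← b2] at h3 h4
    simp only [map_neg, st_left, st_right, LinearMap.neg_apply, a3, a4, h2, map_add, map_smul,
      LinearMap.add_apply, LinearMap.smul_apply, b4, b5, zero_smul, smul_zero, zero_add, add_zero,
      neg_zero] at h3 h4
    rw [h2, (smul_eq_zero.1 h3.symm).resolve_right a8, (smul_eq_zero.1 h4.symm).resolve_right a8] at h1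
    exact a8 (by simpa using h1)
  have d1 : polar Q8 u (st u z) = 0 := by rw [B_comm, ← st_cyc u u z, b4]; simp
  have d2 : polar Q8 z (st u z) = 0 := by rw [B_comm, st_cyc, b5]; simp
  refine ⟨y - Q8 y • st u z, z, u, ⟨?_, a6, a5, ?_, a4, a3, ?_, (B_comm _ _ _).trans a7, ?_, ?_⟩,
    fx _ _ c1 b1, a2, a1⟩
  · simp [c2, tr_st a6, B_comm _ z, a7]
  · qsimp; rw [b3, B_comm _ y, c5]; ring
  · rw [B_comm]; simp [c4, d2]
  · simp [c3, d1]
  · simp [c5, B_self, b3]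

variable [Finite F]

theorem conj_std (hψ : Au ψ) (h3 : ψ ^ 3 = 1) (hσ : ψ.σ ≠ 1) :
    ∃ g, Au g ∧ g⁻¹ * ψ * g = SS.std ψ.σ (std_QP 4 ψ.σ) := by
  have : Fact (Nat.Prime 3) := ⟨Nat.prime_three⟩
  obtain ⟨Q₀, j, l, h⟩ := exists_fx (nd_QP 4) (γ := ψ) (r := 3)
    (orderOf_eq_prime (by rw [← SS.pow_σ, h3]; rfl) hσ) (by omega) h3 (he_fixF ψ.σ)
  have hQ := h.X.nd (nd_QP 4)
  obtain ⟨e, he⟩ := h.mem_range hψ.e
  obtain ⟨u₁, u₂, u₃, H, h1, h2, h3⟩ := exists_tr3 hψ (fun x y hx hy => by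
    obtain ⟨x, rfl⟩ := h.mem_range hx
    obtain ⟨y, rfl⟩ := h.mem_range hy
    obtain ⟨z, a1, a2, a3⟩ := exists_sing_perp (Q := Q₀) ![e, x, y] (by simp)
    refine ⟨j z, fun h0 => a1 (h.X.injective (by simpa using h0)), h.fix z, by simp [h.X.map_Q, a2],
      ?_, ?_, ?_⟩
    · rw [← he, h.X.map_B, show polar Q₀ e z = 0 from a3 0]; simp
    · rw [h.X.map_B, show polar Q₀ x z = 0 from a3 1]; simp
    · rw [h.X.map_B, show polar Q₀ y z = 0 from a3 2]; simp) fun p x y hp hx hy h0 => by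
    obtain ⟨x, rfl⟩ := h.mem_range hx
    obtain ⟨y, rfl⟩ := h.mem_range hy
    obtain ⟨p, rfl⟩ := h.mem_range hp
    obtain ⟨z, a1, a2⟩ := hQ.exists_polar_eq_one (Submodule.span _ {e, x, y}) (u := p) fun h1 => by
      obtain ⟨α, w, hw, rfl⟩ := Submodule.mem_span_insert.1 h1
      obtain ⟨β, γ, rfl⟩ := Submodule.mem_span_pair.1 hw
      rw [map_add, map_add, h.X.smul, h.X.smul, h.X.smul, he] at h0
      exact h0 (Submodule.mem_span_insert.2 ⟨_, _, Submodule.mem_span_pair.2 ⟨_, _, rfl⟩, rfl⟩)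
    have a3 : polar Q8 (j p) (j z) = l := by simp [h.X.map_B, a2]
    have a4 : ψ.σ l = l := by rw [← a3, ← hψ.B, h.fix, h.fix]
    refine ⟨l⁻¹ • j z, by rw [ψ.map_smul, map_inv₀, a4, h.fix], ?_, ?_, ?_, ?_⟩
    · rw [← he, B_smul_right, h.X.map_B, a1 e (Submodule.subset_span (by simp))]; simp
    · rw [B_smul_right, h.X.map_B, a1 x (Submodule.subset_span (by simp))]; simp
    · rw [B_smul_right, h.X.map_B, a1 y (Submodule.subset_span (by simp))]; simp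
    · rw [B_smul_right, a3, inv_mul_cancel₀ h.X.l_ne]
  obtain ⟨g, h4, -, h5⟩ := H.exists_au
  refine ⟨g, h4, SS.ext_of_apply (nd_QP 4) fun x => g.γ.injective ?_⟩
  rw [SS.mul_apply, SS.mul_apply, SS.apply_inv, h5, h5, SS.std_apply, bmap_apply, bmap_apply]
  simp only [map_add, map_neg, ψ.map_smul, hψ.mul, hψ.e, h1, h2, h3]

lemma exists_norm (h3 : (3 : F) ≠ 0) (c : F) : ∃ α β : F, α ^ 2 - α * β + β ^ 2 = c := by
  let N : QuadraticForm F (F × F) := QuadraticMap.linMulLin (LinearMap.fst F F F - LinearMap.snd F F F)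
    (LinearMap.fst F F F) + QuadraticMap.linMulLin (LinearMap.snd F F F) (LinearMap.snd F F F)
  obtain ⟨v, hv⟩ := exists_Q_eq (Q := N) (nd_of fun x hx => by
    have h1 := hx (1, 0)
    have h2 := hx (0, 1)
    simp only [N, polar] at h1 h2
    simp at h1 h2
    exact Prod.ext (mul_left_cancel₀ h3 (by rw [Prod.fst_zero]; linear_combination 2 * h1 + h2))
      (mul_left_cancel₀ h3 (by rw [Prod.snd_zero]; linear_combination h1 + 2 * h2))) (by simp) c
  exact ⟨v.1, v.2, by simp [N] at hv; linear_combination hv⟩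

/-- the cyclic permutation of the coordinates -/
def p0 (x : V8 F) : V8 F := Sum.elim ![x (.inl 0), x (.inl 3), x (.inl 1), x (.inl 2)]
  ![x (.inr 0), x (.inr 3), x (.inr 1), x (.inr 2)]

omit [Finite F] in
lemma conj_p0 (hψ : Au ψ) (h3 : (3 : F) ≠ 0) (hσ : ψ.σ = 1) (hp : ∀ x, ψ.γ (ψ.γ (ψ.γ x)) = x) {y : V8 F}
    (h1 : ψ.γ (ψ.γ y) = -y - ψ.γ y) (h2 : Q8 y = 0) (h4 : st (ψ.γ y) y ≠ 0) :
    ∃ g, Au g ∧ ∀ x, (g⁻¹ * ψ * g).γ x = p0 x := by
  have hB : ∀ x y, polar Q8 (ψ.γ x) (ψ.γ y) = polar Q8 x y := fun x y => by simp [hψ.B, hσ]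
  have hQ : ∀ x, Q8 (ψ.γ x) = Q8 x := fun x => by simp [hψ.Q, hσ]
  have hs : ∀ (c : F) x, ψ.γ (c • x) = c • ψ.γ x := fun c x => by simp [ψ.map_smul, hσ]
  have perp : ∀ x, ψ.γ x = x → polar Q8 x y = 0 ∧ polar Q8 x (ψ.γ y) = 0 := fun x hx => by
    have a1 := hB x y
    have a2 := hB x (ψ.γ y)
    rw [hx] at a1 a2
    rw [h1, a1, polar_sub_right, polar_neg_right, a1] at a2
    have : polar Q8 x y = 0 := mul_left_cancel₀ h3 (by linear_combination -a2)
    exact ⟨this, a1.trans this⟩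
  obtain ⟨a1, a2⟩ := perp e8 hψ.e
  have a3 : polar Q8 y (ψ.γ y) = 0 := by
    have := hQ (ψ.γ y)
    rw [h1, Q_sub, Q_neg, hQ, h2, polar_neg_left] at this
    linear_combination this
  have a4 : st y (ψ.γ y) = -st (ψ.γ y) y := by rw [anti a2 a1, B_comm, a3]; simp
  have a5 : st y y = 0 := by simp [st_self a1, h2]
  have a6 : st (ψ.γ y) (ψ.γ y) = 0 := by simp [st_self a2, hQ, h2]
  have a7 : ψ.γ (st (ψ.γ y) y) = st (ψ.γ y) y := by simp [hψ.mul, h1, a4, a6]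
  have a8 : Q8 (st (ψ.γ y) y) = 0 := by simp [Q_st, h2]
  have a9 : polar Q8 e8 (st (ψ.γ y) y) = 0 := by simp [tr_st a1, a3]
  obtain ⟨z, b1, b2⟩ := (nd_QP 4).exists_polar_eq_one _ (notMem_span_e h4 a8)
  replace b1 := b1 e8 (Submodule.mem_span_singleton_self _)
  generalize hq : st (ψ.γ y) y = q at *
  obtain ⟨w, c1, c2, c3⟩ : ∃ w, ψ.γ w = w ∧ polar Q8 e8 w = 0 ∧ 3 * polar Q8 q w = 1 := by
    refine ⟨(3 * 3 : F)⁻¹ • (z + ψ.γ z + ψ.γ (ψ.γ z)), ?_, ?_, ?_⟩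
    · rw [hs, map_add, map_add, hp]; congr 1; abel
    · have d1 := hB e8 z
      have d2 := hB e8 (ψ.γ z)
      rw [hψ.e] at d1 d2
      simp [d1, d2, b1]
    · have d1 := hB q z
      have d2 := hB q (ψ.γ z)
      rw [a7] at d1 d2
      simp only [B_smul_right, polar_add_right, d1, d2, b2]
      field_simp; ring
  obtain ⟨u, d1, d2, d3, d4⟩ : ∃ u, ψ.γ u = u ∧ polar Q8 e8 u = 0 ∧ 3 * polar Q8 q u = 1 ∧ Q8 u = 0 :=
    ⟨w - (3 * Q8 w) • q, by rw [map_sub, hs, c1, a7], by simp [c2, a9], by simp [B_self, a8, c3], by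
      qsimp; rw [a8, B_comm _ w]; linear_combination -Q8 w * c3⟩
  obtain ⟨e1, e2⟩ := perp u d1
  have e3 : st u u = 0 := by simp [st_self d2, d4]
  have H : Tr3 (u + y) (u + ψ.γ y) (u + (-y - ψ.γ y)) := by
    refine ⟨by simp [d2, a1], by simp [d2, a2], by simp [d2, a1, a2], by simp [Q_add, d4, h2, e1],
      by simp [Q_add, d4, h2, e2, hQ], ?_, ?_, ?_, ?_, ?_⟩
    · qsimp; simp [hQ, h2, d4, e1, e2, a3]
    · qsimp; simp [d4, e1, e2, a3, B_comm _ y u]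
    · qsimp; simp [hQ, h2, d4, e1, e2, B_comm _ (ψ.γ y), a3]
    · qsimp; simp [h2, d4, e1, e2, B_comm _ (ψ.γ y), B_comm _ y u, a3]
    · have f1 := st_cyc u (ψ.γ y) y
      have f4 := st_cyc y (ψ.γ y) u
      have f5 := st_cyc (ψ.γ y) u u
      have f6 := st_cyc y u u
      have f7 := st_cyc u u (ψ.γ y)
      have f8 := st_cyc y u y
      have f9 := st_cyc u y y
      have f10 := st_cyc (ψ.γ y) y y
      simp only [hq, a4, a5, a6, e3, polar_zero_left, polar_neg_left] at f1 f4 f5 f6 f7 f8 f9 f10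
      simp only [map_add, map_sub, map_neg, LinearMap.add_apply, LinearMap.sub_apply,
        LinearMap.neg_apply, a4, a6, e3]
      qsimp
      linear_combination d3 + f1 - f7 - f6 - f5 + f10 - f8 - f9 + f4
  obtain ⟨g, h5, -, h6⟩ := H.exists_au
  refine ⟨g, h5, fun x => g.γ.injective ?_⟩
  have g1 : ψ.γ (u + y) = u + ψ.γ y := by rw [map_add, d1]
  have g2 : ψ.γ (u + ψ.γ y) = u + (-y - ψ.γ y) := by rw [map_add, d1, h1]
  have g3 : ψ.γ (u + (-y - ψ.γ y)) = u + y := by rw [map_add, d1, ← h1, hp]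
  rw [SS.mul_apply, SS.mul_apply, SS.apply_inv, h6, h6, bmap_apply, bmap_apply]
  have g4 := H.uv
  generalize u + y = u₁ at *
  generalize u + ψ.γ y = u₂ at *
  generalize u + (-y - ψ.γ y) = u₃ at *
  simp only [map_add, map_neg, hs, hψ.mul, hψ.e, g1, g2, g3, g4, p0, Sum.elim_inl, Sum.elim_inr,
    Matrix.cons_val]
  abel

theorem linear_cases (hψ : Au ψ) (h3 : (3 : F) ≠ 0) (hσ : ψ.σ = 1) (hp : ψ ^ 3 = 1) :
    ψ = 1 ∨ (∃ g, Au g ∧ ∀ x, (g⁻¹ * ψ * g).γ x = p0 x) ∨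
      ∃ v, Q8 v ≠ 0 ∧ ψ.γ v = v ∧ (∃ c : F, st v v = c • v) ∧ ∀ y, st v (ψ.γ y) = st (ψ⁻¹.γ y) v := by
  replace hp : ∀ x, ψ.γ (ψ.γ (ψ.γ x)) = x := fun x => by
    have := congrArg (·.γ x) hp
    simpa [pow_succ] using this
  have hi : ∀ x, ψ⁻¹.γ x = ψ.γ (ψ.γ x) := fun x => ψ.γ.injective (by simp [hp])
  have hB : ∀ x y, polar Q8 (ψ.γ x) (ψ.γ y) = polar Q8 x y := fun x y => by simp [hψ.B, hσ]
  have hQ : ∀ x, Q8 (ψ.γ x) = Q8 x := fun x => by simp [hψ.Q, hσ]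
  have hs : ∀ (c : F) x, ψ.γ (c • x) = c • ψ.γ x := fun c x => by simp [ψ.map_smul, hσ]
  let C : Submodule F (V8 F) :=
    { carrier := {y | ψ.γ (ψ.γ y) = -y - ψ.γ y}
      add_mem' := fun {x y} hx hy => by
        simp only [Set.mem_ofPred_eq, map_add] at *; rw [hx, hy]; abel
      zero_mem' := by simp
      smul_mem' := fun c x hx => by
        simp only [Set.mem_ofPred_eq, hs] at *; rw [hx]; module }
  have hC : ∀ {y}, y ∈ C ↔ ψ.γ (ψ.γ y) = -y - ψ.γ y := Iff.rfl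
  have hψC : ∀ y ∈ C, ψ.γ y ∈ C := fun y hy => by
    rw [hC] at *; rw [hp, hy]; abel
  have perp : ∀ x, ψ.γ x = x → ∀ y ∈ C, polar Q8 x y = 0 := fun x hx y hy => by
    have a1 := hB x y
    have a2 := hB x (ψ.γ y)
    rw [hx] at a1 a2
    rw [hC.1 hy, a1, polar_sub_right, polar_neg_right, a1] at a2
    exact mul_left_cancel₀ h3 (by linear_combination -a2)
  have dec : ∀ x, ∃ x₀, ψ.γ x₀ = x₀ ∧ ∃ y ∈ C, x = x₀ + y := fun x =>
    ⟨(3 : F)⁻¹ • (x + ψ.γ x + ψ.γ (ψ.γ x)), by rw [hs, map_add, map_add, hp]; congr 1; abel,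
      x - (3 : F)⁻¹ • (x + ψ.γ x + ψ.γ (ψ.γ x)), by
        simp only [hC, map_sub, map_add, hs, hp]
        match_scalars <;> field_simp <;> ring, by abel⟩
  have nd : ∀ y ∈ C, (∀ z ∈ C, polar Q8 y z = 0) → y = 0 := fun y hy h => (nd_QP 4).eq_zero fun x => by
    obtain ⟨x₀, h0, z, hz, rfl⟩ := dec x
    rw [polar_add_right, h z hz, B_comm, perp x₀ h0 y hy, add_zero]
  have bψ : ∀ y ∈ C, polar Q8 y (ψ.γ y) = -Q8 y := fun y hy => by
    have := hQ (ψ.γ y)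
    rw [hC.1 hy, Q_sub, Q_neg, hQ, polar_neg_left] at this
    linear_combination this
  by_cases h1 : ∀ y ∈ C, Q8 y = 0
  · refine Or.inl (SS.ext_of_apply (nd_QP 4) fun x => ?_)
    obtain ⟨x₀, h0, y, hy, rfl⟩ := dec x
    obtain rfl := nd y hy fun z hz => by
      have := h1 _ (C.add_mem hy hz)
      rwa [Q_add, h1 y hy, h1 z hz, zero_add, zero_add] at this
    simpa using h0
  right
  push Not at h1
  obtain ⟨y, hy, hy0⟩ := h1
  have ey := perp _ hψ.e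
  obtain ⟨w, w1, w2, w3, w4⟩ : ∃ w, ψ.γ w = w ∧ Q8 w = 1 ∧ polar Q8 e8 w = 1 ∧ st y w = ψ.γ y := by
    refine ⟨(Q8 y)⁻¹ • st (ψ.γ y) y, ?_, ?_, ?_, ?_⟩
    · rw [hs, hψ.mul, hC.1 hy, map_sub, map_neg, LinearMap.sub_apply, LinearMap.neg_apply,
        st_self (ey _ (hψC y hy)), anti (ey _ (hψC y hy)) (ey y hy), B_comm, bψ y hy, hQ]
      module
    · rw [Q_smul, Q_st, hQ]; field_simp
    · rw [B_smul_right, tr_st (ey y hy), bψ y hy]; field_simp
    · rw [map_smul, st_left, smul_smul, inv_mul_cancel₀ hy0, one_smul]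
  have ww : st w w = -w := by
    have h4 := st_right w e8
    rw [st_e, w3, w2, one_smul, map_sub, LinearMap.sub_apply, e_st, w3] at h4
    linear_combination (norm := module) -h4
  have hR : ∀ z ∈ C, st z w ∈ C := fun z hz => by
    rw [hC, hψ.mul, hψ.mul, w1, w1, hC.1 hz]; simp
  have RR : ∀ z ∈ C, st (st z w) w = -z - st z w ∧ st w z = -z - st z w := fun z hz => by
    have a2 := st_left' w z e8
    rw [e_st, e_st, w3, ey z hz, perp w w1 z hz, map_sub, map_sub, map_smul, map_smul, st_e z,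
      ey z hz] at a2
    have a3 : st w z = -z - st z w := by linear_combination (norm := module) -a2
    have a4 := st_right w z
    rw [a3, w2, map_sub, map_neg, LinearMap.sub_apply, LinearMap.neg_apply] at a4
    exact ⟨by linear_combination (norm := module) -a4, a3⟩
  have BR : ∀ x z, polar Q8 (st x w) (st z w) = polar Q8 x z := fun x z => by
    have := Q_st (x + z) w
    rw [map_add, LinearMap.add_apply, Q_add, Q_add, Q_st, Q_st, w2] at this
    linear_combination this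
  -- the second eigenspace
  by_cases h2 : ∃ z ∈ C, ψ.γ z = -z - st z w ∧ Q8 z ≠ 0
  · left
    obtain ⟨z, hz, z1, z2⟩ := h2
    obtain ⟨α, β, h4⟩ := exists_norm h3 (-Q8 z / Q8 y)
    obtain ⟨x, hx, x1, x2⟩ : ∃ x ∈ C, ψ.γ x = st x w ∧ Q8 x = -Q8 z :=
      ⟨α • y + β • ψ.γ y, C.add_mem (C.smul_mem _ hy) (C.smul_mem _ (hψC y hy)), by
        rw [map_add, hs, hs, ← w4, hψ.mul, w1, ← w4]; simp, by
        qsimp; rw [hQ, bψ y hy]; field_simp at h4; linear_combination h4⟩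
    have a1 : polar Q8 x z = 0 ∧ polar Q8 x (st z w) = 0 := by
      have b1 := hB x z
      have b2 := hB x (st z w)
      have b3 := BR x z
      have b4 := BR x (st z w)
      rw [hψ.mul, w1] at b2
      rw [(RR z hz).1] at b4
      rw [x1, z1] at b1 b2
      rw [map_sub, map_neg, LinearMap.sub_apply, LinearMap.neg_apply, (RR z hz).1] at b2
      simp only [polar_sub_right, polar_neg_right] at b1 b2 b4
      have b5 : polar Q8 x z = 0 := mul_left_cancel₀ h3 (by linear_combination b4 - 2 * b1 - b3 - b2)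
      exact ⟨b5, by linear_combination b1 - b4 + b5⟩
    refine conj_p0 hψ h3 hσ hp (C.add_mem hx hz) (by rw [Q_add, x2, a1.1]; ring) fun h0 => z2 ?_
    have b1 := congrArg (polar Q8 · w) h0
    have b2 := BR x z
    have b3 := hB x z
    have b4 := bψ z hz
    have b5 := BR z z
    have b6 := BR x x
    simp only [st_cyc (ψ.γ (x + z)), polar_zero_left] at b1
    simp only [map_add, LinearMap.add_apply, x1, z1, polar_add_left, polar_add_right,
      polar_sub_right, polar_neg_right] at b1 b3 b4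
    rw [b5, b6, B_comm _ (st z w) z, B_comm _ (st z w), B_self, B_self, x2] at b1
    rw [B_self] at b4
    exact mul_left_cancel₀ h3 (by linear_combination -b1 + b4 + b3 + b2 + 2 * a1.1)
  right
  have h4 : ∀ z ∈ C, ψ.γ z = st z w := fun z hz => by
    push Not at h2
    have a1 : ∀ x ∈ C, ψ.γ (ψ.γ x - st x w) = -(ψ.γ x - st x w) - st (ψ.γ x - st x w) w :=
      fun x hx => by
        rw [map_sub, hC.1 hx, hψ.mul, w1, map_sub, LinearMap.sub_apply, (RR x hx).1]; abel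
    have a2 : ∀ x ∈ C, ψ.γ x - st x w ∈ C := fun x hx => C.sub_mem (hψC x hx) (hR x hx)
    have a3 : ∀ x ∈ C, polar Q8 (ψ.γ z - st z w) (ψ.γ x - st x w) = 0 := fun x hx => by
      have := h2 _ (a2 _ (C.add_mem hz hx)) (a1 _ (C.add_mem hz hx))
      rw [show ψ.γ (z + x) - st (z + x) w = ψ.γ z - st z w + (ψ.γ x - st x w) by simp; abel, Q_add,
        h2 _ (a2 z hz) (a1 z hz), h2 _ (a2 x hx) (a1 x hx)] at this
      simpa using this
    have a4 := a1 z hz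
    have a5 := a2 z hz
    rw [← sub_eq_zero]
    generalize ψ.γ z - st z w = d at a3 a4 a5
    have a6 := nd _ (C.add_mem (C.smul_mem (2 : F) (hR d a5)) a5) fun x hx => by
      have b1 := a3 x hx
      have b2 := hB (ψ.γ (ψ.γ d)) x
      have b3 := BR (st (st d w) w) x
      rw [hp, hC.1 a5, a4] at b2
      rw [(RR d a5).1, map_sub, map_neg, LinearMap.sub_apply, LinearMap.neg_apply, (RR d a5).1] at b3
      simp only [polar_sub_right, polar_sub_left, polar_neg_left] at b1 b2 b3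
      qsimp
      linear_combination b1 - b2 + b3
    refine eq_zero_of_st_right (a := (2 : F) • w - e8) ?_ ?_
    · qsimp; rw [w2, Q_e8, B_comm, w3]; norm_num; exact h3
    · rw [map_sub, map_smul, st_e, ey d a5]; linear_combination (norm := module) a6
  refine ⟨w, by simp [w2], w1, ⟨-1, by rw [ww]; module⟩, fun x => ?_⟩
  obtain ⟨x, h0, z, hz, rfl⟩ := dec x
  have a1 : st w x = st x w := by
    rw [← sub_eq_zero]
    refine eq_zero_of_st_left hy0 ?_
    have b1 := st_left' y x w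
    have b2 := st_left' y w x
    have b3 : st x y ∈ C := by rw [hC, hψ.mul, hψ.mul, h0, h0, hC.1 hy]; simp
    rw [B_comm, perp x h0 y hy, (RR y hy).2, w4] at b1
    rw [B_comm, perp w w1 y hy, (RR _ b3).2, ← h4 _ b3, hψ.mul, h0] at b2
    simp only [map_sub, map_neg] at b1 ⊢
    linear_combination (norm := module) b1 - b2
  rw [hi, map_add, map_add, h0, map_add, h0, map_add, LinearMap.add_apply, a1, ← h4 _ (hψC _ (hψC z hz)),
    hp, h4 z hz, st_left, w2, one_smul]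

end Cfsg.Agent.H6.Tq
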