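import Cfsg.Agent.H6.Tq4
import Cfsg.Agent.H6.BalLib
import Cfsg.Agent.H7.Iwa
import Cfsg.Agent.H7.DescB

/-!
Local balance for the triality automorphisms with centraliser `G₂` or `³D₄`.
-/

set_option autoImplicit false

namespace Cfsg.Agent.H6.Tq

open Subgroup H7 QuadraticMap Module

variable {F : Type*} [Field F]

local notation "Q8" => QP F 4

/-- the nilpotent part of a long root element -/
def Dm (p w : V8 F) : End F (V8 F) :=
  ((polarBilin Q8).flip w).smulRight p - ((polarBilin Q8).flip p).smulRight w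

lemma Dm_apply (p w x : V8 F) : Dm p w x = polar Q8 x w • p - polar Q8 x p • w := rfl

lemma Dm_smul (p w : V8 F) (t : F) : Dm p (t • w) = t • Dm p w := by
  refine LinearMap.ext fun x => ?_
  rw [LinearMap.smul_apply, Dm_apply, Dm_apply, B_smul_right]; module

lemma sg_coe {p w : V8 F} (hp : Q8 p = 0) (h : polar Q8 p w = 0) (hw : Q8 w = 0) :
    ((siegel p w hp h).1 : End F (V8 F)) = 1 + Dm p w :=
  LinearMap.ext fun x => (sg_apply hp h hw x).trans (add_sub_assoc _ _ _)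

lemma Dm_sq {p w : V8 F} (hp : Q8 p = 0) (h : polar Q8 p w = 0) (hw : Q8 w = 0) :
    Dm p w * Dm p w = 0 := LinearMap.ext fun x => by
  simp [Dm_apply, B_self, hp, hw, h, B_comm _ w p]

lemma Dm_sand (p w p' w' : V8 F) : Dm p w * Dm p' w' * Dm p w =
    (polar Q8 p w' * polar Q8 w p' - polar Q8 p p' * polar Q8 w w') • Dm p w :=
  LinearMap.ext fun x => by
    simp only [End.mul_apply, Dm_apply, LinearMap.smul_apply]
    qsimp
    rw [B_comm _ p' w, B_comm _ w' w, B_comm _ p' p, B_comm _ w' p]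
    module

/-- rational null pairs -/
structure NP (σ : F ≃+* F) (p w : V8 F) : Prop where
  qp : Q8 p = 0
  qw : Q8 w = 0
  b : polar Q8 p w = 0
  fp : ∀ i, σ (p i) = p i
  fw : ∀ i, σ (w i) = w i
  e : Dm p w e8 = 0
  der : ∀ x y, Dm p w (st x y) = st (Dm p w x) y + st x (Dm p w y)
  sq : ∀ x y, st (Dm p w x) (Dm p w y) = 0

variable {σ : F ≃+* F} {p w : V8 F}

lemma NP.smul (h : NP σ p w) {t : F} (ht : σ t = t) : NP σ p (t • w) :=
  ⟨h.qp, by simp [Q_smul, h.qw], by simp [h.b], h.fp, fun i => by simp [ht, h.fw],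
    by simp [Dm_smul, h.e], fun x y => by simp [Dm_smul, h.der], fun x y => by simp [Dm_smul, h.sq]⟩

lemma NP.bs (h : NP σ p w) (t : F) : polar Q8 p (t • w) = 0 := by simp [h.b]

/-- the root elements of a null pair -/
def NP.u [Finite F] (h : NP σ p w) (t : F) : Om Q8 :=
  ⟨siegel p (t • w) h.qp (h.bs t), siegel_mem_Om (nd_QP 4) (by simp) _ _⟩

variable [Finite F]

lemma NP.u_coe (h : NP σ p w) (t : F) : ((h.u t).1.1 : End F (V8 F)) = 1 + t • Dm p w :=
  (sg_coe h.qp (h.bs t) (by simp [Q_smul, h.qw])).trans (by rw [Dm_smul])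

lemma NP.u_apply (h : NP σ p w) (t : F) (x : V8 F) : (h.u t).1.1 x = x + t • Dm p w x :=
  LinearMap.congr_fun (h.u_coe t) x

lemma NP.au (h : NP σ p w) (t : F) : Au (SS.ofO Q8 (h.u t).1) :=
  ⟨by simp [h.u_apply, h.e], fun x y => by simp [h.u_apply, h.der, h.sq]; abel⟩

lemma NP.u_add (h : NP σ p w) (s t : F) : h.u s * h.u t = h.u (s + t) :=
  Subtype.ext ((siegel_mul h.qp (h.bs s) (h.bs t)).trans (siegel_congr _ _ rfl (add_smul _ _ _).symm))

lemma NP.u_pow (h : NP σ p w) (t : F) (r : ℕ) [CharP F r] : h.u t ^ r = 1 :=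
  Subtype.ext (siegel_pow_char r h.qp (h.bs t))

lemma NP.std_u (h : NP σ p w) (t : F) : SS.actO Q8 (SS.std σ (std_QP 4 σ)) (h.u t).1 = (h.u (σ t)).1 := by
  refine (SS.actO_siegel _ h.qp (h.bs t)).trans (siegel_congr _ _ ?_ ?_)
  · simp [SS.std_apply, h.fp]
  · rw [SS.std_apply]; ext i; simp [h.fw]

/-- basis vectors -/
abbrev ea (i : Fin 4) : V8 F := Pi.single (.inl i) 1
/-- basis vectors -/
abbrev eb (i : Fin 4) : V8 F := Pi.single (.inr i) 1

omit [Finite F] in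
lemma B_ea (x : V8 F) (i : Fin 4) : polar Q8 x (ea i) = x (.inr i) := by
  rw [polar_QP]; simp [Pi.single_apply]

omit [Finite F] in
lemma B_eb (x : V8 F) (i : Fin 4) : polar Q8 x (eb i) = x (.inl i) := by
  rw [polar_QP]; simp [Pi.single_apply]

omit [Finite F] in
lemma Dm_ab (i j : Fin 4) (x : V8 F) : Dm (ea i) (eb j) x = x (.inl j) • ea i - x (.inr i) • eb j := by
  rw [Dm_apply, B_ea, B_eb]

omit [Finite F] in
lemma np_ab (σ : F ≃+* F) {i j : Fin 4} (hi : i ≠ 0) (hj : j ≠ 0) (hij : i ≠ j) :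
    NP σ (ea i) (eb j) := by
  refine ⟨(hypSys_QP 4).Qe i, (hypSys_QP 4).Qf j, by simp [B_eb, Pi.single_apply, hij.symm],
    fun k => by simp [Pi.single_apply, apply_ite σ], fun k => by simp [Pi.single_apply, apply_ite σ],
    by simp [Dm_ab, e8, hi, hj], fun x y => ?_, fun x y => ?_⟩ <;>
  · simp only [Dm_ab]
    fin_cases i <;> fin_cases j <;> first | contradiction |
      (apply v8_ext <;> simp [st_apply, stFun] <;> ring)

omit [Finite F] in
lemma Dm_x (x : V8 F) : Dm (ea 1 + eb 2) (ea 0 - eb 0 - ea 3 - eb 3) x =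
    (x (.inr 0) - x (.inl 0) - x (.inr 3) - x (.inl 3)) • (ea 1 + eb 2) -
      (x (.inr 1) + x (.inl 2)) • (ea 0 - eb 0 - ea 3 - eb 3) := by
  simp only [Dm_apply, polar_add_right, polar_sub_right, B_ea, B_eb]

omit [Finite F] in
lemma np_x (σ : F ≃+* F) : NP σ (ea 1 + eb 2) (ea 0 - eb 0 - ea 3 - eb 3) := by
  refine ⟨by simp [QP_apply, Fin.sum_univ_four], by simp [QP_apply, Fin.sum_univ_four],
    by simp [B_ea, B_eb], fun k => by simp [Pi.single_apply, apply_ite σ],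
    fun k => by simp [Pi.single_apply, apply_ite σ], by simp [Dm_x, e8], fun x y => ?_, fun x y => ?_⟩ <;>
  · simp only [Dm_x]
    apply v8_ext <;> simp [st_apply, stFun] <;> ring

omit [Finite F] in
lemma eq_sum {x : V8 F} (h : polar Q8 e8 x = 0) : x = x (.inl 0) • (ea 0 - eb 0) + x (.inl 1) • ea 1 +
    x (.inl 2) • ea 2 + x (.inl 3) • ea 3 + x (.inr 1) • eb 1 + x (.inr 2) • eb 2 + x (.inr 3) • eb 3 := by
  rw [B_comm, e8, polar_add_right, B_ea, B_eb] at h
  apply v8_ext <;> simp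
  linear_combination h

omit [Finite F] in
lemma irr_np (σ : F ≃+* F) (W : Submodule F (V8 F)) (h0 : ∃ v ∈ W, v ≠ 0 ∧ Q8 v = 0)
    (h : ∀ p w, NP σ p w → ∀ x ∈ W, Dm p w x ∈ W) (x : V8 F) (hx : polar Q8 e8 x = 0) : x ∈ W := by
  have d := fun i j hi hj hij => h _ _ (np_ab σ (i := i) (j := j) hi hj hij)
  have dx := h _ _ (np_x σ)
  have a : ∀ i j k : Fin 4, i ≠ 0 → j ≠ 0 → k ≠ 0 → i ≠ j → j ≠ k → i ≠ k → ∀ v ∈ W,
      (v (.inl k) ≠ 0 → ea i ∈ W) ∧ (v (.inr i) ≠ 0 → eb k ∈ W) := fun i j k hi hj hk h1 h2 h3 v hv => by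
    have a1 := d i j hi hj h1 _ (d j k hj hk h2 v hv)
    have a2 := d j k hj hk h2 _ (d i j hi hj h1 v hv)
    simp [Dm_ab, h3, h3.symm] at a1 a2
    exact ⟨fun h4 => (W.smul_mem_iff h4).1 a1, fun h4 => (W.smul_mem_iff h4).1 a2⟩
  have A : ∀ v ∈ W, ∀ k, k ≠ 0 → v (.inl k) ≠ 0 → ea 1 ∈ W ∧ ea 2 ∈ W ∧ ea 3 ∈ W := fun v hv k hk h1 => by
    have b1 := fun h => (a 1 3 2 (by decide) (by decide) (by decide) (by decide) (by decide) (by decide) (ea 2) h).1 (by simp)
    have b2 := fun h => (a 2 1 3 (by decide) (by decide) (by decide) (by decide) (by decide) (by decide) (ea 3) h).1 (by simp)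
    have b3 := fun h => (a 3 2 1 (by decide) (by decide) (by decide) (by decide) (by decide) (by decide) (ea 1) h).1 (by simp)
    have : ea 1 ∈ W := by
      fin_cases k
      · contradiction
      · exact b1 (b2 ((a 3 2 1 (by decide) (by decide) (by decide) (by decide) (by decide) (by decide) v hv).1 h1))
      · exact (a 1 3 2 (by decide) (by decide) (by decide) (by decide) (by decide) (by decide) v hv).1 h1
      · exact (a 1 2 3 (by decide) (by decide) (by decide) (by decide) (by decide) (by decide) v hv).1 h1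
    exact ⟨this, b2 (b3 this), b3 this⟩
  have B : ∀ v ∈ W, ∀ k, k ≠ 0 → v (.inr k) ≠ 0 → eb 1 ∈ W ∧ eb 2 ∈ W ∧ eb 3 ∈ W := fun v hv k hk h1 => by
    have b1 := fun h => (a 2 3 1 (by decide) (by decide) (by decide) (by decide) (by decide) (by decide) (eb 2) h).2 (by simp)
    have b2 := fun h => (a 3 1 2 (by decide) (by decide) (by decide) (by decide) (by decide) (by decide) (eb 3) h).2 (by simp)
    have b3 := fun h => (a 1 2 3 (by decide) (by decide) (by decide) (by decide) (by decide) (by decide) (eb 1) h).2 (by simp)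
    have : eb 1 ∈ W := by
      fin_cases k
      · contradiction
      · exact b1 (b2 ((a 1 2 3 (by decide) (by decide) (by decide) (by decide) (by decide) (by decide) v hv).2 h1))
      · exact (a 2 3 1 (by decide) (by decide) (by decide) (by decide) (by decide) (by decide) v hv).2 h1
      · exact (a 3 2 1 (by decide) (by decide) (by decide) (by decide) (by decide) (by decide) v hv).2 h1
    exact ⟨this, b2 (b3 this), b3 this⟩
  have hw : (ea 0 - eb 0 - ea 3 - eb 3 : V8 F) ∈ W := by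
    have c1 : (ea 2 : V8 F) ∈ W → _ := fun h => by simpa [Dm_x] using W.neg_mem (dx _ h)
    have c2 : (eb 1 : V8 F) ∈ W → _ := fun h => by simpa [Dm_x] using W.neg_mem (dx _ h)
    obtain ⟨v, hv, h1, h2⟩ := h0
    by_contra h3
    have h4 : ∀ v ∈ W, ∀ k, k ≠ 0 → v (.inl k) = 0 := fun v hv k hk =>
      by_contra fun h => h3 (c1 (A v hv k hk h).2.1)
    have h5 : ∀ v ∈ W, ∀ k, k ≠ 0 → v (.inr k) = 0 := fun v hv k hk =>
      by_contra fun h => h3 (c2 (B v hv k hk h).1)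
    have h6 := h4 _ (dx v hv) 1 (by decide)
    simp [QP_apply, Fin.sum_univ_four, Dm_x, h4 v hv, h5 v hv, sub_eq_zero] at h2 h6
    exact h1 (by apply v8_ext <;> simp [h4 v hv, h5 v hv] <;> grind)
  obtain ⟨a1, a2, a3⟩ := A _ hw 3 (by decide) (by simp)
  obtain ⟨b1, b2, b3⟩ := B _ hw 3 (by decide) (by simp)
  have c : (ea 0 - eb 0 : V8 F) ∈ W := by simpa using W.add_mem (W.add_mem hw b3) a3
  rw [eq_sum hx]
  repeat first | apply W.add_mem | apply W.smul_mem | assumption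

lemma eq_std {k : SS Q8} (hk : k ∈ T0 F)
    (h : ∀ p w, NP σ p w → ∀ x, k.γ (Dm p w x) = Dm p w (k.γ x)) :
    (∃ l, k = SS.sc _ l * SS.std k.σ (std_QP 4 k.σ)) ∧ ∀ t, σ t = t → k.σ t = t := by
  have d := fun i j hi hj hij => h _ _ (np_ab σ (i := i) (j := j) hi hj hij)
  have a : ∀ i j l : Fin 4, i ≠ 0 → j ≠ 0 → l ≠ 0 → i ≠ j → j ≠ l → i ≠ l →
      k.γ (ea i) = k.γ (ea l) (.inl l) • ea i ∧ k.γ (eb l) = k.γ (eb i) (.inr i) • eb l :=
    fun i j l hi hj hl h1 h2 h3 => by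
      have a1 := (d i j hi hj h1 _).trans (congrArg _ (d j l hj hl h2 (ea l)))
      have a2 := (d j l hj hl h2 _).trans (congrArg _ (d i j hi hj h1 (eb i)))
      exact ⟨by simpa [Dm_ab, h3, h3.symm] using a1, by simpa [Dm_ab, h3, h3.symm] using a2⟩
  have a1 := (a 1 2 3 (by decide) (by decide) (by decide) (by decide) (by decide) (by decide)).1
  have a2 := (a 2 1 3 (by decide) (by decide) (by decide) (by decide) (by decide) (by decide)).1
  have a3 := (a 3 1 2 (by decide) (by decide) (by decide) (by decide) (by decide) (by decide)).1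
  have b3 := (a 1 2 3 (by decide) (by decide) (by decide) (by decide) (by decide) (by decide)).2
  have b2 := (a 1 3 2 (by decide) (by decide) (by decide) (by decide) (by decide) (by decide)).2
  have b1 := (a 2 3 1 (by decide) (by decide) (by decide) (by decide) (by decide) (by decide)).2
  generalize k.γ (ea 3) (.inl 3) = α at a1 a2
  generalize k.γ (eb 1) (.inr 1) = β at b2 b3
  simp only [a2, b2, Pi.smul_apply, Pi.single_eq_same, smul_eq_mul, mul_one] at a3 b1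
  have c1 := h _ _ (np_x σ) (ea 2)
  have c2 := h _ _ (np_x σ) (eb 1)
  rw [a2, map_smul] at c1
  rw [b1, map_smul] at c2
  have c3 : Dm (ea 1 + eb 2) (ea 0 - eb 0 - ea 3 - eb 3) (ea 2 : V8 F) = -(ea 0 - eb 0 - ea 3 - eb 3) := by
    simp [Dm_x]
  have c4 : Dm (ea 1 + eb 2) (ea 0 - eb 0 - ea 3 - eb 3) (eb 1 : V8 F) = -(ea 0 - eb 0 - ea 3 - eb 3) := by
    simp [Dm_x]
  rw [c3] at c1
  rw [c4, c1] at c2
  obtain rfl : α = β := by simpa using congrFun c2 (.inl 0)
  have c5 : k.γ (ea 0 - eb 0) = α • (ea 0 - eb 0) := by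
    rw [map_neg, map_sub, map_sub, a3, b3] at c1
    linear_combination (norm := module) -c1
  have hα : α ≠ 0 := by
    rintro rfl
    exact k.apply_ne_zero (x := ea 1) (by simp) (by simpa using a1)
  refine ⟨⟨Units.mk0 α hα, ?_⟩, fun t ht => ?_⟩
  · rw [eq_comm, ← inv_mul_eq_one]
    obtain ⟨g₂, g₃, h1⟩ := (T0 F).mul_mem ((T0 F).inv_mem ((T0 F).mul_mem ⟨_, _, tri_sc (Units.mk0 α hα) 1 1⟩
      ⟨_, _, tri_std k.σ⟩)) hk
    refine eq_one_of_fix (h1.mem_DS (by simp [mem_GO])) fun x hx => ?_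
    rw [SS.mul_apply]
    refine (SS.sc Q8 (Units.mk0 α hα) * SS.std k.σ (std_QP 4 k.σ)).γ.injective ?_
    rw [SS.apply_inv, SS.mul_apply, SS.std_apply, SS.sc_apply]
    have h2 := congrFun (eq_sum hx) (.inr 0)
    nth_rewrite 1 [eq_sum hx]
    simp only [map_add, k.map_smul, a1, a2, a3, b1, b2, b3, c5]
    apply v8_ext <;> simp [mul_comm]
    simp [h2]
  · have := h _ _ ((np_ab σ (i := 1) (j := 2) (by decide) (by decide) (by decide)).smul ht) (ea 2)
    simp [Dm_smul, Dm_ab, a2, a1, k.map_smul, smul_smul] at this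
    simpa [mul_comm, hα] using this

universe u
variable {G : Type u} [Group G] {a : SS (QP F 4) →* G} {τ : G} (h : TriData a τ) (ha : a.ker = ZS (QP F 4))
include h

lemma NP.conj (H : NP σ p w) (t : F) : τ * a (SS.std σ (std_QP 4 σ)) * a (SS.ofO Q8 (H.u t).1) *
    (τ * a (SS.std σ (std_QP 4 σ)))⁻¹ = a (SS.ofO Q8 (H.u (σ t)).1) := by
  rw [← h.conj _ _ _ (H.au (σ t)).tri, ← H.std_u, SS.ofO_actO, map_mul, map_mul, map_inv]
  group

lemma NP.mem (H : NP σ p w) {t : F} (ht : σ t = t) : a (SS.ofO Q8 (H.u t).1) ∈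
    (KS Q8).map a ⊓ centralizer {τ * a (SS.std σ (std_QP 4 σ))} :=
  ⟨⟨_, ofO_mem_KS (H.u t).2, rfl⟩, mem_centralizer_singleton_iff.2 (by
    have := H.conj h t
    rw [ht, mul_inv_eq_iff_eq_mul] at this
    exact this.symm)⟩

omit [Finite F] h in
lemma conj_of_comm {x u : G} (hu : u * x = x * u) (k : G) (i : ℕ) :
    k * x ^ i * u * (k * x ^ i)⁻¹ = k * u * k⁻¹ := by
  rw [mul_assoc k, ← ((show Commute u x from hu).pow_right i).eq]; group

include ha

theorem NP.pgroup [Finite G] (H : NP σ p w) (h3 : ∀ t, σ (σ (σ t)) = t) {r : ℕ} [Fact r.Prime]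
    [CharP F r] (hr : r.Coprime 3) {N : Subgroup G} (h1 : (Nat.card N).Coprime 3)
    (h2 : N ≤ centralizer {τ * a (SS.std σ (std_QP 4 σ))})
    (hC : ∀ c ∈ (KS Q8).map a ⊓ centralizer {τ * a (SS.std σ (std_QP 4 σ))}, ∀ n ∈ N, c * n * c⁻¹ ∈ N)
    {n : G} (hn : n ∈ N) : IsPGroup r (closure ({a (SS.ofO Q8 (H.u 1).1),
      n * a (SS.ofO Q8 (H.u 1).1) * n⁻¹} : Set G)) := by
  have : CharP (End F (V8 F)) r := charP_of_injective_algebraMap (algebraMap F _).injective r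
  let Γ : G → End F (V8 F) → Prop := fun x g => ∃ s : OG Q8, x = a (SS.ofO _ s) ∧ (s.1 : End F _) = g
  have one : Γ 1 1 := ⟨1, by simp, rfl⟩
  have mul : ∀ x g y k, Γ x g → Γ y k → Γ (x * y) (g * k) := by
    rintro _ _ _ _ ⟨s, rfl, rfl⟩ ⟨t, rfl, rfl⟩
    exact ⟨s * t, by simp, rfl⟩
  have inj : ∀ x, Γ x 1 → x = 1 := by
    rintro _ ⟨s, rfl, hs⟩
    rw [show s = 1 from OG.ext' fun x => LinearMap.congr_fun hs x]; simp
  have cube : ∀ x g, Γ x g → Γ (x ^ 3) (g ^ 3) := fun x g hx => by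
    simpa only [pow_succ, pow_zero] using mul _ _ _ _ (mul _ _ _ _ (mul _ _ _ _ one hx) hx) hx
  have hu : ∀ t, Γ (a (SS.ofO Q8 (H.u t).1)) (1 + t • Dm p w) := fun t => ⟨_, rfl, H.u_coe t⟩
  have hx := mem_centralizer_singleton_iff.1 (h2 hn)
  have hu1 := mem_centralizer_singleton_iff.1 (H.mem h (map_one σ)).2
  obtain ⟨k, -, i, hk⟩ := comm_cases h ⟨_, _, tri_std σ⟩ hx
  obtain ⟨p', w', a1, a2, a3, hv⟩ : ∃ p' w', Q8 p' = 0 ∧ polar Q8 p' w' = 0 ∧ Q8 w' = 0 ∧
      Γ (n * a (SS.ofO Q8 (H.u 1).1) * n⁻¹) (1 + Dm p' w') := by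
    refine ⟨_, _, ?_, ?_, ?_, _, ?_, (congrArg (fun s : OG Q8 => (s.1 : End F (V8 F)))
      (SS.actO_siegel k H.qp (H.bs 1))).trans
      (sg_coe _ _ ?_)⟩
    · simp [Q_smul, k.map_Q, H.qp]
    · simp [k.map_B, H.b]
    · simp [k.map_Q, H.qw]
    · rw [hk, conj_of_comm hu1, SS.ofO_actO, map_mul, map_mul, map_inv]; rfl
    · simp [k.map_Q, H.qw]
  have hD := Dm_sq H.qp H.b H.qw
  have hD' := Dm_sq a1 a2 a3
  obtain ⟨β, b1, b2⟩ : ∃ β : F, Dm p w * Dm p' w' * Dm p w = β • Dm p w ∧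
      Dm p' w' * Dm p w * Dm p' w' = β • Dm p' w' := ⟨_, Dm_sand _ _ _ _, by
    rw [Dm_sand, B_comm _ p' w, B_comm _ w' w, B_comm _ p' p, B_comm _ w' p, mul_comm]⟩
  have hu0 := hu 1
  rw [one_smul] at hu0
  by_cases h0 : β • Dm p w = 0 ∧ β • Dm p' w' = 0
  · exact isPGroup_of_rel Γ one mul inj hD hD' (b1.trans h0.1) (b2.trans h0.2) hu0 hv
  have hβ : β ≠ 0 := by rintro rfl; simp at h0
  have hD0 : Dm p w ≠ 0 := fun h4 => h0 (by rw [← b2, h4]; simp)
  generalize hv' : n * a (SS.ofO Q8 (H.u 1).1) * n⁻¹ = v at hv ⊢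
  have c1 : ∀ t, (a (SS.ofO Q8 (H.u t).1) * v) ^ 3 = 1 → t = -1 / β ∨ t = -3 / β := fun t ht => by
    obtain ⟨s, h4, h5⟩ := cube _ _ (mul _ _ _ _ (hu t) hv)
    obtain ⟨l, hl⟩ := ha.le (h4.symm.trans ht)
    have h6 := cube_sandwich t hD hD' b1 b2
    rw [← h5, show (s.1 : End F (V8 F)) = (l : F) • 1 from
      LinearMap.ext fun x => (congrArg (·.γ x) hl).symm, mul_smul_comm, smul_mul_assoc, mul_one, hD,
      smul_zero, eq_comm, smul_eq_zero, mul_eq_zero, mul_eq_zero] at h6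
    rcases (h6.resolve_right hD0).resolve_right hβ with h7 | h7
    · left; field_simp; linear_combination h7
    · right; field_simp; linear_combination h7
  have c2 : ∀ t, (a (SS.ofO Q8 (H.u t).1) * v) ^ 3 = 1 → (a (SS.ofO Q8 (H.u (σ t)).1) * v) ^ 3 = 1 :=
    fun t ht => by
      have h4 : Commute (τ * a (SS.std σ (std_QP 4 σ))) v := hv' ▸
        ((Commute.symm hx).mul_right (Commute.symm hu1)).mul_right (Commute.symm hx).inv_right
      rw [← H.conj h t, mul_assoc, h4.inv_left.eq, ← mul_assoc, mul_assoc _ _ v, conj_pow, ht]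
      simp
  have c3 : (a (SS.ofO Q8 (H.u (-3 / β)).1) * v) ^ 3 = 1 := inj _ (by
    have := cube _ _ (mul _ _ _ _ (hu (-3 / β)) hv)
    rwa [cube_eq_one (K := F) (by simp [hD]) hD' (by
      simp only [smul_mul_assoc, mul_smul_comm, b1, smul_smul]; congr 1; field_simp) (by
      simp only [smul_mul_assoc, mul_smul_comm, b2, smul_smul]; congr 1; field_simp)] at this)
  have c4 : σ (-3 / β) = -3 / β := by
    refine (c1 _ (c2 _ c3)).elim (fun h4 => ?_) id
    rcases c1 _ (c2 _ (c2 _ c3)) with h5 | h5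
    · exact σ.injective (h5.trans h4.symm)
    · rw [← h5, h3, h5]
  have c5 := eq_inv_of_cube hC h1 hr (H.mem h (map_one σ)) (H.mem h c4) hn (by
    rw [← map_mul, ← map_mul, ← coe_mul, H.u_add, ← map_pow, ← map_pow, ← coe_pow, H.u_pow]; simp)
    (hv' ▸ c3)
  refine isPGroup_of_rel Γ one mul inj hD (B := (3 / β) • Dm p w) (by simp [hD]) (by simp [hD])
    (by simp [hD]) hu0 ?_
  rw [← hv', c5, inv_eq_of_mul_eq_one_right (b := a (SS.ofO Q8 (H.u (3 / β)).1))]
  · exact hu _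
  · rw [← map_mul, ← map_mul, ← coe_mul, H.u_add, neg_div, neg_add_cancel]
    exact inj _ (by simpa using hu 0)

theorem not_unbal_std [Finite G] [((KS Q8).map a).Normal] (h3 : σ ^ 3 = 1) (r : ℕ) [Fact r.Prime]
    [CharP F r] (hr : r.Coprime 3) :
    ¬ Unbal 3 ((KS Q8).map a) (τ * a (SS.std σ (std_QP 4 σ))) := by
  rintro ⟨N, h0, h1, h2, hC⟩
  have h4 : ∀ t, σ (σ (σ t)) = t := fun t => by simpa [pow_succ] using DFunLike.congr_fun h3 t
  obtain ⟨R, r1, r2, r3, r4⟩ := exists_R inf_le_left hC r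
  obtain rfl := eq_bot_of_irr ha r1 r2 {s | ∃ p w, ∃ H : NP σ p w, s = H.u 1} (by
    rintro _ ⟨p, w, H, rfl⟩
    exact r3 _ (inv_mem (H.mem h (map_one σ)))) fun W hW h5 => irr_np σ W hW fun p w H x hx => by
      simpa [H.u_apply] using W.sub_mem (h5 _ ⟨p, w, H, rfl⟩ x hx) hx
  refine h0 ((eq_bot_iff_forall _).2 fun n hn => ?_)
  have hx := mem_centralizer_singleton_iff.1 (h2 hn)
  obtain ⟨k, hk, i, h5⟩ := comm_cases h ⟨_, _, tri_std σ⟩ hx
  obtain ⟨⟨l, hl⟩, h6⟩ := eq_std (σ := σ) hk fun p w H x => by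
    have h6 := r4 _ (H.mem h (map_one σ)) (fun n => H.pgroup h ha h4 hr h1 h2 hC) n hn
    rw [mem_bot, mul_inv_eq_one, h5,
      conj_of_comm (mem_centralizer_singleton_iff.1 (H.mem h (map_one σ)).2),
      mul_inv_eq_iff_eq_mul] at h6
    have h7 := SS.actO_apply' k (H.u 1).1 x
    rw [actO_eq_of_comm ha (congrArg Subtype.val (H.u_pow 1 r)) h6, H.u_apply, H.u_apply] at h7
    simpa using h7.symm
  have h7 : (τ * a (SS.std σ (std_QP 4 σ))) ^ 3 = 1 := by
    rw [(show Commute τ _ from mul_inv_eq_iff_eq_mul.1 (h.conj _ _ _ (tri_std σ))).mul_pow, ← map_pow,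
      SS.std_pow_eq_one (nd_QP 4) _ h3, pow_succ, pow_two, h.ttt]
    simp
  have h8 : a k ^ 3 = 1 := by
    rw [hl, map_mul, show a (SS.sc _ l) = 1 from ha.ge ⟨l, rfl⟩, one_mul, ← map_pow,
      SS.std_pow_eq_one (nd_QP 4) _ (orderOf_dvd_iff_pow_eq_one.1
        ((orderOf_dvd_of_fix h6).trans (orderOf_dvd_of_pow_eq_one h3))), map_one]
  refine eq_one_of_pow_of_coprime (Nat.Coprime.coprime_dvd_left (N.orderOf_dvd_natCard hn) h1)
    (pow_orderOf_eq_one _) ?_
  generalize τ * a (SS.std σ (std_QP 4 σ)) = x at *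
  have h9 : Commute (a k) (x ^ i) := by
    rw [eq_mul_inv_of_mul_eq h5.symm]
    exact ((show Commute n x from hx).pow_right i).mul_left (Commute.refl _).inv_left
  rw [h5, h9.mul_pow, h8, ← pow_mul, mul_comm i, pow_mul, h7]
  simp

end Cfsg.Agent.H6.Tq
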