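import Cfsg.Agent.H6.Tq5

/-!
The Okubo algebra and its matrix model.
-/

set_option autoImplicit false

namespace Cfsg.Agent.H6.Tq

open Subgroup H7 QuadraticMap Module

variable {F : Type*} [Field F]

local notation "Q8" => QP F 4

lemma p0_add (x y : V8 F) : p0 (x + y) = p0 x + p0 y := by apply v8_ext <;> simp [p0]

/-- the Okubo product -/
def ok : V8 F →+ V8 F →+ V8 F :=
  AddMonoidHom.mk' (fun x => AddMonoidHom.mk' (fun y => st (p0 (p0 x)) (p0 y)) fun y z => by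
    simp [p0_add]) fun x z => AddMonoidHom.ext fun y => by simp [p0_add]

lemma ok_apply (x y : V8 F) : ok x y = st (p0 (p0 x)) (p0 y) := rfl

lemma tc_ok : TC (1 : F ≃+* F) 1 ok :=
  ⟨fun _ => rfl, one_ne_zero, rfl,
    fun c x y => by apply v8_ext <;> simp [ok_apply, p0, st_apply, stFun] <;> ring,
    fun c x y => by apply v8_ext <;> simp [ok_apply, p0, st_apply, stFun] <;> ring,
    fun x y z => by simp [polar_QP, Fin.sum_univ_four, ok_apply, p0, st_apply, stFun]; ring,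
    fun x y => by simp [QP_apply, Fin.sum_univ_four, ok_apply, p0, st_apply, stFun]; ring⟩

lemma ok_sl (c : F) (x y : V8 F) : ok (c • x) y = c • ok x y := tc_ok.sl c x y
lemma ok_sr (c : F) (x y : V8 F) : ok x (c • y) = c • ok x y := tc_ok.sr c x y

lemma Q_of_nil {N : V8 F} (h : ok N N = 0) : Q8 N = 0 := by
  by_cases h0 : N = 0
  · simp [h0]
  have := tc_ok.right N N
  rw [h, map_zero, AddMonoidHom.zero_apply, eq_comm, smul_eq_zero] at this
  simpa using this.resolve_right h0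

/-- the unipotent elements -/
def uL (N : V8 F) : End F (V8 F) where
  toFun y := y + (ok N y - ok y N) + polar Q8 N y • N
  map_add' y z := by simp only [map_add, AddMonoidHom.add_apply, polar_add_right]; module
  map_smul' c y := by simp only [ok_sl, ok_sr, B_smul_right, RingHom.id_apply]; module

lemma uL_apply (N y : V8 F) : uL N y = y + (ok N y - ok y N) + polar Q8 N y • N := rfl

variable {L : Type*} [Field L] [Algebra F L]

/-- the matrix model -/
def Φ (ω : L) : V8 F →ₗ[F] Matrix (Fin 3) (Fin 3) L where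
  toFun x := !![x (.inl 0) • 1 + x (.inr 0) • 1, x (.inr 1) • 1 + x (.inr 2) • ω ^ 2 + x (.inr 3) • ω,
      x (.inl 1) • 1 + x (.inl 2) • ω ^ 2 + x (.inl 3) • ω;
    x (.inl 1) • 1 + x (.inl 2) • ω + x (.inl 3) • ω ^ 2, x (.inl 0) • ω + x (.inr 0) • ω ^ 2,
      x (.inr 1) • 1 + x (.inr 2) • 1 + x (.inr 3) • 1;
    x (.inr 1) • 1 + x (.inr 2) • ω + x (.inr 3) • ω ^ 2,
      x (.inl 1) • 1 + x (.inl 2) • 1 + x (.inl 3) • 1, x (.inl 0) • ω ^ 2 + x (.inr 0) • ω]
  map_add' x y := by ext i j; fin_cases i <;> fin_cases j <;> simp [add_smul] <;> abel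
  map_smul' c x := by ext i j; fin_cases i <;> fin_cases j <;> simp [mul_smul]

variable {ω : L} (hω : ω ^ 2 + ω + 1 = 0)
include hω

lemma Φ_mul (x y : V8 F) : Φ ω x * Φ ω y =
    polar Q8 x y • 1 - ω • Φ ω (ok x y) - ω ^ 2 • Φ ω (ok y x) := by
  ext i j
  simp only [Matrix.sub_apply, Matrix.smul_apply, Matrix.mul_apply, Fin.sum_univ_three]
  fin_cases i <;> fin_cases j <;>
    simp [Φ, polar_QP, Fin.sum_univ_four, ok_apply, p0, st_apply,
      stFun, Algebra.smul_def] <;> grind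

lemma Φ_ind (h3 : (3 : F) ≠ 0) {x : V8 F} {c : L} (h : Φ ω x = c • 1) : x = 0 ∧ c = 0 := by
  have h3' : (3 : L) ≠ 0 := by rwa [← map_ofNat (algebraMap F L), map_ne_zero]
  have a := fun i j => (congrFun (congrFun h i) j).trans (Matrix.smul_apply _ _ _ _)
  have a1 := a 0 0
  have a2 := a 0 1
  have a3 := a 0 2
  have a4 := a 1 0
  have a5 := a 1 1
  have a6 := a 1 2
  have a7 := a 2 0
  have a8 := a 2 1
  have a9 := a 2 2
  simp [Φ, Algebra.smul_def] at a1 a2 a3 a4 a5 a6 a7 a8 a9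
  have key : ∀ t : F, 3 * algebraMap F L t = 0 → t = 0 := fun t ht => by simpa [h3'] using ht
  refine ⟨?_, mul_left_cancel₀ h3' (by grind)⟩
  apply v8_ext <;> apply key <;> grind

lemma Φ_sq {N : V8 F} (h : ok N N = 0) : Φ ω N * Φ ω N = 0 := by
  simp [Φ_mul hω, h, B_self, Q_of_nil h]

lemma Φ_sand {N : V8 F} (h : ok N N = 0) (y : V8 F) :
    Φ ω N * Φ ω y * Φ ω N = (3 * polar Q8 N y) • Φ ω N := by
  have a1 := tc_ok.right N y
  have a2 := tc_ok.left N y
  have a3 := tc_ok.left' N N y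
  have a4 := tc_ok.right' y N N
  have a5 := tc_ok.cyc N N y
  have a6 := tc_ok.cyc y N N
  simp [h, Q_of_nil h] at a1 a2 a3 a4 a5 a6
  rw [Φ_mul hω N y, sub_mul, sub_mul, smul_mul_assoc, smul_mul_assoc, smul_mul_assoc, Φ_mul hω,
    Φ_mul hω, a1, a2, a3, a4, a5, ← a6, B_comm _ y]
  simp only [map_zero, map_smul, one_mul, zero_smul, smul_zero, ← algebraMap_smul L (3 * _ : F),
    ← algebraMap_smul L (polar Q8 N y), map_mul, map_ofNat]
  match_scalars
  grind

lemma Φ_uL (h3 : (3 : F) ≠ 0) {N : V8 F} (h : ok N N = 0) (y : V8 F) :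
    Φ ω (uL N y) * (1 + (ω ^ 2 - ω)⁻¹ • Φ ω N) = (1 + (ω ^ 2 - ω)⁻¹ • Φ ω N) * Φ ω y := by
  have h3' : (3 : L) ≠ 0 := by rwa [← map_ofNat (algebraMap F L), map_ne_zero]
  have h4 : ω ^ 2 - ω ≠ 0 := fun h => h3' (by grind)
  have h5 : Φ ω (ok N y - ok y N) = (ω ^ 2 - ω)⁻¹ • (Φ ω N * Φ ω y - Φ ω y * Φ ω N) := by
    rw [eq_inv_smul_iff₀ h4, Φ_mul hω, Φ_mul hω, B_comm _ y, map_sub]; module
  have h6 : (ω ^ 2 - ω)⁻¹ * (ω ^ 2 - ω)⁻¹ * 3 = -1 := by field_simp; grind
  rw [uL_apply, map_add, map_add, h5, map_smul]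
  generalize (ω ^ 2 - ω)⁻¹ = s at h6
  simp only [mul_add, add_mul, mul_one, one_mul, smul_mul_assoc, mul_smul_comm, sub_mul, Φ_sq hω h,
    Φ_sand hω h, mul_assoc (Φ ω y), mul_zero, smul_zero, ← algebraMap_smul L (3 * _ : F),
    ← algebraMap_smul L (polar Q8 N y), map_mul, map_ofNat]
  match_scalars <;> grind

lemma of_conj (h3 : (3 : F) ≠ 0) {k : End F (V8 F)} {g g' : Matrix (Fin 3) (Fin 3) L} (h1 : g * g' = 1)
    (h : ∀ y, Φ ω (k y) * g = g * Φ ω y) (x y : V8 F) :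
    k (ok x y) = ok (k x) (k y) ∧ polar Q8 (k x) (k y) = polar Q8 x y := by
  have h3' : (3 : L) ≠ 0 := by rwa [← map_ofNat (algebraMap F L), map_ne_zero]
  have h4 : ∀ x y, Φ ω (k x) * Φ ω (k y) =
      polar Q8 x y • 1 - ω • Φ ω (k (ok x y)) - ω ^ 2 • Φ ω (k (ok y x)) := fun x y => by
    have : (Φ ω (k x) * Φ ω (k y)) * g =
        (polar Q8 x y • 1 - ω • Φ ω (k (ok x y)) - ω ^ 2 • Φ ω (k (ok y x))) * g := by
      rw [mul_assoc, h, ← mul_assoc, h, mul_assoc, Φ_mul hω]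
      simp [mul_sub, sub_mul, h]
    simpa [mul_assoc, h1] using congrArg (· * g') this
  have h5 : 1 - ω ≠ 0 := fun h => h3' (by grind)
  obtain ⟨a1, a2⟩ := Φ_ind hω h3 (x := k (ok x y) - ok (k x) (k y))
    (c := algebraMap F L (polar Q8 (k x) (k y) - polar Q8 x y)) (smul_right_injective _ h5 (by
      have b1 := (h4 x y).symm.trans (Φ_mul hω _ _)
      have b2 := (h4 y x).symm.trans (Φ_mul hω _ _)
      rw [B_comm _ y, B_comm _ (k y)] at b2
      simp only [map_sub, ← algebraMap_smul L (polar Q8 _ _)] at b1 b2 ⊢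
      linear_combination (norm := (match_scalars <;> grind)) b1 - ω • b2))
  exact ⟨sub_eq_zero.1 a1, sub_eq_zero.1 ((map_eq_zero (algebraMap F L)).1 a2)⟩

lemma eq_of_uL (h3 : (3 : F) ≠ 0) {N N' : V8 F} (h : ok N N = 0) (h' : ok N' N' = 0)
    (e : ∀ y, uL N y = uL N' y) : N = N' := by
  have h3' : (3 : L) ≠ 0 := by rwa [← map_ofNat (algebraMap F L), map_ne_zero]
  have h4 : (ω ^ 2 - ω)⁻¹ ≠ 0 := inv_ne_zero fun h => h3' (by grind)
  have a1 := Φ_uL hω h3 h
  have a2 := Φ_uL hω h3 h'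
  have a3 := Φ_sq hω h
  have a4 := Φ_sq hω h'
  generalize (ω ^ 2 - ω)⁻¹ = s at *
  have a5 : (1 - s • Φ ω N') * (1 + s • Φ ω N') = 1 := by simp [sub_mul, mul_add, a4]
  have a7 : (1 + s • Φ ω N') * (1 - s • Φ ω N') = 1 := by simp [mul_sub, add_mul, a4]
  have a6 : ∀ y, Commute ((1 - s • Φ ω N') * (1 + s • Φ ω N)) (Φ ω y) := fun y => by
    have b1 : (1 - s • Φ ω N') * Φ ω (uL N' y) = Φ ω y * (1 - s • Φ ω N') := by
      calc _ = (1 - s • Φ ω N') * (Φ ω (uL N' y) * (1 + s • Φ ω N')) * (1 - s • Φ ω N') := by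
            rw [mul_assoc, mul_assoc (Φ ω _), a7, mul_one]
        _ = _ := by rw [a2, ← mul_assoc, a5, one_mul]
    rw [Commute, SemiconjBy, mul_assoc, ← a1, e, ← mul_assoc, b1, mul_assoc]
  obtain ⟨c, hc⟩ : ∃ c : L, (1 - s • Φ ω N') * (1 + s • Φ ω N) = c • 1 := by
    generalize (1 - s • Φ ω N') * (1 + s • Φ ω N) = M at a6
    have b1 := fun i j => congrFun (congrFun (a6 (ea 0)).eq i) j
    have b2 := fun i j => congrFun (congrFun (a6 (ea 1)).eq i) j
    simp only [Matrix.mul_apply, Fin.sum_univ_three] at b1 b2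
    have c1 := b1 0 1
    have c2 := b1 0 2
    have c3 := b1 1 0
    have c4 := b1 1 2
    have c5 := b1 2 0
    have c6 := b1 2 1
    have c7 := b2 1 0
    have c8 := b2 2 1
    simp [Φ] at c1 c2 c3 c4 c5 c6 c7 c8
    refine ⟨M 0 0, ?_⟩
    ext i j
    fin_cases i <;> fin_cases j <;> simp <;> first | rfl | (apply mul_left_cancel₀ h3'; grind)
  have b1 : 1 + s • Φ ω N = c • (1 + s • Φ ω N') := by
    calc _ = (1 + s • Φ ω N') * ((1 - s • Φ ω N') * (1 + s • Φ ω N)) := by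
          rw [← mul_assoc, a7, one_mul]
      _ = _ := by rw [hc]; simp
  have b2 : c = 1 := by
    have := congrArg Matrix.trace b1
    simp only [Matrix.trace, Fin.sum_univ_three, Matrix.diag, Matrix.add_apply,
      Matrix.smul_apply] at this
    simp [Φ, Algebra.smul_def] at this
    apply mul_left_cancel₀ h3'; grind
  rw [b2, one_smul, add_right_inj] at b1
  exact sub_eq_zero.1 (Φ_ind hω h3 (c := 0)
    (by simp [smul_right_injective _ h4 b1])).1

end Cfsg.Agent.H6.Tq
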