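import Cfsg.Agent.H6.Tq6

/-!
Local balance for the triality automorphisms with centraliser `PGL₃` or `PGU₃`.
-/

set_option autoImplicit false

namespace Cfsg.Agent.H6.Tq

open Subgroup H7 QuadraticMap Module

variable {F : Type*} [Field F]

local notation "Q8" => QP F 4

/-- a spanning family of nilpotent elements -/
def Nf : Fin 8 → V8 F :=
  ![Sum.elim ![0, 1, 1, 1] ![0, 0, 0, 0], Sum.elim ![0, 0, 0, 0] ![0, 1, 1, 1],
    Sum.elim ![0, 0, 0, 1] ![1, 1, 0, 0], Sum.elim ![0, 0, 1, 0] ![1, 0, 0, 1],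
    Sum.elim ![0, 1, 0, 0] ![1, 0, 1, 0], Sum.elim ![1, 0, 0, 1] ![0, 0, 1, 0],
    Sum.elim ![1, 0, 1, 0] ![0, 1, 0, 0], Sum.elim ![1, 1, 0, 0] ![0, 0, 0, 1]]

lemma Nf_nil (j : Fin 8) : ok (Nf j : V8 F) (Nf j) = 0 := by
  fin_cases j <;> apply v8_ext <;> simp [Nf, ok_apply, p0, st_apply, stFun]

lemma Nf_B (i j : Fin 8) : i = j ∨ polar Q8 (Nf i) (Nf j) = 1 ∨ polar Q8 (Nf i) (Nf j) = 3 := by
  fin_cases i <;> fin_cases j <;> simp [Nf, polar_QP, Fin.sum_univ_four] <;> norm_num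

lemma Nf_span (h3 : (3 : F) ≠ 0) (x : V8 F) : ∃ c : Fin 8 → F, x = ∑ j, c j • Nf j := by
  refine ⟨![(-x (.inl 0) + x (.inl 1) + x (.inl 2) + x (.inl 3) - x (.inr 0)) / 3,
    (-x (.inl 0) - x (.inr 0) + x (.inr 1) + x (.inr 2) + x (.inr 3)) / 3,
    (-x (.inl 2) + x (.inl 3) + x (.inr 0) + x (.inr 1) - x (.inr 2)) / 3,
    (-x (.inl 1) + x (.inl 2) + x (.inr 0) - x (.inr 1) + x (.inr 3)) / 3,
    (x (.inl 1) - x (.inl 3) + x (.inr 0) + x (.inr 2) - x (.inr 3)) / 3,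
    (x (.inl 0) - x (.inl 1) + x (.inl 3) - x (.inr 1) + x (.inr 2)) / 3,
    (x (.inl 0) + x (.inl 2) - x (.inl 3) + x (.inr 1) - x (.inr 3)) / 3,
    (x (.inl 0) + x (.inl 1) - x (.inl 2) - x (.inr 2) + x (.inr 3)) / 3], ?_⟩
  apply v8_ext <;> simp [Nf, Fin.sum_univ_eight] <;> field_simp <;> ring

lemma Nf_two_aux : ∀ (j : Fin 8) (z : V8 (ZMod 2)), (∀ i, stFun (p0 (p0 z)) (p0 z) i = 0) →
    ∑ i, (Nf j (.inl i) * z (.inr i) + Nf j (.inr i) * z (.inl i)) = 0 →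
    (∀ i, z i = 0) ∨ ∀ i, z i = Nf j i := by
  decide +kernel

lemma Nf_two (h2 : ∀ t : F, t = 0 ∨ t = 1) (j : Fin 8) {x : V8 F} (h : ok x x = 0)
    (hb : polar Q8 (Nf j) x = 0) : x = 0 ∨ x = Nf j := by
  have : CharP F 2 := CharTwo.of_one_ne_zero_of_two_eq_zero one_ne_zero (by
    rcases h2 2 with h | h
    · exact h
    · exact absurd (by linear_combination h) (one_ne_zero (α := F)))
  let e := ZMod.castHom (dvd_refl 2) F
  have he : ∀ t : F, ∃ s, e s = t := fun t => by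
    rcases h2 t with rfl | rfl
    exacts [⟨0, map_zero e⟩, ⟨1, map_one e⟩]
  choose z hz using fun i => he (x i)
  have h1 : ∀ i, e (Nf j i) = Nf j i := fun i => by
    fin_cases j <;> rcases i with i | i <;> fin_cases i <;> simp [Nf]
  refine (Nf_two_aux j z (fun i => e.injective ?_) (e.injective ?_)).imp
    (fun h4 => funext fun i => by simp [← hz, h4]) fun h4 => funext fun i => by rw [← hz, h4, h1]
  · rw [map_zero, ← Pi.zero_apply (M := fun _ => F) i, ← h]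
    rcases i with i | i <;> fin_cases i <;> simp [ok_apply, p0, st_apply, stFun, hz, CharTwo.neg_eq]
  · simp only [map_add, map_mul, h1, hz, map_zero, ← hb, polar_QP, Fin.sum_univ_four]; ring

lemma exists_ω : ∃ ω : AlgebraicClosure F, ω ^ 2 + ω + 1 = 0 := by
  obtain ⟨ω, h⟩ := IsAlgClosed.exists_root (k := AlgebraicClosure F)
    (Polynomial.X ^ 2 + Polynomial.X + 1) (by
      rw [show (Polynomial.X ^ 2 + Polynomial.X + 1 : Polynomial (AlgebraicClosure F)).degree = 2 by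
        compute_degree!]; decide)
  exact ⟨ω, by simpa using h⟩

lemma nil_smul {N : V8 F} (h : ok N N = 0) (t : F) : ok (t • N) (t • N) = 0 := by
  simp [ok_sl, ok_sr, h]

variable (h3 : (3 : F) ≠ 0) {N : V8 F}
include h3

lemma uL_aut (h : ok N N = 0) (x y : V8 F) :
    uL N (ok x y) = ok (uL N x) (uL N y) ∧ polar Q8 (uL N x) (uL N y) = polar Q8 x y := by
  obtain ⟨ω, hω⟩ := exists_ω (F := F)
  exact of_conj hω h3 (g' := 1 - (ω ^ 2 - ω)⁻¹ • Φ ω N) (by simp [mul_sub, add_mul, Φ_sq hω h])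
    (Φ_uL hω h3 h) x y

lemma uL_inj (h : ok N N = 0) : Function.Injective (uL N) :=
  (injective_iff_map_eq_zero _).2 fun x hx => (nd_QP 4).eq_zero fun y => by
    rw [← (uL_aut h3 h x y).2, hx, polar_zero_left]

/-- the unipotent elements as isometries -/
noncomputable def uO (h : ok N N = 0) : OG Q8 :=
  ⟨LinearEquiv.ofInjectiveEndo (uL N) (uL_inj h3 h), fun x => by
    have a1 := congrArg (uL N) (tc_ok.right x e8)
    rw [(uL_aut h3 h _ _).1, (uL_aut h3 h _ _).1, tc_ok.right, map_smul] at a1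
    simpa using smul_left_injective F ((map_ne_zero_iff _ (uL_inj h3 h)).2 e8_ne) a1⟩

lemma uO_apply (h : ok N N = 0) (x : V8 F) : (uO h3 h).1 x = uL N x := rfl

omit h3 in
lemma actO_uO {k : SS Q8} (hk : ∀ x y, k.γ (ok x y) = ok (k.γ x) (k.γ y)) (hc : k.c = 1)
    (h : ok N N = 0) : ∃ h' : ok (k.γ N) (k.γ N) = 0, ∀ h3, SS.actO Q8 k (uO h3 h) = uO h3 h' :=
  ⟨by rw [← hk, h, map_zero], fun h3 => OG.ext' fun x => by
    obtain ⟨x, rfl⟩ := k.γ.surjective x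
    simp [SS.actO_apply', uO_apply, uL_apply, hk, k.map_smul, k.map_B, hc]⟩

variable {ψ : SS (QP F 4)} (hψ : Au ψ) (hσ : ψ.σ = 1) (hp : ∀ x, ψ.γ x = p0 x)
include hp

omit h3 in
lemma psi_cube : ψ ^ 3 = 1 := SS.ext_of_apply (nd_QP 4) fun x => by
  apply v8_ext <;> simp [pow_succ, hp, p0]

omit h3 in
lemma ok_eq (x y : V8 F) : ok x y = st (ψ⁻¹.γ x) (ψ.γ y) := by
  rw [inv_eq_of_mul_eq_one_right (b := ψ * ψ) (by rw [← psi_cube hp, pow_succ', pow_two]),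
    SS.mul_apply, hp, hp, hp, ok_apply]

include hσ in
lemma tri_uO (h : ok N N = 0) :
    Tri (SS.ofO Q8 (uO h3 h)) (ψ⁻¹ * SS.ofO Q8 (uO h3 h) * ψ) (ψ * SS.ofO Q8 (uO h3 h) * ψ⁻¹) :=
  tri_of_st (by simp [hσ]) (by simp [hσ]) one_ne_zero fun x y => by
    have := (uL_aut h3 h (ψ.γ x) (ψ⁻¹.γ y)).1
    rw [ok_eq hp, ok_eq hp, SS.inv_apply, SS.apply_inv] at this
    simpa [uO_apply] using this.symm

variable [Finite F]
include hσ hψ

lemma uO_mem (h : ok N N = 0) : uO h3 h ∈ Om Q8 :=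
  (mem_commutator_iff (nd_QP 4) nonExc8 _).2
    ⟨(ofO_mem_DS_iff (nd_QP 4) nonExc8).1 ((tri_uO h3 hσ hp h).mem_DS rfl),
      (tri_uO h3 hσ hp h).chi_c.symm.trans (by simp [SS.inv_c, c_of_fix hψ.e])⟩

universe u
variable {G : Type u} [Group G] {a : SS (QP F 4) →* G} {τ : G} (h : TriData a τ) (ha : a.ker = ZS (QP F 4))
include h

lemma uO_cent (hN : ok N N = 0) : a (SS.ofO Q8 (uO h3 hN)) ∈ (KS Q8).map a ⊓ centralizer {τ * a ψ} :=
  ⟨⟨_, ofO_mem_KS (uO_mem h3 hψ hσ hp hN), rfl⟩, mem_centralizer_singleton_iff.2 (by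
    have := h.conj _ _ _ (tri_uO h3 hσ hp hN).cyc.cyc
    nth_rewrite 1 [← this]
    simp only [map_mul, map_inv]; group)⟩

include ha

omit h3 hσ in
lemma exists_ok_aut {k : SS Q8} (hk : k ∈ T0 F) (hc : Commute (a k) (τ * a ψ)) :
    ∃ k' : SS Q8, a k' = a k ∧ (∀ x y, k'.γ (ok x y) = ok (k'.γ x) (k'.γ y)) ∧ k'.c = 1 := by
  obtain ⟨k₂, k₃, H⟩ := hk
  have a0 : Commute τ (a ψ) := mul_inv_eq_iff_eq_mul.1 (h.conj _ _ _ hψ.tri)
  have a1 : ∀ g, Commute (a g) (τ * a ψ) → τ * a g * τ⁻¹ = (a ψ)⁻¹ * a g * a ψ := fun g hg => by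
    rw [mul_assoc (a ψ)⁻¹, eq_inv_mul_iff_mul_eq, ← mul_assoc, ← mul_assoc, ← a0.eq, ← hg.eq,
      a0.eq, ← mul_assoc, mul_inv_cancel_right]
  have a2 := (h.conj _ _ _ H).symm.trans (a1 k hc)
  have a3 : a k₃ = a ψ * a k * (a ψ)⁻¹ := by
    have b1 : Commute (a ψ) (τ * a ψ) := a0.symm.mul_right (Commute.refl _)
    rw [← h.conj _ _ _ H.cyc, a1 k₂ (a2 ▸ (b1.inv_left.mul_left hc).mul_left b1), a2]
    have b2 : a ψ * a ψ * a ψ = 1 := by
      rw [← map_mul, ← map_mul, ← pow_two, ← pow_succ, psi_cube hp, map_one]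
    rw [← mul_assoc, ← mul_assoc, ← mul_inv_rev, inv_eq_of_mul_eq_one_right b2, mul_assoc, mul_assoc,
      mul_assoc, eq_inv_of_mul_eq_one_left b2]
  obtain ⟨l₂, b2⟩ := ha.le (show a (ψ⁻¹ * k * ψ * k₂⁻¹) = 1 by simp [a2])
  obtain ⟨l₃, b3⟩ := ha.le (show a (ψ * k * ψ⁻¹ * k₃⁻¹) = 1 by simp [a3])
  have H' := (tri_sc 1 l₂ l₃).mul H
  rw [b2, b3, map_one, one_mul, inv_mul_cancel_right, inv_mul_cancel_right] at H'
  obtain ⟨κ, h0, h1⟩ := tri_st H'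
  have h2 : ∀ x y, ok (k.γ x) (k.γ y) = κ • k.γ (ok x y) := fun x y => by
    simpa [ok_eq hp] using h1 (ψ⁻¹.γ x) (ψ.γ y)
  have h4 := congrArg Q8 (h2 e8 e8)
  simp only [tc_ok.nrm, Q_smul, k.map_Q, Q_e8] at h4
  refine ⟨SS.sc _ (Units.mk0 κ⁻¹ (inv_ne_zero h0)) * k, by rw [map_mul, show a (SS.sc _ _) = 1 from ha.ge ⟨_, rfl⟩,
    one_mul], fun x y => ?_, Units.ext ?_⟩
  · simp [ok_sl, ok_sr, h2, smul_smul, h0]
  · simp at h4 ⊢
    simp [h4, h0]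

omit ha in
theorem ok_pgroup [Finite G] {r : ℕ} [Fact r.Prime] [CharP F r] (hr : r.Coprime 3) {M : Subgroup G}
    (h1 : (Nat.card M).Coprime 3)
    (hC : ∀ c ∈ (KS Q8).map a ⊓ centralizer {τ * a ψ}, ∀ n ∈ M, c * n * c⁻¹ ∈ M)
    {n : G} (hn : n ∈ M) (hN : ok N N = 0) {N' : V8 F} (hN' : ok N' N' = 0)
    (hv : n * a (SS.ofO Q8 (uO h3 hN)) * n⁻¹ = a (SS.ofO Q8 (uO h3 hN'))) :
    uO h3 hN ^ r = 1 ∧ IsPGroup r (closure ({a (SS.ofO Q8 (uO h3 hN)),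
      n * a (SS.ofO Q8 (uO h3 hN)) * n⁻¹} : Set G)) ∧ (polar Q8 N N' = 0 ∨ ∃ t, t ≠ 0 ∧
      n * a (SS.ofO Q8 (uO h3 hN)) * n⁻¹ = a (SS.ofO Q8 (uO h3 (nil_smul hN t)))) := by
  obtain ⟨ω, hω⟩ := exists_ω (F := F)
  have : CharP (AlgebraicClosure F) r := charP_of_injective_algebraMap (algebraMap F _).injective r
  let Γ0 : OG Q8 → Matrix (Fin 3) (Fin 3) (AlgebraicClosure F) → Prop :=
    fun s g => ∀ y, Φ ω (s.1 y) * g = g * Φ ω y
  let Γ : G → Matrix (Fin 3) (Fin 3) (AlgebraicClosure F) → Prop :=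
    fun x g => ∃ s : OG Q8, x = a (SS.ofO _ s) ∧ Γ0 s g
  have mul0 : ∀ x g y k, Γ0 x g → Γ0 y k → Γ0 (x * y) (g * k) := fun s g t k hs ht y => by
    rw [OG.mul_apply, ← mul_assoc, hs, mul_assoc, ht, mul_assoc]
  have inj0 : ∀ s, Γ0 s 1 → s = 1 := fun s hs => OG.ext' fun x => sub_eq_zero.1
    (Φ_ind hω h3 (c := 0) (by simpa [sub_eq_zero] using hs x)).1
  have pow0 : ∀ s B, B * B = 0 → Γ0 s (1 + B) → s ^ r = 1 := fun s B hB hs => by
    have hp : ∀ n : ℕ, Γ0 (s ^ n) ((1 + B) ^ n) := fun n => by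
      induction n with
      | zero => intro y; simp
      | succ n ih => rw [pow_succ, pow_succ]; exact mul0 _ _ _ _ ih hs
    have := hp r
    rw [add_pow_char_of_commute _ (Commute.one_left _), one_pow,
      pow_eq_zero_of_le (Fact.out : r.Prime).two_le ((pow_two _).trans hB), add_zero] at this
    exact inj0 _ this
  have one : Γ 1 1 := ⟨1, by simp, fun y => by simp⟩
  have mul : ∀ x g y k, Γ x g → Γ y k → Γ (x * y) (g * k) := by
    rintro _ _ _ _ ⟨s, rfl, hs⟩ ⟨t, rfl, ht⟩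
    exact ⟨s * t, by simp, mul0 _ _ _ _ hs ht⟩
  have inj : ∀ x, Γ x 1 → x = 1 := by
    rintro _ ⟨s, rfl, hs⟩
    rw [inj0 s hs]; simp
  have h3' : (3 : AlgebraicClosure F) ≠ 0 := by
    rwa [← map_ofNat (algebraMap F (AlgebraicClosure F)), map_ne_zero]
  have h4 : ω ^ 2 - ω ≠ 0 := fun h => h3' (by grind)
  have h6 : (ω ^ 2 - ω)⁻¹ * (ω ^ 2 - ω)⁻¹ * 3 = -1 := by field_simp; grind
  have hu : ∀ N (hN : ok N N = 0), Γ0 (uO h3 hN) (1 + (ω ^ 2 - ω)⁻¹ • Φ ω N) :=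
    fun N hN => Φ_uL hω h3 hN
  generalize (ω ^ 2 - ω)⁻¹ = s at h6 hu
  have hsq : ∀ (N : V8 F) (hN : ok N N = 0), s • Φ ω N * s • Φ ω N = 0 := fun N hN => by simp [Φ_sq hω hN]
  have hsa : ∀ (N : V8 F) (hN : ok N N = 0) (N' : V8 F), s • Φ ω N * s • Φ ω N' * s • Φ ω N =
      (-polar Q8 N N') • s • Φ ω N := fun N hN N' => by
    simp only [smul_mul_assoc, mul_smul_comm, Φ_sand hω hN, ← algebraMap_smul (AlgebraicClosure F) (_ : F),
      map_mul, map_neg, map_ofNat]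
    match_scalars
    linear_combination s * algebraMap F _ (polar Q8 N N') * h6
  refine ⟨pow0 _ _ (hsq N hN) (hu N hN), ?_⟩
  by_cases h0 : polar Q8 N N' = 0
  · exact ⟨isPGroup_of_rel Γ one mul inj (hsq N hN) (hsq N' hN') (by simp only [hsa N hN, h0]; simp)
      (by simp only [hsa N' hN', B_comm _ N', h0]; simp) ⟨_, rfl, hu N hN⟩ ⟨_, hv, hu N' hN'⟩, Or.inl h0⟩
  have hsm : ∀ t t' : F, s • Φ ω (t • N) * s • Φ ω (t' • N) = 0 := fun t t' => by simp [Φ_sq hω hN]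
  have c3 : (a (SS.ofO Q8 (uO h3 (nil_smul hN (3 / polar Q8 N N')))) * a (SS.ofO Q8 (uO h3 hN'))) ^ 3 = 1 := by
    have b1 : Γ _ _ := mul _ _ _ _ ⟨_, rfl, hu _ (nil_smul hN (3 / polar Q8 N N'))⟩ ⟨_, rfl, hu N' hN'⟩
    have b2 := mul _ _ _ _ (mul _ _ _ _ b1 b1) b1
    rw [← pow_two, ← pow_succ, ← pow_two, ← pow_succ, cube_eq_one (K := F) (hsm _ _) (hsq N' hN')
      (by rw [hsa _ (nil_smul hN _), B_smul_left, div_mul_cancel₀ _ h0])
      (by rw [hsa _ hN', B_smul_right, B_comm _ N', div_mul_cancel₀ _ h0])] at b2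
    exact inj _ b2
  have c5 := eq_inv_of_cube hC h1 hr (uO_cent h3 hψ hσ hp h hN) (uO_cent h3 hψ hσ hp h _) hn (by
    rw [← map_mul, ← map_mul, ← map_pow, ← map_pow,
      pow0 _ (s • Φ ω ((3 / polar Q8 N N' + 1) • N)) (hsm _ _) (by
        convert mul0 _ _ _ _ (hu _ (nil_smul hN (3 / polar Q8 N N'))) (hu N hN) using 1
        have := hsm (3 / polar Q8 N N') 1
        rw [one_smul] at this
        rw [mul_add, add_mul, add_mul, this, add_smul]; simp [add_assoc])]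
    simp) (hv ▸ c3)
  replace c5 := c5.trans (inv_eq_of_mul_eq_one_right
    (b := a (SS.ofO Q8 (uO h3 (nil_smul hN (-(3 / polar Q8 N N')))))) (inj _ (by
      convert mul _ _ _ _ ⟨_, rfl, hu _ (nil_smul hN (3 / polar Q8 N N'))⟩
        ⟨_, rfl, hu _ (nil_smul hN (-(3 / polar Q8 N N')))⟩ using 1
      rw [mul_add, add_mul, add_mul, hsm]; simp)))
  exact ⟨isPGroup_of_rel Γ one mul inj (hsq N hN) (hsm _ _) (by simp [Φ_sq hω hN])
    (by simp [Φ_sq hω hN]) ⟨_, rfl, hu N hN⟩ ⟨_, c5, hu _ (nil_smul hN _)⟩,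
    Or.inr ⟨_, by simp [h0, h3], c5⟩⟩

theorem not_unbal_ok [Finite G] [((KS Q8).map a).Normal] (r : ℕ) [Fact r.Prime]
    [CharP F r] (hr : r.Coprime 3) : ¬ Unbal 3 ((KS Q8).map a) (τ * a ψ) := by
  rintro ⟨M, h0, h1, h2, hC⟩
  refine h0 ((eq_bot_iff_forall _).2 fun n hn => ?_)
  have key : ∀ n ∈ M, ∃ k i, n = a k * (τ * a ψ) ^ i ∧ ∀ N (hN : ok N N = 0),
      ∃ hN' : ok (k.γ N) (k.γ N) = 0, SS.actO Q8 k (uO h3 hN) = uO h3 hN' ∧
        n * a (SS.ofO Q8 (uO h3 hN)) * n⁻¹ = a (SS.ofO Q8 (uO h3 hN')) := fun n hn => by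
    have hx : Commute n (τ * a ψ) := mem_centralizer_singleton_iff.1 (h2 hn)
    obtain ⟨k, hk, i, h5⟩ := comm_cases h ⟨_, _, hψ.tri⟩ hx
    obtain ⟨k', a1, a2, a3⟩ := exists_ok_aut hψ hp h ha hk (by
      rw [eq_mul_inv_of_mul_eq h5.symm]
      exact hx.mul_left ((Commute.refl _).pow_left i).inv_left)
    refine ⟨k', i, a1 ▸ h5, fun N hN => ?_⟩
    obtain ⟨hN', a4⟩ := actO_uO a2 a3 hN
    refine ⟨hN', a4 h3, ?_⟩
    rw [h5, conj_of_comm (mem_centralizer_singleton_iff.1 (uO_cent h3 hψ hσ hp h hN).2), ← a4,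
      SS.ofO_actO, map_mul, map_mul, map_inv, a1]
  have pg := fun n hn N hN N' hN' => ok_pgroup h3 hψ hσ hp h hr h1 hC (n := n) hn (N := N) hN (N' := N') hN'
  obtain ⟨k, i, h5, h6⟩ := key n hn
  have h7 : ∀ j (t : F), n * a (SS.ofO Q8 (uO h3 (nil_smul (Nf_nil j) t))) * n⁻¹ =
      a (SS.ofO Q8 (uO h3 (nil_smul (Nf_nil j) t))) := by
    by_cases h2 : ∀ t : F, t = 0 ∨ t = 1
    · intro j t
      obtain ⟨hN', -, a1⟩ := h6 _ (nil_smul (Nf_nil j) t)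
      rcases h2 t with rfl | rfl
      · simpa only [zero_smul, map_zero] using a1
      rcases (pg n hn _ _ _ _ a1).2.2 with a2 | ⟨t, a2, a3⟩
      · rw [B_smul_left, one_mul] at a2
        rcases Nf_two h2 j hN' a2 with a3 | a3
        · refine absurd (k.γ.injective (a3.trans (map_zero _).symm)) fun a4 => ?_
          have := Nf_B (F := F) j (j + 1)
          rw [one_smul] at a4
          rw [a4] at this
          simpa [h3.symm] using this
        · simp only [a3] at a1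
          simpa only [one_smul] using a1
      · obtain rfl := (h2 t).resolve_left a2
        simpa only [one_smul] using a3
    obtain ⟨R, r1, r2, r3, r4⟩ := exists_R inf_le_left hC r
    obtain rfl := eq_bot_of_irr ha r1 r2 {s | ∃ N hN, s = ⟨_, uO_mem h3 hψ hσ hp (N := N) hN⟩} (by
      rintro _ ⟨N, hN, rfl⟩
      exact r3 _ (inv_mem (uO_cent h3 hψ hσ hp h hN))) fun W ⟨v, hv, a1, _⟩ a2 x _ => by
        push Not at h2
        obtain ⟨t, t0, t1⟩ := h2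
        have a3 : ∀ j, ∀ w ∈ W, polar Q8 (Nf j) w ≠ 0 → Nf j ∈ W := fun j w hw a3 => by
          have b1 := W.sub_mem (W.sub_mem (a2 _ ⟨_, nil_smul (Nf_nil j) t, rfl⟩ w hw) hw)
            (W.smul_mem t (W.sub_mem (a2 _ ⟨_, Nf_nil j, rfl⟩ w hw) hw))
          refine (W.smul_mem_iff (show t * (t - 1) * polar Q8 (Nf j) w ≠ 0 by
            simp [t0, a3, sub_ne_zero.2 t1])).1 ?_
          convert b1 using 1
          simp only [uO_apply, uL_apply, ok_sl, ok_sr, B_smul_left]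
          module
        obtain ⟨j, a4⟩ : ∃ j, polar Q8 (Nf j) v ≠ 0 := by
          by_contra! a4
          refine a1 ((nd_QP 4).eq_zero fun y => ?_)
          obtain ⟨c, rfl⟩ := Nf_span h3 y
          simp [Fin.sum_univ_eight, B_comm _ v, a4]
        obtain ⟨c, rfl⟩ := Nf_span h3 x
        refine W.sum_mem fun l _ => W.smul_mem _ ?_
        rcases Nf_B (F := F) l j with rfl | a5 | a5
        · exact a3 _ v hv a4
        · exact a3 _ _ (a3 _ v hv a4) (by simp [a5])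
        · exact a3 _ _ (a3 _ v hv a4) (by simp [a5, h3])
    intro j t
    refine mul_inv_eq_one.1 (mem_bot.1 (r4 _ (uO_cent h3 hψ hσ hp h _) (fun m hm => ?_) n hn))
    obtain ⟨k, -, -, a1⟩ := key m hm
    obtain ⟨hN', -, a1⟩ := a1 _ (nil_smul (Nf_nil j) t)
    exact (pg m hm _ _ _ _ a1).2.1
  have h8 : k = 1 := SS.ext_of_apply (nd_QP 4) fun x => by
    obtain ⟨c, rfl⟩ := Nf_span h3 x
    obtain ⟨ω, hω⟩ := exists_ω (F := F)
    rw [map_sum, SS.one_apply]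
    refine Finset.sum_congr rfl fun j _ => ?_
    obtain ⟨hN', a1, a2⟩ := h6 _ (nil_smul (Nf_nil j) (c j))
    have a3 := actO_eq_of_comm ha (pg n hn _ _ _ _ a2).1 (g := k) (by
      rw [← mul_inv_eq_iff_eq_mul, ← map_inv, ← map_mul, ← map_mul, ← SS.ofO_actO, a1, ← a2, h7])
    exact eq_of_uL hω h3 hN' (nil_smul (Nf_nil j) (c j)) fun y =>
      congrArg (fun s : OG Q8 => s.1 y) (a1.symm.trans a3)
  refine eq_one_of_pow_of_coprime (Nat.Coprime.coprime_dvd_left (M.orderOf_dvd_natCard hn) h1)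
    (pow_orderOf_eq_one _) ?_
  rw [h5, h8, map_one, one_mul, ← pow_mul, mul_comm i, pow_mul,
    (show Commute τ _ from mul_inv_eq_iff_eq_mul.1 (h.conj _ _ _ hψ.tri)).mul_pow, ← map_pow,
    psi_cube hp, pow_succ, pow_two, h.ttt]
  simp

omit h3 hψ hσ hp in
theorem not_unbal_tri [Finite G] [((KS Q8).map a).Normal] (r : ℕ) [Fact r.Prime]
    [CharP F r] (hr : 3 ≠ r) {g : SS Q8} (hg : g ∈ T0 F) (hx : (τ * a g) ^ 3 = 1) :
    ¬ Unbal 3 ((KS Q8).map a) (τ * a g) := by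
  have hr' : r.Coprime 3 := (Nat.coprime_primes Fact.out Nat.prime_three).2 hr.symm
  have h3 : (3 : F) ≠ 0 := fun h3 => hr ((Nat.prime_dvd_prime_iff_eq Fact.out Nat.prime_three).1
    ((CharP.cast_eq_zero_iff F r 3).1 (by exact_mod_cast h3))).symm
  intro hu
  obtain ⟨α, ψ, hψ, h1, h2⟩ := normal_form h ha h3 hg hx
  replace hu := h2 ▸ hu.conj α
  have key : ∀ g, Au g → Unbal 3 ((KS Q8).map a) (τ * a (g⁻¹ * ψ * g)) := fun g hg => by
    have a0 : Commute τ (a g) := mul_inv_eq_iff_eq_mul.1 (h.conj _ _ _ hg.tri)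
    have := hu.conj (a g)⁻¹
    rwa [← mul_assoc, ← a0.inv_right.eq, inv_inv, mul_assoc τ, mul_assoc τ, ← map_inv, ← map_mul,
      ← map_mul] at this
  have one : ¬ Unbal 3 ((KS Q8).map a) (τ * a 1) := by
    have := not_unbal_std h ha (σ := 1) (one_pow 3) r hr'
    rwa [show SS.std 1 (std_QP 4 (1 : F ≃+* F)) = 1 from
      SS.ext_of_apply (nd_QP 4) fun x => by rw [SS.std_apply]; rfl] at this
  by_cases hσ : ψ.σ = 1
  · rcases linear_cases hψ h3 hσ h1 with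
      rfl | ⟨g, a1, a2⟩ | ⟨v, a1, a2, ⟨c, a3⟩, a4⟩
    · exact one hu
    · refine not_unbal_ok h3 ⟨?_, fun x y => ?_⟩ (by simp [hσ]) a2 h ha r hr' (key g a1)
      · rw [a2]; apply v8_ext <;> simp [p0, e8]
      · rw [a2, a2, a2]; apply v8_ext <;> simp [p0, st_apply, stFun] <;> ring
    · obtain ⟨β, hβ⟩ := conj_tau h ha hψ h1 a1 a2 a3 a4
      exact one (hβ ▸ hu.conj β)
  · obtain ⟨g, a1, a2⟩ := conj_std hψ h1 hσ
    exact not_unbal_std h ha (by rw [← SS.pow_σ, h1]; rfl) r hr' (a2 ▸ key g a1)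

end Cfsg.Agent.H6.Tq
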