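import Cfsg.Agent.H6.Tq7
import Cfsg.Agent.H7.BalH

/-!
Local balance for the plus type orthogonal groups.
-/

set_option autoImplicit false

namespace Cfsg.Agent.H6.Tq

open Subgroup H7 QuadraticMap Module

variable {F : Type*} [Field F] [Finite F]

lemma mem_range_of_comm {ι : Type} [Fintype ι] [DecidableEq ι] {Q : QuadraticForm F (ι → F)}
    (hQ : ND Q) (h7 : 7 ≤ Fintype.card ι) (n : MulAut (Cfsg.POmega F ⇑Q)) (s t : OG Q) (hs : LR s)
    (ht : LR t) (h1 : Meet s t) (h2 : ¬ Prp s t) (h3 : Commute n (actP Q (SS.ofO Q s)))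
    (h4 : Commute n (actP Q (SS.ofO Q t))) : n ∈ (actP Q).range := by
  have h7' : 7 ≤ finrank F (ι → F) := by simpa using h7
  have d : ∀ s' : Om Q, Commute n (actP Q (SS.ofO Q s'.1)) →
      Cor (MulAut.congr (pomEquiv Q) n) s' s' := fun s' hn => by
    have h2 := congrArg (MulAut.congr (pomEquiv Q)) hn.eq
    have h3 : MulAut.congr (pomEquiv Q) (actP Q (SS.ofO Q s'.1)) = MulAut.conj (pm Q s') :=
      ((MulAut.congr (pomEquiv Q)).apply_symm_apply _).trans (act_ofO s')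
    rw [map_mul, map_mul, h3, ← mul_inv_eq_iff_eq_mul] at h2
    refine conj_injective_POm hQ (by omega) (Eq.trans ?_ h2)
    ext x; simp
  have m : ∀ s : OG Q, LR s → s ∈ Om Q := by
    rintro _ ⟨e, f, he, hef, -, -, -, rfl⟩
    exact siegel_mem_Om hQ (by omega) he hef
  obtain ⟨g, hg⟩ := mem_range_of_pair hQ h7' (s := ⟨s, m s hs⟩) (t := ⟨t, m t ht⟩) hs ht hs ht
    (d ⟨s, m s hs⟩ h3) (d ⟨t, m t ht⟩ h4) h1 h2 h1
  exact ⟨g, (congrArg (MulAut.congr (pomEquiv Q)).symm hg).trans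
    ((MulAut.congr (pomEquiv Q)).symm_apply_apply n)⟩

theorem fieldClassPlus_of {m : ℕ} (hm : 4 ≤ m) (r : ℕ) [Fact r.Prime] [CharP F r] {γ : SS (QP F m)}
    {p : ℕ} (hp : p.Prime) (hpr : p ≠ r) (hord : orderOf (actP _ γ) = p) (h1 : γ.σ ≠ 1)
    (hc : (Nat.card ↥(Cfsg.Inn (Cfsg.POmega F ⇑(QP F m)) ⊓ centralizer {actP _ γ})).Coprime p) :
    Cfsg.IsFieldAutClassPOmega ⇑(QP F m) (actP (QP F m) γ) := by
  have hQ := nd_QP (F := F) m
  have hk := finrank_QP F m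
  have hev : Even (finrank F (Fin m ⊕ Fin m → F)) := by simp
  have hE := nonExc_of_finrank hQ (by omega)
  have ha := ker_actP hQ (by simp; omega)
  have hσ := orderOf_σ_eq ha hp hord h1
  have : Nonempty (Fin m) := ⟨⟨0, by omega⟩⟩
  obtain ⟨μ, Q₀, j, l, hF⟩ := exists_fx' hQ hσ (pow_mem_ZS ha hord) (he_fixF γ.σ)
  have h0 := hF.X.rank
  have hQ₀ := hF.X.nd hQ
  have ho : Odd p := hp.odd_of_ne_two (by
    rintro rfl
    have : CharP (H6.fixF γ.σ) r := (RingHom.charP_iff_charP (H6.fixF γ.σ).subtype r).2 ‹_›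
    have := Fintype.ofFinite (H6.fixF γ.σ)
    have h2 := FiniteField.odd_card_of_char_ne_two (F := H6.fixF γ.σ)
      (by rw [ringChar.eq _ r]; exact hpr.symm)
    obtain ⟨s, h3, h4⟩ := exists_Om_elt hQ₀ (by omega) hp (by rw [Nat.card_eq_fintype_card]; omega)
    have h5 := hF.mem_inf ha hQ (by omega) s
    rw [← inn_eq_KS, map_mul, actP_sc, one_mul] at h5
    refine h4 ((hF.E_eq_one_iff ha hQ (by omega) s).1 (eq_one_of_pow_of_coprime
      (Nat.Coprime.coprime_dvd_left (Subgroup.orderOf_dvd_natCard _ h5) hc) (pow_orderOf_eq_one _) ?_))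
    rw [← map_pow, ← map_pow, ← map_pow, h3, map_one, map_one, map_one])
  have hP : PlusType Q₀ := by
    by_contra h2
    obtain ⟨ζ, h3, h4⟩ := hF.X.plusType_iff hQ₀ (h0 ▸ hev) h2
    obtain ⟨t, ht⟩ := h4.1 (plusType_QP m)
    obtain ⟨s, hs⟩ := exists_root_of_odd (he_fixF γ.σ) (hσ ▸ ho) (a := 1) (b := ζ) (t := t)
      (by simpa using ht)
    exact h3 s (by simpa using hs)
  obtain ⟨α, -, h3⟩ := isConjUnder_even hQ (γ := γ) (γ' := SS.std γ.σ (std_QP m γ.σ)) rfl hσ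
    (pow_mem_ZS ha hord) (by
      rw [SS.std_pow_eq_one hQ _ (hσ ▸ pow_orderOf_eq_one _)]; exact one_mem _) ha hE hev (by omega)
    (iff_of_true ((cls_mul_iff (sc_mem_DS hev μ)).1 ((hF.cls_iff hQ hE hev).2 hP))
      (stabMax_std_QP m γ.σ).cls)
  exact ⟨α, _, γ.σ, h1, ((hasMat_std γ.σ (std_QP m γ.σ)).isField_iff _).2 rfl, h3.symm⟩

theorem exists_conj_of_unbal {m : ℕ} (hm : 4 ≤ m) (r : ℕ) [Fact r.Prime] [CharP F r] {p : ℕ}
    [Fact p.Prime] (hpr : p ≠ r) {x : MulAut (Cfsg.POmega F ⇑(QP F m))} (hord : orderOf x = p)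
    (hU : Unbal p (Cfsg.Inn (Cfsg.POmega F ⇑(QP F m))) x) :
    ∃ α γ, α * x * α⁻¹ = actP (QP F m) γ := by
  rcases hm.eq_or_lt with rfl | hm
  · obtain ⟨τ, h⟩ := exists_triData (F := F)
    obtain ⟨α, ⟨γ, h1⟩ | ⟨g, hg, h1⟩⟩ := conj_cases h x
    · exact ⟨α, γ, h1.symm⟩
    have h2 : (τ * actP _ g) ^ p = 1 := by rw [← h1, conj_pow, ← hord, pow_orderOf_eq_one]; simp
    obtain rfl := (Nat.prime_dvd_prime_iff_eq Nat.prime_three Fact.out).1 (three_dvd h hg h2)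
    have : ((KS (QP F 4)).map (actP _)).Normal := inn_eq_KS (Q := QP F 4) ▸ inferInstance
    rw [inn_eq_KS] at hU
    exact absurd (h1 ▸ hU.conj α)
      (not_unbal_tri h (ker_actP (nd_QP 4) (by simp)) r hpr hg h2)
  · obtain ⟨γ, rfl⟩ := actP_surjective_QP hm x
    exact ⟨1, γ, by simp⟩

theorem balance_plus {m : ℕ} (hm : 4 ≤ m) (r : ℕ) [Fact r.Prime] [CharP F r]
    (A : Subgroup (MulAut (Cfsg.POmega F ⇑(QP F m)))) (hinn : ∀ k, MulAut.conj k ∈ A) {p : ℕ}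
    [Fact p.Prime] (hpr : p ≠ r) (x : MulAut (Cfsg.POmega F ⇑(QP F m))) (hord : orderOf x = p)
    (hnot : ¬ Cfsg.IsInnerDiagonalAutPOmegaPlus m x) :
    Cfsg.pPrimeCore p ↥(A ⊓ centralizer {x}) ≠ ⊥ ↔ (Cfsg.IsFieldAutClassPOmega ⇑(QP F m) x ∧
      Nat.Coprime p (Nat.card ↥(MonoidHom.eqLocus x.toMonoidHom (MonoidHom.id _)))) := by
  have hQ := nd_QP (F := F) m
  have hk := finrank_QP F m
  have hI : Inn (POmega F ⇑(QP F m)) ≤ A := by rintro _ ⟨k, rfl⟩; exact hinn k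
  have ha := ker_actP hQ (by simp; omega)
  have e := card_inn_cent (conj_injective_POmega hQ (by simp; omega)) x
  constructor
  · intro h
    have hU := unbal_of_core hI h
    obtain ⟨α, γ, hγ⟩ := exists_conj_of_unbal hm r hpr hord hU
    have ho : orderOf (actP _ γ) = p := by
      rw [← hγ, ← hord]; exact orderOf_injective (MulAut.conj α).toMonoidHom (MulAut.conj α).injective x
    replace hU := hγ ▸ hU.conj α
    have h1 : γ.σ ≠ 1 := fun h1 => by
      have : ((KS (QP F m)).map (actP _)).Normal := inn_eq_KS (Q := QP F m) ▸ inferInstance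
      rw [inn_eq_KS] at hU
      refine not_unbal_graph ha hQ hk hm (mem_range_of_comm hQ (by simp; omega))
        (fun h2 => actP_surjective_QP (by obtain ⟨k, rfl⟩ := h2; omega)) r hpr ho h1
        (fun h2 => hnot ((isInnDiagPlus_iff (by omega) _).2 ?_)) hU
      have := (normal_DS_QP hm).conj_mem' _ ⟨γ, h2, rfl⟩ α
      rwa [← hγ, mul_assoc, mul_assoc, inv_mul_cancel, mul_one, inv_mul_cancel_left] at this
    have h2 := coprime_of_unbal hQ (by simp; omega) r hpr ho h1 hU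
    obtain ⟨β, φ, σ, h3, h4, h5⟩ := fieldClassPlus_of hm r Fact.out hpr ho h1 h2
    rw [← hγ, card_inf_cent_conj] at h2
    exact ⟨⟨β * α, φ, σ, h3, h4, by rw [← h5, ← hγ]; group⟩, Nat.coprime_comm.1 (e ▸ h2)⟩
  · rintro ⟨h1, h⟩
    obtain ⟨α, σ, h2, h3⟩ := exists_of_fieldClass (std_QP m) h1
    refine core_of_coprime hI (inf_cent_conj_ne_bot _ α (h3 ▸ inn_cent_ne_bot hQ
      (by simp; omega) Fact.out (p := p) ?_ h2)) (e ▸ Nat.coprime_comm.1 h)
    rw [← h3, ← hord]; exact orderOf_injective (MulAut.conj α).toMonoidHom (MulAut.conj α).injective x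

end Cfsg.Agent.H6.Tq
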