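import Cfsg.Agent.H6.Ord

/-!
The forms induced on the Jordan blocks of a unipotent isometry.
-/

set_option autoImplicit false

namespace Cfsg.Agent.H6

open Matrix Module

variable {F : Type*} [Field F] {ι T : Type*} [Fintype ι] [DecidableEq ι] [Fintype T]
  [DecidableEq T] {σ : F →+* F} {ε : F} {G G' u : Matrix ι ι F} {d : T → ℕ} {e c : T → ι → F}

/-- a star ring from an anti-automorphism -/
abbrev Anti.starRing' {R : Type*} [Ring R] {f : R → R} (h : Anti f) (h2 : ∀ x, f (f x) = x) :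
    StarRing R where
  star := f
  star_involutive := h2
  star_mul := h.mul
  star_add := h.add

/-- generators of the blocks of size `i` -/
def bP (d : T → ℕ) (e : T → ι → F) (i : ℕ) : Matrix ι {k // d k = i} F := of fun x k => e k.1 x

/-- coordinates on the blocks of size `i` -/
def cv (d : T → ℕ) (c : T → ι → F) (i : ℕ) (x : ι → F) : {k // d k = i} → F := fun k => c k.1 ⬝ᵥ x

/-- the form on the blocks of size `i` -/
def bG (σ : F →+* F) (G u : Matrix ι ι F) (d : T → ℕ) (e : T → ι → F) (i : ℕ) :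
    Matrix {k // d k = i} {k // d k = i} F :=
  (bP d e i)ᵀ * (((u - 1) ^ (i - 1))ᵀ * G) * (bP d e i).map σ

omit [DecidableEq T] in
theorem sf_bG (i : ℕ) (a b : {k // d k = i} → F) : sf σ (bG σ G u d e i) a b =
    sf σ G ((u - 1) ^ (i - 1) *ᵥ (bP d e i *ᵥ a)) (bP d e i *ᵥ b) := by
  rw [bG, ← sf_mulVec, sf_mulVec_left]

omit [Fintype ι] [DecidableEq ι] [DecidableEq T] in
theorem bP_mulVec (i : ℕ) (a : {k // d k = i} → F) : bP d e i *ᵥ a = ∑ k, a k • e k.1 := by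
  ext x
  simp [bP, mulVec, dotProduct, mul_comm]

section jf

variable {N : Matrix ι ι F} (J : JF N d e c)
include J

theorem JF.pow_bP (i : ℕ) (a : {k // d k = i} → F) : N ^ i *ᵥ (bP d e i *ᵥ a) = 0 := by
  rw [bP_mulVec, mulVec_sum]
  exact Finset.sum_eq_zero fun k _ => by rw [mulVec_smul, J.kill_le k.2.le, smul_zero]

theorem JF.cv_bP (i : ℕ) (a : {k // d k = i} → F) : cv d c i (bP d e i *ᵥ a) = a := by
  ext l
  simp [cv, bP_mulVec, dotProduct_sum, J.dual, ← Subtype.ext_iff]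

theorem JF.blkHom_mulVec (n : ℕ) (g : cE N) (i : Fin n) (a : {k // d k = i} → F) :
    J.blkHom n g i *ᵥ a = cv d c i (g.1 *ᵥ (bP d e i *ᵥ a)) := by
  ext l
  simp only [cv, bP_mulVec, mulVec_sum, mulVec_smul, dotProduct_sum, dotProduct_smul, smul_eq_mul]
  exact Finset.sum_congr rfl fun k _ => mul_comm _ _

theorem JF.pow_eq_bP {j : ℕ} {x : ι → F} (hx : N ^ (j + 1) *ᵥ x = 0) :
    ∃ y, N ^ j *ᵥ x = N ^ j *ᵥ (bP d e (j + 1) *ᵥ cv d c (j + 1) x) + N ^ (j + 1) *ᵥ y := by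
  obtain ⟨y, hy⟩ := J.decomp x
  refine ⟨y, ?_⟩
  conv_lhs => rw [hy, mulVec_add, mulVec_mulVec, ← pow_succ, mulVec_sum]
  rw [bP_mulVec, mulVec_sum, ← Finset.sum_subset (Finset.subset_univ
    (Finset.univ.filter fun k => d k = j + 1)), Finset.sum_subtype (p := fun k => d k = j + 1) _
      (by simp)]
  · rfl
  · intro k _ hk
    rcases lt_or_gt_of_ne (show d k ≠ j + 1 by simpa using hk) with h | h
    · rw [mulVec_smul, J.kill_le (by omega), smul_zero]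
    · rw [J.ker _ _ _ hx h, zero_smul, mulVec_zero]

end jf

variable (hσ : ∀ x, σ (σ x) = x) (hG : G.det ≠ 0) (h : EH σ ε G) (hu : adj σ G u * u = 1)
include hσ hG h hu

theorem beta_swap {j : ℕ} {x : ι → F} (hx : (u - 1) ^ (j + 1) *ᵥ x = 0) (w : ι → F) :
    sf σ G ((u - 1) ^ j *ᵥ w) x = (-1) ^ j * ε * σ (sf σ G ((u - 1) ^ j *ᵥ x) w) := by
  rw [sf_pow_swap hσ hG hu hx, h, mul_assoc]

theorem exists_of_perp_ker {i : ℕ} {y : ι → F}
    (hy : ∀ x, (u - 1) ^ i *ᵥ x = 0 → sf σ G x y = 0) : ∃ z, y = (u - 1) ^ i *ᵥ z := by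
  by_contra h1
  obtain ⟨v, h2, h3⟩ := exists_dot_of_notMem (LinearMap.range ((u - 1) ^ i).mulVecLin) (e := y)
    fun ⟨z, hz⟩ => h1 ⟨z, hz.symm⟩
  have h4 : ∀ w, sf σ G w (σ ∘ (G⁻¹ *ᵥ v)) = w ⬝ᵥ v := fun w => by
    rw [sf, show σ ∘ σ ∘ (G⁻¹ *ᵥ v) = G⁻¹ *ᵥ v from funext fun _ => hσ _, mulVec_mulVec,
      mul_nonsing_inv _ hG.isUnit, one_mulVec]
  have h5 := hy (σ ∘ (G⁻¹ *ᵥ v)) (by
    have h6 : (-adj σ G u) ^ i *ᵥ ((u - 1) ^ i *ᵥ (σ ∘ (G⁻¹ *ᵥ v))) = 0 :=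
      sf_nondeg_right (σ := σ) hG fun w => by
        rw [mulVec_mulVec, ← adj_sub_one_pow hσ hG hu, ← sf_adj hσ hG, h4]
        exact h3 _ ⟨w, rfl⟩
    exact (mulVec_injective_of_isUnit ((IsUnit.of_mul_eq_one _ hu).neg.pow i))
      (h6.trans (mulVec_zero _).symm))
  rw [← h4, h, h5, map_zero, mul_zero] at h2
  exact zero_ne_one h2

variable (J : JF (u - 1) d e c)
include J

theorem JF.sf_cv (i : ℕ) {x w : ι → F} (hx : (u - 1) ^ i *ᵥ x = 0) (hw : (u - 1) ^ i *ᵥ w = 0) :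
    sf σ (bG σ G u d e i) (cv d c i x) (cv d c i w) = sf σ G ((u - 1) ^ (i - 1) *ᵥ x) w := by
  obtain _ | j := i
  · have : IsEmpty {k // d k = 0} := ⟨fun k => by have := J.pos k.1; omega⟩
    rw [pow_zero, one_mulVec] at hx
    simp [hx, sf]
  have key : ∀ {x w}, (u - 1) ^ (j + 1) *ᵥ x = 0 → (u - 1) ^ (j + 1) *ᵥ w = 0 →
      sf σ G ((u - 1) ^ j *ᵥ (bP d e (j + 1) *ᵥ cv d c (j + 1) x)) w =
        sf σ G ((u - 1) ^ j *ᵥ x) w := fun hx hw => by
    obtain ⟨y, hy⟩ := J.pow_eq_bP hx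
    rw [hy, sf_add_left, sf_pow_eq_zero hσ hG hu hw, add_zero]
  rw [sf_bG, Nat.add_sub_cancel, key hx (J.pow_bP _ _), beta_swap hσ hG h hu (J.pow_bP _ _),
    key hw hx, ← beta_swap hσ hG h hu hw]

theorem JF.eh_bG (i : ℕ) : EH σ ((-1) ^ (i - 1) * ε) (bG σ G u d e i) := fun a b => by
  obtain _ | j := i
  · have : IsEmpty {k // d k = 0} := ⟨fun k => by have := J.pos k.1; omega⟩
    simp [sf]
  rw [sf_bG, sf_bG, Nat.add_sub_cancel, beta_swap hσ hG h hu (J.pow_bP _ _)]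

theorem JF.det_bG (i : ℕ) : (bG σ G u d e i).det ≠ 0 := fun h0 => by
  obtain ⟨v, h1, h2⟩ := exists_mulVec_eq_zero_iff.2 h0
  obtain _ | j := i
  · have : IsEmpty {k // d k = 0} := ⟨fun k => by have := J.pos k.1; omega⟩
    exact h1 (Subsingleton.elim _ _)
  obtain ⟨z, hz⟩ := exists_of_perp_ker hσ hG h hu (i := j + 1)
    (y := (u - 1) ^ j *ᵥ (bP d e (j + 1) *ᵥ (σ ∘ v))) fun x hx => by
      have h3 := J.sf_cv hσ hG h hu _ hx (J.pow_bP (j + 1) (σ ∘ v))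
      rw [J.cv_bP, sf, show σ ∘ σ ∘ v = v from funext fun _ => hσ _, h2, dotProduct_zero,
        Nat.add_sub_cancel, sf_pow_swap hσ hG hu (J.pow_bP _ _)] at h3
      simpa using h3
  refine h1 (funext fun k => ?_)
  have h3 := J.ker j (bP d e (j + 1) *ᵥ (σ ∘ v) - (u - 1) *ᵥ z) k (by
    rw [mulVec_sub, hz, mulVec_mulVec, ← pow_succ, sub_self]) (by have := k.2; omega)
  rw [dotProduct_sub, J.cN, sub_zero] at h3
  simpa using (congrFun (J.cv_bP _ (σ ∘ v)) k).symm.trans h3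

omit J in
theorem adj_mem_cE {g : Matrix ι ι F} (hg : g ∈ cE (u - 1)) : adj σ G g ∈ cE (u - 1) :=
  mem_cE.2 (comm_sub_one.2 (adj_comm hσ hG h hu (comm_sub_one.1 (mem_cE.1 hg))))

theorem JF.sf_blkHom (n : ℕ) (g : cE (u - 1)) (i : Fin n) (a b : {k // d k = i} → F) :
    sf σ (bG σ G u d e i) a (J.blkHom n g i *ᵥ b) =
      sf σ G ((u - 1) ^ (i.1 - 1) *ᵥ (bP d e i *ᵥ a)) (g.1 *ᵥ (bP d e i *ᵥ b)) := by
  rw [J.blkHom_mulVec, ← J.sf_cv hσ hG h hu _ (J.pow_bP _ _) (by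
    rw [← comm_pow_mulVec (cE_comm g), J.pow_bP, mulVec_zero]), J.cv_bP]

theorem JF.blkHom_adj (n : ℕ) (g : cE (u - 1)) (i : Fin n) :
    J.blkHom n ⟨_, adj_mem_cE hσ hG h hu g.2⟩ i = adj σ (bG σ G u d e i) (J.blkHom n g i) :=
  (adj_eq_of_sf hσ (J.det_bG hσ hG h hu i) fun a b => by
    rw [J.sf_blkHom hσ hG h hu, ← sf_adj hσ hG, comm_pow_mulVec (cE_comm g), J.blkHom_mulVec,
      ← J.sf_cv hσ hG h hu _ (by rw [← comm_pow_mulVec (cE_comm g), J.pow_bP, mulVec_zero])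
        (J.pow_bP _ _), J.cv_bP]).symm

theorem JF.bG_mul (n : ℕ) (g : cE (u - 1)) (i : Fin n) :
    bG σ (G * g.1.map σ) u d e i = bG σ G u d e i * (J.blkHom n g i).map σ :=
  sf_ext (σ := σ) fun a b => by
    rw [← sf_mulVec_right, J.sf_blkHom hσ hG h hu, sf_bG, sf_mulVec_right _ _ (bP d e i *ᵥ b)]

omit J in
/-- the involution on the commuting ring -/
noncomputable abbrev starE : StarRing (cE (u - 1)) :=
  (anti_adj hσ hG).starRing _ fun x hx => ⟨adj_mem_cE hσ hG h hu hx, adj_adj hσ hG h x⟩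

/-- the involution on the blocks -/
noncomputable abbrev JF.starS (n : ℕ) :
    StarRing (∀ i : Fin n, Matrix {k // d k = i} {k // d k = i} F) :=
  Anti.starRing' (f := fun y i => adj σ (bG σ G u d e i) (y i))
    ⟨fun _ _ => funext fun i => (anti_adj hσ (J.det_bG hσ hG h hu i)).add _ _,
      fun _ _ => funext fun i => (anti_adj hσ (J.det_bG hσ hG h hu i)).mul _ _,
      funext fun i => (anti_adj hσ (J.det_bG hσ hG h hu i)).one⟩
    fun _ => funext fun i => adj_adj hσ (J.det_bG hσ hG h hu i) (J.eh_bG hσ hG h hu i) _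

theorem JF.bG_cong {κ : Type*} [Fintype κ] [DecidableEq κ] {G' u' : Matrix κ κ F}
    {e' : T → κ → F} {c' : T → κ → F} (J' : JF (u' - 1) d e' c') {g : Matrix ι κ F}
    (h1 : gᵀ * G * g.map σ = G') (h2 : g * u' = u * g) (i : ℕ) :
    ∃ P : Matrix {k // d k = i} {k // d k = i} F,
      Pᵀ * bG σ G u d e i * P.map σ = bG σ G' u' d e' i := by
  have h3 : ∀ m v, g *ᵥ ((u' - 1) ^ m *ᵥ v) = (u - 1) ^ m *ᵥ (g *ᵥ v) := fun m => by
    induction m with
    | zero => simp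
    | succ m ih =>
      intro v
      rw [pow_succ, pow_succ, ← mulVec_mulVec, ← mulVec_mulVec, ih, sub_mulVec, sub_mulVec,
        mulVec_sub g, mulVec_mulVec _ g, h2, one_mulVec, one_mulVec, mulVec_mulVec v]
  have h4 : ∀ a, (of fun l k => c l.1 ⬝ᵥ (g *ᵥ e' k.1) : Matrix {k // d k = i} {k // d k = i} F)
      *ᵥ a = cv d c i (g *ᵥ (bP d e' i *ᵥ a)) := fun a => by
    ext l
    simp only [cv, bP_mulVec, mulVec_sum, mulVec_smul, dotProduct_sum, dotProduct_smul, smul_eq_mul]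
    exact Finset.sum_congr rfl fun k _ => mul_comm _ _
  refine ⟨of fun l k => c l.1 ⬝ᵥ (g *ᵥ e' k.1), sf_ext (σ := σ) fun a b => ?_⟩
  rw [← sf_mulVec, h4, h4, J.sf_cv hσ hG h hu _ (by rw [← h3, J'.pow_bP, mulVec_zero])
    (by rw [← h3, J'.pow_bP, mulVec_zero]), ← h3, sf_mulVec, h1, sf_bG]

theorem JF.cong_lift [Finite F] (h2 : (2 : F) ≠ 0) (hG' : G'.det ≠ 0) (h' : EH σ ε G')
    (hu' : adj σ G' u * u = 1) (hc : ∀ i, ∃ P : Matrix {k // d k = i} {k // d k = i} F,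
      Pᵀ * bG σ G u d e i * P.map σ = bG σ G' u d e i) :
    ∃ Y, Y * u = u * Y ∧ Yᵀ * G * Y.map σ = G' := by
  obtain ⟨X, e1, hX⟩ := exists_ratio hσ hG ((isom_iff_adj hσ hG).2 hu) ((isom_iff_adj hσ hG').2 hu')
  have h3 : adj σ G X = X := adj_eq_of_sf hσ hG fun u v => by
    rw [h, sf_mulVec_right, ← e1, ← h', sf_mulVec_right, ← e1]
  choose P hP using hc
  let _ := starE hσ hG h hu
  let _ := J.starS hσ hG h hu (Finset.univ.sup d + 1)
  have hn := J.blkHom_nil (n := Finset.univ.sup d + 1)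
    fun k => Nat.lt_succ_of_le (Finset.le_sup (f := d) (Finset.mem_univ k))
  obtain ⟨z, hz⟩ : IsUnit fun i : Fin (Finset.univ.sup d + 1) => P i := Pi.isUnit_iff.2 fun i =>
    (isUnit_iff_isUnit_det _).2 (det_ne_zero_of_isom (κ := ι)
      (J.det_bG hσ hG' h' hu' i) (hP i)).isUnit
  obtain ⟨y, hy⟩ := norm_lift (J.blkHom _) (J.blkHom_surj _) hn
    (fun x => funext (J.blkHom_adj hσ hG h hu _ x)) (fun x h1 h3 => norm_of_nil
      (IsUnit.of_mul_eq_one ⟨(2 : F)⁻¹ • 1, mem_cE.2 (by simp)⟩ (Subtype.ext (by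
        rw [← one_add_one_eq_two (R := cE (u - 1))]
        change (1 + 1) * ((2 : F)⁻¹ • 1) = (1 : Matrix ι ι F)
        rw [mul_smul_comm, mul_one, ← two_smul F, smul_smul, inv_mul_cancel₀ h2, one_smul])))
      (hn _ (by rw [map_sub, h1, map_one, sub_self])) h3)
    (x := ⟨X, mem_cE.2 (comm_sub_one.2 hX)⟩) (Subtype.ext h3) (z := z) (funext fun i =>
      mul_map_inj hσ (J.det_bG hσ hG h hu i) (by
        rw [← J.bG_mul hσ hG h hu, ← e1, ← hP, hz]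
        exact (gram_eq_adj hσ (J.det_bG hσ hG h hu i) _).symm))
  exact ⟨y.1.1, comm_sub_one.1 (cE_comm y.1), by
    rw [gram_eq_adj hσ hG, e1]
    exact congrArg (fun M => G * M.1.map σ) hy⟩

theorem JF.exists_form (h2 : (2 : F) ≠ 0) {n : ℕ} (hn : ∀ k, d k < n)
    (H : ∀ i : Fin n, Matrix {k // d k = i} {k // d k = i} F) (hH : ∀ i, (H i).det ≠ 0)
    (hH' : ∀ i, EH σ ((-1) ^ (i.1 - 1) * ε) (H i)) :
    ∃ G' : Matrix ι ι F, G'.det ≠ 0 ∧ EH σ ε G' ∧ adj σ G' u * u = 1 ∧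
      ∀ i : Fin n, bG σ G' u d e i = H i := by
  obtain ⟨x, hx⟩ := J.blkHom_surj n fun i => ((bG σ G u d e i)⁻¹ * H i).map σ
  have h1 : ∀ i : Fin n, bG σ G u d e i * (J.blkHom n x i).map σ = H i := fun i => by
    rw [hx, map_map_inv hσ, mul_nonsing_inv_cancel_left _ _ (J.det_bG hσ hG h hu i).isUnit]
  let y : cE (u - 1) := ⟨(2 : F)⁻¹ • 1, mem_cE.2 (by simp)⟩ * (x + ⟨_, adj_mem_cE hσ hG h hu x.2⟩)
  have h3 : J.blkHom n y = J.blkHom n x := funext fun i => by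
    rw [map_mul, map_add, Pi.mul_apply, Pi.add_apply, J.blkHom_adj hσ hG h hu,
      adj_eq_of_sf hσ (J.det_bG hσ hG h hu i) (Y := J.blkHom n x i) fun a b => by
        rw [J.eh_bG hσ hG h hu, sf_mulVec_right, h1, ← hH', sf_mulVec_right, h1],
      show J.blkHom n ⟨(2 : F)⁻¹ • 1, mem_cE.2 (by simp)⟩ i = (2 : F)⁻¹ • 1 from ext_mulVec fun a => by
        rw [J.blkHom_mulVec, smul_mulVec, smul_mulVec, one_mulVec, one_mulVec, ← mulVec_smul,
          J.cv_bP], smul_mul_assoc, one_mul, ← two_smul F, smul_smul, inv_mul_cancel₀ h2, one_smul]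
  have h4 : adj σ G y.1 = y.1 := by
    change adj σ G ((2 : F)⁻¹ • 1 * (x.1 + adj σ G x.1)) = (2 : F)⁻¹ • 1 * (x.1 + adj σ G x.1)
    rw [smul_mul_assoc, one_mul, adj_smul hσ hG, (anti_adj hσ hG).add, adj_adj hσ hG h, add_comm,
      map_inv₀, map_ofNat]
  have h5 : IsUnit y := isUnit_of_map_nil _ (J.blkHom_surj n) (J.blkHom_nil hn) (by
    rw [h3]
    exact Pi.isUnit_iff.2 fun i => (isUnit_iff_isUnit_det _).2 (Ne.isUnit fun h0 => hH i (by
      rw [← h1, det_mul, ← RingHom.mapMatrix_apply, ← RingHom.map_det, h0, map_zero, mul_zero])))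
  have h6 : (G * y.1.map σ).det ≠ 0 := by
    rw [det_mul, ← RingHom.mapMatrix_apply, ← RingHom.map_det]
    exact mul_ne_zero hG ((_root_.map_ne_zero σ).2
      ((isUnit_iff_isUnit_det _).1 (h5.map (cE _).subtype)).ne_zero)
  refine ⟨G * y.1.map σ, h6, fun a b => ?_, (isom_iff_adj hσ h6).1 ?_, fun i => by
    rw [J.bG_mul hσ hG h hu, h3, h1]⟩
  · rw [← sf_mulVec_right, ← sf_mulVec_right, h, sf_adj hσ hG, h4]
  · rw [mul_assoc, mul_assoc, ← Matrix.map_mul, comm_sub_one.1 (cE_comm y), Matrix.map_mul,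
      ← mul_assoc, ← mul_assoc, (isom_iff_adj hσ hG).2 hu]

omit hσ hG h hu J in
variable (σ G) in
/-- isometry group of a sesquilinear form -/
def isoS : Subgroup (GL ι F) where
  carrier := {g | ∀ a b, sf σ G (g.1 *ᵥ a) (g.1 *ᵥ b) = sf σ G a b}
  one_mem' := by simp
  mul_mem' {x y} hx hy a b := by rw [Units.val_mul, ← mulVec_mulVec, ← mulVec_mulVec, hx, hy]
  inv_mem' {x} hx a b := by rw [← hx]; simp

omit h hu J in
theorem card_isoS : Nat.card (isoS σ G) = Nat.card {M : Matrix ι ι F // adj σ G M * M = 1} :=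
  Nat.card_congr (Equiv.ofBijective (fun g => ⟨g.1.1, (isom_iff_adj hσ hG).1
    (sf_ext fun a b => (sf_mulVec _ _ _ _ _).symm.trans (g.2 a b))⟩)
    ⟨fun _ _ h => Subtype.ext (Units.ext (Subtype.ext_iff.1 h)), fun ⟨M, hM⟩ =>
      ⟨⟨⟨M, _, mul_eq_one_comm.1 hM, hM⟩, fun a b => by
        rw [sf_mulVec, (isom_iff_adj hσ hG).2 hM]⟩, rfl⟩⟩)

omit hσ hG h hu J in
theorem card_isom_herm [Fintype F] {q : ℕ} (hF : Fintype.card F = q ^ 2) {τ : F ≃+* F}
    (hσ : orderOf τ = 2) (hG : G.det ≠ 0) (h : EH (τ : F →+* F) ε G)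
    (hε : ε * τ ε = 1) : (Nat.card {M : Matrix ι ι F // adj (τ : F →+* F) G M * M = 1} : ℤ) =
      guO q (Fintype.card ι) := by
  obtain ⟨l, h0, hl⟩ := exists_h90_two hσ (c := τ ε) (by rw [sq_of_orderOf_two hσ, mul_comm, hε])
  obtain ⟨P, hP⟩ := exists_herm_basis hσ (A := l • G) (by
    conv_rhs => rw [(eh_iff.1 h).1, smul_smul, ← hl]
    rw [Matrix.map_smul' _ _ _ (map_mul _), transpose_smul, mul_right_comm, mul_comm _ ε, hε,
      one_mul]
    rfl) (by simp [h0, hG])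
  have h1 : ∀ a b, hf τ a b = l * sf (τ : F →+* F) G (P.1 *ᵥ a) (P.1 *ᵥ b) := fun a b => by
    rw [← sf_smul_mat, sf_mulVec]
    exact congrArg (sf _ · a b) hP.symm
  have h2 := sq_of_orderOf_two hσ
  rw [← card_isoS h2 hG]
  refine GUlike.card_eq (τ := τ) (ρ := jRho ((MulAut.conj P⁻¹).toMonoidHom.comp
    (isoS (τ : F →+* F) G).subtype)) ⟨hσ, Units.val_injective.comp
      ((MulAut.conj P⁻¹).injective.comp Subtype.val_injective), fun g a b => ?_, fun M hM => ?_⟩ hF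
  · change hf τ ((P⁻¹.1 * g.1.1 * P.1) *ᵥ a) ((P⁻¹.1 * g.1.1 * P.1) *ᵥ b) = _
    simp only [h1, mulVec_mulVec, ← mul_assoc, Units.mul_inv, one_mul]
    rw [← mulVec_mulVec, ← mulVec_mulVec, g.2]
  · obtain ⟨m, rfl⟩ := (isUnit_iff_isUnit_det M).2 (det_ne_zero_of_isom (κ := ι) (G := 1) (G' := 1)
      (σ := (τ : F →+* F)) (by simp) (sf_ext fun a b => (sf_mulVec _ _ _ _ _).symm.trans
        (hM a b))).isUnit
    refine ⟨⟨P * m * P⁻¹, fun a b => mul_left_cancel₀ h0 ?_⟩, congrArg Units.val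
      (show P⁻¹ * (P * m * P⁻¹) * P⁻¹⁻¹ = m by group)⟩
    simp only [Units.val_mul, ← mulVec_mulVec]
    rw [← h1, hM, h1]
    simp

end Cfsg.Agent.H6
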