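import Cfsg.Agent.H6.UC

/-!
Existence of unipotent isometries of given Jordan type.
-/

set_option autoImplicit false

namespace Cfsg.Agent.H6

open Matrix Module Polynomial

variable {F : Type*} [Field F] {ι κ T : Type*} [Fintype ι] [DecidableEq ι] [Fintype κ]
  [DecidableEq κ] [Fintype T] [DecidableEq T]

theorem rank_fromBlocks_diag (A : Matrix ι ι F) (B : Matrix κ κ F) :
    (fromBlocks A 0 0 B).rank = A.rank + B.rank := by
  have h1 := mkd_add_rank (fromBlocks A 0 0 B) X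
  have h2 := mkd_add_rank A X
  have h3 := mkd_add_rank B X
  have h4 : mkd (fromBlocks A 0 0 B) X = mkd A X + mkd B X := by
    rw [← kd_prod]
    exact kd_congr (LinearEquiv.sumArrowLequivProdArrow ι κ F F)
      (fun v => by ext <;> simp [fromBlocks_mulVec] <;> rfl) _
  rw [aeval_X] at h1 h2 h3
  rw [Fintype.card_sum] at h1
  omega

theorem stdN_apply (d : T → ℕ) (x y : (k : T) × Fin (d k)) :
    stdN F d x y = if x.1 = y.1 ∧ (x.2 : ℕ) = y.2 + 1 then 1 else 0 := by
  obtain ⟨k, i⟩ := x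
  obtain ⟨l, j⟩ := y
  have := stdN_mulVec (F := F) (Pi.single ⟨l, j⟩ 1) k i
  rw [mulVec_single_one] at this
  refine this.trans ?_
  by_cases h : k = l
  · subst h
    simp only [Pi.single_apply, Sigma.mk.injEq, heq_eq_eq, true_and, Fin.ext_iff]
    split_ifs <;> first | rfl | omega
  · simp [Pi.single_apply, h]

/-- a form adapted to the standard nilpotent matrix -/
def stdH (η : F) (d : T → ℕ) : Matrix ((k : T) × Fin (d k)) ((k : T) × Fin (d k)) F :=
  of fun x y => if y = ⟨x.1, x.2.rev⟩ then η ^ (x.2 : ℕ) else 0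

theorem stdH_mul (η : F) (d : T → ℕ) (M : Matrix ((k : T) × Fin (d k)) ((k : T) × Fin (d k)) F)
    (x y : (k : T) × Fin (d k)) : (stdH η d * M) x y = η ^ (x.2 : ℕ) * M ⟨x.1, x.2.rev⟩ y := by
  simp [stdH, mul_apply]

omit [Fintype T] in
theorem stdH_apply (η : F) (d : T → ℕ) (x y : (k : T) × Fin (d k)) :
    stdH η d x y = if x.1 = y.1 ∧ (x.2 : ℕ) + y.2 + 1 = d x.1 then η ^ (x.2 : ℕ) else 0 := by
  obtain ⟨k, i⟩ := x
  obtain ⟨l, j⟩ := y
  refine if_congr ?_ rfl rfl
  by_cases h : k = l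
  · subst h
    simp only [Sigma.mk.injEq, heq_eq_eq, true_and, Fin.ext_iff, Fin.val_rev]
    omega
  · simp [h, Ne.symm h]

theorem det_stdH {η : F} (hη : η ≠ 0) (d : T → ℕ) : (stdH η d).det ≠ 0 := fun h => by
  obtain ⟨v, h1, h2⟩ := exists_mulVec_eq_zero_iff.2 h
  refine h1 (_root_.funext fun x => ?_)
  simpa [stdH, mulVec, dotProduct, hη] using congrFun h2 ⟨x.1, x.2.rev⟩

omit [Fintype T] in
theorem stdH_symm {η : F} {d : T → ℕ} (hη : η * η = 1) (h : η = 1 ∨ ∀ k, Odd (d k)) :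
    (stdH η d)ᵀ = stdH η d := by
  ext ⟨k, i⟩ ⟨l, j⟩
  simp only [transpose_apply, stdH_apply]
  by_cases h1 : k = l
  · subst h1
    simp only [true_and, add_comm (j : ℕ)]
    split_ifs with h2
    · rcases h with rfl | h
      · simp
      obtain ⟨m, hm⟩ := h k
      rw [← mul_one (η ^ (j : ℕ)), ← one_pow (i : ℕ), ← hη, mul_pow, ← mul_assoc, ← pow_add,
        show (j : ℕ) + i = m + m by omega, pow_add, ← mul_pow, hη, one_pow, one_mul]
    · rfl
  · simp [h1, Ne.symm h1]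

theorem stdN_stdH {η : F} {d : T → ℕ} (h : (stdH η d)ᵀ = stdH η d) :
    (stdN F d)ᵀ * stdH η d = η • (stdH η d * stdN F d) := by
  conv_lhs => rw [← h, ← transpose_mul]
  ext ⟨k, i⟩ ⟨l, j⟩
  have h1 : ∀ x y, stdH η d x y = stdH η d y x := fun x y => congrFun (congrFun h y) x
  simp only [transpose_apply, Matrix.smul_apply, stdH_mul, stdN_apply, Fin.val_rev, smul_eq_mul]
  by_cases h2 : k = l
  · subst h2
    simp only [true_and]
    split_ifs with h3 h4 h4
    · have := h1 ⟨k, ⟨i + 1, by omega⟩⟩ ⟨k, j⟩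
      simp only [stdH_apply, true_and] at this
      rw [if_pos (by omega), if_pos (by omega)] at this
      rw [← this, pow_succ']
      ring
    · omega
    · omega
    · simp
  · simp [h2, Ne.symm h2]

variable (F) in
/-- existence of a unipotent isometry of an `ε`-symmetric form with prescribed ranks -/
def UEx (ε : F) (a : Prop) (μ : Multiset ℕ) : Prop :=
  ∃ (κ : Type) (_ : Fintype κ) (_ : DecidableEq κ) (G u : Matrix κ κ F), G.det ≠ 0 ∧ Gᵀ = ε • G ∧
    (a → ∀ i, G i i = 0) ∧ uᵀ * G * u = G ∧ ∀ m, ((u - 1) ^ m).rank = (μ.map (· - m)).sum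

variable {ε : F} {a : Prop}

theorem fromBlocks_sub_one (A : Matrix ι ι F) (B : Matrix κ κ F) (m : ℕ) :
    ((fromBlocks A 0 0 B - 1) ^ m).rank = ((A - 1) ^ m).rank + ((B - 1) ^ m).rank := by
  rw [← rank_fromBlocks_diag, ← fromBlocks_diagonal_pow, ← fromBlocks_one, sub_eq_add_neg,
    fromBlocks_neg, fromBlocks_add]
  simp [sub_eq_add_neg]

theorem UEx.add {μ ν : Multiset ℕ} (h : UEx F ε a μ) (h' : UEx F ε a ν) : UEx F ε a (μ + ν) := by
  obtain ⟨κ, _, _, G, u, h1, h2, h3, h4, h5⟩ := h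
  obtain ⟨κ', _, _, G', u', h1', h2', h3', h4', h5'⟩ := h'
  refine ⟨κ ⊕ κ', inferInstance, inferInstance, fromBlocks G 0 0 G', fromBlocks u 0 0 u',
    by simp [h1, h1'], by simp [fromBlocks_transpose, fromBlocks_smul, h2, h2'], ?_,
    by simp [fromBlocks_transpose, fromBlocks_multiply, h4, h4'], fun m => by
      rw [fromBlocks_sub_one, h5, h5', Multiset.map_add, Multiset.sum_add]⟩
  rintro ha (i | i)
  · exact h3 ha i
  · exact h3' ha i

theorem uEx_dual [Finite F] (hε : ε * ε = 1) (μ : Multiset ℕ) : UEx F ε a (μ + μ) := by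
  obtain ⟨N, hN⟩ := exists_nil_of_multiset (F := F) (ι := Fin μ.sum) μ (by simp)
  have h0 : (1 + N).det ≠ 0 := by
    have := det_smul_add_nil (M := N) ⟨μ.sum, by
      rw [← H6.rank_eq_zero_iff, hN, sum_sub_eq_zero_iff]
      exact fun a ha => Multiset.le_sum_of_mem ha⟩ (1 : F)
    simp_all
  refine ⟨Fin μ.sum ⊕ Fin μ.sum, inferInstance, inferInstance, fromBlocks 0 1 (ε • 1) 0,
    fromBlocks (1 + N) 0 0 (1 + N)⁻¹ᵀ, ?_, by
      simp [fromBlocks_transpose, fromBlocks_smul, smul_smul, hε], ?_, ?_, fun m => ?_⟩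
  · refine (isUnit_iff_isUnit_det _).1 (IsUnit.of_mul_eq_one (fromBlocks 0 (ε • 1) 1 0) ?_) |>.ne_zero
    simp [fromBlocks_multiply, smul_smul, hε]
  · rintro - (i | i) <;> rfl
  · simp [fromBlocks_transpose, fromBlocks_multiply, ← transpose_mul, nonsing_inv_mul _ h0.isUnit,
      -transpose_add]
  · rw [fromBlocks_sub_one, show (1 + N)⁻¹ᵀ - 1 = ((1 + N)⁻¹ - 1)ᵀ by simp, ← transpose_pow,
      rank_transpose, rank_inv_sub_one_pow h0, add_sub_cancel_left, hN, Multiset.map_add,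
      Multiset.sum_add]

theorem uEx_even (μ : Multiset ℕ) : UEx F (-1) a (μ.map (2 * ·)) := by
  obtain ⟨t, d, rfl⟩ := exists_fin_of_multiset μ
  have h1 := stdH_symm (η := (1 : F)) (d := d) (one_mul _) (Or.inl rfl)
  have h2 := stdN_stdH h1
  have h3 := det_stdH (one_ne_zero (α := F)) d
  have h4 := rank_stdN_pow (F := F) (d := d)
  rw [one_smul] at h2
  generalize stdH (1 : F) d = H, stdN F d = M at *
  have h5 : ∀ m, (fromBlocks 0 (-1) 1 (M + 1 + 1) - 1 : Matrix (_ ⊕ _) (_ ⊕ _) F) ^ (2 * m) =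
      fromBlocks 0 (-1) 1 (M + 1 + 1) ^ m * fromBlocks (M ^ m) 0 0 (M ^ m) := fun m => by
    rw [pow_mul, ← fromBlocks_diagonal_pow, ← Commute.mul_pow]
    · congr 1
      rw [← fromBlocks_one, sub_eq_add_neg, fromBlocks_neg, fromBlocks_add]
      simp [sq, fromBlocks_multiply, mul_add, add_mul]
      abel
    · simp [Commute, SemiconjBy, fromBlocks_multiply, mul_add, add_mul]
  have h6 : IsUnit (fromBlocks 0 (-1) 1 (M + 1 + 1) : Matrix (_ ⊕ _) (_ ⊕ _) F) :=
    IsUnit.of_mul_eq_one (fromBlocks (M + 1 + 1) 1 (-1) 0) (by simp [fromBlocks_multiply])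
  refine ⟨_ ⊕ _, inferInstance, inferInstance, fromBlocks 0 (-H) H 0,
    fromBlocks 0 (-1) 1 (M + 1 + 1), ?_, by simp [fromBlocks_transpose, fromBlocks_neg, h1], ?_,
    by simp [fromBlocks_transpose, fromBlocks_multiply, mul_add, add_mul, h2]; abel, fun m => ?_⟩
  · refine (isUnit_iff_isUnit_det _).1 (IsUnit.of_mul_eq_one (fromBlocks 0 H⁻¹ (-H⁻¹) 0) ?_)
      |>.ne_zero
    simp [fromBlocks_multiply, mul_nonsing_inv _ h3.isUnit]
  · rintro - (i | i) <;> rfl
  rw [Multiset.map_map, sum_map_univ]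
  have h7 := ((isUnit_iff_isUnit_det _).1 (h6.pow (m / 2))).ne_zero
  rcases Nat.even_or_odd' m with ⟨j, rfl | rfl⟩
  · rw [Nat.mul_div_cancel_left _ two_pos] at h7
    rw [h5, rank_mul_eq_right_of_det_ne_zero _ _ h7, rank_fromBlocks_diag, h4,
      ← Finset.sum_add_distrib]
    exact Finset.sum_congr rfl fun k _ => by simp only [Function.comp]; omega
  · rw [show (2 * j + 1) / 2 = j by omega] at h7
    rw [pow_succ, h5, mul_assoc, rank_mul_eq_right_of_det_ne_zero _ _ h7,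
      show fromBlocks (M ^ j) 0 0 (M ^ j) * (fromBlocks 0 (-1) 1 (M + 1 + 1) - 1) =
        fromBlocks 1 0 (-1) 1 * fromBlocks (M ^ j) 0 0 (M ^ (j + 1)) * fromBlocks (-1) (-1) 0 1 by
        rw [← fromBlocks_one, sub_eq_add_neg, fromBlocks_neg, fromBlocks_add]
        simp [fromBlocks_multiply, mul_add, pow_succ, add_comm],
      rank_mul_eq_left_of_det_ne_zero _ _ (by simp [det_neg]),
      rank_mul_eq_right_of_det_ne_zero _ _ (by simp), rank_fromBlocks_diag, h4, h4,
      ← Finset.sum_add_distrib]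
    exact Finset.sum_congr rfl fun k _ => by simp only [Function.comp]; omega

theorem uEx_odd (two : (2 : F) ≠ 0) (μ : Multiset ℕ) (h : ∀ j ∈ μ, Odd j) : UEx F 1 False μ := by
  obtain ⟨t, d, rfl⟩ := exists_fin_of_multiset μ
  have h1 := stdH_symm (η := (-1 : F)) (d := d) (by simp) (Or.inr fun k => h _ (by simp))
  have h2 := stdN_stdH h1
  have h3 := det_stdH (η := (-1 : F)) (by simp) d
  have h4 := rank_stdN_pow (F := F) (d := d)
  generalize stdH (-1 : F) d = H, stdN F d = M at *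
  obtain ⟨v, hv⟩ := IsNilpotent.isUnit_one_sub ⟨_, pow_eq_zero_of_rank h4
    fun k => Finset.le_sup (f := d) (Finset.mem_univ k)⟩
  have h5 : Commute M v⁻¹.1 := Commute.units_inv_right (by rw [hv]; simp)
  refine ⟨_, inferInstance, inferInstance, H, (1 + M) * v⁻¹.1, h3, by simp [h1], False.elim, ?_,
    fun m => ?_⟩
  · have h6 : (1 + M)ᵀ * H * (1 + M) = v.1ᵀ * H * v.1 := by
      simp only [hv, transpose_add, transpose_sub, transpose_one, add_mul, sub_mul, h2, mul_add,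
        mul_sub, one_mul, mul_one, neg_smul, one_smul, neg_mul]
      abel
    rw [transpose_mul, mul_assoc, mul_assoc, ← mul_assoc H, ← mul_assoc _ (H * _), ← mul_assoc _ H,
      h6, ← mul_assoc, ← mul_assoc, ← mul_assoc, ← transpose_mul, mul_assoc _ v.1, v.mul_inv]
    simp
  · rw [show (1 + M) * v⁻¹.1 - 1 = ((2 : F) • M) * v⁻¹.1 by
      nth_rw 2 [← v.mul_inv]
      rw [← sub_mul, hv, two_smul]
      congr 1
      abel, (h5.smul_left _).mul_pow, rank_mul_eq_left_of_det_ne_zero _ _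
        ((isUnit_iff_isUnit_det _).1 (v⁻¹.isUnit.pow m)).ne_zero, _root_.smul_pow, sum_map_univ,
      ← h4, ← mul_one (M ^ m), ← mul_smul_comm, rank_mul_eq_left_of_det_ne_zero _ _ (by simp [two]),
      mul_one]

theorem UEx.reindex {μ : Multiset ℕ} (h : UEx F ε a μ) (hc : μ.sum = Fintype.card ι) :
    ∃ G u : Matrix ι ι F, G.det ≠ 0 ∧ Gᵀ = ε • G ∧ (a → ∀ i, G i i = 0) ∧ uᵀ * G * u = G ∧
      ∀ m, ((u - 1) ^ m).rank = (μ.map (· - m)).sum := by
  obtain ⟨κ, _, _, G, u, h1, h2, h3, h4, h5⟩ := h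
  let σ : κ ≃ ι := Fintype.equivOfCardEq (by simpa [hc] using h5 0)
  refine ⟨Matrix.reindex σ σ G, Matrix.reindex σ σ u, by simpa, by
    rw [transpose_reindex, h2]; rfl, fun ha i => h3 ha _, by simp [h4], fun m => ?_⟩
  rw [← h5, ← rank_reindex σ σ ((u - 1) ^ m), ← reindex_pow']
  congr 2
  have := map_sub (reindexAlgEquiv F F σ) u 1
  rw [map_one] at this
  exact this.symm

theorem exists_add_self {μ : Multiset ℕ} (h : ∀ j ∈ μ, Even (μ.count j)) : ∃ ν, μ = ν + ν := by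
  obtain ⟨ν, hν⟩ := Multiset.exists_smul_of_dvd_count μ fun j hj => (h j hj).two_dvd
  exact ⟨ν, by rw [hν, two_smul]⟩

theorem uEx_sp [Finite F] {μ : Multiset ℕ} (h : ∀ j, Odd j → Even (μ.count j)) :
    UEx F (-1) True μ := by
  obtain ⟨ν, hν⟩ := exists_add_self (μ := μ.filter Odd) fun j hj => by
    rw [Multiset.count_filter_of_pos (Multiset.mem_filter.1 hj).2]
    exact h j (Multiset.mem_filter.1 hj).2
  have := (uEx_dual (F := F) (a := True) (by simp) ν).add
    (uEx_even ((μ.filter (¬ Odd ·)).map (· / 2)))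
  rwa [← hν, Multiset.map_map, Multiset.map_congr rfl (f := (2 * ·) ∘ (· / 2)) (g := id) fun j hj =>
    Nat.two_mul_div_two_of_even (Nat.not_odd_iff_even.1 (Multiset.mem_filter.1 hj).2),
    Multiset.map_id, Multiset.filter_add_not] at this

theorem uEx_o [Finite F] (two : (2 : F) ≠ 0) {μ : Multiset ℕ}
    (h : ∀ j ∈ μ, Even j → Even (μ.count j)) : UEx F 1 False μ := by
  obtain ⟨ν, hν⟩ := exists_add_self (μ := μ.filter Even) fun j hj => by
    rw [Multiset.count_filter_of_pos (Multiset.mem_filter.1 hj).2]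
    exact h j (Multiset.mem_filter.1 hj).1 (Multiset.mem_filter.1 hj).2
  have := (uEx_dual (F := F) (a := False) (by simp) ν).add (uEx_odd two (μ.filter (¬ Even ·))
    fun j hj => Nat.not_even_iff_odd.1 (Multiset.mem_filter.1 hj).2)
  rwa [← hν, Multiset.filter_add_not] at this

theorem exists_sp_unip [Finite F] {m : ℕ} {μ : Multiset ℕ} (h : ∀ j, Odd j → Even (μ.count j))
    (hc : μ.sum = 2 * m) : ∃ u : symplecticGroup (Fin m) F,
      ∀ k, ((u.1 - 1) ^ k).rank = (μ.map (· - k)).sum := by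
  obtain ⟨G, u, h1, h2, h3, h4, h5⟩ := (uEx_sp (F := F) h).reindex (ι := Fin m ⊕ Fin m)
    (by simp [hc, two_mul])
  obtain ⟨g, hg⟩ := exists_symp_basis (isAlt_iff.2 ⟨by simpa using h2, h3 trivial⟩) h1
  have := isom_of_conj (G := G) (σ := RingHom.id F) (g := g) (A := g⁻¹.1 * u * g.1) (B := u)
    (by simp [← mul_assoc]) h4
  erw [hg] at this
  exact ⟨⟨_, SymplecticGroup.mem_iff'.2 this⟩, fun k =>
    (IsConj.rank_sub_one_pow ⟨g, by simp [SemiconjBy, ← mul_assoc]⟩ k).trans (h5 k)⟩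

omit [DecidableEq T] in
theorem count_map_univ (d : T → ℕ) (j : ℕ) :
    (Finset.univ.val.map d).count j = (Finset.univ.filter fun k => d k = j).card := by
  rw [Multiset.count_map]
  simp only [eq_comm (a := j)]
  rfl

section parity

variable {G u : Matrix ι ι F} {d : T → ℕ} {e c : T → ι → F}

theorem JF.even_of_alt (hG : G.det ≠ 0) (h : IsAlt G) (hu : uᵀ * G * u = G) (J : JF (u - 1) d e c)
    {i : ℕ} (hi : Odd i) : Even (Finset.univ.filter fun k => d k = i).card := by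
  have h1 := (isom_iff_adj (σ := RingHom.id F) (fun _ => rfl) hG).1 hu
  rw [← Fintype.card_subtype]
  refine even_card_of_isAlt (fun a => ?_) (J.det_bG (fun _ => rfl) hG h.eh h1 i)
  obtain ⟨j, rfl⟩ := hi
  have h2 := J.pow_bP _ a
  rw [sf_bG]
  generalize bP d e (2 * j + 1) *ᵥ a = x at *
  rw [Nat.add_sub_cancel, two_mul, pow_add, ← mulVec_mulVec, sf_adj (fun _ => rfl) hG,
    adj_sub_one_pow (fun _ => rfl) hG h1, ← mulVec_mulVec, ← neg_one_smul F, _root_.smul_pow,
    smul_mulVec, sf_smul_right, ← (anti_adj (fun _ => rfl) hG).pow, ← sf_adj (fun _ => rfl) hG,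
    ← sub_add_cancel (u ^ j) 1, add_mulVec, sf_add_left, one_mulVec, h, add_zero, ← mul_geom_sum,
    mulVec_mulVec, mul_assoc, (Commute.sum_left _ _ _ fun i _ => ((Commute.refl u).sub_right
      (Commute.one_right u)).pow_pow i j).eq, ← mul_assoc, ← pow_succ', ← mulVec_mulVec,
    sf_pow_eq_zero (fun _ => rfl) hG h1 (by
      rw [mulVec_mulVec, ← pow_add, ← h2]; congr 2; ring), mul_zero]

theorem JF.even_of_symm (two : (2 : F) ≠ 0) (hG : G.det ≠ 0) (h : Gᵀ = G) (hu : uᵀ * G * u = G)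
    (J : JF (u - 1) d e c) {i : ℕ} (hi : Even i) (h0 : 0 < i) :
    Even (Finset.univ.filter fun k => d k = i).card := by
  have h1 := (isom_iff_adj (σ := RingHom.id F) (fun _ => rfl) hG).1 hu
  rw [← Fintype.card_subtype]
  refine even_card_of_isAlt (isAlt_of_skew two ?_) (J.det_bG (fun _ => rfl) hG (eh_of_symm h) h1 i)
  have := (eh_iff.1 (J.eh_bG (fun _ => rfl) hG (eh_of_symm h) h1 i)).1
  rw [(Nat.Even.sub_odd h0 hi odd_one).neg_one_pow] at this
  conv_rhs => rw [this]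
  simp

end parity

end Cfsg.Agent.H6
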